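import Cfsg.Agent.Lib.H3.AlpGold
import Cfsg.Agent.Lib.Solv.Act
import Cfsg.Agent.Lib.FGS.Syl

/-!
An abstract form of Alperin's fusion theorem for tame intersections.
-/

set_option autoImplicit false
set_option linter.unusedSectionVars false

open scoped Pointwise

namespace CfsgLib.FGS

open Subgroup

variable {G : Type*} [Group G] [Finite G] {p : ℕ} [hp : Fact p.Prime]

/-- The subgroup of the elements of `P` whose `g`-conjugate lies in `P`. -/
def alpD (P : Subgroup G) (g : G) : Subgroup G := P ⊓ (MulAut.conj g • P)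

lemma mem_alpD {P : Subgroup G} {g x : G} : x ∈ alpD P g ↔ x ∈ P ∧ g⁻¹ * x * g ∈ P := by
  unfold alpD
  rw [Subgroup.mem_inf, CfsgLib.Solv.mem_conj_smul]

/-- Tame intersections. -/
def AlpTame (p : ℕ) (P Q : Subgroup G) : Prop :=
  ¬ p ∣ (P ⊓ normalizer ((P ⊓ Q : Subgroup G) : Set G)).relIndex (normalizer ((P ⊓ Q : Subgroup G) : Set G)) ∧
  ¬ p ∣ (Q ⊓ normalizer ((P ⊓ Q : Subgroup G) : Set G)).relIndex (normalizer ((P ⊓ Q : Subgroup G) : Set G))

lemma card_lt_of_lt' {A B : Subgroup G} (h : A < B) : Nat.card A < Nat.card B := by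
  by_contra hc
  exact h.ne (Subgroup.eq_of_le_of_card_ge h.le (not_lt.1 hc))

lemma exists_sylowIn_ge {K U : Subgroup G} (hUK : U ≤ K) (hU : IsPGroup p U) :
    ∃ T : Subgroup G, CfsgLib.Solv.IsSylowIn p T K ∧ U ≤ T := by
  have h1 : IsPGroup p (U.subgroupOf K) := hU.of_equiv (Subgroup.subgroupOfEquivOfLe hUK).symm
  obtain ⟨S, hS⟩ := h1.exists_le_sylow
  refine ⟨_, CfsgLib.Solv.isSylowIn_of_sylow S, ?_⟩
  intro x hx
  exact ⟨⟨x, hUK hx⟩, hS hx, rfl⟩

lemma normalizer_conj_smul (c : G) (H : Subgroup G) :
    normalizer ((MulAut.conj c • H : Subgroup G) : Set G) = MulAut.conj c • normalizer (H : Set G) := by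
  have := Subgroup.map_equiv_normalizer_eq H (MulAut.conj c)
  exact this.symm

theorem alperin_abstract (P : Sylow p G) (M : Set G → G → Prop)
    (hone : ∀ T, M T 1)
    (hcomp : ∀ {T S : Set G} {g₁ g₂ : G}, (∀ a ∈ T, g₁⁻¹ * a * g₁ ∈ S) → M T g₁ → M S g₂ → M T (g₁ * g₂))
    (hmono : ∀ {T T' : Set G} {g : G}, T' ⊆ T → M T g → M T' g)
    (ha : ∀ n ∈ normalizer ((P : Subgroup G) : Set G), M ((P : Subgroup G) : Set G) n)
    (hb : ∀ Q : Sylow p G, AlpTame p (P : Subgroup G) (Q : Subgroup G) →
      ∀ t ∈ normalizer (((P : Subgroup G) ⊓ (Q : Subgroup G) : Subgroup G) : Set G),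
        (∃ k : ℕ, orderOf t = p ^ k) → M (((P : Subgroup G) ⊓ (Q : Subgroup G) : Subgroup G) : Set G) t) :
    ∀ g : G, M (alpD (P : Subgroup G) g : Subgroup G) g := by
  classical
  have main : ∀ (n : ℕ) (g : G), Nat.card (P : Subgroup G) - Nat.card (alpD (P : Subgroup G) g) = n →
      M (alpD (P : Subgroup G) g : Subgroup G) g := by
    intro n
    induction n using Nat.strong_induction_on with
    | _ n ih =>
      intro g hg
      obtain ⟨H, hH⟩ : ∃ H : Subgroup G, H = alpD (P : Subgroup G) g := ⟨_, rfl⟩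
      rw [← hH] at hg ⊢
      have hHP : H ≤ (P : Subgroup G) := by rw [hH]; exact inf_le_left
      have hDle : ∀ g' : G, Nat.card (alpD (P : Subgroup G) g') ≤ Nat.card (P : Subgroup G) :=
        fun g' => Subgroup.card_le_of_le inf_le_left
      have IH : ∀ g' : G, Nat.card H < Nat.card (alpD (P : Subgroup G) g') →
          M (alpD (P : Subgroup G) g' : Subgroup G) g' := by
        intro g' h'
        have := hDle g'
        exact ih _ (by omega) g' rfl
      have hHmem : ∀ x, x ∈ H ↔ x ∈ (P : Subgroup G) ∧ g⁻¹ * x * g ∈ (P : Subgroup G) := by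
        intro x; rw [hH, mem_alpD]
      by_cases hHe : H = P
      · -- `g` normalizes `P`
        have hgN : g ∈ normalizer ((P : Subgroup G) : Set G) := by
          have h1 : g⁻¹ ∈ normalizer ((P : Subgroup G) : Set G) := by
            apply CfsgLib.FGS.mem_normalizer_of_conj_le
            intro x hx
            have h2 : x ∈ H := by rw [hHe]; exact hx
            have h3 := ((hHmem x).1 h2).2
            simpa using h3
          simpa using Subgroup.inv_mem _ h1
        exact hmono hHP (ha g hgN)
      have hlt : H < (P : Subgroup G) := lt_of_le_of_ne hHP hHe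
      have hcardlt : Nat.card H < Nat.card (P : Subgroup G) := card_lt_of_lt' hlt
      -- the conjugate Sylow subgroup
      obtain ⟨Q₀, hQ₀⟩ : ∃ Q₀ : Subgroup G, Q₀ = MulAut.conj g • (P : Subgroup G) := ⟨_, rfl⟩
      have hQ₀p : IsPGroup p Q₀ := by
        rw [hQ₀]
        exact P.isPGroup'.map _
      have hQ₀card : Nat.card Q₀ = Nat.card (P : Subgroup G) := by
        rw [hQ₀]
        exact CfsgLib.Solv.card_conj_smul g _
      have hHQ₀ : H ≤ Q₀ := by
        rw [hH, hQ₀]; exact inf_le_right
      have hltQ : H < Q₀ := by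
        refine lt_of_le_of_ne hHQ₀ ?_
        intro h
        rw [h, hQ₀card] at hcardlt
        exact lt_irrefl _ hcardlt
      have hQ₀mem : ∀ u ∈ Q₀, g⁻¹ * u * g ∈ (P : Subgroup G) := by
        intro u hu
        rw [hQ₀, CfsgLib.Solv.mem_conj_smul] at hu
        exact hu
      have hlt1 : H < (P : Subgroup G) ⊓ normalizer (H : Set G) :=
        CfsgLib.Solv.lt_inf_normalizer_of_pgroup P.isPGroup' hlt
      have hlt2 : H < Q₀ ⊓ normalizer (H : Set G) :=
        CfsgLib.Solv.lt_inf_normalizer_of_pgroup hQ₀p hltQ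
      obtain ⟨T₁, hT₁, hPT₁⟩ := exists_sylowIn_ge (K := normalizer (H : Set G))
        (U := (P : Subgroup G) ⊓ normalizer (H : Set G)) inf_le_right (P.isPGroup'.to_le inf_le_left)
      obtain ⟨T₂, hT₂, hQT₂⟩ := exists_sylowIn_ge (K := normalizer (H : Set G))
        (U := Q₀ ⊓ normalizer (H : Set G)) inf_le_right (hQ₀p.to_le inf_le_left)
      obtain ⟨y, hyN, hyconj⟩ := hT₁.exists_conj_eq hT₂
      have hu : ∀ u ∈ T₂, y⁻¹ * u * y ∈ T₁ := by
        intro u hu
        rw [← hyconj, CfsgLib.Solv.mem_conj_smul] at hu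
        exact hu
      obtain ⟨P₁, hP₁⟩ := hT₁.2.1.exists_le_sylow
      obtain ⟨c, hc⟩ := MulAction.exists_smul_eq G P₁ P
      have hcT : ∀ t ∈ T₁, c * t * c⁻¹ ∈ (P : Subgroup G) := by
        intro t ht
        have h1 : ((c • P₁ : Sylow p G) : Subgroup G) = MulAut.conj c • (P₁ : Subgroup G) := rfl
        have h2 : c * t * c⁻¹ ∈ ((c • P₁ : Sylow p G) : Subgroup G) := by
          rw [h1, CfsgLib.Solv.mem_conj_smul]
          have : c⁻¹ * (c * t * c⁻¹) * c = t := by group
          rw [this]
          exact hP₁ ht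
        rwa [hc] at h2
      have hHN : H ≤ normalizer (H : Set G) := Subgroup.le_normalizer
      have hHT₁ : H ≤ T₁ := (le_inf hHP hHN).trans hPT₁
      have hyH : ∀ h ∈ H, y⁻¹ * h * y ∈ H := by
        intro h hh
        have := (Subgroup.mem_normalizer_iff.1 (Subgroup.inv_mem _ hyN) h).1 hh
        simpa using this
      -- Step 1
      have h1 : M (alpD (P : Subgroup G) c⁻¹ : Subgroup G) c⁻¹ := by
        apply IH
        refine lt_of_lt_of_le (card_lt_of_lt' hlt1) (Subgroup.card_le_of_le ?_)
        intro z hz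
        rw [mem_alpD]
        refine ⟨hz.1, ?_⟩
        have := hcT z (hPT₁ hz)
        simpa using this
      -- Step 3
      have h3 : M (alpD (P : Subgroup G) (c * y⁻¹ * g) : Subgroup G) (c * y⁻¹ * g) := by
        apply IH
        have hW : MulAut.conj (c * y⁻¹) • (Q₀ ⊓ normalizer (H : Set G)) ≤ alpD (P : Subgroup G) (c * y⁻¹ * g) := by
          intro z hz
          rw [CfsgLib.Solv.mem_conj_smul] at hz
          rw [mem_alpD]
          have hz2 := hz
          set u := (c * y⁻¹)⁻¹ * z * (c * y⁻¹) with hu'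
          have hzu : z = c * y⁻¹ * u * (c * y⁻¹)⁻¹ := by rw [hu']; group
          constructor
          · have h4 := hcT _ (hu u (hQT₂ hz2))
            rw [hzu]
            convert h4 using 1
            group
          · have h5 := hQ₀mem u hz2.1
            have e : (c * y⁻¹ * g)⁻¹ * z * (c * y⁻¹ * g) = g⁻¹ * u * g := by
              rw [hzu]; group
            rw [e]
            exact h5
        refine lt_of_lt_of_le (card_lt_of_lt' hlt2) ?_
        rw [← CfsgLib.Solv.card_conj_smul (c * y⁻¹) (Q₀ ⊓ normalizer (H : Set G))]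
        exact Subgroup.card_le_of_le hW
      -- Step 2
      obtain ⟨H₁, hH₁⟩ : ∃ H₁ : Subgroup G, H₁ = MulAut.conj c • H := ⟨_, rfl⟩
      have hH₁mem : ∀ x, x ∈ H₁ ↔ c⁻¹ * x * c ∈ H := by
        intro x; rw [hH₁, CfsgLib.Solv.mem_conj_smul]
      have hcH : ∀ h ∈ H, c * h * c⁻¹ ∈ H₁ := by
        intro h hh
        rw [hH₁mem]
        simpa [mul_assoc] using hh
      have hH₁card : Nat.card H₁ = Nat.card H := by
        rw [hH₁]; exact CfsgLib.Solv.card_conj_smul c H
      have hH₁P : H₁ ≤ (P : Subgroup G) := by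
        intro x hx
        have h4 := hcT _ (hHT₁ ((hH₁mem x).1 hx))
        simpa [mul_assoc] using h4
      have hwN : c * y * c⁻¹ ∈ normalizer (H₁ : Set G) := by
        rw [hH₁, normalizer_conj_smul, CfsgLib.Solv.mem_conj_smul]
        simpa [mul_assoc] using hyN
      have hH₁D : H₁ ≤ alpD (P : Subgroup G) (c * y * c⁻¹) := by
        intro x hx
        rw [mem_alpD]
        refine ⟨hH₁P hx, hH₁P ?_⟩
        have := (Subgroup.mem_normalizer_iff.1 (Subgroup.inv_mem _ hwN) x).1 hx
        simpa using this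
      have h2 : M (H₁ : Set G) (c * y * c⁻¹) := by
        by_cases hbig : Nat.card H < Nat.card (alpD (P : Subgroup G) (c * y * c⁻¹))
        · exact hmono hH₁D (IH _ hbig)
        · -- tame case
          have hEq : alpD (P : Subgroup G) (c * y * c⁻¹) = H₁ := by
            symm
            apply Subgroup.eq_of_le_of_card_ge hH₁D
            rw [hH₁card]
            exact not_lt.1 hbig
          obtain ⟨N₁, hN₁⟩ : ∃ N₁ : Subgroup G, N₁ = normalizer (H₁ : Set G) := ⟨_, rfl⟩
          have hN₁e : N₁ = MulAut.conj c • normalizer (H : Set G) := by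
            rw [hN₁, hH₁, normalizer_conj_smul]
          have hT₁' : CfsgLib.Solv.IsSylowIn p (MulAut.conj c • T₁) N₁ := by
            refine ⟨?_, hT₁.2.1.map _, ?_⟩
            · rw [hN₁e]
              exact Subgroup.pointwise_smul_le_pointwise_smul_iff.2 hT₁.1
            · rw [hN₁e, Subgroup.relIndex_pointwise_smul]
              exact hT₁.2.2
          have hT₁'P : MulAut.conj c • T₁ ≤ (P : Subgroup G) := by
            intro x hx
            rw [CfsgLib.Solv.mem_conj_smul] at hx
            have h4 := hcT _ hx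
            simpa [mul_assoc] using h4
          have hwN₁ : c * y * c⁻¹ ∈ N₁ := by rw [hN₁]; exact hwN
          have hT₂' : CfsgLib.Solv.IsSylowIn p (MulAut.conj (c * y * c⁻¹) • (MulAut.conj c • T₁)) N₁ :=
            hT₁'.conj_of_mem_normalizer (Subgroup.le_normalizer hwN₁)
          obtain ⟨Q₂, hQ₂⟩ : ∃ Q₂ : Sylow p G, (Q₂ : Subgroup G) = MulAut.conj (c * y * c⁻¹) • (P : Subgroup G) :=
            ⟨(c * y * c⁻¹) • P, rfl⟩
          have hinf : (P : Subgroup G) ⊓ (Q₂ : Subgroup G) = H₁ := by
            rw [hQ₂]; exact hEq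
          have hT'syl : CfsgLib.Solv.IsSylowIn p ((P : Subgroup G) ⊓ N₁) N₁ := by
            refine ⟨inf_le_right, P.isPGroup'.to_le inf_le_left, ?_⟩
            intro hd
            exact hT₁'.2.2 (hd.trans (Subgroup.relIndex_dvd_of_le_left _ (le_inf hT₁'P hT₁'.1)))
          have htame : AlpTame p (P : Subgroup G) (Q₂ : Subgroup G) := by
            unfold AlpTame
            rw [hinf, ← hN₁]
            refine ⟨hT'syl.2.2, ?_⟩
            intro hd
            refine hT₂'.2.2 (hd.trans (Subgroup.relIndex_dvd_of_le_left _ (le_inf ?_ hT₂'.1)))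
            rw [hQ₂]
            exact Subgroup.pointwise_smul_le_pointwise_smul_iff.2 hT₁'P
          have hbb := hb Q₂ htame
          rw [hinf, ← hN₁] at hbb
          -- the subgroup generated by the `p`-elements of `N₁`
          obtain ⟨U, hU⟩ : ∃ U : Subgroup G, U = closure {t : G | t ∈ N₁ ∧ ∃ k : ℕ, orderOf t = p ^ k} := ⟨_, rfl⟩
          have hUN : U ≤ N₁ := by
            rw [hU, closure_le]
            exact fun t ht => ht.1
          have hH₁stable : ∀ u ∈ N₁, ∀ z ∈ H₁, u⁻¹ * z * u ∈ H₁ := by
            intro u hu z hz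
            rw [hN₁] at hu
            have := (Subgroup.mem_normalizer_iff.1 (Subgroup.inv_mem _ hu) z).1 hz
            simpa using this
          have hUM : ∀ u ∈ U, M (H₁ : Set G) u := by
            intro u hu
            rw [hU] at hu
            have hpowM : ∀ v ∈ N₁, M (H₁ : Set G) v → ∀ k : ℕ, M (H₁ : Set G) (v ^ k) := by
              intro v hv hMv k
              induction k with
              | zero => simpa using hone _
              | succ k ih2 =>
                rw [pow_succ']
                exact hcomp (fun a ha => hH₁stable v hv a ha) hMv ih2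
            have hkey : u ∈ N₁ ∧ M (H₁ : Set G) u := by
              induction hu using Subgroup.closure_induction with
              | mem t ht => exact ⟨ht.1, hbb t ht.1 ht.2⟩
              | one => exact ⟨N₁.one_mem, hone _⟩
              | mul a b _ _ ha hb' =>
                exact ⟨N₁.mul_mem ha.1 hb'.1, hcomp (fun z hz => hH₁stable a ha.1 z hz) ha.2 hb'.2⟩
              | inv a _ ha =>
                refine ⟨N₁.inv_mem ha.1, ?_⟩
                have e : a⁻¹ = a ^ (orderOf a - 1) := by
                  rw [eq_comm, pow_sub _ (orderOf_pos a), pow_orderOf_eq_one, one_mul, pow_one]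
                rw [e]
                exact hpowM a ha.1 ha.2 _
            exact hkey.2
          have hTU : (P : Subgroup G) ⊓ N₁ ≤ U := by
            intro t ht
            rw [hU]
            apply Subgroup.subset_closure
            refine ⟨ht.2, ?_⟩
            obtain ⟨k, hk⟩ := IsPGroup.iff_orderOf.1 P.isPGroup' ⟨t, ht.1⟩
            exact ⟨k, by rw [← hk, Subgroup.orderOf_mk]⟩
          have hTsylU : CfsgLib.Solv.IsSylowIn p ((P : Subgroup G) ⊓ N₁) U := by
            refine ⟨hTU, hT'syl.2.1, ?_⟩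
            intro hd
            apply hT'syl.2.2
            have := Subgroup.relIndex_mul_relIndex _ _ _ hTU hUN
            rw [← this]
            exact Dvd.dvd.mul_right hd _
          have hUnorm : c * y * c⁻¹ ∈ normalizer (U : Set G) := by
            rw [Subgroup.mem_normalizer_iff]
            have hk : ∀ v ∈ N₁, ∀ t ∈ U, v * t * v⁻¹ ∈ U := by
              intro v hv t ht
              rw [hU] at ht ⊢
              induction ht using Subgroup.closure_induction with
              | mem t ht =>
                apply Subgroup.subset_closure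
                refine ⟨N₁.mul_mem (N₁.mul_mem hv ht.1) (N₁.inv_mem hv), ?_⟩
                rw [CfsgLib.FGS.orderOf_conj_eq]
                exact ht.2
              | one => simpa using Subgroup.one_mem _
              | mul a b _ _ ha hb' =>
                have e : v * (a * b) * v⁻¹ = (v * a * v⁻¹) * (v * b * v⁻¹) := by group
                rw [e]
                exact Subgroup.mul_mem _ ha hb'
              | inv a _ ha =>
                have e : v * a⁻¹ * v⁻¹ = (v * a * v⁻¹)⁻¹ := by group
                rw [e]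
                exact Subgroup.inv_mem _ ha
            intro t
            constructor
            · exact hk _ hwN₁ t
            · intro ht
              have := hk _ (N₁.inv_mem hwN₁) _ ht
              simpa [mul_assoc] using this
          obtain ⟨u, huU, hnN⟩ := CfsgLib.AlpGold.frattini hTsylU hUnorm
          have hn1 : M (alpD (P : Subgroup G) (u⁻¹ * (c * y * c⁻¹)) : Subgroup G) (u⁻¹ * (c * y * c⁻¹)) := by
            apply IH
            have hH₁lt : H₁ < (P : Subgroup G) := by
              refine lt_of_le_of_ne hH₁P ?_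
              intro he
              rw [he] at hH₁card
              omega
            have hlt3 : H₁ < (P : Subgroup G) ⊓ N₁ := by
              rw [hN₁]
              exact CfsgLib.Solv.lt_inf_normalizer_of_pgroup P.isPGroup' hH₁lt
            rw [← hH₁card]
            refine lt_of_lt_of_le (card_lt_of_lt' hlt3) (Subgroup.card_le_of_le ?_)
            intro z hz
            rw [mem_alpD]
            refine ⟨hz.1, ?_⟩
            have := (Subgroup.mem_normalizer_iff.1 (Subgroup.inv_mem _ hnN) z).1 hz
            have h6 : (u⁻¹ * (c * y * c⁻¹))⁻¹ * z * (u⁻¹ * (c * y * c⁻¹))⁻¹⁻¹ ∈ (P : Subgroup G) ⊓ N₁ := this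
            have h6' := h6.1
            rwa [inv_inv] at h6'
          have e : c * y * c⁻¹ = u * (u⁻¹ * (c * y * c⁻¹)) := by group
          rw [e]
          refine hcomp ?_ (hUM u huU) hn1
          intro a ha
          have h7 := hH₁stable u (hUN huU) a ha
          rw [SetLike.mem_coe, mem_alpD]
          have hmemT : u⁻¹ * a * u ∈ (P : Subgroup G) ⊓ N₁ := by
            refine ⟨hH₁P h7, ?_⟩
            rw [hN₁]
            exact Subgroup.le_normalizer h7
          refine ⟨hmemT.1, ?_⟩
          have := (Subgroup.mem_normalizer_iff.1 (Subgroup.inv_mem _ hnN) _).1 hmemT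
          have h6 : (u⁻¹ * (c * y * c⁻¹))⁻¹ * (u⁻¹ * a * u) * (u⁻¹ * (c * y * c⁻¹))⁻¹⁻¹ ∈ (P : Subgroup G) ⊓ N₁ := this
          have h6' := h6.1
          rwa [inv_inv] at h6'
      -- assemble
      have e : g = c⁻¹ * ((c * y * c⁻¹) * (c * y⁻¹ * g)) := by group
      rw [e]
      refine hcomp (S := (H₁ : Set G)) ?_ (hmono ?_ h1) ?_
      · intro a ha
        have := hcH a ha
        simpa using this
      · intro a ha
        rw [SetLike.mem_coe, mem_alpD]
        refine ⟨hHP ha, ?_⟩
        have := hH₁P (hcH a ha)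
        simpa using this
      · refine hcomp (S := (alpD (P : Subgroup G) (c * y⁻¹ * g) : Subgroup G)) ?_ h2 h3
        intro a ha
        rw [SetLike.mem_coe, mem_alpD]
        have ha' := (hH₁mem a).1 ha
        refine ⟨?_, ?_⟩
        · have h8 := hH₁D ha
          exact (mem_alpD.1 h8).2
        · have h9 := hyH _ ha'
          have h10 := hHQ₀ h9
          have h11 := hQ₀mem _ h10
          have e2 : (c * y⁻¹ * g)⁻¹ * ((c * y * c⁻¹)⁻¹ * a * (c * y * c⁻¹)) * (c * y⁻¹ * g) =
              g⁻¹ * (c⁻¹ * a * c) * g := by group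
          rw [e2]
          have h12 := hHmem _ |>.1 ha'
          exact h12.2
  exact fun g => main _ g rfl

end CfsgLib.FGS

namespace CfsgLib.FGS

open Subgroup

variable {G : Type*} [Group G] [Finite G] {p : ℕ} [hp : Fact p.Prime]

open scoped commutatorElement in
/-- The focal subgroup form of Alperin's theorem. -/
theorem alperin_focal (P : Sylow p G) (J : Subgroup G)
    (ha : ∀ x ∈ (P : Subgroup G), ∀ n ∈ normalizer ((P : Subgroup G) : Set G), x⁻¹ * (n⁻¹ * x * n) ∈ J)
    (hb : ∀ Q : Sylow p G, AlpTame p (P : Subgroup G) (Q : Subgroup G) →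
      ∀ y ∈ (P : Subgroup G) ⊓ (Q : Subgroup G),
      ∀ t ∈ normalizer (((P : Subgroup G) ⊓ (Q : Subgroup G) : Subgroup G) : Set G),
        (∃ k : ℕ, orderOf t = p ^ k) → y⁻¹ * (t⁻¹ * y * t) ∈ J) :
    (P : Subgroup G) ⊓ commutator G ≤ J := by
  classical
  have hall := alperin_abstract P (fun T g => ∀ x ∈ T, x⁻¹ * (g⁻¹ * x * g) ∈ J)
    (by
      intro T x _
      simpa using J.one_mem)
    (by
      intro T S g₁ g₂ hTS h1 h2 x hx
      have e : x⁻¹ * ((g₁ * g₂)⁻¹ * x * (g₁ * g₂)) =
          (x⁻¹ * (g₁⁻¹ * x * g₁)) * ((g₁⁻¹ * x * g₁)⁻¹ * (g₂⁻¹ * (g₁⁻¹ * x * g₁) * g₂)) := by group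
      rw [e]
      exact J.mul_mem (h1 x hx) (h2 _ (hTS x hx)))
    (by
      intro T T' g hT h x hx
      exact h x (hT hx))
    (by
      intro n hn x hx
      exact ha x hx n hn)
    (by
      intro Q hQ t ht htp y hy
      exact hb Q hQ y hy t ht htp)
  rw [inf_comm, Subgroup.commutator_inf_eq_focalSubgroup P, Subgroup.focalSubgroup_def, Subgroup.closure_le]
  rintro _ ⟨hg, x, hx, u, rfl⟩
  have h1 : u * x⁻¹ * u⁻¹ ∈ (P : Subgroup G) := by
    have e : u * x⁻¹ * u⁻¹ = x⁻¹ * ⁅x, u⁆ := by
      rw [commutatorElement_def]; group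
    rw [e]
    exact Subgroup.mul_mem _ (Subgroup.inv_mem _ hx) hg
  have h2 := hall u⁻¹ x⁻¹ (mem_alpD.2 ⟨Subgroup.inv_mem _ hx, by simpa using h1⟩)
  have e2 : ⁅x, u⁆ = (x⁻¹)⁻¹ * ((u⁻¹)⁻¹ * x⁻¹ * u⁻¹) := by
    rw [commutatorElement_def]; group
  rw [SetLike.mem_coe, e2]
  exact h2

end CfsgLib.FGS
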