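import Cfsg.Agent.Lib.H9.AutAlt

set_option autoImplicit false
set_option linter.unusedVariables false
set_option linter.unusedSectionVars false
set_option linter.unusedSimpArgs false
set_option linter.style.haveILetI false

namespace CfsgLib.H9.AutAlt

open Equiv Equiv.Perm

theorem conjNormal_inj' (n : ℕ) (hn : 4 ≤ n) :
    Function.Injective (MulAut.conjNormal : Perm (Fin n) →* MulAut (alternatingGroup (Fin n))) := by
  classical
  classical
  have z0 : Fin n := ⟨0, by omega⟩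
  set a0 : Fin n := ⟨0, by omega⟩ with ha0
  set a1 : Fin n := ⟨1, by omega⟩ with ha1
  set a2 : Fin n := ⟨2, by omega⟩ with ha2
  set a3 : Fin n := ⟨3, by omega⟩ with ha3
  have h01 : a0 ≠ a1 := by simp [ha0, ha1, Fin.ext_iff]
  have h02 : a0 ≠ a2 := by simp [ha0, ha2, Fin.ext_iff]
  have h03 : a0 ≠ a3 := by simp [ha0, ha3, Fin.ext_iff]
  have h12 : a1 ≠ a2 := by simp [ha1, ha2, Fin.ext_iff]
  have h13 : a1 ≠ a3 := by simp [ha1, ha3, Fin.ext_iff]
  have h23 : a2 ≠ a3 := by simp [ha2, ha3, Fin.ext_iff]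
  rw [injective_iff_map_eq_one]
  intro σ hσ
  have hc : ∀ g : A n, σ * g.1 * σ⁻¹ = g.1 := by
    intro g
    have := congrArg (fun f : MulAut (alternatingGroup (Fin n)) => ((f g : alternatingGroup (Fin n)) : Perm (Fin n))) hσ
    simpa [MulAut.conjNormal_apply] using this
  by_contra hne
  obtain ⟨p, hp⟩ : ∃ p, σ p ≠ p := by
    by_contra hcon
    simp only [not_exists, not_not] at hcon
    exact hne (Equiv.ext hcon)
  -- choose `q, r` different from `p, σ p`
  obtain ⟨q, r, h1, h2, h3, h4, h5⟩ : ∃ q r : Fin n, q ≠ p ∧ q ≠ σ p ∧ r ≠ p ∧ r ≠ σ p ∧ q ≠ r := by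
    have hcard : ({p, σ p} : Finset (Fin n)).card + 2 ≤ Fintype.card (Fin n) := by
      have : ({p, σ p} : Finset (Fin n)).card ≤ 2 := Finset.card_le_two
      simp only [Fintype.card_fin]
      omega
    have h := Finset.card_compl ({p, σ p} : Finset (Fin n))
    have h' : 1 < (({p, σ p} : Finset (Fin n))ᶜ).card := by omega
    obtain ⟨q, hq, r, hr, hqr⟩ := Finset.one_lt_card.mp h'
    simp only [Finset.mem_compl, Finset.mem_insert, Finset.mem_singleton, not_or] at hq hr
    exact ⟨q, r, hq.1, hq.2, hr.1, hr.2, hqr⟩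
  have hm : cyc p q r ∈ alternatingGroup (Fin n) := (cyc_isThreeCycle h1.symm h5 h3.symm).mem_alternatingGroup
  have h7 := hc ⟨cyc p q r, hm⟩
  simp only at h7
  rw [cyc_conj] at h7
  -- `σ p` is moved by the conjugate, so it lies in the support of `cyc p q r`
  have h8 : cyc (σ p) (σ q) (σ r) (σ p) ≠ σ p := by
    rw [cyc_a (σ.injective.ne h1.symm) (σ.injective.ne h3.symm)]
    exact σ.injective.ne h1
  rw [h7] at h8
  rcases moved h8 with h9 | h9 | h9
  · exact hp h9
  · exact h2 h9.symm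
  · exact h4 h9.symm

theorem surj_of_three' (n : ℕ) (hn : 4 ≤ n) (φ : MulAut (alternatingGroup (Fin n)))
    (h3 : ∀ x : alternatingGroup (Fin n), IsThreeCycle (x : Perm (Fin n)) → IsThreeCycle ((φ x : alternatingGroup (Fin n)) : Perm (Fin n))) :
    ∃ σ : Perm (Fin n), MulAut.conjNormal σ = φ := by
  classical
  classical
  have z0 : Fin n := ⟨0, by omega⟩
  set a0 : Fin n := ⟨0, by omega⟩ with ha0
  set a1 : Fin n := ⟨1, by omega⟩ with ha1
  set a2 : Fin n := ⟨2, by omega⟩ with ha2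
  set a3 : Fin n := ⟨3, by omega⟩ with ha3
  have h01 : a0 ≠ a1 := by simp [ha0, ha1, Fin.ext_iff]
  have h02 : a0 ≠ a2 := by simp [ha0, ha2, Fin.ext_iff]
  have h03 : a0 ≠ a3 := by simp [ha0, ha3, Fin.ext_iff]
  have h12 : a1 ≠ a2 := by simp [ha1, ha2, Fin.ext_iff]
  have h13 : a1 ≠ a3 := by simp [ha1, ha3, Fin.ext_iff]
  have h23 : a2 ≠ a3 := by simp [ha2, ha3, Fin.ext_iff]
  have hgen : ∀ i, i ≠ a0 → i ≠ a1 → cyc a0 a1 i ∈ alternatingGroup (Fin n) := fun i h0 h1 =>
    (cyc_isThreeCycle h01 h1.symm h0.symm).mem_alternatingGroup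
  let C : ∀ i (h0 : i ≠ a0) (h1 : i ≠ a1), A n := fun i h0 h1 => ⟨cyc a0 a1 i, hgen i h0 h1⟩
  let X : ∀ i (h0 : i ≠ a0) (h1 : i ≠ a1), Perm (Fin n) :=
    fun i h0 h1 => ((φ (C i h0 h1) : A n) : Perm (Fin n))
  have hX3 : ∀ i h0 h1, IsThreeCycle (X i h0 h1) := fun i h0 h1 =>
    h3 _ (cyc_isThreeCycle h01 h1.symm h0.symm)
  have hrel : ∀ i h0 h1 j k0 k1, i ≠ j →
      (X i h0 h1 * X j k0 k1) ^ 2 = 1 ∧ X i h0 h1 * X j k0 k1 ≠ 1 := by
    intro i h0 h1 j k0 k1 hij
    obtain ⟨r1, r2⟩ := cyc_rel (a := a0) (b := a1) (c := i) (d := j) h01 h0.symm k0.symm h1.symm k1.symm hij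
    constructor
    · have h3 : (C i h0 h1 * C j k0 k1) ^ 2 = 1 := Subtype.ext r1
      have h2 := congrArg (fun g => ((φ g : A n) : Perm (Fin n))) h3
      simpa [X, map_pow, map_mul] using h2
    · intro h
      apply r2
      have h3 : φ (C i h0 h1 * C j k0 k1) = 1 := by
        rw [map_mul]
        exact Subtype.ext h
      have h4 := φ.injective (h3.trans (map_one φ).symm)
      exact congrArg Subtype.val h4
  have r23 := hrel a2 h02.symm h12.symm a3 h03.symm h13.symm h23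
  obtain ⟨a, b, c, d, hab, hac, had, hbc, hbd, hcd, hx, hy⟩ :=
    key (hX3 a2 h02.symm h12.symm) (hX3 a3 h03.symm h13.symm) r23.1 r23.2
  have hE : ∀ i, ∃ e, (i = a0 → e = a) ∧ (i = a1 → e = b) ∧
      ∀ (h0 : i ≠ a0) (h1 : i ≠ a1), e ≠ a ∧ e ≠ b ∧ X i h0 h1 = cyc a b e := by
    intro i
    by_cases h0 : i = a0
    · exact ⟨a, fun _ => rfl, fun h => absurd (h0.symm.trans h) h01, fun h => absurd h0 h⟩
    by_cases h1 : i = a1
    · exact ⟨b, fun h => absurd (h1.symm.trans h) h01.symm, fun _ => rfl, fun _ h => absurd h1 h⟩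
    by_cases h2 : i = a2
    · refine ⟨c, fun h => absurd h h0, fun h => absurd h h1, fun k0 k1 => ⟨hac.symm, hbc.symm, ?_⟩⟩
      rw [← hx]
      simp only [X, C, h2]
    by_cases h3 : i = a3
    · refine ⟨d, fun h => absurd h h0, fun h => absurd h h1, fun k0 k1 => ⟨had.symm, hbd.symm, ?_⟩⟩
      rw [← hy]
      simp only [X, C, h3]
    have r1 := hrel a2 h02.symm h12.symm i h0 h1 (Ne.symm h2)
    have r2 := hrel a3 h03.symm h13.symm i h0 h1 (Ne.symm h3)
    rw [hx] at r1
    rw [hy] at r2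
    obtain ⟨e, he1, he2, he3⟩ := star hab hac had hbc hbd hcd (hX3 i h0 h1) r1.1 r1.2 r2.1 r2.2
    exact ⟨e, fun h => absurd h h0, fun h => absurd h h1, fun _ _ => ⟨he1, he2, he3⟩⟩
  choose f hf using hE
  have fa0 : f a0 = a := (hf a0).1 rfl
  have fa1 : f a1 = b := (hf a1).2.1 rfl
  have finj : Function.Injective f := by
    intro i j hij
    by_cases i0 : i = a0
    · by_cases j0 : j = a0
      · rw [i0, j0]
      by_cases j1 : j = a1
      · rw [i0, j1, fa0, fa1] at hij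
        exact absurd hij hab
      · have := ((hf j).2.2 j0 j1).1
        rw [← hij, i0, fa0] at this
        exact absurd rfl this
    by_cases i1 : i = a1
    · by_cases j0 : j = a0
      · rw [i1, j0, fa0, fa1] at hij
        exact absurd hij.symm hab
      by_cases j1 : j = a1
      · rw [i1, j1]
      · have := ((hf j).2.2 j0 j1).2.1
        rw [← hij, i1, fa1] at this
        exact absurd rfl this
    by_cases j0 : j = a0
    · have := ((hf i).2.2 i0 i1).1
      rw [hij, j0, fa0] at this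
      exact absurd rfl this
    by_cases j1 : j = a1
    · have := ((hf i).2.2 i0 i1).2.1
      rw [hij, j1, fa1] at this
      exact absurd rfl this
    have e1 := ((hf i).2.2 i0 i1).2.2
    have e2 := ((hf j).2.2 j0 j1).2.2
    rw [hij, ← e2] at e1
    have e3 : C i i0 i1 = C j j0 j1 := φ.injective (Subtype.ext e1)
    have e4 : cyc a0 a1 i = cyc a0 a1 j := congrArg Subtype.val e3
    have e5 : cyc a0 a1 i a1 = cyc a0 a1 j a1 := by rw [e4]
    rwa [cyc_b (Ne.symm i1) (Ne.symm i0), cyc_b (Ne.symm j1) (Ne.symm j0)] at e5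
  let σ : Perm (Fin n) := Equiv.ofBijective f (Finite.injective_iff_bijective.mp finj)
  have hσ : ∀ p, σ p = f p := fun p => rfl
  refine ⟨σ, ?_⟩
  have hagree : ∀ i h0 h1, ((MulAut.conjNormal σ (C i h0 h1) : A n) : Perm (Fin n)) = X i h0 h1 := by
    intro i h0 h1
    rw [MulAut.conjNormal_apply]
    change σ * cyc a0 a1 i * σ⁻¹ = _
    rw [cyc_conj, hσ, hσ, hσ, fa0, fa1, ((hf i).2.2 h0 h1).2.2]
  -- the locus of agreement
  set E : Subgroup (A n) := MonoidHom.eqLocus (MulAut.conjNormal σ : A n ≃* A n).toMonoidHom φ.toMonoidHom with hE'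
  have hK : Subgroup.closure {g : Perm (Fin n) | ∃ i, i ≠ a0 ∧ i ≠ a1 ∧ g = cyc a0 a1 i} ≤ E.map (alternatingGroup (Fin n)).subtype := by
    rw [Subgroup.closure_le]
    rintro g ⟨i, h0, h1, rfl⟩
    refine ⟨C i h0 h1, ?_, rfl⟩
    exact Subtype.ext (hagree i h0 h1)
  have hall : ∀ g : A n, g ∈ E := by
    intro g
    have h3 : (g : Perm (Fin n)) ∈ Subgroup.closure {σ : Perm (Fin n) | IsThreeCycle σ} := by
      rw [closure_three_cycles_eq_alternating]
      exact g.2
    have h4 : Subgroup.closure {σ : Perm (Fin n) | IsThreeCycle σ} ≤ E.map (alternatingGroup (Fin n)).subtype := by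
      rw [Subgroup.closure_le]
      intro t ht
      obtain ⟨p, q, r, hpq, hqr, hpr, rfl⟩ := exists_cyc ht
      exact hK (gen h01 hpq hqr hpr)
    obtain ⟨g', hg', hgg⟩ := h4 h3
    have : g' = g := Subtype.ext hgg
    rwa [this] at hg'
  ext g : 1
  exact hall g


end CfsgLib.H9.AutAlt
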