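import Cfsg.Agent.Lib.FGS.ConjAb
import Cfsg.Agent.Lib.Solv.Nilp

set_option autoImplicit false
set_option linter.unusedSectionVars false
set_option linter.style.haveILetI false
set_option linter.unusedVariables false

open Subgroup Cfsg

namespace CfsgLib.FGS.ConjAb

universe u

theorem comm_of_card_le_sq {X : Type*} [Group X] [Finite X] {p h : ℕ} [Fact p.Prime] (hX : Nat.card X = p ^ h) (h2 : h ≤ 2) :
    ∀ a b : X, a * b = b * a := by
  have hn : h = 0 ∨ h = 1 ∨ h = 2 := by omega
  rcases hn with rfl | rfl | rfl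
  · rw [pow_zero] at hX
    haveI : Subsingleton X := (Nat.card_eq_one_iff_unique.1 hX).1
    intro a b
    exact Subsingleton.elim _ _
  · rw [pow_one] at hX
    haveI := isCyclic_of_prime_card hX
    intro a b
    obtain ⟨g, hg⟩ := IsCyclic.exists_generator (α := X)
    obtain ⟨i, rfl⟩ := mem_zpowers_iff.1 (hg a)
    obtain ⟨j, rfl⟩ := mem_zpowers_iff.1 (hg b)
    exact ((Commute.refl g).zpow_zpow i j).eq
  · have := IsPGroup.isMulCommutative_of_card_eq_prime_sq hX
    exact fun a b => mul_comm' a b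

variable {Q : Type u} [Group Q] [Finite Q]

/-- A nonabelian `p`-group of exponent `p` such that subgroups of equal order are simultaneously abelian
has order `p³`. -/
theorem card_eq_cube {p : ℕ} [Fact p.Prime] (hQ : IsPGroup p Q) (hexp : ∀ x : Q, x ^ p = 1) (hna : ¬ IsMulCommutative Q)
    (hPq : ∀ A B : Subgroup Q, Nat.card A = Nat.card B → IsMulCommutative A → IsMulCommutative B) :
    Nat.card Q = p ^ 3 := by
  classical
  have hpp : p.Prime := Fact.out
  have hord : ∀ x : Q, x ≠ 1 → orderOf x = p := fun x hx => orderOf_eq_prime (hexp x) hx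
  -- centre facts
  have hZne : center Q ≠ ⊤ := by
    intro h
    apply hna
    refine ⟨⟨fun a b => ?_⟩⟩
    have : a ∈ center Q := by rw [h]; trivial
    exact (Subgroup.mem_center_iff.1 this b).symm
  haveI hnt : Nontrivial Q := by
    by_contra hcon
    rw [not_nontrivial_iff_subsingleton] at hcon
    exact hna ⟨⟨fun a b => Subsingleton.elim _ _⟩⟩
  -- find `x, y`
  obtain ⟨x, y, hxy, hzZ⟩ : ∃ x y : Q, x * y ≠ y * x ∧ x * y * x⁻¹ * y⁻¹ ∈ center Q := by
    haveI hnq : Nontrivial (Q ⧸ center Q) := by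
      by_contra hcon
      rw [not_nontrivial_iff_subsingleton] at hcon
      apply hZne
      rw [eq_top_iff]
      intro g _
      have : ((g : Q) : Q ⧸ center Q) = 1 := Subsingleton.elim _ _
      exact (QuotientGroup.eq_one_iff g).1 this
    have hQq : IsPGroup p (Q ⧸ center Q) := hQ.to_quotient _
    haveI := hQq.center_nontrivial
    obtain ⟨c, hc⟩ := exists_ne (1 : center (Q ⧸ center Q))
    obtain ⟨x, hx⟩ := QuotientGroup.mk_surjective (c : Q ⧸ center Q)
    have hxZ : x ∉ center Q := by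
      intro h
      apply hc
      apply Subtype.ext
      rw [← hx]
      exact (QuotientGroup.eq_one_iff x).2 h
    rw [Subgroup.mem_center_iff] at hxZ
    push Not at hxZ
    obtain ⟨y, hy⟩ := hxZ
    refine ⟨x, y, hy.symm, ?_⟩
    rw [← QuotientGroup.eq_one_iff]
    have h1 : ((y : Q) : Q ⧸ center Q) * (x : Q ⧸ center Q) = (x : Q ⧸ center Q) * (y : Q ⧸ center Q) := by
      rw [hx]
      exact Subgroup.mem_center_iff.1 c.2 _
    show ((x : Q) : Q ⧸ center Q) * (y : Q ⧸ center Q) * (x : Q ⧸ center Q)⁻¹ * (y : Q ⧸ center Q)⁻¹ = 1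
    rw [← h1]
    group
  set z := x * y * x⁻¹ * y⁻¹ with hz
  have hzne : z ≠ 1 := by
    intro h
    apply hxy
    have h1 : x * y * x⁻¹ = y := by
      rw [hz] at h
      exact mul_inv_eq_one.1 h
    calc x * y = (x * y * x⁻¹) * x := by group
      _ = y * x := by rw [h1]
  have hxne : x ≠ 1 := by
    rintro rfl
    simp at hxy
  have hyne : y ≠ 1 := by
    rintro rfl
    simp at hxy
  have hxo := hord x hxne
  have hyo := hord y hyne
  have hzo := hord z hzne
  have hzc : ∀ g : Q, g * z = z * g := fun g => Subgroup.mem_center_iff.1 hzZ g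
  -- `T`
  have hTN : zpowers x ≤ normalizer ((zpowers z : Subgroup Q) : Set Q) := by
    rw [Subgroup.zpowers_le]
    apply CfsgLib.PLocal.mem_normalizer_of_conj_le
    intro w hw
    obtain ⟨k, rfl⟩ := Subgroup.mem_zpowers_iff.1 hw
    have : Commute x z := hzc x
    have h1 : x * z ^ k * x⁻¹ = z ^ k := by
      rw [(this.zpow_right k).eq]
      group
    rw [h1]
    exact hw
  have hTcard := CfsgLib.PLocal.card_sup_mul_card_inf (zpowers x) (zpowers z) hTN
  rw [Nat.card_zpowers, Nat.card_zpowers, hxo, hzo] at hTcard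
  set T := zpowers x ⊔ zpowers z with hT
  have hTle : Nat.card T ≤ p ^ 2 := by
    have h1 : 0 < Nat.card ↥(zpowers x ⊓ zpowers z) := Nat.card_pos
    calc Nat.card T ≤ Nat.card T * Nat.card ↥(zpowers x ⊓ zpowers z) := Nat.le_mul_of_pos_right _ h1
      _ = p ^ 2 := by rw [hTcard]; ring
  have hyT : zpowers y ≤ normalizer ((T : Subgroup Q) : Set Q) := by
    rw [Subgroup.zpowers_le]
    apply CfsgLib.PLocal.mem_normalizer_of_conj_le
    have hsub : T ≤ T.comap (MulAut.conj y).toMonoidHom := by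
      apply sup_le
      · rw [Subgroup.zpowers_le]
        show y * x * y⁻¹ ∈ T
        have h1 : y * x * y⁻¹ = z⁻¹ * x := by
          rw [hz]
          group
        rw [h1]
        exact Subgroup.mul_mem _ (Subgroup.inv_mem _ ((le_sup_right : zpowers z ≤ T) (mem_zpowers z)))
          ((le_sup_left : zpowers x ≤ T) (mem_zpowers x))
      · rw [Subgroup.zpowers_le]
        show y * z * y⁻¹ ∈ T
        have h1 : y * z * y⁻¹ = z := by
          rw [hzc y]
          group
        rw [h1]
        exact (le_sup_right : zpowers z ≤ T) (mem_zpowers z)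
    exact fun w hw => hsub hw
  have hH0card := CfsgLib.PLocal.card_sup_mul_card_inf (zpowers y) T hyT
  rw [Nat.card_zpowers, hyo] at hH0card
  set H0 := zpowers y ⊔ T with hH0
  have hH0le : Nat.card H0 ≤ p ^ 3 := by
    have h1 : 0 < Nat.card ↥(zpowers y ⊓ T) := Nat.card_pos
    calc Nat.card H0 ≤ Nat.card H0 * Nat.card ↥(zpowers y ⊓ T) := Nat.le_mul_of_pos_right _ h1
      _ = p * Nat.card T := hH0card
      _ ≤ p * p ^ 2 := Nat.mul_le_mul_left _ hTle
      _ = p ^ 3 := by ring
  have hxH0 : x ∈ H0 := (le_sup_right : T ≤ H0) ((le_sup_left : zpowers x ≤ T) (mem_zpowers x))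
  have hyH0 : y ∈ H0 := (le_sup_left : zpowers y ≤ H0) (mem_zpowers y)
  have hH0nc : ∀ K : Subgroup Q, H0 ≤ K → ¬ IsMulCommutative K := by
    intro K hK hc
    have := mul_comm' (⟨x, hK hxH0⟩ : K) ⟨y, hK hyH0⟩
    exact hxy (congrArg Subtype.val this)
  obtain ⟨h, hh⟩ := IsPGroup.iff_card.1 (hQ.to_subgroup H0)
  have hh3 : h = 3 := by
    have h1 : h ≤ 3 := by
      rw [hh] at hH0le
      exact (Nat.pow_le_pow_iff_right hpp.one_lt).1 hH0le
    have h2 : ¬ h ≤ 2 := by
      intro h2
      have := comm_of_card_le_sq hh h2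
      exact hH0nc H0 le_rfl ⟨⟨this⟩⟩
    omega
  rw [hh3] at hh
  -- a maximal normal abelian subgroup
  haveI hnil : Group.IsNilpotent Q := hQ.isNilpotent
  have hfin : ({M : Subgroup Q | M.Normal ∧ IsMulCommutative M}).Finite := Set.toFinite _
  obtain ⟨A, hA⟩ := hfin.exists_maximal ⟨⊥, inferInstance, inferInstance⟩
  haveI hAn : A.Normal := hA.1.1
  haveI hAc : IsMulCommutative A := hA.1.2
  have hCA : centralizer (A : Set Q) = A := CfsgLib.Solv.maximal_abelian_normal_self_centralizing A (by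
    intro M hMn hMc hAM
    exact le_antisymm (hA.2 ⟨hMn, hMc⟩ hAM) hAM)
  have hZA : center Q ≤ A := by
    rw [← hCA]
    intro g hg
    rw [Subgroup.mem_centralizer_iff]
    intro a _
    exact (Subgroup.mem_center_iff.1 hg a)
  have hAcomm : ∀ a ∈ A, ∀ b ∈ A, a * b = b * a := by
    intro a ha b hb
    exact congrArg Subtype.val (mul_comm' (⟨a, ha⟩ : A) ⟨b, hb⟩)
  obtain ⟨a, ha⟩ := IsPGroup.iff_card.1 (hQ.to_subgroup A)
  -- `a ≤ 2`
  have ha2 : a ≤ 2 := by
    by_contra hcon
    have h3 : p ^ a ∣ Nat.card Q := by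
      rw [← ha]
      exact Subgroup.card_subgroup_dvd_card A
    obtain ⟨K, hK, hHK⟩ := Sylow.exists_subgroup_card_pow_prime_le p h3 H0 hh (by omega)
    exact hH0nc K hHK (hPq A K (by rw [ha, hK]) hAc)
  -- centre is proper in `A`
  have hZneA : center Q ≠ A := by
    intro h
    apply hZne
    rw [eq_top_iff]
    intro g _
    rw [h, ← hCA, Subgroup.mem_centralizer_iff]
    intro w hw
    have : w ∈ center Q := by rw [h]; exact hw
    exact (Subgroup.mem_center_iff.1 this g).symm
  obtain ⟨w, hwA, hwZ⟩ : ∃ w ∈ A, w ∉ center Q := by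
    by_contra hcon
    push Not at hcon
    exact hZneA (le_antisymm hZA hcon)
  have hwne : w ≠ 1 := by
    rintro rfl
    exact hwZ (Subgroup.one_mem _)
  have hwo := hord w hwne
  -- `⟨w⟩ ⊔ Z`
  have hinfw : zpowers w ⊓ center Q = ⊥ := by
    have h1 : Nat.card ↥(zpowers w ⊓ center Q) ∣ p := by
      have := Subgroup.card_dvd_of_le (inf_le_left : zpowers w ⊓ center Q ≤ zpowers w)
      rwa [Nat.card_zpowers, hwo] at this
    rcases (Nat.dvd_prime hpp).1 h1 with h2 | h2
    · exact Subgroup.card_eq_one.1 h2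
    · exfalso
      have h3 : zpowers w ⊓ center Q = zpowers w := by
        apply Subgroup.eq_of_le_of_card_ge inf_le_left
        rw [h2, Nat.card_zpowers, hwo]
      apply hwZ
      have h4 : w ∈ zpowers w ⊓ center Q := by
        rw [h3]; exact mem_zpowers w
      exact h4.2
  have hcardw := CfsgLib.Solv.card_sup_mul_card_inf (zpowers w) (center Q)
  rw [hinfw, Subgroup.card_bot, mul_one, Nat.card_zpowers, hwo] at hcardw
  haveI := hQ.center_nontrivial
  have hZp : p ∣ Nat.card (center Q) := by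
    obtain ⟨n, hn⟩ := IsPGroup.iff_card.1 (hQ.to_subgroup (center Q))
    have h2 : 1 < Nat.card (center Q) := Finite.one_lt_card
    rw [hn] at h2 ⊢
    have h3 : n ≠ 0 := by
      rintro rfl
      simp at h2
    exact dvd_pow_self p h3
  have hsupA : zpowers w ⊔ center Q ≤ A := sup_le (by rw [Subgroup.zpowers_le]; exact hwA) hZA
  have hp2le : p ^ 2 ≤ Nat.card ↥(zpowers w ⊔ center Q) := by
    rw [hcardw, pow_two]
    exact Nat.mul_le_mul_left _ (Nat.le_of_dvd Nat.card_pos hZp)
  have ha2' : a = 2 := by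
    have h1 : p ^ 2 ≤ p ^ a := by
      rw [← ha]
      exact hp2le.trans (Subgroup.card_le_of_le hsupA)
    have := (Nat.pow_le_pow_iff_right hpp.one_lt).1 h1
    omega
  rw [ha2'] at ha
  have hsupeq : zpowers w ⊔ center Q = A := by
    apply Subgroup.eq_of_le_of_card_ge hsupA
    rw [ha]
    exact hp2le
  -- centraliser of `w`
  have hCw : centralizer ({w} : Set Q) = A := by
    apply le_antisymm
    · intro g hg
      rw [← hCA, Subgroup.mem_centralizer_iff]
      have h1 : A ≤ centralizer ({g} : Set Q) := by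
        rw [← hsupeq]
        apply sup_le
        · rw [Subgroup.zpowers_le, Subgroup.mem_centralizer_singleton_iff]
          exact (Subgroup.mem_centralizer_singleton_iff.1 hg).symm
        · intro u hu
          rw [Subgroup.mem_centralizer_singleton_iff]
          exact (Subgroup.mem_center_iff.1 hu g).symm
      intro u hu
      exact (Subgroup.mem_centralizer_singleton_iff.1 (h1 hu))
    · intro u hu
      rw [Subgroup.mem_centralizer_singleton_iff]
      exact hAcomm u hu w hwA
  -- class size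
  have hcl := CfsgLib.CS.card_class_eq_index w
  rw [hCw] at hcl
  obtain ⟨e, he⟩ := IsPGroup.iff_card.1 (hQ.to_quotient A)
  have hidx : A.index = p ^ e := by
    rw [Subgroup.index_eq_card]
    exact he
  have hmem : ∀ u : {u : Q // IsConj w u}, u.1 ∈ A := by
    rintro ⟨u, hu⟩
    obtain ⟨g, rfl⟩ := isConj_iff.1 hu
    exact hAn.conj_mem w hwA g
  let f : {u : Q // IsConj w u} → A := fun u => ⟨u.1, hmem u⟩
  have hf : Function.Injective f := fun u v h => Subtype.ext (congrArg (fun q : A => (q : Q)) h)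
  have hle := Nat.card_le_card_of_injective f hf
  have hlt : p ^ e < p ^ 2 := by
    rw [hcl, hidx, ha] at hle
    apply lt_of_le_of_ne hle
    intro heq
    have hbij : Function.Surjective f := by
      have hcard' : Nat.card {u : Q // IsConj w u} = Nat.card A := by rw [hcl, hidx, ha, heq]
      exact ((Nat.bijective_iff_injective_and_card f).2 ⟨hf, hcard'⟩).2
    obtain ⟨u, hu⟩ := hbij 1
    have h1 : u.1 = 1 := congrArg Subtype.val hu
    have h2 := u.2
    rw [h1] at h2
    exact hwne (isConj_one_right.1 h2.symm)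
  have he1 : e ≤ 1 := by
    have := (Nat.pow_lt_pow_iff_right hpp.one_lt).1 hlt
    omega
  have hQcard : Nat.card Q = p ^ 2 * p ^ e := by
    rw [← Subgroup.card_mul_index A, ha, hidx]
  have hub : Nat.card Q ≤ p ^ 3 := by
    rw [hQcard]
    calc p ^ 2 * p ^ e ≤ p ^ 2 * p ^ 1 := Nat.mul_le_mul_left _ (Nat.pow_le_pow_right hpp.pos he1)
      _ = p ^ 3 := by ring
  have hlb : p ^ 3 ≤ Nat.card Q := by
    rw [← hh]
    exact Subgroup.card_le_card_group H0
  omega

/-- The quaternion groups of order at least `16` have a cyclic and a noncyclic subgroup of order `8`. -/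
theorem quat_false (k : ℕ) (hk : 2 ≤ k)
    (hCyc : ∀ A B : Subgroup (QuaternionGroup (2 ^ k)), Nat.card A = Nat.card B → IsCyclic A → IsCyclic B) : False := by
  classical
  haveI hne : NeZero ((2 : ℕ) ^ k) := ⟨pow_ne_zero _ (by norm_num)⟩
  haveI : Fact (2 : ℕ).Prime := ⟨Nat.prime_two⟩
  have hcard : Nat.card (QuaternionGroup (2 ^ k)) = 4 * 2 ^ k := by
    rw [Nat.card_eq_fintype_card, QuaternionGroup.card]
  have ho : orderOf ((QuaternionGroup.a 1 : QuaternionGroup (2 ^ k)) ^ (2 ^ (k - 2))) = 8 := by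
    rw [orderOf_pow' _ (pow_ne_zero _ (by norm_num)), QuaternionGroup.orderOf_a_one]
    have e : 2 * 2 ^ k = 2 ^ (k - 2) * 8 := by
      have : k = (k - 2) + 2 := by omega
      nth_rw 1 [this]
      rw [pow_add]
      ring
    rw [e, Nat.gcd_eq_right (Nat.dvd_mul_right _ _), Nat.mul_div_cancel_left _ (pow_pos (by norm_num) _)]
  have hR : Nat.card (zpowers (QuaternionGroup.xa 0 : QuaternionGroup (2 ^ k))) = 2 ^ 2 := by
    rw [Nat.card_zpowers, QuaternionGroup.orderOf_xa]
    norm_num
  have hdvd : 2 ^ (2 + 1) ∣ Nat.card (QuaternionGroup (2 ^ k)) := by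
    rw [hcard]
    have : k = (k - 2) + 2 := by omega
    rw [this, pow_add]
    exact ⟨2 ^ (k - 2) * 2, by ring⟩
  obtain ⟨K, hK, hRK⟩ := Sylow.exists_subgroup_card_pow_succ hdvd hR
  have hKcyc : IsCyclic K := hCyc (zpowers _) K (by rw [Nat.card_zpowers, ho, hK]; norm_num) inferInstance
  obtain ⟨g, hg⟩ := IsCyclic.exists_generator (α := K)
  have hgo : orderOf (g : QuaternionGroup (2 ^ k)) = 8 := by
    rw [Subgroup.orderOf_coe, orderOf_eq_card_of_forall_mem_zpowers hg, hK]
    norm_num
  have hmem : (QuaternionGroup.xa 0 : QuaternionGroup (2 ^ k)) ∈ K := hRK (mem_zpowers _)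
  have h1 := hg ⟨_, hmem⟩
  rw [← mem_powers_iff_mem_zpowers] at h1
  obtain ⟨m, hm⟩ := h1
  have hm' : (g : QuaternionGroup (2 ^ k)) ^ m = QuaternionGroup.xa 0 := congrArg Subtype.val hm
  obtain ⟨gv, hgK⟩ := g
  cases gv with
  | xa i =>
    rw [QuaternionGroup.orderOf_xa] at hgo
    norm_num at hgo
  | a i =>
    have hp : ∀ n : ℕ, ∃ j, (QuaternionGroup.a i : QuaternionGroup (2 ^ k)) ^ n = QuaternionGroup.a j := by
      intro n
      induction n with
      | zero => exact ⟨0, rfl⟩
      | succ n ih =>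
        obtain ⟨j, hj⟩ := ih
        refine ⟨j + i, ?_⟩
        rw [pow_succ, hj, QuaternionGroup.a_mul_a]
    obtain ⟨j, hj⟩ := hp m
    have : (QuaternionGroup.a j : QuaternionGroup (2 ^ k)) = QuaternionGroup.xa 0 := by
      rw [← hj]
      exact hm'
    cases this

end CfsgLib.FGS.ConjAb
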