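import Cfsg.Agent.Lib.FGS.Cyc
import Cfsg.Agent.Lib.Solv.Misc

/-!
# Sylow direct factors.
-/

set_option autoImplicit false
set_option linter.unusedSectionVars false
set_option linter.style.haveILetI false

namespace CfsgLib.FGS

open Cfsg

universe u

variable {G : Type u} [Group G] [Finite G] {p : ℕ} [hp : Fact p.Prime]

/-- Elements of `p'`-order commute with `p`-elements if all `q`-elements do. -/
theorem commute_of_pprime_of_prime_powers
    (H : ∀ x y : G, (∃ a : ℕ, orderOf x = p ^ a) → (∃ q b : ℕ, q.Prime ∧ q ≠ p ∧ orderOf y = q ^ b) →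
      x * y = y * x) :
    ∀ (n : ℕ) (k : G), orderOf k = n → (orderOf k).Coprime p → ∀ x : G, (∃ a : ℕ, orderOf x = p ^ a) →
      x * k = k * x := by
  intro n
  induction n using Nat.strong_induction_on with
  | _ n ih =>
  intro k hkn hkc x hx
  by_cases h1 : orderOf k = 1
  · rw [orderOf_eq_one_iff] at h1
    simp [h1]
  obtain ⟨q, hq, hqd⟩ := Nat.exists_prime_and_dvd h1
  obtain ⟨s, t, hs, ht, hst, -, ⟨b, hb⟩, htc⟩ := exists_primary_decomp q hq k
  have hqp : q ≠ p := by
    rintro rfl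
    exact hq.one_lt.ne' (Nat.dvd_one.mp (hkc ▸ Nat.dvd_gcd hqd dvd_rfl))
  have hts : orderOf t ∣ orderOf k := by
    have := Subgroup.orderOf_dvd_natCard (Subgroup.zpowers k) ht
    rwa [Nat.card_zpowers] at this
  have htlt : orderOf t < n := by
    rw [← hkn]
    refine lt_of_le_of_ne (Nat.le_of_dvd (orderOf_pos k) hts) fun h0 => ?_
    rw [h0] at htc
    exact hq.one_lt.ne' (Nat.dvd_one.mp (htc ▸ Nat.dvd_gcd hqd (dvd_refl q)))
  have h2 := ih _ htlt t rfl (Nat.Coprime.coprime_dvd_left hts hkc) x hx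
  have h3 := H x s hx ⟨q, b, hq, hqp, hb⟩
  rw [hst]
  calc x * (s * t) = (x * s) * t := by group
    _ = s * x * t := by rw [h3]
    _ = s * (x * t) := by group
    _ = s * (t * x) := by rw [h2]
    _ = _ := by group

/-- The criterion for a Sylow direct factor. -/
theorem exists_direct_factor_of_commute
    (H : ∀ x y : G, (∃ a : ℕ, orderOf x = p ^ a) → (∃ q b : ℕ, q.Prime ∧ q ≠ p ∧ orderOf y = q ^ b) →
      x * y = y * x) :
    ∃ (P : Sylow p G) (K : Subgroup G), (P : Subgroup G).Normal ∧ K.Normal ∧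
      (P : Subgroup G) ⊓ K = ⊥ ∧ (P : Subgroup G) ⊔ K = ⊤ := by
  classical
  obtain ⟨P⟩ : Nonempty (Sylow p G) := inferInstance
  refine ⟨P, ?_⟩
  have hPord : ∀ x ∈ (P : Subgroup G), ∃ a : ℕ, orderOf x = p ^ a := by
    intro x hx
    have h1 : orderOf x ∣ Nat.card P := Subgroup.orderOf_dvd_natCard _ hx
    rw [P.card_eq_multiplicity] at h1
    obtain ⟨j, -, hj⟩ := (Nat.dvd_prime_pow hp.out).mp h1
    exact ⟨j, hj⟩
  -- normality of P
  have hPn : (P : Subgroup G).Normal := by
    have hidx : (Subgroup.normalizer ((P : Subgroup G) : Set G)).index = 1 := by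
      by_contra h1
      obtain ⟨q, hq, hqd⟩ := Nat.exists_prime_and_dvd h1
      have hPN : (P : Subgroup G) ≤ Subgroup.normalizer ((P : Subgroup G) : Set G) :=
        Subgroup.le_normalizer
      have hqp : q ≠ p := by
        rintro rfl
        exact P.not_dvd_index (hqd.trans (Subgroup.index_dvd_of_le hPN))
      haveI := Fact.mk hq
      obtain ⟨Q⟩ : Nonempty (Sylow q G) := inferInstance
      have hQN : (Q : Subgroup G) ≤ Subgroup.normalizer ((P : Subgroup G) : Set G) := by
        intro y hy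
        have hyo : ∃ b : ℕ, orderOf y = q ^ b := by
          have h1 : orderOf y ∣ Nat.card Q := Subgroup.orderOf_dvd_natCard _ hy
          rw [Q.card_eq_multiplicity] at h1
          obtain ⟨j, -, hj⟩ := (Nat.dvd_prime_pow hq).mp h1
          exact ⟨j, hj⟩
        obtain ⟨b, hb⟩ := hyo
        rw [Subgroup.mem_normalizer_iff]
        intro x
        constructor
        · intro hx
          have h2 := H x y (hPord x hx) ⟨q, b, hq, hqp, hb⟩
          have h3 : y * x * y⁻¹ = x := by rw [← h2]; group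
          rwa [h3]
        · intro hx
          have hx' : x = y⁻¹ * (y * x * y⁻¹) * y := by group
          have hxo := hPord _ hx
          have h2 := H _ y hxo ⟨q, b, hq, hqp, hb⟩
          have h3 : y⁻¹ * (y * x * y⁻¹) * y = y * x * y⁻¹ := by
            rw [mul_assoc, h2]
            group
          rw [hx', h3]
          exact hx
      exact Q.not_dvd_index (hqd.trans (Subgroup.index_dvd_of_le hQN))
    have h2 : Subgroup.normalizer ((P : Subgroup G) : Set G) = ⊤ := Subgroup.index_eq_one.mp hidx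
    exact Subgroup.normalizer_eq_top_iff.mp h2
  haveI := hPn
  have hcop : (Nat.card (P : Subgroup G)).Coprime (P : Subgroup G).index := P.card_coprime_index
  obtain ⟨K, hK⟩ := Subgroup.exists_right_complement'_of_coprime hcop
  refine ⟨K, ?_⟩
  have hKord : ∀ k ∈ K, (orderOf k).Coprime p := by
    intro k hk
    have h1 : orderOf k ∣ Nat.card K := Subgroup.orderOf_dvd_natCard _ hk
    have h2 : Nat.card K = (P : Subgroup G).index := by
      have h3 := hK.card_mul_card
      have h4 := Subgroup.card_mul_index (P : Subgroup G)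
      rw [← h4] at h3
      exact Nat.eq_of_mul_eq_mul_left Nat.card_pos h3
    rw [h2] at h1
    exact Nat.Coprime.coprime_dvd_left h1 ((Nat.Prime.coprime_iff_not_dvd hp.out).mpr P.not_dvd_index).symm
  have hcomm : ∀ x ∈ (P : Subgroup G), ∀ k ∈ K, x * k = k * x := fun x hx k hk =>
    commute_of_pprime_of_prime_powers H _ k rfl (hKord k hk) x (hPord x hx)
  have hKn : K.Normal := by
    constructor
    intro z hz g
    have hg : g ∈ (P : Subgroup G) ⊔ K := by rw [hK.sup_eq_top]; exact Subgroup.mem_top g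
    obtain ⟨x, hx, k, hk, rfl⟩ := Subgroup.mem_sup_of_normal_left.mp hg
    have h1 : k * z * k⁻¹ ∈ K := K.mul_mem (K.mul_mem hk hz) (K.inv_mem hk)
    have h2 := hcomm x hx _ h1
    have h3 : x * k * z * (x * k)⁻¹ = x * (k * z * k⁻¹) * x⁻¹ := by group
    rw [h3, h2]
    simpa using h1
  exact ⟨hPn, hKn, disjoint_iff.mp hK.disjoint, hK.sup_eq_top⟩

/-- Converse: in a direct factor situation, `p`-elements lie in `P` and the other prime-power
elements lie in `K`. -/
theorem commute_of_direct_factor (P : Sylow p G) (K : Subgroup G) (hP : (P : Subgroup G).Normal)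
    (hK : K.Normal) (hinf : (P : Subgroup G) ⊓ K = ⊥) (hsup : (P : Subgroup G) ⊔ K = ⊤) (x y : G)
    (hx : ∃ a : ℕ, orderOf x = p ^ a) (hy : ∃ q b : ℕ, q.Prime ∧ q ≠ p ∧ orderOf y = q ^ b) :
    x ∈ (P : Subgroup G) ∧ y ∈ K ∧ x * y = y * x := by
  have hcomm : ∀ u ∈ (P : Subgroup G), ∀ k ∈ K, u * k = k * u := by
    intro u hu k hk
    exact Subgroup.commute_of_normal_of_disjoint _ _ hP hK (disjoint_iff.mpr hinf) u k hu hk
  have hxP : x ∈ (P : Subgroup G) := by
    obtain ⟨a, ha⟩ := hx
    have : IsPGroup p (Subgroup.zpowers x) := by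
      rw [IsPGroup.iff_card, Nat.card_zpowers]
      exact ⟨a, ha⟩
    exact le_of_normal_sylow P hP this (Subgroup.mem_zpowers x)
  obtain ⟨q, b, hq, hqp, hb⟩ := hy
  have hyK : y ∈ K := by
    have hg : y ∈ (P : Subgroup G) ⊔ K := by rw [hsup]; exact Subgroup.mem_top y
    obtain ⟨u, hu, k, hk, rfl⟩ := Subgroup.mem_sup_of_normal_left.mp hg
    have h1 : u ^ (q ^ b) * k ^ (q ^ b) = 1 := by
      rw [← (show Commute u k from hcomm u hu k hk).mul_pow, ← hb]
      exact pow_orderOf_eq_one _
    have h2 : u ^ (q ^ b) ∈ (P : Subgroup G) ⊓ K := by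
      refine ⟨P.pow_mem hu _, ?_⟩
      rw [eq_inv_of_mul_eq_one_left h1]
      exact K.inv_mem (K.pow_mem hk _)
    rw [hinf] at h2
    have h3 : u ^ (q ^ b) = 1 := h2
    have h4 : orderOf u ∣ q ^ b := orderOf_dvd_of_pow_eq_one h3
    have h5 : orderOf u ∣ Nat.card P := Subgroup.orderOf_dvd_natCard _ hu
    rw [P.card_eq_multiplicity] at h5
    have h6 : Nat.Coprime (q ^ b) (p ^ (Nat.card G).factorization p) :=
      Nat.Coprime.pow _ _ ((Nat.coprime_primes hq hp.out).mpr hqp)
    have h7 : orderOf u = 1 := Nat.dvd_one.mp (h6.gcd_eq_one ▸ Nat.dvd_gcd h4 h5)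
    rw [orderOf_eq_one_iff] at h7
    rw [h7, one_mul]
    exact hk
  exact ⟨hxP, hyK, hcomm x hxP y hyK⟩

end CfsgLib.FGS
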