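import Cfsg.Agent.Lib.FGS.Basic
import Cfsg.Agent.Lib.Solv.Core
import Cfsg.Agent.Lib.Solv.Fit
import Cfsg.Agent.Lib.Solv.Nilp

/-! Elementary abelian `2`-groups acting on odd-order nilpotent groups: eigen-elements. -/

namespace CfsgLib.FGS.Eigen

variable {G : Type*} [Group G] [Finite G]

theorem odd_fitting (hO : Cfsg.pCore 2 G = ⊥) : Odd (Nat.card (Cfsg.fittingSubgroup G)) := by
  haveI : Fact (Nat.Prime 2) := ⟨Nat.prime_two⟩
  set F := Cfsg.fittingSubgroup G with hF
  haveI hFn : F.Normal := CfsgLib.Solv.fittingSubgroup_normal'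
  have hnil : Group.IsNilpotent F := CfsgLib.Solv.fitting_nilpotent
  let P : Sylow 2 F := default
  have hPn : (P : Subgroup F).Normal := by
    have q := (Group.isNilpotent_of_finite_tfae (G := F)).out 0 3
    exact (q.1 hnil) 2 inferInstance P
  have hPG := CfsgLib.Solv.normal_of_sylow_normal P hPn
  have hle : (P : Subgroup F).map F.subtype ≤ Cfsg.pCore 2 G := CfsgLib.FGS.le_pCore _ (P.2.map _)
  rw [hO, le_bot_iff] at hle
  have hbot : (P : Subgroup F) = ⊥ := by
    rw [Subgroup.map_eq_bot_iff_of_injective _ F.subtype_injective] at hle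
    exact hle
  have hnd := P.not_dvd_index
  rw [hbot, Subgroup.index_bot] at hnd
  rcases Nat.even_or_odd (Nat.card F) with h | h
  · exact absurd h.two_dvd hnd
  · exact h

section Act

variable {T Γ : Type*} [Group T] [Finite T] [Group Γ] [Finite Γ] (ρ : Γ →* MulAut T)

theorem comm_of_sq {Γ : Type*} [Group Γ] (hΓ : ∀ g : Γ, g * g = 1) (a b : Γ) : a * b = b * a := by
  have h1 : a⁻¹ = a := inv_eq_of_mul_eq_one_left (hΓ a)
  have h2 : b⁻¹ = b := inv_eq_of_mul_eq_one_left (hΓ b)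
  have h3 : (a * b)⁻¹ = a * b := inv_eq_of_mul_eq_one_left (hΓ (a * b))
  rw [mul_inv_rev, h1, h2] at h3
  exact h3.symm

include ρ in
theorem rho_comm (hΓ : ∀ g : Γ, g * g = 1) (g h : Γ) (x : T) : ρ g (ρ h x) = ρ h (ρ g x) := by
  rw [← MulAut.mul_apply, ← MulAut.mul_apply, ← map_mul, ← map_mul, comm_of_sq hΓ g h]

include ρ in
theorem rho_sq (hΓ : ∀ g : Γ, g * g = 1) (g : Γ) (x : T) : ρ g (ρ g x) = x := by
  rw [← MulAut.mul_apply, ← map_mul, hΓ g, map_one]
  rfl

/-- Eigen-elements modulo a subgroup. -/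
theorem exists_eigen_mod (hΓ : ∀ g : Γ, g * g = 1) (B D : Subgroup T) (hne : ¬ D ≤ B)
    (hBinv : ∀ g, ∀ x ∈ B, ρ g x ∈ B) (hDinv : ∀ g, ∀ x ∈ D, ρ g x ∈ D)
    (hBn : ∀ x ∈ D, ∀ b ∈ B, x * b * x⁻¹ ∈ B)
    (hab : ∀ x ∈ D, ∀ y ∈ D, x * y * x⁻¹ * y⁻¹ ∈ B) :
    ∃ e ∈ D, e ∉ B ∧ ∀ g, ρ g e * e⁻¹ ∈ B ∨ ρ g e * e ∈ B := by
  classical
  haveI := Fintype.ofFinite T
  haveI := Fintype.ofFinite Γ
  let J : T → Finset Γ := fun e => Finset.univ.filter fun g => ρ g e * e⁻¹ ∈ B ∨ ρ g e * e ∈ B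
  obtain ⟨e0, he0D, he0B⟩ : ∃ e ∈ D, e ∉ B := by
    by_contra h
    push Not at h
    exact hne h
  let S : Finset T := Finset.univ.filter fun e => e ∈ D ∧ e ∉ B
  have hS : S.Nonempty := ⟨e0, by simp [S, he0D, he0B]⟩
  obtain ⟨e, heS, hmax⟩ := Finset.exists_max_image S (fun e => (J e).card) hS
  have he : e ∈ D ∧ e ∉ B := by simpa [S] using heS
  refine ⟨e, he.1, he.2, ?_⟩
  by_contra hc
  push Not at hc
  obtain ⟨g0, hg1, hg2⟩ := hc
  set v := ρ g0 e with hv
  have hvD : v ∈ D := hDinv g0 e he.1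
  have hvinv : ρ g0 v = e := rho_sq ρ hΓ g0 e
  set e' := e * v with he'
  have he'D : e' ∈ D := D.mul_mem he.1 hvD
  have he'B : e' ∉ B := by
    intro h
    apply hg2
    have h1 : v * e = e⁻¹ * e' * e := by rw [he']; group
    rw [h1]
    have := hBn e⁻¹ (D.inv_mem he.1) e' h
    simpa using this
  have hsub : insert g0 (J e) ⊆ J e' := by
    intro g hg
    rw [Finset.mem_insert] at hg
    simp only [J, Finset.mem_filter, Finset.mem_univ, true_and]
    rcases hg with hg0 | hg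
    · left
      subst hg0
      have h1 : ρ g e' * e'⁻¹ = v * e * v⁻¹ * e⁻¹ := by
        rw [he', map_mul, hvinv, ← hv]
        group
      rw [h1]
      exact hab v hvD e he.1
    · simp only [J, Finset.mem_filter, Finset.mem_univ, true_and] at hg
      have hgv : ρ g v = ρ g0 (ρ g e) := rho_comm ρ hΓ g g0 e
      rcases hg with hg | hg
      · left
        set b := ρ g e * e⁻¹ with hb
        have h2 : ρ g e = b * e := by rw [hb]; group
        have hb' : ρ g0 b ∈ B := hBinv g0 b hg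
        have h3 : ρ g e' * e'⁻¹ = b * (e * ρ g0 b * e⁻¹) := by
          rw [he', map_mul, hgv, h2, map_mul, ← hv]
          group
        rw [h3]
        exact B.mul_mem hg (hBn e he.1 _ hb')
      · right
        set b := ρ g e * e with hb
        have h2 : ρ g e = b * e⁻¹ := by rw [hb]; group
        have hb' : ρ g0 b ∈ B := hBinv g0 b hg
        have h3 : ρ g e' * e' = b * (e⁻¹ * ρ g0 b * e⁻¹⁻¹) * (e⁻¹ * v⁻¹ * e⁻¹⁻¹ * v⁻¹⁻¹) := by
          rw [he', map_mul, hgv, h2, map_mul, map_inv, ← hv]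
          group
        rw [h3]
        refine B.mul_mem (B.mul_mem hg (hBn e⁻¹ (D.inv_mem he.1) _ hb')) ?_
        exact hab e⁻¹ (D.inv_mem he.1) v⁻¹ (D.inv_mem hvD)
  have hcard := Finset.card_le_card hsub
  have hnot : g0 ∉ J e := by
    simp only [J, Finset.mem_filter, Finset.mem_univ, true_and]
    push Not
    exact ⟨hg1, hg2⟩
  rw [Finset.card_insert_of_notMem hnot] at hcard
  have := hmax e' (by simp [S, he'D, he'B])
  omega

/-- A maximal invariant normal abelian subgroup of a nilpotent group contains its centralizer. -/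
theorem exists_selfcent (hnil : Group.IsNilpotent T) (hΓ : ∀ g : Γ, g * g = 1) :
    ∃ B : Subgroup T, B.Normal ∧ (∀ x ∈ B, ∀ y ∈ B, x * y = y * x) ∧ (∀ g, ∀ x ∈ B, ρ g x ∈ B) ∧
      ∀ x, (∀ b ∈ B, x * b = b * x) → x ∈ B := by
  classical
  let P : Subgroup T → Prop := fun B => B.Normal ∧ (∀ x ∈ B, ∀ y ∈ B, x * y = y * x) ∧ (∀ g, ∀ x ∈ B, ρ g x ∈ B)
  have hbot : P ⊥ := by
    refine ⟨inferInstance, ?_, ?_⟩
    · intro x hx y hy
      rw [Subgroup.mem_bot] at hx hy
      rw [hx, hy]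
    · intro g x hx
      rw [Subgroup.mem_bot] at hx ⊢
      rw [hx, map_one]
  obtain ⟨B, -, hmax⟩ := Finite.exists_le_maximal (α := Subgroup T) (p := P) (a := ⊥) hbot
  obtain ⟨hBn, hBab, hBinv⟩ := hmax.prop
  refine ⟨B, hBn, hBab, hBinv, ?_⟩
  intro x hx
  by_contra hxB
  haveI := hBn
  let C : Subgroup T := Subgroup.centralizer (B : Set T)
  have hxC : x ∈ C := by
    rw [Subgroup.mem_centralizer_iff]
    intro b hb
    exact (hx b hb).symm
  haveI hCn : C.Normal := inferInstance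
  let π := QuotientGroup.mk' B
  have hπs : Function.Surjective π := QuotientGroup.mk'_surjective B
  haveI hnilq : Group.IsNilpotent (T ⧸ B) := Group.nilpotent_of_surjective π hπs
  haveI hNn : (C.map π).Normal := Subgroup.Normal.map hCn π hπs
  have hNne : C.map π ≠ ⊥ := by
    intro h
    have h1 : π x ∈ C.map π := Subgroup.mem_map_of_mem π hxC
    rw [h, Subgroup.mem_bot] at h1
    exact hxB ((QuotientGroup.eq_one_iff x).1 h1)
  have h1 := CfsgLib.Solv.normal_inf_center_ne_bot (C.map π) hNne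
  obtain ⟨u, hu, hu1⟩ := (Subgroup.bot_or_exists_ne_one _).resolve_left h1
  obtain ⟨c, hcC, rfl⟩ := hu.1
  let D : Subgroup T := C ⊓ (Subgroup.center (T ⧸ B)).comap π
  have hcD : c ∈ D := ⟨hcC, hu.2⟩
  have hcB : c ∉ B := fun h => hu1 ((QuotientGroup.eq_one_iff c).2 h)
  have hcomm : ∀ x ∈ D, ∀ t : T, x * t * x⁻¹ * t⁻¹ ∈ B := by
    intro y hy t
    have h2 : π y * π t = π t * π y := (Subgroup.mem_center_iff.1 hy.2 (π t)).symm
    have h3 : π (y * t * y⁻¹ * t⁻¹) = 1 := by
      simp only [map_mul, map_inv, h2]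
      group
    exact (QuotientGroup.eq_one_iff _).1 h3
  have hsymm : ∀ g : Γ, ∀ t : T, ρ g (ρ g t) = t := rho_sq ρ hΓ
  have hDinv : ∀ g, ∀ x ∈ D, ρ g x ∈ D := by
    intro g y hy
    refine ⟨?_, ?_⟩
    · show ρ g y ∈ Subgroup.centralizer (B : Set T)
      rw [Subgroup.mem_centralizer_iff]
      intro b hb
      have h2 : ρ g b ∈ B := hBinv g b hb
      have h3 := Subgroup.mem_centralizer_iff.1 hy.1 (ρ g b) h2
      have h4 := congrArg (ρ g) h3
      rw [map_mul, map_mul, hsymm] at h4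
      exact h4
    · show π (ρ g y) ∈ Subgroup.center (T ⧸ B)
      rw [Subgroup.mem_center_iff]
      intro t
      obtain ⟨t, rfl⟩ := hπs t
      have h2 := hBinv g _ (hcomm y hy (ρ g t))
      simp only [map_mul, map_inv, hsymm] at h2
      have h3 : π (ρ g y * t * (ρ g y)⁻¹ * t⁻¹) = 1 := (QuotientGroup.eq_one_iff _).2 h2
      simp only [map_mul, map_inv] at h3
      have h4 : π (ρ g y) * π t * (π (ρ g y))⁻¹ * (π t)⁻¹ = 1 := h3
      rw [mul_inv_eq_one, mul_inv_eq_iff_eq_mul] at h4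
      exact h4.symm
  obtain ⟨e, heD, heB, he⟩ := exists_eigen_mod ρ hΓ B D (fun h => hcB (h hcD)) hBinv hDinv
    (fun y _ b hb => hBn.conj_mem b hb y) (fun y hy z _ => hcomm y hy z)
  let E : Subgroup T := B ⊔ Subgroup.zpowers e
  have hEP : P E := by
    refine ⟨?_, ?_, ?_⟩
    · constructor
      intro n hn t
      have hle : E ≤ E.comap (MulAut.conj t).toMonoidHom := by
        refine sup_le ?_ ((Subgroup.zpowers_le).2 ?_)
        · intro b hb
          exact Subgroup.mem_sup_left (hBn.conj_mem b hb t)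
        · show t * e * t⁻¹ ∈ E
          have h2 : t * e * t⁻¹ = (e * t * e⁻¹ * t⁻¹)⁻¹ * e := by group
          rw [h2]
          exact E.mul_mem (Subgroup.mem_sup_left (B.inv_mem (hcomm e heD t)))
            (Subgroup.mem_sup_right (Subgroup.mem_zpowers e))
      exact hle hn
    · have hle : E ≤ Subgroup.centralizer (E : Set T) := by
        refine CfsgLib.Solv.sup_le_centralizer_sup ?_ ?_ ?_
        · intro b hb
          rw [Subgroup.mem_centralizer_iff]
          exact fun h hh => hBab h hh b hb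
        · intro a ha
          rw [Subgroup.mem_centralizer_iff]
          intro h hh
          obtain ⟨i, rfl⟩ := Subgroup.mem_zpowers_iff.1 ha
          obtain ⟨j, rfl⟩ := Subgroup.mem_zpowers_iff.1 hh
          exact zpow_mul_comm e j i
        · intro b hb
          rw [Subgroup.mem_centralizer_iff]
          intro h hh
          obtain ⟨i, rfl⟩ := Subgroup.mem_zpowers_iff.1 hh
          have h5 : e * b = b * e := (Subgroup.mem_centralizer_iff.1 heD.1 b hb).symm
          exact ((Commute.zpow_left (show Commute e b from h5) i)).eq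
      intro y hy z hz
      exact Subgroup.mem_centralizer_iff.1 (hle hz) y hy
    · intro g n hn
      have hle : E ≤ E.comap (ρ g).toMonoidHom := by
        refine sup_le ?_ ((Subgroup.zpowers_le).2 ?_)
        · intro b hb
          exact Subgroup.mem_sup_left (hBinv g b hb)
        · show ρ g e ∈ E
          rcases he g with h2 | h2
          · have h3 : ρ g e = (ρ g e * e⁻¹) * e := by group
            rw [h3]
            exact E.mul_mem (Subgroup.mem_sup_left h2) (Subgroup.mem_sup_right (Subgroup.mem_zpowers e))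
          · have h3 : ρ g e = (ρ g e * e) * e⁻¹ := by group
            rw [h3]
            exact E.mul_mem (Subgroup.mem_sup_left h2) (Subgroup.mem_sup_right (Subgroup.inv_mem _ (Subgroup.mem_zpowers e)))
      exact hle hn
  have hle : B ≤ E := le_sup_left
  have := hmax.2 hEP hle
  exact heB (this (Subgroup.mem_sup_right (Subgroup.mem_zpowers e)))

theorem eq_one_of_eq_inv (hodd : Odd (Nat.card T)) {a : T} (h : a = a⁻¹) : a = 1 := by
  have h1 : a ^ 2 = 1 := by
    rw [sq]
    nth_rw 2 [h]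
    exact mul_inv_cancel a
  have h2 : orderOf a ∣ 2 := orderOf_dvd_of_pow_eq_one h1
  have h3 : orderOf a ∣ Nat.card T := orderOf_dvd_natCard a
  have h4 : Nat.Coprime (orderOf a) 2 := Nat.coprime_two_right.2 (Odd.of_dvd_nat hodd h3)
  exact orderOf_eq_one_iff.1 (Nat.Coprime.eq_one_of_dvd h4 h2)

include ρ in
/-- If an involutory automorphism is trivial on a self-centralizing normal subgroup of an odd order
group, it is trivial. -/
theorem trivial_of_trivial_on (hΓ : ∀ g : Γ, g * g = 1) (hodd : Odd (Nat.card T)) (B : Subgroup T)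
    (hBn : B.Normal) (hsc : ∀ x, (∀ b ∈ B, x * b = b * x) → x ∈ B) (g : Γ)
    (hg : ∀ b ∈ B, ρ g b = b) (x : T) : ρ g x = x := by
  set a := ρ g x * x⁻¹ with ha
  have haB : a ∈ B := by
    apply hsc
    intro b hb
    have h1 : x⁻¹ * b * x⁻¹⁻¹ ∈ B := hBn.conj_mem b hb x⁻¹
    have h2 := hg _ h1
    simp only [map_mul, map_inv, hg b hb] at h2
    have h3 : b * ρ g x = ρ g x * (x⁻¹ * b * x) := by
      rw [inv_inv, inv_inv] at h2
      rw [← h2]
      group
    rw [ha]
    calc ρ g x * x⁻¹ * b = ρ g x * (x⁻¹ * b * x) * x⁻¹ := by group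
      _ = b * ρ g x * x⁻¹ := by rw [h3]
      _ = b * (ρ g x * x⁻¹) := by group
  have h1 : ρ g a = a := hg a haB
  have h2 : ρ g a = a⁻¹ := by
    rw [ha, map_mul, map_inv, rho_sq ρ hΓ]
    group
  have h3 : a = a⁻¹ := h1.symm.trans h2
  have h4 := eq_one_of_eq_inv hodd h3
  exact mul_inv_eq_one.1 h4

/-- An element of prime order in an invariant abelian subgroup which is an eigenvector for all of
`Γ` and which is inverted by a given element acting nontrivially on the subgroup. -/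
theorem exists_eigen_in (hΓ : ∀ g : Γ, g * g = 1) (B : Subgroup T)
    (hBab : ∀ x ∈ B, ∀ y ∈ B, x * y = y * x)
    (hBinv : ∀ g, ∀ x ∈ B, ρ g x ∈ B) (g₀ : Γ) (b : T) (hb : b ∈ B) (hb1 : ρ g₀ b ≠ b) :
    ∃ y ∈ B, (orderOf y).Prime ∧ ρ g₀ y = y⁻¹ ∧ ∀ g, ρ g y = y ∨ ρ g y = y⁻¹ := by
  classical
  let I : Subgroup T :=
    { carrier := {x | x ∈ B ∧ ρ g₀ x = x⁻¹}
      one_mem' := ⟨B.one_mem, by simp⟩
      mul_mem' := by
        rintro x y ⟨hx, hx'⟩ ⟨hy, hy'⟩
        refine ⟨B.mul_mem hx hy, ?_⟩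
        rw [map_mul, hx', hy', mul_inv_rev]
        exact hBab x⁻¹ (B.inv_mem hx) y⁻¹ (B.inv_mem hy)
      inv_mem' := by
        rintro x ⟨hx, hx'⟩
        exact ⟨B.inv_mem hx, by rw [map_inv, hx']⟩ }
  have hIB : ∀ x ∈ I, x ∈ B := fun x hx => hx.1
  have hIinv : ∀ x ∈ I, ρ g₀ x = x⁻¹ := fun x hx => hx.2
  have hρb : ρ g₀ b ∈ B := hBinv g₀ b hb
  have hxI : b * (ρ g₀ b)⁻¹ ∈ I := by
    refine ⟨B.mul_mem hb (B.inv_mem hρb), ?_⟩
    rw [map_mul, map_inv, rho_sq ρ hΓ, mul_inv_rev, inv_inv]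
  have hx1 : b * (ρ g₀ b)⁻¹ ≠ 1 := by
    intro h
    exact hb1 (mul_inv_eq_one.1 h).symm
  obtain ⟨e, heI, he1, he⟩ := exists_eigen_mod ρ hΓ ⊥ I
    (fun h => hx1 (Subgroup.mem_bot.1 (h hxI)))
    (fun g x hx => by
      rw [Subgroup.mem_bot] at hx ⊢
      rw [hx, map_one])
    (fun g x hx => by
      refine ⟨hBinv g x hx.1, ?_⟩
      rw [rho_comm ρ hΓ, hx.2, map_inv])
    (fun x _ b hb => by
      rw [Subgroup.mem_bot] at hb ⊢
      rw [hb]
      simp)
    (fun x hx y hy => by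
      rw [Subgroup.mem_bot, hBab x hx.1 y hy.1]
      group)
  have he1' : e ≠ 1 := fun h => he1 (by rw [h]; exact Subgroup.one_mem _)
  have hord : orderOf e ≠ 1 := fun h => he1' (orderOf_eq_one_iff.1 h)
  obtain ⟨q, hq, hqd⟩ := Nat.exists_prime_and_dvd hord
  have hpos : orderOf e ≠ 0 := (orderOf_pos e).ne'
  refine ⟨e ^ (orderOf e / q), B.pow_mem heI.1 _, ?_, ?_, ?_⟩
  · rw [orderOf_pow_orderOf_div hpos hqd]
    exact hq
  · rw [map_pow, hIinv e heI, inv_pow]
  · intro g
    rw [map_pow]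
    rcases he g with h | h
    · left
      have : ρ g e = e := by
        have h' := Subgroup.mem_bot.1 h
        exact mul_inv_eq_one.1 h'
      rw [this]
    · right
      have : ρ g e = e⁻¹ := by
        have h' := Subgroup.mem_bot.1 h
        exact eq_inv_of_mul_eq_one_left h'
      rw [this, inv_pow]

/-- The subgroup of `Γ` fixing a given family pointwise. -/
def fixSub (s : Set T) : Subgroup Γ where
  carrier := {g | ∀ x ∈ s, ρ g x = x}
  one_mem' := by
    intro x _
    rw [map_one]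
    rfl
  mul_mem' := by
    intro a b ha hb x hx
    rw [map_mul, MulAut.mul_apply, hb x hx, ha x hx]
  inv_mem' := by
    intro a ha x hx
    have h1 := ha x hx
    rw [map_inv]
    show (ρ a).symm x = x
    rw [MulEquiv.symm_apply_eq]
    exact h1.symm

theorem mem_fixSub {s : Set T} {g : Γ} : g ∈ fixSub ρ s ↔ ∀ x ∈ s, ρ g x = x := Iff.rfl

/-- Index two step. -/
theorem card_fixSub_insert (hodd : Odd (Nat.card T)) (s : Set T) (z : T) (hz : z ≠ 1)
    (hz' : ∀ g, ρ g z = z ∨ ρ g z = z⁻¹) (hΓ : ∀ g : Γ, g * g = 1)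
    (t : Γ) (ht : t ∈ fixSub ρ s) (htz : ρ t z = z⁻¹) :
    Nat.card (fixSub ρ s) = 2 * Nat.card (fixSub ρ (insert z s)) := by
  classical
  have hne : z ≠ z⁻¹ := fun h => hz (eq_one_of_eq_inv hodd h)
  have hle : fixSub ρ (insert z s) ≤ fixSub ρ s := by
    intro g hg x hx
    exact hg x (Set.mem_insert_of_mem _ hx)
  set H := fixSub ρ (insert z s) with hH
  set K := fixSub ρ s with hK
  have hidx : (H.subgroupOf K).index = 2 := by
    rw [Subgroup.index_eq_two_iff]
    refine ⟨⟨t, ht⟩, ?_⟩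
    rintro ⟨b, hb⟩
    have hbt : ∀ x ∈ s, ρ (b * t) x = x := (K.mul_mem hb ht)
    have h1 : (⟨b, hb⟩ * ⟨t, ht⟩ : K) ∈ H.subgroupOf K ↔ ρ (b * t) z = z := by
      rw [Subgroup.mem_subgroupOf]
      constructor
      · intro h
        exact h z (Set.mem_insert _ _)
      · intro h x hx
        rcases hx with rfl | hx
        · exact h
        · exact hbt x hx
    have h2 : (⟨b, hb⟩ : K) ∈ H.subgroupOf K ↔ ρ b z = z := by
      rw [Subgroup.mem_subgroupOf]
      constructor
      · intro h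
        exact h z (Set.mem_insert _ _)
      · intro h x hx
        rcases hx with rfl | hx
        · exact h
        · exact hb x hx
    rw [h1, h2, map_mul, MulAut.mul_apply, htz, map_inv]
    rcases hz' b with h | h
    · rw [h]
      simp only [xor_def]
      simp [hne.symm, hne]
    · rw [h, inv_inv]
      simp only [xor_def]
      simp [hne.symm]
  have h3 := Subgroup.card_mul_index (H.subgroupOf K)
  rw [hidx, Nat.card_congr (Subgroup.subgroupOfEquivOfLe hle).toEquiv] at h3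
  omega

theorem card_sup_of_commute (H K : Subgroup T) (hc : ∀ h ∈ H, ∀ k ∈ K, h * k = k * h)
    (hinf : H ⊓ K = ⊥) : Nat.card ↥(H ⊔ K) = Nat.card H * Nat.card K := by
  let f : H × K → ↥(H ⊔ K) := fun p => ⟨p.1 * p.2, Subgroup.mul_mem_sup p.1.2 p.2.2⟩
  have hinj : Function.Injective f := by
    rintro ⟨a, b⟩ ⟨c, d⟩ h
    have h1 : (a : T) * b = c * d := congrArg Subtype.val h
    have h2 : (c : T)⁻¹ * a = d * (b : T)⁻¹ := by
      calc (c : T)⁻¹ * a = (c : T)⁻¹ * (a * b) * (b : T)⁻¹ := by group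
        _ = d * (b : T)⁻¹ := by rw [h1]; group
    have h3 : (c : T)⁻¹ * a ∈ H ⊓ K :=
      ⟨H.mul_mem (H.inv_mem c.2) a.2, by rw [h2]; exact K.mul_mem d.2 (K.inv_mem b.2)⟩
    rw [hinf, Subgroup.mem_bot] at h3
    have h4 : (a : T) = c := by
      rw [inv_mul_eq_one] at h3
      exact h3.symm
    have h5 : (b : T) = d := by
      rw [h4] at h1
      exact mul_left_cancel h1
    exact Prod.ext (Subtype.ext h4) (Subtype.ext h5)
  have hsurj : Function.Surjective f := by
    rintro ⟨y, hy⟩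
    have key : ∃ a ∈ H, ∃ b ∈ K, y = a * b := by
      rw [Subgroup.sup_eq_closure] at hy
      induction hy using Subgroup.closure_induction with
      | mem x hx =>
        rcases hx with hx | hx
        · exact ⟨x, hx, 1, K.one_mem, by simp⟩
        · exact ⟨1, H.one_mem, x, hx, by simp⟩
      | one => exact ⟨1, H.one_mem, 1, K.one_mem, by simp⟩
      | mul x y _ _ hx hy =>
        obtain ⟨a, ha, b, hb, rfl⟩ := hx
        obtain ⟨c, hc', d, hd, rfl⟩ := hy
        refine ⟨a * c, H.mul_mem ha hc', b * d, K.mul_mem hb hd, ?_⟩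
        have := hc c hc' b hb
        calc a * b * (c * d) = a * (b * c) * d := by group
          _ = a * (c * b) * d := by rw [this]
          _ = a * c * (b * d) := by group
      | inv x _ hx =>
        obtain ⟨a, ha, b, hb, rfl⟩ := hx
        refine ⟨a⁻¹, H.inv_mem ha, b⁻¹, K.inv_mem hb, ?_⟩
        have := hc a⁻¹ (H.inv_mem ha) b⁻¹ (K.inv_mem hb)
        rw [mul_inv_rev, this]
    obtain ⟨a, ha, b, hb, rfl⟩ := key
    exact ⟨(⟨a, ha⟩, ⟨b, hb⟩), rfl⟩
  rw [← Nat.card_prod]
  exact (Nat.card_eq_of_bijective f ⟨hinj, hsurj⟩).symm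

/-- Chain of eigen-elements of prime order, each halving the centralizer in `Γ`. -/
theorem exists_chain (hΓ : ∀ g : Γ, g * g = 1) (hodd : Odd (Nat.card T)) (B : Subgroup T)
    (hBab : ∀ x ∈ B, ∀ y ∈ B, x * y = y * x) (hBinv : ∀ g, ∀ x ∈ B, ρ g x ∈ B)
    (hfaith : ∀ g, (∀ b ∈ B, ρ g b = b) → g = 1) (n : ℕ) (hn : Nat.card Γ = 2 ^ n) :
    ∀ k ≤ n, ∃ y : Fin k → T, (∀ i, y i ∈ B) ∧ (∀ i, (orderOf (y i)).Prime) ∧
      (∀ i g, ρ g (y i) = y i ∨ ρ g (y i) = (y i)⁻¹) ∧
      Nat.card ↥(⨆ i, Subgroup.zpowers (y i)) = ∏ i, orderOf (y i) ∧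
      Nat.card (fixSub ρ (Set.range y)) = 2 ^ (n - k) := by
  classical
  intro k
  induction k with
  | zero =>
    intro _
    refine ⟨Fin.elim0, fun i => i.elim0, fun i => i.elim0, fun i => i.elim0, ?_, ?_⟩
    · have h1 : (⨆ i : Fin 0, Subgroup.zpowers ((Fin.elim0 i : T))) = ⊥ := by
        simp
      rw [h1]
      simp
    · have h1 : fixSub ρ (Set.range (Fin.elim0 : Fin 0 → T)) = ⊤ := by
        rw [eq_top_iff]
        intro g _ x hx
        obtain ⟨i, _⟩ := hx
        exact i.elim0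
      rw [h1]
      simp [hn]
  | succ k ih =>
    intro hk
    obtain ⟨y, hyB, hyp, hye, hcard, hfix⟩ := ih (by omega)
    have h2 : 1 < Nat.card (fixSub ρ (Set.range y)) := by
      rw [hfix]
      exact Nat.one_lt_two_pow (by omega)
    haveI : Nontrivial (fixSub ρ (Set.range y)) := Finite.one_lt_card_iff_nontrivial.1 h2
    obtain ⟨⟨t, ht⟩, ht1⟩ := exists_ne (1 : fixSub ρ (Set.range y))
    have ht1' : t ≠ 1 := fun h => ht1 (Subtype.ext h)
    obtain ⟨b, hb, hb1⟩ : ∃ b ∈ B, ρ t b ≠ b := by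
      by_contra h
      push Not at h
      exact ht1' (hfaith t h)
    obtain ⟨z, hzB, hzp, hzt, hze⟩ := exists_eigen_in ρ hΓ B hBab hBinv t b hb hb1
    have hz1 : z ≠ 1 := by
      intro h
      rw [h, orderOf_one] at hzp
      exact Nat.not_prime_one hzp
    have hrange : Set.range (Fin.cons z y : Fin (k + 1) → T) = insert z (Set.range y) :=
      Fin.range_cons z y
    have hAfix : ∀ x ∈ (⨆ i, Subgroup.zpowers (y i)), ρ t x = x := by
      have hle : (⨆ i, Subgroup.zpowers (y i)) ≤ (MonoidHom.eqLocus (ρ t).toMonoidHom (MonoidHom.id T)) := by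
        refine iSup_le fun i => ?_
        rw [Subgroup.zpowers_le]
        exact ht _ ⟨i, rfl⟩
      intro x hx
      exact hle hx
    have hAB : (⨆ i, Subgroup.zpowers (y i)) ≤ B :=
      iSup_le fun i => (Subgroup.zpowers_le).2 (hyB i)
    have hinf : Subgroup.zpowers z ⊓ (⨆ i, Subgroup.zpowers (y i)) = ⊥ := by
      rw [eq_bot_iff]
      rintro x ⟨hx1, hx2⟩
      have h3 := hAfix x hx2
      obtain ⟨m, rfl⟩ := Subgroup.mem_zpowers_iff.1 hx1
      rw [map_zpow, hzt, inv_zpow] at h3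
      rw [Subgroup.mem_bot]
      exact eq_one_of_eq_inv hodd h3.symm
    have hcomm : ∀ h ∈ Subgroup.zpowers z, ∀ k ∈ (⨆ i, Subgroup.zpowers (y i)), h * k = k * h := by
      intro h hh k hk
      exact hBab h ((Subgroup.zpowers_le).2 hzB hh) k (hAB hk)
    refine ⟨Fin.cons z y, ?_, ?_, ?_, ?_, ?_⟩
    · exact Fin.forall_fin_succ.2 ⟨hzB, fun i => hyB i⟩
    · exact Fin.forall_fin_succ.2 ⟨hzp, fun i => hyp i⟩
    · exact Fin.forall_fin_succ.2 ⟨hze, fun i => hye i⟩
    · have h3 : (⨆ i, Subgroup.zpowers ((Fin.cons z y : Fin (k + 1) → T) i))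
          = Subgroup.zpowers z ⊔ (⨆ i, Subgroup.zpowers (y i)) := by
        apply le_antisymm
        · refine iSup_le fun i => ?_
          refine Fin.cases ?_ (fun j => ?_) i
          · simpa using le_sup_left
          · simp only [Fin.cons_succ]
            exact le_sup_of_le_right (le_iSup (fun i => Subgroup.zpowers (y i)) j)
        · refine sup_le ?_ (iSup_le fun i => ?_)
          · have := le_iSup (fun i => Subgroup.zpowers ((Fin.cons z y : Fin (k + 1) → T) i)) 0
            simpa using this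
          · have := le_iSup (fun i => Subgroup.zpowers ((Fin.cons z y : Fin (k + 1) → T) i)) i.succ
            simpa using this
      rw [h3, card_sup_of_commute _ _ hcomm hinf, hcard, Fin.prod_univ_succ, Nat.card_zpowers]
      simp
    · rw [hrange]
      have h3 := card_fixSub_insert ρ hodd (Set.range y) z hz1 hze hΓ t ht hzt
      rw [hfix] at h3
      have h4 : n - k = (n - (k + 1)) + 1 := by omega
      rw [h4, pow_succ] at h3
      omega

/-- The main structural result for elementary abelian 2-groups acting faithfully on nilpotent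
groups of odd order. -/
theorem exists_faithful_chain (hnil : Group.IsNilpotent T) (hΓ : ∀ g : Γ, g * g = 1)
    (hodd : Odd (Nat.card T)) (hfaith : ∀ g, (∀ x, ρ g x = x) → g = 1) (n : ℕ)
    (hn : Nat.card Γ = 2 ^ n) :
    ∃ y : Fin n → T, (∀ i j, y i * y j = y j * y i) ∧ (∀ i, (orderOf (y i)).Prime) ∧
      (∀ i g, ρ g (y i) = y i ∨ ρ g (y i) = (y i)⁻¹) ∧
      Nat.card ↥(⨆ i, Subgroup.zpowers (y i)) = ∏ i, orderOf (y i) ∧
      fixSub ρ (Set.range y) = ⊥ := by
  obtain ⟨B, hBn, hBab, hBinv, hsc⟩ := exists_selfcent ρ hnil hΓ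
  have hfaith' : ∀ g, (∀ b ∈ B, ρ g b = b) → g = 1 := fun g hg =>
    hfaith g (trivial_of_trivial_on ρ hΓ hodd B hBn hsc g hg)
  obtain ⟨y, hyB, hyp, hye, hcard, hfix⟩ := exists_chain ρ hΓ hodd B hBab hBinv hfaith' n hn n le_rfl
  refine ⟨y, fun i j => hBab _ (hyB i) _ (hyB j), hyp, hye, hcard, ?_⟩
  rw [Nat.sub_self, pow_zero] at hfix
  exact Subgroup.eq_bot_of_card_eq _ hfix

/-- Fixed points of an involution in a right coset of an odd order invariant subgroup. -/
theorem exists_fixed_in_coset (hΓ : ∀ g : Γ, g * g = 1) (D : Subgroup T) (hDodd : Odd (Nat.card D))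
    (g : Γ) (hDinv : ∀ x ∈ D, ρ g x ∈ D) (e : T) (he : ρ g e * e⁻¹ ∈ D) :
    ∃ x, x * e⁻¹ ∈ D ∧ ρ g x = x := by
  classical
  haveI : Fact (Nat.Prime 2) := ⟨Nat.prime_two⟩
  let X := {x : T // x * e⁻¹ ∈ D}
  haveI : Fintype X := Fintype.ofFinite X
  let eq : X ≃ D :=
    { toFun := fun x => ⟨x.1 * e⁻¹, x.2⟩
      invFun := fun d => ⟨d.1 * e, by simp⟩
      left_inv := fun x => Subtype.ext (by simp)
      right_inv := fun d => Subtype.ext (by simp) }
  have hcard : Nat.card X = Nat.card D := Nat.card_congr eq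
  have hmem : ∀ x : X, ρ g x.1 * e⁻¹ ∈ D := by
    intro x
    have h1 := hDinv _ x.2
    rw [map_mul, map_inv] at h1
    have h2 : ρ g x.1 * e⁻¹ = (ρ g x.1 * (ρ g e)⁻¹) * (ρ g e * e⁻¹) := by group
    rw [h2]
    exact D.mul_mem h1 he
  let f : Function.End X := fun x => ⟨ρ g x.1, hmem x⟩
  have hf : f ^ 2 ^ 1 = 1 := by
    funext x
    apply Subtype.ext
    show ρ g (ρ g x.1) = x.1
    exact rho_sq ρ hΓ g x.1
  have hmod := Equiv.Perm.card_fixedPoints_modEq (f := f) (p := 2) (n := 1) hf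
  have hne : Nonempty f.fixedPoints := by
    by_contra hemp
    rw [not_nonempty_iff] at hemp
    have h0 : Fintype.card f.fixedPoints = 0 := Fintype.card_eq_zero
    rw [h0, ← Nat.card_eq_fintype_card, hcard] at hmod
    have h3 : Nat.card D % 2 = 1 := Nat.odd_iff.1 hDodd
    simp only [Nat.ModEq] at hmod
    omega
  obtain ⟨⟨x, hx⟩⟩ := hne
  refine ⟨x.1, x.2, ?_⟩
  have h1 : f x = x := hx
  exact congrArg Subtype.val h1

/-- `V₄`-generation: a nilpotent group of odd order acted on by a four-group is generated by the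
fixed points of its three involutions. -/
theorem v4_gen (hnil : Group.IsNilpotent T) (hΓ : ∀ g : Γ, g * g = 1) (hodd : Odd (Nat.card T))
    (a b : Γ) :
    Subgroup.closure ({x | ρ a x = x} ∪ {x | ρ b x = x} ∪ {x | ρ (a * b) x = x}) = ⊤ := by
  classical
  set D := Subgroup.closure ({x | ρ a x = x} ∪ {x | ρ b x = x} ∪ {x | ρ (a * b) x = x}) with hD
  have hDodd : Odd (Nat.card D) := Odd.of_dvd_nat hodd (Subgroup.card_subgroup_dvd_card D)
  have hDinv : ∀ g, ∀ x ∈ D, ρ g x ∈ D := by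
    intro g x hx
    have hle : D ≤ D.comap (ρ g).toMonoidHom := by
      rw [hD, Subgroup.closure_le]
      rintro x ((hx | hx) | hx)
      · apply Subgroup.subset_closure
        left; left
        show ρ a (ρ g x) = ρ g x
        rw [rho_comm ρ hΓ, show ρ a x = x from hx]
      · apply Subgroup.subset_closure
        left; right
        show ρ b (ρ g x) = ρ g x
        rw [rho_comm ρ hΓ, show ρ b x = x from hx]
      · apply Subgroup.subset_closure
        right
        show ρ (a * b) (ρ g x) = ρ g x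
        rw [rho_comm ρ hΓ, show ρ (a * b) x = x from hx]
    exact hle hx
  by_contra hne
  obtain ⟨n, hn⟩ := hnil.nilpotent'
  have hex : ∃ i, ¬ Subgroup.upperCentralSeries T i ≤ D := by
    refine ⟨n, ?_⟩
    rw [hn, top_le_iff]
    exact hne
  have hfind := Nat.find_spec hex
  have hmin := fun m => Nat.find_min hex (m := m)
  obtain ⟨j, hj⟩ : ∃ j, Nat.find hex = j + 1 := by
    rcases h0 : Nat.find hex with _ | j
    · rw [h0] at hfind
      exact absurd (by rw [Subgroup.upperCentralSeries_zero]; exact bot_le) hfind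
    · exact ⟨j, rfl⟩
  rw [hj] at hfind
  have hZj : Subgroup.upperCentralSeries T j ≤ D := by
    have := hmin j (by omega)
    exact not_not.1 this
  set U := Subgroup.upperCentralSeries T (j + 1) with hU
  have hUinv : ∀ g, ∀ x ∈ U, ρ g x ∈ U := by
    intro g x hx
    have h1 : U.comap (ρ g).toMonoidHom = U :=
      (Subgroup.characteristic_iff_comap_eq.1 (inferInstance : (Subgroup.upperCentralSeries T (j + 1)).Characteristic)) (ρ g)
    rw [← h1] at hx
    exact hx
  have hcomm : ∀ x ∈ U, ∀ y, x * y * x⁻¹ * y⁻¹ ∈ D := fun x hx y =>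
    hZj (Subgroup.mem_upperCentralSeries_succ_iff.1 hx y)
  have hBn : ∀ x ∈ U, ∀ b ∈ D, x * b * x⁻¹ ∈ D := by
    intro x hx b hb
    have h1 : x * b * x⁻¹ = (x * b * x⁻¹ * b⁻¹) * b := by group
    rw [h1]
    exact D.mul_mem (hcomm x hx b) hb
  obtain ⟨e, heU, heD, he⟩ := exists_eigen_mod ρ hΓ D U hfind hDinv hUinv hBn
    (fun x hx y _ => hcomm x hx y)
  have hfin : ∀ g, (∀ x, ρ g x = x → x ∈ D) → ρ g e * e⁻¹ ∉ D := by
    intro g hg h1
    obtain ⟨x, hx1, hx2⟩ := exists_fixed_in_coset ρ hΓ D hDodd g (hDinv g) e h1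
    have h2 : x ∈ D := hg x hx2
    apply heD
    have h3 : e = (x * e⁻¹)⁻¹ * x := by group
    rw [h3]
    exact D.mul_mem (D.inv_mem hx1) h2
  have hA := hfin a (fun x hx => Subgroup.subset_closure (Or.inl (Or.inl hx)))
  have hB := hfin b (fun x hx => Subgroup.subset_closure (Or.inl (Or.inr hx)))
  have hAB := hfin (a * b) (fun x hx => Subgroup.subset_closure (Or.inr hx))
  have ha2 := (he a).resolve_left hA
  have hb2 := (he b).resolve_left hB
  apply hAB
  have h1 : ρ (a * b) e * e⁻¹ = ρ a (ρ b e * e) * (e * (ρ a e * e)⁻¹ * e⁻¹) := by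
    rw [map_mul, MulAut.mul_apply, map_mul]
    group
  rw [h1]
  exact D.mul_mem (hDinv a _ hb2) (hBn e heU _ (D.inv_mem ha2))

/-- A fixed-point-free involutory automorphism inverts. -/
theorem fpf_inverts (σ : MulAut T) (hσ : ∀ x, σ (σ x) = x) (Q : Subgroup T)
    (hinv : ∀ x ∈ Q, σ x ∈ Q) (hfpf : ∀ x ∈ Q, σ x = x → x = 1) : ∀ z ∈ Q, σ z = z⁻¹ := by
  let f : Q → Q := fun x => ⟨x.1⁻¹ * σ x.1, Q.mul_mem (Q.inv_mem x.2) (hinv _ x.2)⟩
  have hinj : Function.Injective f := by
    rintro ⟨x, hx⟩ ⟨y, hy⟩ h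
    have h1 : x⁻¹ * σ x = y⁻¹ * σ y := congrArg Subtype.val h
    have h2 : σ (y * x⁻¹) = y * x⁻¹ := by
      rw [map_mul, map_inv]
      have h3 : σ y = y * (x⁻¹ * σ x) := by rw [h1]; group
      rw [h3]
      group
    have h4 := hfpf _ (Q.mul_mem hy (Q.inv_mem hx)) h2
    apply Subtype.ext
    exact (mul_inv_eq_one.1 h4).symm
  have hsurj := Finite.injective_iff_surjective.1 hinj
  intro z hz
  obtain ⟨⟨x, hx⟩, hxz⟩ := hsurj ⟨z, hz⟩
  have h1 : x⁻¹ * σ x = z := congrArg Subtype.val hxz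
  rw [← h1, map_mul, map_inv, hσ, mul_inv_rev, inv_inv]

theorem fpf_comm (σ : MulAut T) (hσ : ∀ x, σ (σ x) = x) (Q : Subgroup T)
    (hinv : ∀ x ∈ Q, σ x ∈ Q) (hfpf : ∀ x ∈ Q, σ x = x → x = 1) :
    ∀ x ∈ Q, ∀ y ∈ Q, x * y = y * x := by
  have h := fpf_inverts σ hσ Q hinv hfpf
  intro x hx y hy
  have h1 : σ (x⁻¹ * y⁻¹) = (x⁻¹ * y⁻¹)⁻¹ := h _ (Q.mul_mem (Q.inv_mem hx) (Q.inv_mem hy))
  rw [map_mul, map_inv, map_inv, h x hx, h y hy, inv_inv, inv_inv, mul_inv_rev, inv_inv, inv_inv] at h1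
  exact h1

/-- Involutory automorphisms of cyclic `p`-groups, `p` odd, are trivial or inversion. -/
theorem cyclic_sign {p : ℕ} (hp : p.Prime) (hp2 : p ≠ 2) (hT : IsPGroup p T) (σ : MulAut T)
    (hσ : ∀ x, σ (σ x) = x) (c : T) (hc : σ c ∈ Subgroup.zpowers c) : σ c = c ∨ σ c = c⁻¹ := by
  haveI : Fact p.Prime := ⟨hp⟩
  obtain ⟨a, ha⟩ := Subgroup.mem_zpowers_iff.1 hc
  obtain ⟨m, hm⟩ := (IsPGroup.iff_orderOf.1 hT) c
  have h1 : c ^ (a * a - 1) = 1 := by
    have h2 := hσ c
    rw [← ha, map_zpow, ← ha, ← zpow_mul] at h2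
    rw [sub_eq_add_neg, zpow_add, h2, zpow_neg, zpow_one]
    exact mul_inv_cancel c
  have h3 := orderOf_dvd_iff_zpow_eq_one.2 h1
  rw [hm] at h3
  push_cast at h3
  have hfac : a * a - 1 = (a - 1) * (a + 1) := by ring
  rw [hfac] at h3
  have hpi : Prime (p : ℤ) := Nat.prime_iff_prime_int.1 hp
  by_cases hd : (p : ℤ) ∣ a - 1
  · left
    have hnd : ¬ (p : ℤ) ∣ a + 1 := by
      intro h
      have h4 : (p : ℤ) ∣ (a + 1) - (a - 1) := dvd_sub h hd
      have h5 : (a + 1) - (a - 1) = 2 := by ring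
      rw [h5] at h4
      have h6 : p ∣ 2 := by exact_mod_cast h4
      exact hp2 ((Nat.prime_dvd_prime_iff_eq hp Nat.prime_two).1 h6)
    have hco : IsCoprime ((p : ℤ) ^ m) (a + 1) := IsCoprime.pow_left (hpi.coprime_iff_not_dvd.2 hnd)
    have h7 := hco.dvd_of_dvd_mul_right h3
    have h8 : c ^ (a - 1) = 1 := by
      rw [orderOf_dvd_iff_zpow_eq_one.symm, hm]
      push_cast
      exact h7
    rw [← ha]
    rw [sub_eq_add_neg, zpow_add, zpow_neg, zpow_one, mul_inv_eq_one] at h8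
    exact h8
  · right
    have hco : IsCoprime ((p : ℤ) ^ m) (a - 1) := IsCoprime.pow_left (hpi.coprime_iff_not_dvd.2 hd)
    have h7 := hco.dvd_of_dvd_mul_left h3
    have h8 : c ^ (a + 1) = 1 := by
      rw [orderOf_dvd_iff_zpow_eq_one.symm, hm]
      push_cast
      exact h7
    rw [← ha]
    rw [zpow_add, zpow_one, mul_eq_one_iff_eq_inv] at h8
    exact h8

theorem card_sup_le_of_commute (H K : Subgroup T) (hc : ∀ h ∈ H, ∀ k ∈ K, h * k = k * h) :
    Nat.card ↥(H ⊔ K) ≤ Nat.card H * Nat.card K := by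
  let f : H × K → ↥(H ⊔ K) := fun p => ⟨p.1 * p.2, Subgroup.mul_mem_sup p.1.2 p.2.2⟩
  have hsurj : Function.Surjective f := by
    rintro ⟨y, hy⟩
    have key : ∃ a ∈ H, ∃ b ∈ K, y = a * b := by
      rw [Subgroup.sup_eq_closure] at hy
      induction hy using Subgroup.closure_induction with
      | mem x hx =>
        rcases hx with hx | hx
        · exact ⟨x, hx, 1, K.one_mem, by simp⟩
        · exact ⟨1, H.one_mem, x, hx, by simp⟩
      | one => exact ⟨1, H.one_mem, 1, K.one_mem, by simp⟩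
      | mul x y _ _ hx hy =>
        obtain ⟨a, ha, b, hb, rfl⟩ := hx
        obtain ⟨c, hc', d, hd, rfl⟩ := hy
        refine ⟨a * c, H.mul_mem ha hc', b * d, K.mul_mem hb hd, ?_⟩
        have := hc c hc' b hb
        calc a * b * (c * d) = a * (b * c) * d := by group
          _ = a * (c * b) * d := by rw [this]
          _ = a * c * (b * d) := by group
      | inv x _ hx =>
        obtain ⟨a, ha, b, hb, rfl⟩ := hx
        refine ⟨a⁻¹, H.inv_mem ha, b⁻¹, K.inv_mem hb, ?_⟩
        have := hc a⁻¹ (H.inv_mem ha) b⁻¹ (K.inv_mem hb)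
        rw [mul_inv_rev, this]
    obtain ⟨a, ha, b, hb, rfl⟩ := key
    exact ⟨(⟨a, ha⟩, ⟨b, hb⟩), rfl⟩
  rw [← Nat.card_prod]
  exact Nat.card_le_card_of_surjective f hsurj

/-- In an abelian group generated by two elements, a subgroup of exponent `p` has at most `p²`
elements. -/
theorem card_exp_le_of_two_gen {p : ℕ} (hp : p.Prime) (hab : ∀ x y : T, x * y = y * x) (a b : T)
    (h : Subgroup.closure {a, b} = ⊤) (K : Subgroup T) (hK : ∀ x ∈ K, x ^ p = 1) :
    Nat.card K ≤ p * p := by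
  classical
  let φ : T →* T :=
    { toFun := fun x => x ^ p
      map_one' := one_pow p
      map_mul' := fun x y => (show Commute x y from hab x y).mul_pow p }
  set R := φ.range with hR
  haveI hRn : R.Normal := ⟨fun n hn g => by
    rw [hab g n, mul_inv_cancel_right]
    exact hn⟩
  have hker : K ≤ φ.ker := fun x hx => hK x hx
  have h1 : Nat.card φ.ker * Nat.card R = Nat.card R * R.index := by
    rw [Subgroup.card_mul_index R, ← Subgroup.index_ker φ, Subgroup.card_mul_index]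
  have hRpos : 0 < Nat.card R := Nat.card_pos
  have h2 : Nat.card φ.ker = R.index := by
    rw [mul_comm] at h1
    exact Nat.eq_of_mul_eq_mul_left hRpos h1
  let π := QuotientGroup.mk' R
  have hπ : Function.Surjective π := QuotientGroup.mk'_surjective R
  have hexp : ∀ q : T ⧸ R, orderOf q ≤ p := by
    intro q
    obtain ⟨x, rfl⟩ := hπ q
    have h3 : (π x) ^ p = 1 := by
      rw [← map_pow]
      exact (QuotientGroup.eq_one_iff _).2 ⟨x, rfl⟩
    exact Nat.le_of_dvd hp.pos (orderOf_dvd_of_pow_eq_one h3)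
  have hgen : Subgroup.zpowers (π a) ⊔ Subgroup.zpowers (π b) = ⊤ := by
    have h3 : (Subgroup.closure {a, b}).map π = ⊤ := by
      rw [h, Subgroup.map_top_of_surjective π hπ]
    rw [MonoidHom.map_closure, Set.image_pair, Set.insert_eq, Subgroup.closure_union,
      ← Subgroup.zpowers_eq_closure, ← Subgroup.zpowers_eq_closure] at h3
    exact h3
  have hcomm : ∀ x ∈ Subgroup.zpowers (π a), ∀ y ∈ Subgroup.zpowers (π b), x * y = y * x := by
    intro x _ y _
    obtain ⟨x, rfl⟩ := hπ x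
    obtain ⟨y, rfl⟩ := hπ y
    rw [← map_mul, ← map_mul, hab]
  have h3 := card_sup_le_of_commute _ _ hcomm
  rw [hgen, Subgroup.card_top, Nat.card_zpowers, Nat.card_zpowers] at h3
  have h4 : Nat.card (T ⧸ R) = R.index := rfl
  calc Nat.card K ≤ Nat.card φ.ker := Subgroup.card_le_of_le hker
    _ = R.index := h2
    _ = Nat.card (T ⧸ R) := h4.symm
    _ ≤ orderOf (π a) * orderOf (π b) := h3
    _ ≤ p * p := Nat.mul_le_mul (hexp _) (hexp _)

/-- Two elements of the same prime order in a cyclic subgroup generate the same subgroup. -/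
theorem mem_zpowers_of_prime_order {g u v : T} (hu : u ∈ Subgroup.zpowers g)
    (hv : v ∈ Subgroup.zpowers g) {q : ℕ} (hq : q.Prime) (huq : orderOf u = q)
    (hvq : orderOf v = q) : v ∈ Subgroup.zpowers u := by
  classical
  by_contra hcon
  let Z := Subgroup.zpowers g
  haveI : Fintype Z := Fintype.ofFinite Z
  let u' : Z := ⟨u, hu⟩
  let v' : Z := ⟨v, hv⟩
  have huq' : orderOf u' = q := by rw [Subgroup.orderOf_mk]; exact huq
  have hvq' : orderOf v' = q := by rw [Subgroup.orderOf_mk]; exact hvq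
  have h1 := IsCyclic.card_pow_eq_one_le (α := Z) (n := q) hq.pos
  let A : Finset Z := Finset.univ.filter (fun x => x ∈ Subgroup.zpowers u')
  have hA : A.card = q := by
    have h2 : Nat.card (Subgroup.zpowers u') = q := by rw [Nat.card_zpowers, huq']
    rw [← h2, Nat.card_eq_fintype_card, Fintype.card_subtype]
  have hv'A : v' ∉ A := by
    intro h
    have h2 : v' ∈ Subgroup.zpowers u' := (Finset.mem_filter.1 h).2
    obtain ⟨m, hm⟩ := Subgroup.mem_zpowers_iff.1 h2
    apply hcon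
    refine Subgroup.mem_zpowers_iff.2 ⟨m, ?_⟩
    have h3 := congrArg Subtype.val hm
    simpa [u', v'] using h3
  have hsub : insert v' A ⊆ Finset.univ.filter (fun x : Z => x ^ q = 1) := by
    intro x hx
    rw [Finset.mem_insert] at hx
    rw [Finset.mem_filter]
    refine ⟨Finset.mem_univ _, ?_⟩
    rcases hx with rfl | hx
    · rw [← hvq', pow_orderOf_eq_one]
    · have h2 : x ∈ Subgroup.zpowers u' := (Finset.mem_filter.1 hx).2
      obtain ⟨m, rfl⟩ := Subgroup.mem_zpowers_iff.1 h2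
      rw [← zpow_natCast, zpow_comm, zpow_natCast, ← huq', pow_orderOf_eq_one, one_zpow]
  have h2 := Finset.card_le_card hsub
  rw [Finset.card_insert_of_notMem hv'A, hA] at h2
  omega

end Act

end CfsgLib.FGS.Eigen
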