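import Cfsg.Agent.Lib.FGS.FrobDiv
import Cfsg.Agent.Lib.FGS.Syl

/-!
# Counting `p`-elements over a quotient.
-/

set_option autoImplicit false
set_option linter.unusedSectionVars false
set_option linter.style.haveILetI false

namespace CfsgLib.FGS

universe u

open Subgroup

variable {G : Type u} [Group G] [Finite G] {p : ℕ} (hp : p.Prime) (N : Subgroup G) [N.Normal]
include hp

/-- `p`-elements mapping into a subgroup of the quotient. -/
theorem dvd_card_pelts_comap (T : Subgroup (G ⧸ N)) (a : ℕ)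
    (ha : p ^ a ∣ Nat.card T * Nat.card N) :
    p ^ a ∣ Nat.card {x : G // (∃ k, x ^ p ^ k = 1) ∧ (x : G ⧸ N) ∈ T} := by
  have hcard : Nat.card (T.comap (QuotientGroup.mk' N)) = Nat.card T * Nat.card N := by
    have h1 := Subgroup.card_mul_index (T.comap (QuotientGroup.mk' N))
    have h2 := Subgroup.card_mul_index T
    have h3 := Subgroup.index_comap_of_surjective T (QuotientGroup.mk'_surjective N)
    have h4 := Subgroup.card_eq_card_quotient_mul_card_subgroup N
    rw [h3, ] at h1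
    have hi : T.index ≠ 0 := Subgroup.index_ne_zero_of_finite
    apply Nat.eq_of_mul_eq_mul_right (Nat.pos_of_ne_zero hi)
    rw [h1, h4, ← h2]
    ring
  rw [← hcard] at ha
  have h1 := pow_dvd_card_pelts p hp _ (T.comap (QuotientGroup.mk' N)) rfl a ha
  have h2 : Nat.card {u : T.comap (QuotientGroup.mk' N) // ∃ k, u ^ p ^ k = 1} =
      Nat.card {x : G // (∃ k, x ^ p ^ k = 1) ∧ (x : G ⧸ N) ∈ T} := by
    refine Nat.card_congr ⟨fun u => ⟨u.1.1, ?_, u.1.2⟩, fun x => ⟨⟨x.1, x.2.2⟩, ?_⟩, fun _ => rfl,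
      fun _ => rfl⟩
    · obtain ⟨k, hk⟩ := u.2
      exact ⟨k, by simpa using congrArg (fun z : T.comap (QuotientGroup.mk' N) => (z : G)) hk⟩
    · obtain ⟨k, hk⟩ := x.2.1
      exact ⟨k, Subtype.ext (by simpa using hk)⟩
  rwa [h2] at h1

/-- The number of `p`-elements in a coset. -/
noncomputable def cosetPelts (N : Subgroup G) [N.Normal] (p : ℕ) (y : G ⧸ N) : ℕ :=
  Nat.card {x : G // (∃ k, x ^ p ^ k = 1) ∧ (x : G ⧸ N) = y}

/-- Generators have the same number of `p`-elements above them. -/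
theorem cosetPelts_pow (y : G ⧸ N) (i : ℕ) (hy : ∃ k, y ^ p ^ k = 1) (ht : ¬ p ∣ i) :
    cosetPelts N p (y ^ i) = cosetPelts N p y := by
  obtain ⟨β, M, hM, hNM⟩ := Nat.exists_eq_pow_mul_and_not_dvd (Nat.card_pos (α := G)).ne' p hp.ne_one
  have hd : Nat.card G ∣ p ^ β * M := by rw [← hNM]
  have hdq : Nat.card (G ⧸ N) ∣ p ^ β * M := by
    rw [← hNM, Subgroup.card_eq_card_quotient_mul_card_subgroup N]
    exact Dvd.intro _ rfl
  have hcop : i.Coprime (p ^ β) :=
    (Nat.Coprime.pow_left _ ((Nat.Prime.coprime_iff_not_dvd hp).mpr ht)).symm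
  obtain ⟨l, hl⟩ : ∃ l, i * l ≡ 1 [MOD p ^ β] := by
    have h1 := (Nat.chineseRemainder hcop 0 1).2
    obtain ⟨l, hl⟩ := Nat.modEq_zero_iff_dvd.mp h1.1
    exact ⟨l, hl ▸ h1.2⟩
  have hyβ : y ^ p ^ β = 1 := by
    obtain ⟨k, hk⟩ := hy
    exact pow_eq_one_of_pelt hp hM hdq hk
  have hyl : (y ^ i) ^ l = y := by
    rw [← pow_mul]
    have := pow_eq_pow_of_modEq_of_pow hyβ hl
    rwa [pow_one] at this
  have hxl : ∀ x : G, (∃ k, x ^ p ^ k = 1) → x ^ (i * l) = x := by
    rintro x ⟨k, hk⟩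
    have h1 := pow_eq_one_of_pelt hp hM hd hk
    have := pow_eq_pow_of_modEq_of_pow h1 hl
    rwa [pow_one] at this
  have hxl' : ∀ x : G, (∃ k, x ^ p ^ k = 1) → x ^ (l * i) = x := by
    intro x hx
    rw [mul_comm]
    exact hxl x hx
  have hpe : ∀ x : G, ∀ j : ℕ, (∃ k, x ^ p ^ k = 1) → ∃ k, (x ^ j) ^ p ^ k = 1 := by
    rintro x j ⟨k, hk⟩
    exact ⟨k, by rw [← pow_mul, mul_comm, pow_mul, hk, one_pow]⟩
  unfold cosetPelts
  refine Nat.card_congr ⟨fun x => ⟨x.1 ^ l, hpe _ _ x.2.1, ?_⟩, fun x => ⟨x.1 ^ i, hpe _ _ x.2.1, ?_⟩,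
    ?_, ?_⟩
  · rw [QuotientGroup.mk_pow, x.2.2]
    exact hyl
  · rw [QuotientGroup.mk_pow, x.2.2]
  · intro x
    apply Subtype.ext
    show (x.1 ^ l) ^ i = x.1
    rw [← pow_mul]
    exact hxl' _ x.2.1
  · intro x
    apply Subtype.ext
    show (x.1 ^ i) ^ l = x.1
    rw [← pow_mul]
    exact hxl _ x.2.1

/-- The Frobenius divisibility for cosets. -/
theorem dvd_cosetPelts (y : G ⧸ N) (hy : ∃ k, y ^ p ^ k = 1) (s : ℕ) (hs : p ^ s ∣ Nat.card N) :
    p ^ s ∣ cosetPelts N p y := by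
  classical
  letI := Fintype.ofFinite G
  letI := Fintype.ofFinite (G ⧸ N)
  obtain ⟨k₀, hk₀⟩ := hy
  obtain ⟨k, _, hk⟩ := (Nat.dvd_prime_pow hp).mp (orderOf_dvd_of_pow_eq_one hk₀)
  cases k with
  | zero =>
    have hy1 : y = 1 := orderOf_eq_one_iff.mp (by simpa using hk)
    subst hy1
    have h1 := dvd_card_pelts_comap hp N (⊥ : Subgroup (G ⧸ N)) s (by
      simpa using hs)
    have h2 : Nat.card {x : G // (∃ k, x ^ p ^ k = 1) ∧ (x : G ⧸ N) ∈ (⊥ : Subgroup (G ⧸ N))} =
        cosetPelts N p 1 := by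
      apply Nat.card_congr
      apply Equiv.subtypeEquivRight
      intro x
      simp
    rwa [h2] at h1
  | succ k =>
    have hT1 : Nat.card (Subgroup.zpowers y) = p ^ (k + 1) := by
      rw [Nat.card_zpowers, hk]
    have hT2 : Nat.card (Subgroup.zpowers (y ^ p)) = p ^ k := by
      rw [Nat.card_zpowers, orderOf_pow' y hp.ne_zero, hk, Nat.gcd_eq_right (dvd_pow_self p (by omega)),
        pow_succ]
      exact Nat.mul_div_cancel _ hp.pos
    have hle : Subgroup.zpowers (y ^ p) ≤ Subgroup.zpowers y := by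
      rw [Subgroup.zpowers_le]
      exact pow_mem (Subgroup.mem_zpowers y) p
    have hE1 := dvd_card_pelts_comap hp N (Subgroup.zpowers y) (k + 1 + s) (by
      rw [hT1, pow_add]
      exact Nat.mul_dvd_mul_left _ hs)
    have hE2 := dvd_card_pelts_comap hp N (Subgroup.zpowers (y ^ p)) (k + s) (by
      rw [hT2, pow_add]
      exact Nat.mul_dvd_mul_left _ hs)
    -- the decomposition
    let Gen : Finset (G ⧸ N) := Finset.univ.filter
      (fun z => z ∈ Subgroup.zpowers y ∧ z ∉ Subgroup.zpowers (y ^ p))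
    have hGencard : Gen.card = p ^ k * (p - 1) := by
      have h1 : (Finset.univ.filter (fun z => z ∈ Subgroup.zpowers y)).card = p ^ (k + 1) := by
        rw [← hT1, Nat.card_eq_fintype_card, Fintype.card_subtype]
      have h2 : (Finset.univ.filter (fun z => z ∈ Subgroup.zpowers (y ^ p))).card = p ^ k := by
        rw [← hT2, Nat.card_eq_fintype_card, Fintype.card_subtype]
      have h3 := Finset.card_filter_add_card_filter_not (s := Finset.univ.filter
        (fun z => z ∈ Subgroup.zpowers y)) (fun z => z ∈ Subgroup.zpowers (y ^ p))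
      have h4 : (Finset.univ.filter (fun z => z ∈ Subgroup.zpowers y)).filter
          (fun z => z ∈ Subgroup.zpowers (y ^ p)) =
          Finset.univ.filter (fun z => z ∈ Subgroup.zpowers (y ^ p)) := by
        ext z
        simp only [Finset.mem_filter, Finset.mem_univ, true_and]
        exact ⟨fun h => h.2, fun h => ⟨hle h, h⟩⟩
      have h5 : (Finset.univ.filter (fun z => z ∈ Subgroup.zpowers y)).filter
          (fun z => ¬ z ∈ Subgroup.zpowers (y ^ p)) = Gen := by
        ext z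
        simp [Gen]
      rw [h4, h5, h1, h2] at h3
      have h6 : p ^ (k + 1) = p ^ k * (p - 1) + p ^ k := by
        have := hp.one_lt
        obtain ⟨q, rfl⟩ : ∃ q, p = q + 1 := ⟨p - 1, by omega⟩
        simp only [Nat.add_sub_cancel]
        ring
      omega
    have hGenc : ∀ z ∈ Gen, cosetPelts N p z = cosetPelts N p y := by
      intro z hz
      have hz' : z ∈ Subgroup.zpowers y ∧ z ∉ Subgroup.zpowers (y ^ p) := by simpa [Gen] using hz
      obtain ⟨i, rfl⟩ := Submonoid.mem_powers_iff _ _ |>.mp (mem_powers_iff_mem_zpowers.mpr hz'.1)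
      apply cosetPelts_pow hp N y i ⟨k₀, hk₀⟩
      rintro ⟨j, rfl⟩
      apply hz'.2
      rw [pow_mul]
      exact pow_mem (Subgroup.mem_zpowers _) j
    have hD : Nat.card {x : G // (∃ k, x ^ p ^ k = 1) ∧ (x : G ⧸ N) ∈ Subgroup.zpowers y} =
        Nat.card {x : G // (∃ k, x ^ p ^ k = 1) ∧ (x : G ⧸ N) ∈ Subgroup.zpowers (y ^ p)} +
          p ^ k * (p - 1) * cosetPelts N p y := by
      rw [Nat.card_eq_fintype_card, Fintype.card_subtype, Nat.card_eq_fintype_card,
        Fintype.card_subtype]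
      rw [← Finset.card_filter_add_card_filter_not (s := Finset.univ.filter
        (fun x : G => (∃ k, x ^ p ^ k = 1) ∧ (x : G ⧸ N) ∈ Subgroup.zpowers y))
        (fun x : G => (x : G ⧸ N) ∈ Subgroup.zpowers (y ^ p))]
      congr 1
      · congr 1
        ext x
        simp only [Finset.mem_filter, Finset.mem_univ, true_and]
        constructor
        · rintro ⟨⟨h1, _⟩, h3⟩
          exact ⟨h1, h3⟩
        · rintro ⟨h1, h3⟩
          exact ⟨⟨h1, hle h3⟩, h3⟩
      · rw [← hGencard, Finset.card_eq_sum_card_fiberwise (f := fun x : G => (x : G ⧸ N)) (t := Gen)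
          (fun x hx => by
            have hx' := Finset.mem_coe.mp hx
            simp only [Finset.mem_filter, Finset.mem_univ, true_and] at hx'
            apply Finset.mem_coe.mpr
            simp only [Gen, Finset.mem_filter, Finset.mem_univ, true_and]
            exact ⟨hx'.1.2, hx'.2⟩)]
        rw [← smul_eq_mul, ← Finset.sum_const]
        apply Finset.sum_congr rfl
        intro z hz
        rw [← hGenc z hz]
        unfold cosetPelts
        rw [Nat.card_eq_fintype_card, Fintype.card_subtype]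
        congr 1
        ext x
        have hz' : z ∈ Subgroup.zpowers y ∧ z ∉ Subgroup.zpowers (y ^ p) := by simpa [Gen] using hz
        simp only [Finset.mem_filter, Finset.mem_univ, true_and]
        constructor
        · rintro ⟨⟨⟨h1, _⟩, _⟩, h3⟩
          exact ⟨h1, h3⟩
        · rintro ⟨h1, h3⟩
          rw [h3]
          exact ⟨⟨⟨h1, hz'.1⟩, hz'.2⟩, rfl⟩
    have h7 : p ^ (k + s) ∣ p ^ k * (p - 1) * cosetPelts N p y := by
      have h8 : p ^ (k + s) ∣ Nat.card {x : G // (∃ k, x ^ p ^ k = 1) ∧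
          (x : G ⧸ N) ∈ Subgroup.zpowers y} :=
        (pow_dvd_pow p (show k + s ≤ k + 1 + s by omega)).trans hE1
      rw [hD] at h8
      exact (Nat.dvd_add_right hE2).mp h8
    rw [pow_add, mul_assoc] at h7
    have h8 := Nat.dvd_of_mul_dvd_mul_left (pow_pos hp.pos k) h7
    have hcop : (p ^ s).Coprime (p - 1) := by
      apply Nat.Coprime.pow_left
      rw [Nat.Prime.coprime_iff_not_dvd hp]
      intro h9
      have h11 := hp.one_lt
      have h10 := Nat.le_of_dvd (by omega) h9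
      omega
    exact hcop.dvd_of_dvd_mul_left h8

/-- Over a `p`-element there is a `p`-element. -/
theorem cosetPelts_pos (y : G ⧸ N) (hy : ∃ k, y ^ p ^ k = 1) : 0 < cosetPelts N p y := by
  obtain ⟨β, M, hM, hNM⟩ := Nat.exists_eq_pow_mul_and_not_dvd (Nat.card_pos (α := G)).ne' p hp.ne_one
  have hcop : (p ^ β).Coprime M :=
    Nat.Coprime.pow_left _ ((Nat.Prime.coprime_iff_not_dvd hp).mpr hM)
  have hexp : ∀ x : G, x ^ (p ^ β * M) = 1 := by
    intro x
    rw [← hNM]
    exact pow_card_eq_one'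
  have hdq : Nat.card (G ⧸ N) ∣ p ^ β * M := by
    rw [← hNM, Subgroup.card_eq_card_quotient_mul_card_subgroup N]
    exact Dvd.intro _ rfl
  obtain ⟨e, e', hs⟩ := exists_splitData hexp hcop
  obtain ⟨k, hk⟩ := hy
  have hyβ : y ^ p ^ β = 1 := pow_eq_one_of_pelt hp hM hdq hk
  obtain ⟨g, rfl⟩ := QuotientGroup.mk_surjective y
  have h1 := pow_eq_pow_of_modEq_of_pow hyβ hs.he1
  rw [pow_one] at h1
  unfold cosetPelts
  rw [Nat.card_pos_iff]
  refine ⟨⟨⟨g ^ e, ⟨β, hs.pow_e_pow_A g⟩, ?_⟩⟩, inferInstance⟩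
  rw [QuotientGroup.mk_pow]
  exact h1

/-- The `p`-elements of an abelian group form the Sylow subgroup. -/
theorem card_pelts_of_comm {H : Type u} [Group H] [Finite H] (hc : ∀ a b : H, a * b = b * a) :
    Nat.card {z : H // ∃ k, z ^ p ^ k = 1} = p ^ (Nat.card H).factorization p := by
  haveI : Fact p.Prime := ⟨hp⟩
  obtain ⟨Q⟩ : Nonempty (Sylow p H) := inferInstance
  rw [← Sylow.card_eq_multiplicity Q]
  have hQn : (Q : Subgroup H).Normal := by
    constructor
    intro n hn g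
    rw [hc g n]
    simpa using hn
  have h1 : ∀ z : H, (∃ k, z ^ p ^ k = 1) ↔ z ∈ (Q : Subgroup H) := by
    intro z
    constructor
    · rintro ⟨k, hk⟩
      have h2 : IsPGroup p (Subgroup.zpowers z) := by
        rw [IsPGroup.iff_card, Nat.card_zpowers]
        obtain ⟨i, _, hi⟩ := (Nat.dvd_prime_pow hp).mp (orderOf_dvd_of_pow_eq_one hk)
        exact ⟨i, hi⟩
      exact (le_of_normal_sylow Q hQn h2) (Subgroup.mem_zpowers z)
    · intro hz
      obtain ⟨k, hk⟩ := Q.isPGroup' ⟨z, hz⟩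
      exact ⟨k, by simpa using congrArg (fun w : (Q : Subgroup H) => (w : H)) hk⟩
  exact Nat.card_congr (Equiv.subtypeEquivRight h1)

/-- For central `N` each coset over a `p`-element has exactly the `p`-part of `|N|`. -/
theorem cosetPelts_central (hN : N ≤ Subgroup.center G) (y : G ⧸ N) (hy : ∃ k, y ^ p ^ k = 1) :
    cosetPelts N p y = p ^ (Nat.card N).factorization p := by
  have hpos := cosetPelts_pos hp N y hy
  unfold cosetPelts at hpos
  rw [Nat.card_pos_iff] at hpos
  obtain ⟨⟨⟨x₀, hx₀, hx₀y⟩⟩, _⟩ := hpos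
  have hcN : ∀ a b : N, a * b = b * a := by
    intro a b
    apply Subtype.ext
    exact (Subgroup.mem_center_iff.mp (hN a.2) b.1).symm
  rw [← card_pelts_of_comm hp hcN]
  unfold cosetPelts
  have hcomm : ∀ (z : N), Commute x₀ (z : G) := fun z =>
    (Subgroup.mem_center_iff.mp (hN z.2) x₀)
  obtain ⟨k₀, hk₀⟩ := hx₀
  have hmem : ∀ x : {x : G // (∃ k, x ^ p ^ k = 1) ∧ (x : G ⧸ N) = y}, x₀⁻¹ * x.1 ∈ N := by
    intro x
    have h1 : (x₀ : G ⧸ N) = (x.1 : G ⧸ N) := hx₀y.trans x.2.2.symm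
    exact QuotientGroup.eq.mp h1
  refine Nat.card_congr ⟨fun x => ⟨⟨x₀⁻¹ * x.1, hmem x⟩, ?_⟩, fun z => ⟨x₀ * z.1.1, ?_, ?_⟩, ?_, ?_⟩
  · obtain ⟨k, hk⟩ := x.2.1
    have hz := hcomm ⟨x₀⁻¹ * x.1, hmem x⟩
    have h2 : x.1 = x₀ * (x₀⁻¹ * x.1) := by group
    have h3 : Commute x₀ x.1 := by
      rw [h2]
      exact (Commute.refl x₀).mul_right hz
    refine ⟨k₀ + k, Subtype.ext ?_⟩
    show (x₀⁻¹ * x.1) ^ p ^ (k₀ + k) = 1
    rw [h3.inv_left.mul_pow, inv_pow, pow_add, pow_mul, hk₀, pow_mul', hk]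
    simp
  · obtain ⟨k, hk⟩ := z.2
    refine ⟨k₀ + k, ?_⟩
    have hk' : ((z.1 : N) : G) ^ p ^ k = 1 := by
      simpa using congrArg (fun w : N => (w : G)) hk
    rw [(hcomm z.1).mul_pow, pow_add, pow_mul, hk₀, pow_mul', hk']
    simp
  · rw [QuotientGroup.mk_mul, hx₀y, (QuotientGroup.eq_one_iff _).mpr z.1.2, mul_one]
  · intro x
    apply Subtype.ext
    show x₀ * (x₀⁻¹ * x.1) = x.1
    group
  · intro z
    apply Subtype.ext
    apply Subtype.ext
    show x₀⁻¹ * (x₀ * (z.1 : G)) = z.1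
    group

open Classical in
/-- Counting `p`-elements over a quotient. -/
theorem card_pelts_eq_sum :
    letI := Fintype.ofFinite (G ⧸ N)
    Nat.card {g : G // ∃ k, g ^ p ^ k = 1} =
      ∑ y ∈ Finset.univ.filter (fun y : G ⧸ N => ∃ k, y ^ p ^ k = 1), cosetPelts N p y := by
  classical
  letI := Fintype.ofFinite (G ⧸ N)
  letI := Fintype.ofFinite G
  rw [Nat.card_eq_fintype_card, Fintype.card_subtype,
    Finset.card_eq_sum_card_fiberwise (f := fun x : G => (x : G ⧸ N))
      (t := Finset.univ.filter (fun y : G ⧸ N => ∃ k, y ^ p ^ k = 1))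
      (fun x hx => by
        have hx' := Finset.mem_coe.mp hx
        simp only [Finset.mem_filter, Finset.mem_univ, true_and] at hx'
        apply Finset.mem_coe.mpr
        simp only [Finset.mem_filter, Finset.mem_univ, true_and]
        obtain ⟨k, hk⟩ := hx'
        refine ⟨k, ?_⟩
        rw [← QuotientGroup.mk_pow, hk, QuotientGroup.mk_one])]
  apply Finset.sum_congr rfl
  intro y _
  unfold cosetPelts
  rw [Nat.card_eq_fintype_card, Fintype.card_subtype]
  congr 1
  ext x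
  simp only [Finset.mem_filter, Finset.mem_univ, true_and]

theorem pelts_iff {H : Type*} [Group H] (g : H) : (∃ k : ℕ, orderOf g = p ^ k) ↔ ∃ k, g ^ p ^ k = 1 := by
  constructor
  · rintro ⟨k, hk⟩
    exact ⟨k, by rw [← hk, pow_orderOf_eq_one]⟩
  · rintro ⟨k, hk⟩
    obtain ⟨i, _, hi⟩ := (Nat.dvd_prime_pow hp).mp (orderOf_dvd_of_pow_eq_one hk)
    exact ⟨i, hi⟩

end CfsgLib.FGS
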