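import Cfsg.Agent.Lib.Char.RealChar
import Cfsg.Agent.Lib.Char.Burnside

/-!
# The Frobenius–Schur indicator is an integer.
-/

set_option autoImplicit false

namespace CfsgLib.FGS

open Matrix
open scoped Kronecker

universe u

section Trace

variable {ι : Type*} [Fintype ι] [DecidableEq ι]

/-- An idempotent complex matrix has natural-number trace. -/
theorem exists_nat_trace_of_idem (P : Matrix ι ι ℂ) (hP : P * P = P) :
    ∃ n : ℕ, P.trace = n := by
  classical
  have h1 : IsIdempotentElem (Matrix.toLin' P) := by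
    unfold IsIdempotentElem
    rw [Module.End.mul_eq_comp, ← Matrix.toLin'_mul, hP]
  refine ⟨Module.finrank ℂ (LinearMap.range (Matrix.toLin' P)), ?_⟩
  have := ((LinearMap.isProj_range_iff_isIdempotentElem _).2 h1).trace
  rw [← this, LinearMap.trace_eq_matrix_trace ℂ (Pi.basisFun ℂ ι)]
  congr 1
  ext i j
  simp [Matrix.toLin'_apply]

end Trace

section Indicator

variable {G : Type u} [Group G] [Fintype G]

/-- The indicator of a character is an integer. -/
theorem exists_int_indicator {n : ℕ} (ρ : Representation ℂ G (Fin n → ℂ)) :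
    ∃ z : ℤ, (Nat.card G : ℂ)⁻¹ * ∑ s, ρ.character (s * s) = z := by
  classical
  let a : G → Matrix (Fin n) (Fin n) ℂ := fun s => LinearMap.toMatrix' (ρ s)
  have ha : ∀ s t, a (s * t) = a s * a t := by
    intro s t
    simp only [a, map_mul, Module.End.mul_eq_comp, LinearMap.toMatrix'_comp]
  have hc : ∀ s, ρ.character s = (a s).trace := by
    intro s
    simp only [Representation.character, a]
    rw [LinearMap.trace_eq_matrix_trace ℂ (Pi.basisFun ℂ (Fin n))]
    rfl
  have hne : (Nat.card G : ℂ) ≠ 0 := by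
    simp
  set c : ℂ := (Nat.card G : ℂ)⁻¹ with hcdef
  -- the averaging matrix
  let T : Matrix (Fin n × Fin n) (Fin n × Fin n) ℂ :=
    c • ∑ s, (a s) ⊗ₖ (a s)
  have hT : ∀ x y, T x y = c * ∑ s, a s x.1 y.1 * a s x.2 y.2 := by
    intro x y
    simp only [T, Matrix.smul_apply, Matrix.sum_apply, smul_eq_mul, Matrix.kroneckerMap_apply]
  have hTT : T * T = T := by
    have h1 : (∑ s, (a s) ⊗ₖ (a s)) * (∑ t, (a t) ⊗ₖ (a t)) =
        (Nat.card G : ℂ) • ∑ u, (a u) ⊗ₖ (a u) := by
      rw [Finset.sum_mul]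
      simp only [Finset.mul_sum, ← Matrix.mul_kronecker_mul]
      have : ∀ s : G, ∑ t, (a s * a t) ⊗ₖ (a s * a t) = ∑ u, (a u) ⊗ₖ (a u) := by
        intro s
        simp only [← ha]
        exact Fintype.sum_equiv (Equiv.mulLeft s) _ _ (fun _ => rfl)
      simp only [this, Finset.sum_const, Finset.card_univ, Nat.card_eq_fintype_card]
      rw [Nat.cast_smul_eq_nsmul]
    simp only [T, Matrix.smul_mul, Matrix.mul_smul, h1, smul_smul]
    congr 1
    rw [hcdef]
    field_simp
  let σ : Fin n × Fin n → Fin n × Fin n := Prod.swap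
  have hσ : ∀ x, σ (σ x) = x := fun x => Prod.swap_swap x
  let σe : Equiv.Perm (Fin n × Fin n) := Equiv.prodComm _ _
  -- the twisted matrix
  obtain ⟨B, hB⟩ : ∃ B : Matrix (Fin n × Fin n) (Fin n × Fin n) ℂ, ∀ x y, B x y = T x (σ y) :=
    ⟨fun x y => T x (σ y), fun _ _ => rfl⟩
  have hTσ : ∀ x y, T (σ x) (σ y) = T x y := by
    intro x y
    rw [hT, hT]
    refine congrArg _ (Finset.sum_congr rfl fun s _ => ?_)
    simp [σ, mul_comm]
  have hBB : B * B = T := by
    ext x z
    simp only [Matrix.mul_apply, hB]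
    have : ∑ y, T x (σ y) * T y (σ z) = ∑ y, T x y * T y z := by
      refine Fintype.sum_equiv σe _ _ fun y => ?_
      have h2 : T y (σ z) = T (σ y) z := by
        have := hTσ y (σ z)
        rw [hσ] at this
        exact this.symm
      rw [h2]
      rfl
    rw [this, ← Matrix.mul_apply, hTT]
  have hTB : T * B = B := by
    ext x z
    simp only [Matrix.mul_apply, hB]
    rw [← Matrix.mul_apply, hTT]
  have hBT : B * T = B := by
    ext x z
    simp only [Matrix.mul_apply, hB]
    have : ∑ y, T x (σ y) * T y z = ∑ y, T x y * T y (σ z) := by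
      refine Fintype.sum_equiv σe _ _ fun y => ?_
      have h2 : T y z = T (σ y) (σ z) := (hTσ y z).symm
      rw [h2]
      rfl
    rw [this, ← Matrix.mul_apply, hTT]
  have hP1 : ((1/2 : ℂ) • (T + B)) * ((1/2 : ℂ) • (T + B)) = (1/2 : ℂ) • (T + B) := by
    rw [Matrix.smul_mul, Matrix.mul_smul, smul_smul, Matrix.add_mul, Matrix.mul_add, Matrix.mul_add,
      hTT, hTB, hBT, hBB]
    ext x y
    simp only [Matrix.smul_apply, Matrix.add_apply, smul_eq_mul]
    ring
  have hP2 : ((1/2 : ℂ) • (T - B)) * ((1/2 : ℂ) • (T - B)) = (1/2 : ℂ) • (T - B) := by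
    rw [Matrix.smul_mul, Matrix.mul_smul, smul_smul, Matrix.sub_mul, Matrix.mul_sub, Matrix.mul_sub,
      hTT, hTB, hBT, hBB]
    ext x y
    simp only [Matrix.smul_apply, Matrix.sub_apply, smul_eq_mul]
    ring
  obtain ⟨n₁, h₁⟩ := exists_nat_trace_of_idem _ hP1
  obtain ⟨n₂, h₂⟩ := exists_nat_trace_of_idem _ hP2
  have hBtr : B.trace = (n₁ : ℂ) - n₂ := by
    rw [← h₁, ← h₂]
    simp only [Matrix.trace_smul, Matrix.trace_add, Matrix.trace_sub, smul_eq_mul]
    ring
  refine ⟨(n₁ : ℤ) - n₂, ?_⟩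
  push_cast
  rw [← hBtr]
  -- compute the trace of `B`
  have hBtr2 : B.trace = c * ∑ s, (a s * a s).trace := by
    have e1 : B.trace = ∑ x : Fin n × Fin n, c * ∑ s, a s x.1 x.2 * a s x.2 x.1 := by
      simp only [Matrix.trace, Matrix.diag_apply, hB, hT]
      rfl
    rw [e1, ← Finset.mul_sum]
    congr 1
    rw [Finset.sum_comm]
    refine Finset.sum_congr rfl fun s _ => ?_
    rw [Fintype.sum_prod_type]
    simp only [Matrix.trace, Matrix.diag_apply, Matrix.mul_apply]
  rw [hBtr2]
  congr 1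
  refine Finset.sum_congr rfl fun s _ => ?_
  rw [hc, ha]

/-- The indicator of an irreducible character is an integer. -/
theorem exists_int_indicator_irr {χ : G → ℂ} (hχ : Cfsg.IsIrrCharacter G χ) :
    ∃ z : ℤ, (Nat.card G : ℂ)⁻¹ * ∑ s, χ (s * s) = z := by
  obtain ⟨n, ρ, -, rfl⟩ := hχ
  exact exists_int_indicator ρ

end Indicator

end CfsgLib.FGS
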