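import Mathlib
import Cfsg.Prelude.Def_HallClasses

set_option autoImplicit false
set_option linter.unusedSectionVars false
set_option linter.style.haveILetI false
set_option linter.unusedVariables false

open Equiv Equiv.Perm MulAction

namespace CfsgLib.FGS.HallE

universe u

theorem perm_ais {α : Type*} (f : Perm α) (x : α) : f (f⁻¹ x) = x := f.apply_symm_apply x

theorem perm_iai {α : Type*} (f : Perm α) (x : α) : f⁻¹ (f x) = x := f.symm_apply_apply x

section three

variable {α : Type*} [Fintype α] [DecidableEq α]

/-- The commutator of two permutations moving exactly one common point is a 3-cycle. -/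
theorem isThreeCycle_commutator (g g' : Perm α) (a : α) (ha1 : g a ≠ a) (ha2 : g' a ≠ a)
    (hAB : ∀ x, g x ≠ x → g' x ≠ x → x = a) : (g * g' * g⁻¹ * g'⁻¹).IsThreeCycle := by
  have hmv : ∀ (f : Perm α) (x : α), f x ≠ x → f (f x) ≠ f x := by
    intro f x hx h
    exact hx (f.injective h)
  have hmvi : ∀ (f : Perm α) (x : α), f x ≠ x → f⁻¹ x ≠ x := by
    intro f x hx h
    apply hx
    rw [Perm.inv_eq_iff_eq] at h
    exact h.symm
  have hmvi' : ∀ (f : Perm α) (x : α), f⁻¹ x ≠ x → f (f⁻¹ x) ≠ f⁻¹ x := by
    intro f x hx h
    apply hx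
    rw [perm_ais] at h
    exact h.symm
  have hfix : ∀ (f : Perm α) (x : α), ¬ f x ≠ x → f⁻¹ x = x := by
    intro f x hx
    push Not at hx
    rw [Perm.inv_eq_iff_eq]
    exact hx.symm
  have hf : g a ≠ a := ha1
  have hb : g' a ≠ a := ha2
  have hfb : a ≠ g a := fun h => ha1 h.symm
  have hab : a ≠ g' a := fun h => ha2 h.symm
  have hbf : g' a ≠ g a := by
    intro h
    have h1 : g (g' a) ≠ g' a := by
      rw [h]
      exact hmv g a ha1
    have h2 := hAB (g' a) h1 (hmv g' a ha2)
    exact ha2 h2
  have h3 : (g * g' * g⁻¹ * g'⁻¹) = swap a (g' a) * swap a (g a) := by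
    ext x
    simp only [Perm.mul_apply]
    by_cases hxa : x = a
    · -- x = a
      subst hxa
      rw [swap_apply_left, swap_apply_of_ne_of_ne (fun h => hfb h.symm) (fun h => hbf h.symm)]
      have h1 : g'⁻¹ x ≠ x := hmvi g' x ha2
      have h2 : g (g'⁻¹ x) = g'⁻¹ x := by
        by_contra hne
        exact h1 (hAB _ hne (hmvi' g' x h1))
      have h4 : g⁻¹ (g'⁻¹ x) = g'⁻¹ x := by
        rw [Perm.inv_eq_iff_eq]
        exact h2.symm
      rw [h4, perm_ais]
    · by_cases hxb : x = g' a
      · -- x = b
        subst hxb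
        rw [swap_apply_of_ne_of_ne hab.symm hbf, swap_apply_right, perm_iai]
        have h1 : g⁻¹ a ≠ a := hmvi g a ha1
        have h2 : g' (g⁻¹ a) = g⁻¹ a := by
          by_contra hne
          exact h1 (hAB _ (hmvi' g a h1) hne)
        rw [h2, perm_ais]
      · by_cases hxf : x = g a
        · subst hxf
          rw [swap_apply_right, swap_apply_left]
          have h1 : g' (g a) = g a := by
            by_contra hne
            have := hAB _ (hmv g a ha1) hne
            exact ha1 this
          have h2 : g'⁻¹ (g a) = g a := by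
            rw [Perm.inv_eq_iff_eq]
            exact h1.symm
          rw [h2, perm_iai]
          have h4 : g (g' a) = g' a := by
            by_contra hne
            have := hAB _ hne (hmv g' a ha2)
            exact ha2 this
          exact h4
        · rw [swap_apply_of_ne_of_ne hxa hxf, swap_apply_of_ne_of_ne hxa hxb]
          by_cases hxB : g' x ≠ x
          · -- x moved by g'
            have h1 : g'⁻¹ x ≠ a := by
              intro h
              apply hxb
              rw [Perm.inv_eq_iff_eq] at h
              exact h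
            have hmoved : g' (g'⁻¹ x) ≠ g'⁻¹ x := hmvi' g' x (hmvi g' x hxB)
            have h2 : g (g'⁻¹ x) = g'⁻¹ x := by
              by_contra hne
              exact h1 (hAB _ hne hmoved)
            have h4 : g⁻¹ (g'⁻¹ x) = g'⁻¹ x := by
              rw [Perm.inv_eq_iff_eq]
              exact h2.symm
            rw [h4, perm_ais]
            by_contra hne
            exact hxa (hAB _ hne hxB)
          · have h1 : g'⁻¹ x = x := hfix g' x hxB
            rw [h1]
            by_cases hxA : g x ≠ x
            · have h2 : g⁻¹ x ≠ a := by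
                intro h
                apply hxf
                rw [Perm.inv_eq_iff_eq] at h
                exact h
              have hmoved : g (g⁻¹ x) ≠ g⁻¹ x := hmvi' g x (hmvi g x hxA)
              have h4 : g' (g⁻¹ x) = g⁻¹ x := by
                by_contra hne
                exact h2 (hAB _ hmoved hne)
              rw [h4, perm_ais]
            · have h2 : g⁻¹ x = x := hfix g x hxA
              push Not at hxA hxB
              rw [h2, hxB, hxA]
  rw [h3]
  exact isThreeCycle_swap_mul_swap_same hab hfb hbf

end three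

section jordan

variable {α : Type*} [Fintype α] [DecidableEq α]

/-- The easy range of Jordan's theorem on primitive groups with a prime cycle. -/
theorem alternatingGroup_le_of_prime_cycle {G : Subgroup (Perm α)} (hG : IsPreprimitive G α)
    {q : ℕ} (hq : q.Prime) (hq' : 2 * q ≤ Nat.card α + 1) {g : Perm α} (hgc : g.IsCycle) (hgq : g.support.card = q)
    (hg : g ∈ G) : alternatingGroup α ≤ G := by
  classical
  have hcard : Nat.card α = Fintype.card α := Nat.card_eq_fintype_card
  have hq2 := hq.two_le
  obtain ⟨n, hn⟩ : ∃ n, Nat.card α = n + 1 + q := ⟨Nat.card α - q - 1, by omega⟩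
  have hsc : Set.ncard ((g.supportᶜ : Set α)) = n + 1 := by
    apply Nat.add_left_cancel (n := q)
    have h1 := Set.ncard_add_ncard_compl ((g.support : Finset α) : Set α)
    rw [Set.ncard_coe_finset, hgq] at h1
    have h2 : ((g.support : Finset α) : Set α)ᶜ = ((g.supportᶜ : Set α)) := rfl
    rw [h2] at h1
    omega
  have hmp : IsMultiplyPreprimitive G α (n + 2) := by
    apply hG.isMultiplyPreprimitive hsc
    · omega
    · have := isPretransitive_of_isCycle_mem hgc hg
      apply IsPreprimitive.of_prime_card
      convert! hq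
      rw [Nat.card_eq_fintype_card, Fintype.card_subtype, ← hgq]
      apply congr_arg
      ext x
      simp [SubMulAction.mem_ofFixingSubgroup_iff]
  have hmt : IsMultiplyPretransitive G α (n + 2) := IsMultiplyPreprimitive.isMultiplyPretransitive ..
  have hqn : q ≤ n + 2 := by omega
  have hmt' : IsMultiplyPretransitive G α q := isMultiplyPretransitive_of_le (n := n + 2) hqn (by omega)
  -- the second copy
  obtain ⟨a, ha⟩ : ∃ a, a ∈ g.support := by
    have : g.support.Nonempty := Finset.card_pos.1 (by omega)
    exact this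
  have hcompl : q - 1 ≤ (g.supportᶜ).card := by
    rw [Finset.card_compl, hgq, ← hcard]
    omega
  obtain ⟨Z, hZ, hZc⟩ := Finset.exists_subset_card_eq hcompl
  have haZ : a ∉ Z := fun h => (Finset.mem_compl.1 (hZ h)) ha
  obtain ⟨Y, hY⟩ : ∃ Y, Y = insert a Z := ⟨_, rfl⟩
  have hYc : Y.card = q := by
    rw [hY, Finset.card_insert_of_notMem haZ, hZc]
    omega
  let x : Fin q ↪ α := (Finset.equivFinOfCardEq hgq).symm.toEmbedding.trans (Function.Embedding.subtype _)
  let y : Fin q ↪ α := (Finset.equivFinOfCardEq hYc).symm.toEmbedding.trans (Function.Embedding.subtype _)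
  have hxm : ∀ i, x i ∈ g.support := fun i => ((Finset.equivFinOfCardEq hgq).symm i).2
  have hym : ∀ i, y i ∈ Y := fun i => ((Finset.equivFinOfCardEq hYc).symm i).2
  have hxs : ∀ u ∈ g.support, ∃ i, x i = u := by
    intro u hu
    refine ⟨Finset.equivFinOfCardEq hgq ⟨u, hu⟩, ?_⟩
    simp [x]
  have hys : ∀ u ∈ Y, ∃ i, y i = u := by
    intro u hu
    refine ⟨Finset.equivFinOfCardEq hYc ⟨u, hu⟩, ?_⟩
    simp [y]
  obtain ⟨h, hh⟩ := exists_smul_eq (M := G) x y
  have hhi : ∀ i, (h : Perm α) (x i) = y i := by
    intro i
    have := congrArg (fun e : Fin q ↪ α => e i) hh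
    exact this
  have hgh : ((h : Perm α) * g * (h : Perm α)⁻¹) ∈ G := G.mul_mem (G.mul_mem h.2 hg) (G.inv_mem h.2)
  set g' := (h : Perm α) * g * (h : Perm α)⁻¹ with hg'
  have hg'a : ∀ u, g' u ≠ u ↔ u ∈ Y := by
    intro u
    have h1 : g' u ≠ u ↔ (h : Perm α)⁻¹ u ∈ g.support := by
      rw [Perm.mem_support, hg']
      simp only [Perm.mul_apply]
      constructor
      · intro h2 h3
        apply h2
        rw [h3, perm_ais]
      · intro h2 h3
        apply h2
        apply (h : Perm α).injective
        rw [perm_ais]
        exact h3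
    rw [h1]
    constructor
    · intro h2
      obtain ⟨i, hi⟩ := hxs _ h2
      have := hhi i
      rw [hi, perm_ais] at this
      rw [this]
      exact hym i
    · intro h2
      obtain ⟨i, hi⟩ := hys _ h2
      have := hhi i
      rw [hi] at this
      rw [← this, perm_iai]
      exact hxm i
  have ha1 : g a ≠ a := Perm.mem_support.1 ha
  have ha2 : g' a ≠ a := (hg'a a).2 (by rw [hY]; exact Finset.mem_insert_self _ _)
  have hAB : ∀ u, g u ≠ u → g' u ≠ u → u = a := by
    intro u h1 h2
    have h3 := (hg'a u).1 h2
    rw [hY, Finset.mem_insert] at h3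
    rcases h3 with h3 | h3
    · exact h3
    · exact absurd (Perm.mem_support.2 h1) (Finset.mem_compl.1 (hZ h3))
  have h3c := isThreeCycle_commutator g g' a ha1 ha2 hAB
  have hmem : g * g' * g⁻¹ * g'⁻¹ ∈ G := G.mul_mem (G.mul_mem (G.mul_mem hg hgh) (G.inv_mem hg)) (G.inv_mem hgh)
  exact alternatingGroup_le_of_isPreprimitive_of_isThreeCycle_mem hG h3c hmem

end jordan

end CfsgLib.FGS.HallE
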