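import Cfsg.Agent.Lib.FGS.Hall1

set_option autoImplicit false
set_option linter.unusedSectionVars false
set_option linter.style.haveILetI false
set_option linter.unusedVariables false

open Equiv Equiv.Perm MulAction
open scoped Pointwise

namespace CfsgLib.FGS.HallE

universe u

variable {Ω : Type*} [Fintype Ω] [DecidableEq Ω]

/-- Block reduction: a transitive group of prime power degree containing a big cycle of another prime
power length and a prime cycle in its support has a section containing an alternating group. -/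
theorem dvd_card_of_block_reduction (H : Subgroup (Perm Ω)) (htr : IsPretransitive H Ω)
    {p q r a e : ℕ} (hp : p.Prime) (hq : q.Prime) (hr : r.Prime) (hpq : p ≠ q) (hΩ : Nat.card Ω = p ^ a)
    {z c : Perm Ω} (hz : z ∈ H) (hc : c ∈ H) (hzc : z.IsCycle) (hcc : c.IsCycle)
    (hzq : z.support.card = q ^ e) (hcq : c.support.card = q) (hcz : c.support ⊆ z.support)
    (h2q : 2 * q ≤ q ^ e + 1) (hre : r ≤ q ^ e) (h4 : 4 ≤ q ^ e) : r ∣ Nat.card H := by
  classical
  obtain ⟨c₀, hc₀⟩ : ∃ c₀, c₀ ∈ z.support := by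
    have : z.support.Nonempty := Finset.card_pos.1 (by omega)
    exact this
  obtain ⟨B, -, hBmin⟩ := Finite.exists_le_minimal (α := Set Ω) (p := fun B => IsBlock H B ∧ (z.support : Set Ω) ⊆ B)
    (a := Set.univ) ⟨IsBlock.univ, Set.subset_univ _⟩
  obtain ⟨hBb, hBs⟩ := hBmin.prop
  have hc₀B : c₀ ∈ B := hBs hc₀
  have hBstab : ∀ h : H, (∃ u ∈ B, (h : Perm Ω) u ∈ B) → h ∈ stabilizer H B := by
    intro h ⟨u, hu, hu2⟩
    rw [mem_stabilizer_iff]
    apply isBlock_iff_smul_eq_of_nonempty.1 hBb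
    exact ⟨_, ⟨u, hu, rfl⟩, hu2⟩
  let K : Subgroup H := stabilizer H B
  let ρ : K →* Perm ↥B := MulAction.toPermHom K ↥B
  obtain ⟨L, hL⟩ : ∃ L : Subgroup (Perm ↥B), L = ρ.range := ⟨_, rfl⟩
  have hρ : ∀ (k : K) (x : ↥B), ((ρ k x : ↥B) : Ω) = ((k : H) : Perm Ω) x := fun k x => rfl
  have hLmem : ∀ k : K, ρ k ∈ L := fun k => by rw [hL]; exact ⟨k, rfl⟩
  haveI hLtrans : IsPretransitive L ↥B := by
    refine ⟨fun x y => ?_⟩
    obtain ⟨h, hh⟩ := exists_smul_eq (M := H) (x : Ω) (y : Ω)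
    have hh' : (h : Perm Ω) (x : Ω) = y := hh
    have hk : h ∈ stabilizer H B := hBstab h ⟨x, x.2, by rw [hh']; exact y.2⟩
    refine ⟨⟨ρ ⟨h, hk⟩, hLmem _⟩, ?_⟩
    apply Subtype.ext
    exact hh'
  -- primitivity
  have hprim : IsPreprimitive L ↥B := by
    refine IsPreprimitive.of_isTrivialBlock_base (⟨c₀, hc₀B⟩ : ↥B) ?_
    intro B' ha hB'
    by_cases hsub : B'.Subsingleton
    · exact Or.inl hsub
    right
    obtain ⟨B₁, hB₁⟩ : ∃ B₁ : Set Ω, B₁ = Subtype.val '' B' := ⟨_, rfl⟩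
    have hB₁B : B₁ ⊆ B := by
      rw [hB₁]
      rintro _ ⟨x, _, rfl⟩
      exact x.2
    have hcB₁ : c₀ ∈ B₁ := by
      rw [hB₁]
      exact ⟨_, ha, rfl⟩
    have hmemB₁ : ∀ x : ↥B, (x : Ω) ∈ B₁ ↔ x ∈ B' := by
      intro x
      rw [hB₁]
      constructor
      · rintro ⟨y, hy, hyx⟩
        rwa [← Subtype.ext hyx]
      · intro hx
        exact ⟨x, hx, rfl⟩
    have hb₁ : IsBlock H B₁ := by
      apply isBlock_iff_smul_eq_of_nonempty.2
      intro h hne
      obtain ⟨v, ⟨u, hu, hv⟩, hv2⟩ := hne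
      have hv' : (h : Perm Ω) u = v := hv
      have hk : h ∈ stabilizer H B := hBstab h ⟨u, hB₁B hu, by rw [hv']; exact hB₁B hv2⟩
      have hu2 : (⟨u, hB₁B hu⟩ : ↥B) ∈ B' := (hmemB₁ _).1 hu
      have hv3 : (⟨v, hB₁B hv2⟩ : ↥B) ∈ B' := (hmemB₁ _).1 hv2
      have h1 : (⟨ρ ⟨h, hk⟩, hLmem _⟩ : L) • B' = B' := by
        apply isBlock_iff_smul_eq_of_nonempty.1 hB'
        refine ⟨⟨v, hB₁B hv2⟩, ⟨⟨u, hB₁B hu⟩, hu2, ?_⟩, hv3⟩
        apply Subtype.ext
        exact hv'
      ext w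
      constructor
      · rintro ⟨u', hu', rfl⟩
        have h3 : (⟨u', hB₁B hu'⟩ : ↥B) ∈ B' := (hmemB₁ _).1 hu'
        have h4 : (⟨ρ ⟨h, hk⟩, hLmem _⟩ : L) • (⟨u', hB₁B hu'⟩ : ↥B) ∈ (⟨ρ ⟨h, hk⟩, hLmem _⟩ : L) • B' := Set.smul_mem_smul_set h3
        rw [h1] at h4
        have h5 := (hmemB₁ _).2 h4
        exact h5
      · intro hw
        have hw' : (⟨w, hB₁B hw⟩ : ↥B) ∈ B' := (hmemB₁ _).1 hw
        rw [← h1] at hw'
        obtain ⟨u', hu', hu2'⟩ := hw'
        refine ⟨(u' : Ω), (hmemB₁ _).2 hu', ?_⟩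
        exact congrArg Subtype.val hu2'
    have hB₁ne : B₁.Nonempty := ⟨c₀, hcB₁⟩
    -- the cardinality
    have hB₁c : B₁.ncard ∣ p ^ a := hΩ ▸ hb₁.ncard_dvd_card hB₁ne
    have hB₁2 : 2 ≤ B₁.ncard := by
      obtain ⟨x, hx, y, hy, hxy⟩ := Set.not_subsingleton_iff.1 hsub
      have hxy' : (x : Ω) ≠ y := fun h => hxy (Subtype.ext h)
      have : ({(x : Ω), (y : Ω)} : Set Ω) ⊆ B₁ := by
        intro w hw
        rcases hw with rfl | rfl
        · exact (hmemB₁ _).2 hx
        · exact (hmemB₁ _).2 hy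
      have h1 := Set.ncard_le_ncard this (Set.toFinite _)
      rwa [Set.ncard_pair hxy'] at h1
    have hpB₁ : p ∣ B₁.ncard := by
      obtain ⟨i, _, hi⟩ := (Nat.dvd_prime_pow hp).1 hB₁c
      rw [hi]
      apply dvd_pow_self
      rintro rfl
      rw [pow_zero] at hi
      omega
    -- `z` fixes `B₁`
    let hz' : H := ⟨z, hz⟩
    have hzfix : hz' • B₁ = B₁ := by
      by_contra hne
      have hdisj : ∀ u ∈ B₁, z u ≠ u := by
        intro u hu h5
        apply hne
        apply isBlock_iff_smul_eq_of_nonempty.1 hb₁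
        exact ⟨u, ⟨u, hu, h5⟩, hu⟩
      have hsup : B₁ ⊆ (z.support : Set Ω) := fun u hu => Perm.mem_support.2 (hdisj u hu)
      -- the block inside the support
      haveI htr2 := isPretransitive_of_isCycle_mem hzc hz
      have hb₂ : IsBlock (fixingSubgroup H ((z.support : Set Ω)ᶜ)) B₁ := hb₁.subgroup
      have hb₃ := hb₂.subtype_val_preimage (C := SubMulAction.ofFixingSubgroup H ((z.support : Set Ω)ᶜ))
      have hmemC : ∀ u : Ω, u ∈ SubMulAction.ofFixingSubgroup H ((z.support : Set Ω)ᶜ) ↔ u ∈ z.support := by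
        intro u
        simp [SubMulAction.mem_ofFixingSubgroup_iff]
      have hne₃ : (Subtype.val ⁻¹' B₁ : Set (SubMulAction.ofFixingSubgroup H ((z.support : Set Ω)ᶜ))).Nonempty :=
        ⟨⟨c₀, (hmemC _).2 hc₀⟩, hcB₁⟩
      have hd := hb₃.ncard_dvd_card hne₃
      have hcardC : Nat.card (SubMulAction.ofFixingSubgroup H ((z.support : Set Ω)ᶜ)) = q ^ e := by
        rw [Nat.card_eq_fintype_card, Fintype.card_subtype, ← hzq]
        apply congr_arg
        ext x
        simp [SubMulAction.mem_ofFixingSubgroup_iff]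
      have hcard3 : (Subtype.val ⁻¹' B₁ : Set (SubMulAction.ofFixingSubgroup H ((z.support : Set Ω)ᶜ))).ncard = B₁.ncard := by
        have h6 : Subtype.val '' (Subtype.val ⁻¹' B₁ : Set (SubMulAction.ofFixingSubgroup H ((z.support : Set Ω)ᶜ))) = B₁ := by
          ext u
          constructor
          · rintro ⟨y, hy, rfl⟩
            exact hy
          · intro hu
            exact ⟨⟨u, (hmemC _).2 (hsup hu)⟩, hu, rfl⟩
        rw [← h6, Set.ncard_image_of_injective _ Subtype.val_injective]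
        simp [h6]
      rw [hcard3, hcardC] at hd
      have h7 : p ∣ q ^ e := hpB₁.trans hd
      have h8 := hp.dvd_of_dvd_pow h7
      exact hpq ((Nat.prime_dvd_prime_iff_eq hp hq).1 h8)
    -- so the support lies in `B₁`
    have hzB₁ : (z.support : Set Ω) ⊆ B₁ := by
      intro u hu
      obtain ⟨i, hi⟩ := hzc.exists_zpow_eq (Perm.mem_support.1 hc₀) (Perm.mem_support.1 hu)
      have h9 : hz' ^ i ∈ stabilizer H B₁ := Subgroup.zpow_mem _ (mem_stabilizer_iff.2 hzfix) i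
      have h10 : (hz' ^ i) • c₀ ∈ (hz' ^ i) • B₁ := Set.smul_mem_smul_set hcB₁
      rw [mem_stabilizer_iff.1 h9] at h10
      have h11 : (hz' ^ i) • c₀ = u := by
        rw [← hi]
        rfl
      rwa [h11] at h10
    have hmin := hBmin.le_of_le ⟨hb₁, hzB₁⟩ hB₁B
    ext x
    simp only [Set.mem_univ, iff_true]
    exact (hmemB₁ x).1 (hmin x.2)
  -- the elements
  have hzk : (⟨z, hz⟩ : H) ∈ stabilizer H B := hBstab _ ⟨c₀, hc₀B, hBs (Perm.apply_mem_support.2 hc₀)⟩
  obtain ⟨d₀, hd₀⟩ : ∃ d₀, d₀ ∈ c.support := by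
    have : c.support.Nonempty := Finset.card_pos.1 (by have := hq.pos; omega)
    exact this
  have hck : (⟨c, hc⟩ : H) ∈ stabilizer H B :=
    hBstab _ ⟨d₀, hBs (hcz hd₀), hBs (hcz (Perm.apply_mem_support.2 hd₀))⟩
  obtain ⟨ct, hct⟩ : ∃ ct : Perm ↥B, ct = ρ ⟨⟨c, hc⟩, hck⟩ := ⟨_, rfl⟩
  have hctL : ct ∈ L := hct ▸ hLmem _
  have hofsub : Perm.ofSubtype ct = c := by
    ext x
    by_cases hx : x ∈ B
    · rw [Perm.ofSubtype_apply_of_mem ct hx, hct]
      rfl
    · rw [Perm.ofSubtype_apply_of_not_mem ct hx]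
      have : x ∉ c.support := fun h6 => hx (hBs (hcz h6))
      exact (Perm.notMem_support.1 this).symm
  haveI : Fintype ↥B := Fintype.ofFinite _
  have hctype : ct.cycleType = {q} := by
    rw [← Perm.cycleType_ofSubtype, hofsub, hcc.cycleType, hcq]
  have hctc : ct.IsCycle := by
    rw [← Perm.card_cycleType_eq_one, hctype]
    rfl
  have hcts : ct.support.card = q := by
    rw [← Perm.sum_cycleType, hctype]
    simp
  have hBcard : q ^ e ≤ Nat.card ↥B := by
    rw [Nat.card_coe_set_eq, ← hzq, ← Set.ncard_coe_finset]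
    exact Set.ncard_le_ncard hBs (Set.toFinite _)
  have halt := alternatingGroup_le_of_prime_cycle hprim hq (by omega) hctc hcts hctL
  have h1 : Nat.card (alternatingGroup ↥B) ∣ Nat.card H := by
    have h2 : Nat.card (alternatingGroup ↥B) ∣ Nat.card L := Subgroup.card_dvd_of_le halt
    have h3 : Nat.card L ∣ Nat.card K := by
      rw [hL]
      exact Subgroup.card_range_dvd ρ
    have h4 : Nat.card K ∣ Nat.card H := Subgroup.card_subgroup_dvd_card K
    exact h2.trans (h3.trans h4)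
  refine dvd_trans ?_ h1
  haveI : Nontrivial ↥B := by
    rw [← Finite.one_lt_card_iff_nontrivial]
    omega
  have h5 := two_mul_nat_card_alternatingGroup (α := ↥B)
  rw [Nat.card_perm] at h5
  by_cases hr2 : r = 2
  · subst hr2
    have h6 : 4 ∣ (Nat.card ↥B).factorial := Nat.dvd_factorial (by norm_num) (by omega)
    rw [← h5] at h6
    obtain ⟨w, hw⟩ := h6
    exact ⟨w, by omega⟩
  · have h6 : r ∣ (Nat.card ↥B).factorial := Nat.dvd_factorial hr.pos (by omega)
    rw [← h5] at h6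
    have h7 : Nat.Coprime r 2 := (Nat.coprime_primes hr Nat.prime_two).2 hr2
    exact h7.dvd_of_dvd_mul_left h6

end CfsgLib.FGS.HallE
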