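import Mathlib
import Cfsg.Prelude.Def_Transfer
import Cfsg.Prelude.Def_OddOrderLocal

/-!
# Counting conjugacy classes of `p`-elements and `π`-elements.
-/

set_option autoImplicit false
set_option linter.unusedSectionVars false
set_option linter.style.haveILetI false

namespace CfsgLib.FGS.KP

open Cfsg
open scoped Pointwise

variable {G : Type*} [Group G]

/-- The classes of `p`-elements. -/
abbrev Kp (p : ℕ) (G : Type*) [Group G] : Type _ :=
  {c : ConjClasses G // ∀ x ∈ c.carrier, ∃ k : ℕ, orderOf x = p ^ k}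

/-- The classes of `π`-elements. -/
abbrev Kpi (π : Finset ℕ) (G : Type*) [Group G] : Type _ :=
  {c : ConjClasses G // ∀ x ∈ c.carrier, ∀ r : ℕ, r.Prime → r ∣ orderOf x → r ∈ π}

/-- The `π`-part of a number. -/
def part (π : Finset ℕ) (n : ℕ) : ℕ := π.prod (fun r => r ^ n.factorization r)

theorem mem_carrier_mk (x : G) : x ∈ (ConjClasses.mk x).carrier := by
  rw [ConjClasses.mem_carrier_iff_mk_eq]

/-- Every class of `p`-elements meets a given Sylow subgroup. -/
theorem exists_rep_mem [Finite G] {p : ℕ} [Fact p.Prime] (P : Sylow p G) (c : Kp p G) :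
    ∃ a : ↥(P : Subgroup G), ConjClasses.mk (a : G) = c.1 := by
  obtain ⟨x, hx⟩ := ConjClasses.exists_rep c.1
  obtain ⟨k, hk⟩ := c.2 x (by rw [ConjClasses.mem_carrier_iff_mk_eq, hx])
  have h1 : IsPGroup p (Subgroup.zpowers x) := by
    rw [IsPGroup.iff_card]
    refine ⟨k, ?_⟩
    rw [Nat.card_zpowers, hk]
  obtain ⟨Q, hQ⟩ := h1.exists_le_sylow
  obtain ⟨g, hg⟩ := MulAction.exists_smul_eq G Q P
  have h2 : x ∈ (Q : Subgroup G) := hQ (Subgroup.mem_zpowers x)
  have h3 : MulAut.conj g • x ∈ MulAut.conj g • (Q : Subgroup G) :=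
    Subgroup.smul_mem_pointwise_smul x (MulAut.conj g) _ h2
  rw [← Sylow.coe_subgroup_smul, hg] at h3
  have h4 : MulAut.conj g • x = g * x * g⁻¹ := rfl
  refine ⟨⟨MulAut.conj g • x, h3⟩, ?_⟩
  rw [← hx]
  apply ConjClasses.mk_eq_mk_iff_isConj.2
  rw [isConj_comm, isConj_iff]
  exact ⟨g, rfl⟩

/-- The number of classes of `p`-elements is at most the order of a Sylow `p`-subgroup. -/
theorem card_kp_le [Finite G] {p : ℕ} [Fact p.Prime] (P : Sylow p G) :
    Nat.card (Kp p G) ≤ Nat.card ↥(P : Subgroup G) := by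
  choose f hf using exists_rep_mem P
  refine Nat.card_le_card_of_injective f ?_
  intro c d hcd
  apply Subtype.ext
  rw [← hf c, ← hf d, hcd]

/-- The key estimate: if the normalizer of `P` is not contained in its centralizer, there are few
classes of `p`-elements. -/
theorem card_kp_le_of_not_le [Finite G] {p : ℕ} [Fact p.Prime] (P : Sylow p G)
    (h : ¬ Subgroup.normalizer ((P : Subgroup G) : Set G) ≤ Subgroup.centralizer ((P : Subgroup G) : Set G)) :
    2 * p * Nat.card (Kp p G) ≤ (p + 1) * Nat.card ↥(P : Subgroup G) := by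
  classical
  haveI : Fintype G := Fintype.ofFinite G
  obtain ⟨N, hN⟩ : ∃ N, N = Subgroup.normalizer ((P : Subgroup G) : Set G) := ⟨_, rfl⟩
  let ρ : Subgroup.normalizer ((P : Subgroup G) : Set G) →* MulAut ↥(P : Subgroup G) :=
    (P : Subgroup G).normalizerMonoidHom
  have hρ : ∀ (n : Subgroup.normalizer ((P : Subgroup G) : Set G)) (a : ↥(P : Subgroup G)),
      ((ρ n a : ↥(P : Subgroup G)) : G) = (n : G) * a * (n : G)⁻¹ := fun n a => rfl
  letI : MulAction (Subgroup.normalizer ((P : Subgroup G) : Set G)) ↥(P : Subgroup G) :=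
    MulAction.compHom _ ρ
  have hsmul : ∀ (n : Subgroup.normalizer ((P : Subgroup G) : Set G)) (a : ↥(P : Subgroup G)),
      ((n • a : ↥(P : Subgroup G)) : G) = (n : G) * a * (n : G)⁻¹ := fun n a => rfl
  haveI : Fintype ↥(P : Subgroup G) := Fintype.ofFinite _
  haveI : Fintype (Subgroup.normalizer ((P : Subgroup G) : Set G)) := Fintype.ofFinite _
  have hb := MulAction.sum_card_fixedBy_eq_card_orbits_mul_card_group
    (Subgroup.normalizer ((P : Subgroup G) : Set G)) ↥(P : Subgroup G)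
  -- `k` is at most the number of orbits
  choose f hf using exists_rep_mem P
  have hk : Nat.card (Kp p G) ≤ Fintype.card
      (MulAction.orbitRel.Quotient (Subgroup.normalizer ((P : Subgroup G) : Set G)) ↥(P : Subgroup G)) := by
    rw [← Nat.card_eq_fintype_card]
    refine Nat.card_le_card_of_injective (fun c => Quotient.mk'' (f c)) ?_
    intro c d hcd
    have h1 : MulAction.orbitRel _ _ (f c) (f d) := Quotient.exact' hcd
    obtain ⟨n, hn⟩ := h1
    apply Subtype.ext
    rw [← hf c, ← hf d]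
    apply ConjClasses.mk_eq_mk_iff_isConj.2
    rw [isConj_comm, isConj_iff]
    exact ⟨(n : G), congrArg Subtype.val hn⟩
  -- the fixed points
  have hfix : ∀ n : Subgroup.normalizer ((P : Subgroup G) : Set G), n ∉ ρ.ker →
      p * Fintype.card (MulAction.fixedBy ↥(P : Subgroup G) n) ≤ Nat.card ↥(P : Subgroup G) := by
    intro n hn
    let F : Subgroup ↥(P : Subgroup G) :=
      { carrier := {a | n • a = a}
        one_mem' := map_one (ρ n)
        mul_mem' := by
          intro a b ha hb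
          show ρ n (a * b) = a * b
          rw [map_mul]
          exact congrArg₂ _ ha hb
        inv_mem' := by
          intro a ha
          show ρ n a⁻¹ = a⁻¹
          rw [map_inv]
          exact congrArg _ ha }
    have hF : F ≠ ⊤ := by
      intro hF
      apply hn
      rw [MonoidHom.mem_ker]
      ext a
      have : a ∈ F := by rw [hF]; exact Subgroup.mem_top a
      exact congrArg Subtype.val this
    have hind : p ∣ F.index := by
      have hp : IsPGroup p ↥(P : Subgroup G) := P.isPGroup'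
      obtain ⟨k, hk⟩ := hp.index F
      rw [hk]
      have : k ≠ 0 := by
        rintro rfl
        apply hF
        rw [pow_zero] at hk
        exact Subgroup.index_eq_one.1 hk
      exact dvd_pow_self p this
    have hcard : Fintype.card (MulAction.fixedBy ↥(P : Subgroup G) n) = Nat.card F := by
      rw [← Nat.card_eq_fintype_card]
      exact Nat.card_congr (Equiv.subtypeEquivRight (fun a => by
        show n • a = a ↔ a ∈ F
        exact Iff.rfl))
    rw [hcard, ← F.card_mul_index, mul_comm]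
    exact Nat.mul_le_mul_left _ (Nat.le_of_dvd (Nat.pos_of_ne_zero (by
      intro h0
      rw [h0] at hind
      exact Subgroup.index_ne_zero_of_finite h0)) hind)
  -- the kernel is proper
  obtain ⟨n₀, hn₀, hn₀'⟩ := Set.not_subset.1 h
  have hker : ρ.ker ≠ ⊤ := by
    intro h1
    apply hn₀'
    have h2 : (⟨n₀, hn₀⟩ : Subgroup.normalizer ((P : Subgroup G) : Set G)) ∈ ρ.ker := by
      rw [h1]; exact Subgroup.mem_top _
    rw [SetLike.mem_coe, Subgroup.mem_centralizer_iff]
    intro a ha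
    have h3 := congrArg (fun φ : MulAut ↥(P : Subgroup G) => ((φ ⟨a, ha⟩ : ↥(P : Subgroup G)) : G)) h2
    have h4 : n₀ * a * n₀⁻¹ = a := h3
    calc a * n₀ = (n₀ * a * n₀⁻¹) * n₀ := by rw [h4]
      _ = n₀ * a := by group
  have h2ker : 2 * Nat.card ρ.ker ≤ Nat.card (Subgroup.normalizer ((P : Subgroup G) : Set G)) := by
    rw [← ρ.ker.card_mul_index, mul_comm]
    refine Nat.mul_le_mul_left _ ?_
    have h1 : ρ.ker.index ≠ 1 := fun h1 => hker (Subgroup.index_eq_one.1 h1)
    have h2 : ρ.ker.index ≠ 0 := Subgroup.index_ne_zero_of_finite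
    omega
  -- the sum
  obtain ⟨Q, hQ⟩ : ∃ Q, Q = Nat.card ↥(P : Subgroup G) := ⟨_, rfl⟩
  obtain ⟨M, hM⟩ : ∃ M, M = Nat.card (Subgroup.normalizer ((P : Subgroup G) : Set G)) := ⟨_, rfl⟩
  obtain ⟨K, hK⟩ : ∃ K, K = Nat.card ρ.ker := ⟨_, rfl⟩
  have hsum : p * ∑ n : Subgroup.normalizer ((P : Subgroup G) : Set G),
      Fintype.card (MulAction.fixedBy ↥(P : Subgroup G) n) ≤ Q * (M + (p - 1) * K) := by
    have h1 : ∀ n : Subgroup.normalizer ((P : Subgroup G) : Set G),
        p * Fintype.card (MulAction.fixedBy ↥(P : Subgroup G) n) ≤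
          Q + (if n ∈ ρ.ker then (p - 1) * Q else 0) := by
      intro n
      by_cases hn : n ∈ ρ.ker
      · rw [if_pos hn]
        have h2 : Fintype.card (MulAction.fixedBy ↥(P : Subgroup G) n) ≤ Q := by
          rw [hQ, ← Nat.card_eq_fintype_card]
          exact Nat.card_le_card_of_injective Subtype.val Subtype.val_injective
        have hp1 : 1 ≤ p := (Fact.out : p.Prime).one_lt.le
        calc p * _ ≤ p * Q := Nat.mul_le_mul_left _ h2
          _ = Q + (p - 1) * Q := by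
            obtain ⟨q, rfl⟩ : ∃ q, p = q + 1 := ⟨p - 1, by omega⟩
            simp; ring
      · rw [if_neg hn, add_zero, hQ]
        exact hfix n hn
    rw [Finset.mul_sum]
    refine (Finset.sum_le_sum fun n _ => h1 n).trans ?_
    rw [Finset.sum_add_distrib, Finset.sum_const, Finset.card_univ, smul_eq_mul,
      ← Nat.card_eq_fintype_card, ← hM, Finset.sum_ite, Finset.sum_const_zero, add_zero,
      Finset.sum_const, smul_eq_mul]
    have h3 : (Finset.univ.filter (fun n => n ∈ ρ.ker)).card = K := by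
      rw [hK, Nat.card_eq_fintype_card, Fintype.card_subtype]
    rw [h3]
    apply le_of_eq
    ring
  have hk' := hk
  rw [← hQ]
  have hpos : 0 < M := by rw [hM]; exact Nat.card_pos
  have hMf : M = Fintype.card (Subgroup.normalizer ((P : Subgroup G) : Set G)) := by
    rw [hM, Nat.card_eq_fintype_card]
  rw [hb, ← hMf] at hsum
  rw [← hK, ← hM] at h2ker
  obtain ⟨k, hkk⟩ : ∃ k, k = Nat.card (Kp p G) := ⟨_, rfl⟩
  obtain ⟨w, hw⟩ : ∃ w, w = Fintype.card (MulAction.orbitRel.Quotient (Subgroup.normalizer ((P : Subgroup G) : Set G)) ↥(P : Subgroup G)) := ⟨_, rfl⟩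
  rw [← hkk, ← hw] at hk'
  rw [← hw] at hsum
  rw [← hkk]
  have hp1 : 1 ≤ p := (Fact.out : p.Prime).one_lt.le
  obtain ⟨q, rfl⟩ : ∃ q, p = q + 1 := ⟨p - 1, by omega⟩
  simp only [Nat.add_sub_cancel] at hsum
  refine Nat.le_of_mul_le_mul_right ?_ hpos
  have h5 : (q + 1) * (k * M) ≤ (q + 1) * (w * M) :=
    Nat.mul_le_mul_left _ (Nat.mul_le_mul_right _ hk')
  nlinarith [Nat.mul_le_mul_left Q (Nat.mul_le_mul_left q h2ker)]

theorem kp_forward [Finite G] {p : ℕ} [Fact p.Prime] (P : Sylow p G)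
    (h : (p + 1) * Nat.card ↥(P : Subgroup G) < 2 * p * Nat.card (Kp p G)) :
    HasNormalPComplement p G ∧ IsMulCommutative ↥(P : Subgroup G) := by
  have hle : Subgroup.normalizer ((P : Subgroup G) : Set G) ≤ Subgroup.centralizer ((P : Subgroup G) : Set G) := by
    by_contra hne
    exact absurd (card_kp_le_of_not_le P hne) (not_le.2 h)
  haveI : (P : Subgroup G).FiniteIndex := ⟨Subgroup.index_ne_zero_of_finite⟩
  refine ⟨⟨P, (MonoidHom.transferSylow P hle).ker, MonoidHom.normal_ker _,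
    MonoidHom.ker_transferSylow_isComplement' P hle⟩, ⟨⟨?_⟩⟩⟩
  intro a b
  have h1 : (b : G) ∈ Subgroup.centralizer ((P : Subgroup G) : Set G) :=
    hle (Subgroup.le_normalizer b.2)
  apply Subtype.ext
  exact ((Subgroup.mem_centralizer_iff.1 h1) a a.2)

theorem kp_backward [Finite G] {p : ℕ} [Fact p.Prime] (P : Sylow p G)
    (h : HasNormalPComplement p G) (hP : IsMulCommutative ↥(P : Subgroup G)) :
    Nat.card ↥(P : Subgroup G) ≤ Nat.card (Kp p G) := by
  obtain ⟨P', N, hN, hC⟩ := h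
  obtain ⟨g, hg⟩ := MulAction.exists_smul_eq G P P'
  have hconj : ∀ a : ↥(P : Subgroup G), ∃ k : ℕ, orderOf (a : G) = p ^ k := by
    intro a
    obtain ⟨k, hk⟩ := (IsPGroup.iff_orderOf.1 P.isPGroup') a
    exact ⟨k, by rw [← Subgroup.orderOf_coe] at hk; exact hk⟩
  let f : ↥(P : Subgroup G) → Kp p G := fun a => ⟨ConjClasses.mk (a : G), by
    intro x hx
    rw [ConjClasses.mem_carrier_iff_mk_eq, ConjClasses.mk_eq_mk_iff_isConj] at hx
    obtain ⟨k, hk⟩ := hconj a
    refine ⟨k, ?_⟩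
    rw [← hk]
    obtain ⟨c, hc⟩ := isConj_iff.1 hx
    rw [← hc]
    exact ((MulAut.conj c).orderOf_eq x).symm⟩
  refine Nat.card_le_card_of_injective f ?_
  intro a b hab
  have h1 : IsConj (a : G) (b : G) := ConjClasses.mk_eq_mk_iff_isConj.1 (congrArg Subtype.val hab)
  obtain ⟨c, hc⟩ := isConj_iff.1 h1
  -- transport to `P'`
  have hmem : ∀ x ∈ (P : Subgroup G), g * x * g⁻¹ ∈ (P' : Subgroup G) := by
    intro x hx
    rw [← hg, Sylow.coe_subgroup_smul]
    exact Subgroup.smul_mem_pointwise_smul x (MulAut.conj g) _ hx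
  have hcomm : ∀ x ∈ (P' : Subgroup G), ∀ y ∈ (P' : Subgroup G), x * y = y * x := by
    intro x hx y hy
    rw [← hg, Sylow.coe_subgroup_smul] at hx hy
    obtain ⟨x₀, hx₀, rfl⟩ := hx
    obtain ⟨y₀, hy₀, rfl⟩ := hy
    have h2 : x₀ * y₀ = y₀ * x₀ := by
      have := hP.is_comm.comm ⟨x₀, hx₀⟩ ⟨y₀, hy₀⟩
      exact congrArg Subtype.val this
    show MulAut.conj g x₀ * MulAut.conj g y₀ = MulAut.conj g y₀ * MulAut.conj g x₀
    rw [← map_mul, ← map_mul, h2]
  obtain ⟨n, hn, u, hu, hnu⟩ : ∃ n ∈ N, ∃ u ∈ (P' : Subgroup G), g * c * g⁻¹ = n * u := by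
    have := hC.sup_eq_top
    have h2 : g * c * g⁻¹ ∈ N ⊔ (P' : Subgroup G) := by rw [this]; exact Subgroup.mem_top _
    rw [Subgroup.mem_sup_of_normal_left] at h2
    obtain ⟨n, hn, u, hu, h3⟩ := h2
    exact ⟨n, hn, u, hu, h3.symm⟩
  have ha' := hmem a a.2
  have hb' := hmem b b.2
  have h3 : g * b * g⁻¹ = n * (g * a * g⁻¹) * n⁻¹ := by
    have h4 : g * b * g⁻¹ = (g * c * g⁻¹) * (g * a * g⁻¹) * (g * c * g⁻¹)⁻¹ := by
      rw [← hc]; group
    rw [h4, hnu]
    have h5 := hcomm u hu _ ha'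
    calc n * u * (g * ↑a * g⁻¹) * (n * u)⁻¹ = n * (u * (g * ↑a * g⁻¹)) * u⁻¹ * n⁻¹ := by group
      _ = n * ((g * ↑a * g⁻¹) * u) * u⁻¹ * n⁻¹ := by rw [h5]
      _ = _ := by group
  have h6 : (g * b * g⁻¹) * (g * a * g⁻¹)⁻¹ ∈ N := by
    rw [h3]
    have : n * (g * a * g⁻¹) * n⁻¹ * (g * a * g⁻¹)⁻¹ = n * ((g * a * g⁻¹) * n⁻¹ * (g * a * g⁻¹)⁻¹) := by group
    rw [this]
    exact N.mul_mem hn (hN.conj_mem _ (N.inv_mem hn) _)
  have h7 : (g * b * g⁻¹) * (g * a * g⁻¹)⁻¹ ∈ (P' : Subgroup G) :=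
    Subgroup.mul_mem _ hb' (Subgroup.inv_mem _ ha')
  have h8 := Subgroup.disjoint_def.1 hC.disjoint h6 h7
  have h9 : g * b * g⁻¹ = g * a * g⁻¹ := by
    exact mul_inv_eq_one.1 h8
  have h10 : (b : G) = a := by
    simpa using h9
  exact Subtype.ext h10.symm

/-- The main theorem on classes of `p`-elements. -/
theorem kp_iff [Finite G] {p : ℕ} [Fact p.Prime] (P : Sylow p G) :
    (p + 1) * Nat.card ↥(P : Subgroup G) < 2 * p * Nat.card (Kp p G) ↔
      HasNormalPComplement p G ∧ IsMulCommutative ↥(P : Subgroup G) := by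
  refine ⟨kp_forward P, fun ⟨h1, h2⟩ => ?_⟩
  have h3 := kp_backward P h1 h2
  have hp : 2 ≤ p := (Fact.out : p.Prime).two_le
  have hQ : 0 < Nat.card ↥(P : Subgroup G) := Nat.card_pos
  calc (p + 1) * Nat.card ↥(P : Subgroup G) < 2 * p * Nat.card ↥(P : Subgroup G) :=
        Nat.mul_lt_mul_of_pos_right (by omega) hQ
    _ ≤ 2 * p * Nat.card (Kp p G) := Nat.mul_le_mul_left _ h3

theorem part_le_of_dvd (σ : Finset ℕ) (hσ : ∀ r ∈ σ, r.Prime) {a b : ℕ} (hab : a ∣ b) (hb : b ≠ 0) :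
    part σ a ≤ part σ b := by
  have ha : a ≠ 0 := fun h => hb (by rw [h] at hab; exact zero_dvd_iff.1 hab)
  refine Finset.prod_le_prod' fun r hr => Nat.pow_le_pow_right (hσ r hr).pos ?_
  exact (Nat.factorization_le_iff_dvd ha hb).2 hab r

theorem part_pos (σ : Finset ℕ) (hσ : ∀ r ∈ σ, r.Prime) (n : ℕ) : 0 < part σ n :=
  Finset.prod_pos fun r hr => pow_pos (hσ r hr).pos _

/-- Primary decomposition of an element. -/
theorem exists_decomp [Finite G] {r : ℕ} (hr : r.Prime) (x : G) :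
    ∃ a b : G, x = a * b ∧ a * b = b * a ∧ (∃ k : ℕ, orderOf a = r ^ k) ∧ ¬ r ∣ orderOf b ∧
      orderOf b ∣ orderOf x := by
  have hn : orderOf x ≠ 0 := (orderOf_pos x).ne'
  obtain ⟨e, m, hm, hem⟩ := Nat.exists_eq_pow_mul_and_not_dvd hn r hr.ne_one
  have hc : Nat.Coprime (r ^ e) m := ((Nat.Prime.coprime_iff_not_dvd hr).2 hm).pow_left e
  obtain ⟨u, v, huv⟩ := Nat.isCoprime_iff_coprime.2 hc
  have hx1 : x ^ (orderOf x : ℤ) = 1 := by rw [zpow_natCast, pow_orderOf_eq_one]
  have hem' : (orderOf x : ℤ) = ((r ^ e : ℕ) : ℤ) * (m : ℤ) := by rw [hem]; push_cast; ring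
  refine ⟨x ^ (v * (m : ℤ)), x ^ (u * ((r ^ e : ℕ) : ℤ)), ?_, ?_, ?_, ?_, ?_⟩
  · rw [← zpow_add, add_comm, huv, zpow_one]
  · rw [← zpow_add, ← zpow_add, add_comm]
  · have h1 : (x ^ (v * (m : ℤ))) ^ (r ^ e) = 1 := by
      rw [← zpow_natCast, ← zpow_mul]
      have : v * (m : ℤ) * ((r ^ e : ℕ) : ℤ) = (orderOf x : ℤ) * v := by rw [hem']; ring
      rw [this, zpow_mul, hx1, one_zpow]
    obtain ⟨k, -, hk⟩ := (Nat.dvd_prime_pow hr).1 (orderOf_dvd_of_pow_eq_one h1)
    exact ⟨k, hk⟩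
  · have h1 : (x ^ (u * ((r ^ e : ℕ) : ℤ))) ^ m = 1 := by
      rw [← zpow_natCast, ← zpow_mul]
      have : u * ((r ^ e : ℕ) : ℤ) * (m : ℤ) = (orderOf x : ℤ) * u := by rw [hem']; ring
      rw [this, zpow_mul, hx1, one_zpow]
    exact fun h => hm (h.trans (orderOf_dvd_of_pow_eq_one h1))
  · have h1 : (x ^ (u * ((r ^ e : ℕ) : ℤ))) ^ m = 1 := by
      rw [← zpow_natCast, ← zpow_mul]
      have : u * ((r ^ e : ℕ) : ℤ) * (m : ℤ) = (orderOf x : ℤ) * u := by rw [hem']; ring
      rw [this, zpow_mul, hx1, one_zpow]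
    exact (orderOf_dvd_of_pow_eq_one h1).trans (by rw [hem]; exact dvd_mul_left _ _)

theorem orderOf_of_mem_mk {x y : G} (hx : y ∈ (ConjClasses.mk x).carrier) : orderOf y = orderOf x := by
  rw [ConjClasses.mem_carrier_iff_mk_eq, ConjClasses.mk_eq_mk_iff_isConj] at hx
  obtain ⟨c, hc⟩ := isConj_iff.1 hx
  rw [← hc]
  exact ((MulAut.conj c).orderOf_eq y).symm

/-- The reduction from `π ∪ {r}` to `r` and `π`. -/
theorem card_kpi_insert_le [Finite G] {r : ℕ} (hr : r.Prime) (σ : Finset ℕ) (hrσ : r ∉ σ)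
    (hσ : ∀ q ∈ σ, q.Prime) (IH : ∀ H : Subgroup G, Nat.card (Kpi σ ↥H) ≤ part σ (Nat.card H)) :
    Nat.card (Kpi (insert r σ) G) ≤ Nat.card (Kp r G) * part σ (Nat.card G) := by
  classical
  haveI : Fintype (Kp r G) := Fintype.ofFinite _
  choose rep hrep using fun u : Kp r G => ConjClasses.exists_rep u.1
  let C : Kp r G → Subgroup G := fun u => Subgroup.centralizer {rep u}
  choose w hw using fun (u : Kp r G) (c : Kpi σ ↥(C u)) => ConjClasses.exists_rep c.1
  let g : (Σ u : Kp r G, Kpi σ ↥(C u)) → ConjClasses G :=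
    fun e => ConjClasses.mk (rep e.1 * (w e.1 e.2 : G))
  have hg : ∀ c : Kpi (insert r σ) G, ∃ e, g e = c.1 := by
    intro c
    obtain ⟨x, hx⟩ := ConjClasses.exists_rep c.1
    have hxc : x ∈ c.1.carrier := by rw [ConjClasses.mem_carrier_iff_mk_eq, hx]
    obtain ⟨a, b, hab, hcomm, ⟨k, hk⟩, hrb, hbx⟩ := exists_decomp hr x
    let u : Kp r G := ⟨ConjClasses.mk a, fun y hy => ⟨k, by rw [orderOf_of_mem_mk hy, hk]⟩⟩
    have h1 : IsConj a (rep u) := by
      rw [← ConjClasses.mk_eq_mk_iff_isConj, hrep u]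
    obtain ⟨h, hh⟩ := isConj_iff.1 h1
    have hw₀ : h * b * h⁻¹ ∈ C u := by
      show h * b * h⁻¹ ∈ Subgroup.centralizer {rep u}
      rw [Subgroup.mem_centralizer_iff]
      intro y hy
      rw [Set.mem_singleton_iff] at hy
      subst hy
      rw [← hh]
      calc h * a * h⁻¹ * (h * b * h⁻¹) = h * (a * b) * h⁻¹ := by group
        _ = h * (b * a) * h⁻¹ := by rw [hcomm]
        _ = _ := by group
    let w₀ : ↥(C u) := ⟨h * b * h⁻¹, hw₀⟩
    have hord : orderOf w₀ = orderOf b := by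
      rw [← Subgroup.orderOf_coe]
      show orderOf (h * b * h⁻¹) = orderOf b
      exact (MulAut.conj h).orderOf_eq b
    let c' : Kpi σ ↥(C u) := ⟨ConjClasses.mk w₀, by
      intro y hy q hq hqy
      rw [orderOf_of_mem_mk hy, hord] at hqy
      have h2 := c.2 x hxc q hq (hqy.trans hbx)
      rcases Finset.mem_insert.1 h2 with h3 | h3
      · exact absurd (h3 ▸ hqy) hrb
      · exact h3⟩
    refine ⟨⟨u, c'⟩, ?_⟩
    show ConjClasses.mk (rep u * (w u c' : G)) = c.1
    have h4 : IsConj (w u c') w₀ := by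
      rw [← ConjClasses.mk_eq_mk_iff_isConj, hw u c']
    obtain ⟨l, hl⟩ := isConj_iff.1 h4
    have hl' : (l : G) * (w u c' : G) * (l : G)⁻¹ = h * b * h⁻¹ := congrArg Subtype.val hl
    have hlc : (l : G) * rep u = rep u * (l : G) := by
      have := Subgroup.mem_centralizer_iff.1 l.2 (rep u) (Set.mem_singleton _)
      exact this.symm
    rw [← hx]
    apply ConjClasses.mk_eq_mk_iff_isConj.2
    rw [isConj_iff]
    refine ⟨h⁻¹ * l, ?_⟩
    have h5 : (l : G) * (rep u * (w u c' : G)) * (l : G)⁻¹ = rep u * (h * b * h⁻¹) := by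
      rw [← hl', ← mul_assoc, hlc]
      group
    calc h⁻¹ * l * (rep u * (w u c' : G)) * (h⁻¹ * l)⁻¹
        = h⁻¹ * ((l : G) * (rep u * (w u c' : G)) * (l : G)⁻¹) * h := by group
      _ = h⁻¹ * (rep u * (h * b * h⁻¹)) * h := by rw [h5]
      _ = h⁻¹ * ((h * a * h⁻¹) * (h * b * h⁻¹)) * h := by rw [hh]
      _ = a * b := by group
      _ = x := hab.symm
  choose f hf using hg
  have hinj : Function.Injective f := by
    intro c d hcd
    apply Subtype.ext
    rw [← hf c, ← hf d, hcd]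
  refine (Nat.card_le_card_of_injective f hinj).trans ?_
  rw [Nat.card_sigma]
  have hG : Nat.card G ≠ 0 := Nat.card_pos.ne'
  refine (Finset.sum_le_card_nsmul _ _ (part σ (Nat.card G)) ?_).trans ?_
  · intro u _
    refine (IH (C u)).trans (part_le_of_dvd σ hσ ?_ hG)
    exact Subgroup.card_subgroup_dvd_card _
  · rw [smul_eq_mul, Finset.card_univ, ← Nat.card_eq_fintype_card]

theorem card_kpi_le : ∀ (π : Finset ℕ), (∀ r ∈ π, r.Prime) →
    ∀ (G : Type u_1) [Group G] [Finite G], Nat.card (Kpi π G) ≤ part π (Nat.card G) := by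
  intro π
  induction π using Finset.induction_on with
  | empty =>
    intro _ G _ _
    have h1 : Subsingleton (Kpi ∅ G) := by
      constructor
      intro c d
      have hc : ∀ c : Kpi ∅ G, c.1 = ConjClasses.mk 1 := by
        intro c
        obtain ⟨x, hx⟩ := ConjClasses.exists_rep c.1
        have hxc : x ∈ c.1.carrier := by rw [ConjClasses.mem_carrier_iff_mk_eq, hx]
        have h2 : orderOf x = 1 := by
          by_contra h3
          obtain ⟨q, hq, hqx⟩ := Nat.exists_prime_and_dvd h3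
          exact absurd (c.2 x hxc q hq hqx) (Finset.notMem_empty q)
        rw [← hx, orderOf_eq_one_iff.1 h2]
      exact Subtype.ext ((hc c).trans (hc d).symm)
    have h2 := Finite.card_le_one_iff_subsingleton.2 h1
    simpa [part] using h2
  | insert r σ hrσ ih =>
    intro hπ G _ _
    have hr : r.Prime := hπ r (Finset.mem_insert_self r σ)
    have hσ : ∀ q ∈ σ, q.Prime := fun q hq => hπ q (Finset.mem_insert_of_mem hq)
    haveI : Fact r.Prime := ⟨hr⟩
    have h1 := card_kpi_insert_le hr σ hrσ hσ (fun H : Subgroup G => ih hσ ↥H)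
    obtain ⟨P⟩ : Nonempty (Sylow r G) := inferInstance
    have h2 := card_kp_le P
    rw [Sylow.card_eq_multiplicity] at h2
    refine h1.trans ?_
    unfold part
    rw [Finset.prod_insert hrσ]
    exact Nat.mul_le_mul_right _ h2

/-- For `r ∈ π`, a lower bound on the number of classes of `r`-elements. -/
theorem card_kpi_le_kp [Finite G] (π : Finset ℕ) (hπ : ∀ q ∈ π, q.Prime) {r : ℕ} (hr : r ∈ π) :
    Nat.card (Kpi π G) ≤ Nat.card (Kp r G) * part (π.erase r) (Nat.card G) := by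
  have hσ : ∀ q ∈ π.erase r, q.Prime := fun q hq => hπ q (Finset.mem_of_mem_erase hq)
  have h := card_kpi_insert_le (hπ r hr) (π.erase r) (Finset.notMem_erase r π) hσ
    (fun H : Subgroup G => card_kpi_le (π.erase r) hσ ↥H)
  rwa [Finset.insert_erase hr] at h

theorem part_eq_mul_erase (π : Finset ℕ) {r : ℕ} (hr : r ∈ π) (n : ℕ) :
    part π n = r ^ n.factorization r * part (π.erase r) n := by
  unfold part
  rw [Finset.mul_prod_erase π (fun q => q ^ n.factorization q) hr]

end CfsgLib.FGS.KP
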