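import Cfsg.Agent.Lib.PLocal.CoreLift
import Cfsg.Prelude.Def_OddOrderLocal
import Cfsg.Agent.Lib.PLocal.CardSup
import Cfsg.Agent.Lib.H3.ClassSize

set_option autoImplicit false
set_option linter.unusedSectionVars false
set_option linter.style.haveILetI false
set_option linter.unusedVariables false

open Subgroup Cfsg

namespace CfsgLib.FGS.Meta

universe u

/-- Coordinates on a metacyclic `p`-group. -/
structure MC (G : Type u) [Group G] (p n t c r : ℕ) (a b : G) : Prop where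
  hp : p.Prime
  hodd : p ≠ 2
  ha : orderOf a = p ^ n
  hcard : Nat.card G = p ^ (n + t)
  hbt : ∀ y : ℕ, b ^ y ∈ zpowers a ↔ p ^ t ∣ y
  hb : b * a * b⁻¹ = a ^ r
  hgen : ∀ g : G, ∃ i j : ℕ, g = a ^ i * b ^ j
  hr : 1 < r
  hr1 : p ∣ r - 1
  hK : ∀ x j : ℕ, p ^ n ∣ x * (r ^ j - 1) ↔ p ^ c ∣ x * j

/-- The arithmetic from lifting the exponent. -/
theorem exists_K {p : ℕ} (hp : p.Prime) (hodd : p ≠ 2) (n r : ℕ) (hr : 1 < r) (hr1 : p ∣ r - 1) :
    ∃ c : ℕ, ∀ x j : ℕ, p ^ n ∣ x * (r ^ j - 1) ↔ p ^ c ∣ x * j := by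
  haveI : Fact p.Prime := ⟨hp⟩
  have hoddp : Odd p := hp.odd_of_ne_two hodd
  have hnp : ¬ p ∣ r := by
    intro h
    have h1 : p ∣ r - (r - 1) := Nat.dvd_sub h hr1
    have h2 : r - (r - 1) = 1 := by omega
    rw [h2] at h1
    exact hp.one_lt.ne' (Nat.dvd_one.1 h1)
  have hr10 : r - 1 ≠ 0 := by omega
  set s := padicValNat p (r - 1) with hs
  refine ⟨n - min n s, ?_⟩
  intro x j
  by_cases hx : x = 0
  · subst hx; simp
  by_cases hj : j = 0
  · subst hj; simp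
  have h1 : padicValNat p (r ^ j - 1 ^ j) = padicValNat p (r - 1) + padicValNat p j :=
    padicValNat.pow_sub_pow hoddp hr hr1 hnp hj
  rw [one_pow] at h1
  have hrj : r ^ j - 1 ≠ 0 := by
    have : 1 < r ^ j := Nat.one_lt_pow hj hr
    omega
  rw [padicValNat_dvd_iff_le (mul_ne_zero hx hrj), padicValNat_dvd_iff_le (mul_ne_zero hx hj),
    padicValNat.mul hx hrj, padicValNat.mul hx hj, h1]
  omega

variable {G : Type u} [Group G] [Finite G]

/-- Existence of coordinates. -/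
theorem exists_MC {p : ℕ} [Fact p.Prime] (hodd : p ≠ 2) (hG : IsPGroup p G) (hmc : Cfsg.IsMetacyclic G) :
    ∃ (n t c r : ℕ) (a b : G), MC G p n t c r a b := by
  classical
  have hpp : p.Prime := Fact.out
  obtain ⟨N, hNn, hNc, hQc⟩ := hmc
  obtain ⟨a0, ha0⟩ := IsCyclic.exists_generator (α := N)
  obtain ⟨bq, hbq⟩ := IsCyclic.exists_generator (α := G ⧸ N)
  obtain ⟨b, rfl⟩ := QuotientGroup.mk_surjective bq
  set a : G := (a0 : G) with ha
  have hNa : N = zpowers a := by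
    apply le_antisymm
    · intro x hx
      obtain ⟨k, hk⟩ := Subgroup.mem_zpowers_iff.1 (ha0 ⟨x, hx⟩)
      refine Subgroup.mem_zpowers_iff.2 ⟨k, ?_⟩
      have := congrArg Subtype.val hk
      simpa using this
    · rw [Subgroup.zpowers_le]
      exact a0.2
  obtain ⟨n, hn⟩ := IsPGroup.iff_card.1 (hG.to_subgroup N)
  obtain ⟨t, ht⟩ := IsPGroup.iff_card.1 (hG.to_quotient N)
  have hao : orderOf a = p ^ n := by
    rw [← hn, hNa, Nat.card_zpowers]
  have hcard : Nat.card G = p ^ (n + t) := by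
    rw [pow_add, ← hn, ← ht, ← Subgroup.index_eq_card, Subgroup.card_mul_index]
  have hbo : orderOf ((b : G) : G ⧸ N) = p ^ t := by
    rw [← ht]
    exact orderOf_eq_card_of_forall_mem_zpowers hbq
  have hbt : ∀ y : ℕ, b ^ y ∈ zpowers a ↔ p ^ t ∣ y := by
    intro y
    rw [← hNa, ← hbo, orderOf_dvd_iff_pow_eq_one, ← QuotientGroup.mk_pow, QuotientGroup.eq_one_iff]
  -- the exponent
  have hconj : b * a * b⁻¹ ∈ zpowers a := by
    rw [← hNa]
    exact hNn.conj_mem a a0.2 b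
  obtain ⟨r0, hr0⟩ := (mem_powers_iff_mem_zpowers).2 hconj
  have hr0' : b * a * b⁻¹ = a ^ r0 := hr0.symm
  -- iterate
  have hiter : ∀ j : ℕ, b ^ j * a * (b ^ j)⁻¹ = a ^ (r0 ^ j) := by
    intro j
    induction j with
    | zero => simp
    | succ j ih =>
      rw [pow_succ', pow_succ']
      calc b * b ^ j * a * (b * b ^ j)⁻¹ = b * (b ^ j * a * (b ^ j)⁻¹) * b⁻¹ := by group
        _ = b * a ^ (r0 ^ j) * b⁻¹ := by rw [ih]
        _ = (b * a * b⁻¹) ^ (r0 ^ j) := by rw [conj_pow]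
        _ = a ^ (r0 * r0 ^ j) := by rw [hr0', ← pow_mul]
  -- choose `r`
  obtain ⟨r, hr1, hr2, hrb⟩ : ∃ r : ℕ, 1 < r ∧ p ∣ r - 1 ∧ b * a * b⁻¹ = a ^ r := by
    by_cases hn0 : n = 0
    · subst hn0
      have ha1 : a = 1 := by
        rw [pow_zero] at hao
        exact orderOf_eq_one_iff.1 hao
      refine ⟨1 + p, by have := hpp.pos; omega, by simp, ?_⟩
      rw [ha1]
      simp
    · have h1 : a ^ (r0 ^ (p ^ (n + t))) = a := by
        have := hiter (p ^ (n + t))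
        rw [← hcard, pow_card_eq_one'] at this
        rw [← hcard, ← this]
        group
      have h2 : r0 ^ (p ^ (n + t)) ≡ 1 [MOD orderOf a] := pow_eq_pow_iff_modEq.1 (by rw [pow_one]; exact h1)
      rw [hao] at h2
      have h3 : r0 ^ (p ^ (n + t)) ≡ 1 [MOD p] := h2.of_dvd (dvd_pow_self p hn0)
      have h4 := (ZMod.natCast_eq_natCast_iff _ _ _).2 h3
      push_cast at h4
      rw [ZMod.pow_card_pow] at h4
      have hr00 : r0 ≠ 0 := by
        rintro rfl
        push_cast at h4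
        exact zero_ne_one h4
      have hdvd : p ∣ r0 - 1 := by
        rw [← ZMod.natCast_eq_zero_iff, Nat.cast_sub (by omega)]
        push_cast
        rw [h4]
        ring
      refine ⟨r0 + p ^ n * p, ?_, ?_, ?_⟩
      · have : 0 < p ^ n * p := Nat.mul_pos (pow_pos hpp.pos _) hpp.pos
        have h5 : 2 ≤ p ^ n * p := by
          calc 2 ≤ p := hpp.two_le
            _ = 1 * p := (one_mul p).symm
            _ ≤ p ^ n * p := Nat.mul_le_mul_right _ (pow_pos hpp.pos _)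
        omega
      · have e : r0 + p ^ n * p - 1 = (r0 - 1) + p ^ n * p := by omega
        rw [e]
        exact Nat.dvd_add hdvd (Nat.dvd_mul_left _ _)
      · rw [hr0', pow_add, pow_mul, ← hao, pow_orderOf_eq_one, one_pow, mul_one]
  obtain ⟨c, hc⟩ := exists_K hpp hodd n r hr1 hr2
  refine ⟨n, t, c, r, a, b, ⟨hpp, hodd, hao, hcard, hbt, hrb, ?_, hr1, hr2, hc⟩⟩
  intro g
  obtain ⟨j, hj⟩ := (mem_powers_iff_mem_zpowers).2 (hbq ((g : G) : G ⧸ N))
  have hj' : ((b : G) : G ⧸ N) ^ j = (g : G ⧸ N) := hj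
  rw [← QuotientGroup.mk_pow, QuotientGroup.eq] at hj'
  have h1 : g * (b ^ j)⁻¹ ∈ zpowers a := by
    rw [← hNa]
    have h2 := N.inv_mem hj'
    have h3 : ((b ^ j)⁻¹ * g)⁻¹ = g⁻¹ * b ^ j := by group
    have h4 : g * (b ^ j)⁻¹ = g * ((b ^ j)⁻¹ * g) * g⁻¹ := by group
    rw [h4]
    exact hNn.conj_mem _ hj' g
  obtain ⟨i, hi⟩ := (mem_powers_iff_mem_zpowers).2 h1
  refine ⟨i, j, ?_⟩
  have hi' : a ^ i = g * (b ^ j)⁻¹ := hi
  rw [hi']
  group

namespace MC

variable {p n t c r : ℕ} {a b : G} (h : MC G p n t c r a b)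
include h

theorem conj_pow_a (j : ℕ) : b ^ j * a * (b ^ j)⁻¹ = a ^ (r ^ j) := by
  induction j with
  | zero => simp
  | succ j ih =>
    rw [pow_succ', pow_succ']
    calc b * b ^ j * a * (b * b ^ j)⁻¹ = b * (b ^ j * a * (b ^ j)⁻¹) * b⁻¹ := by group
      _ = b * a ^ (r ^ j) * b⁻¹ := by rw [ih]
      _ = (b * a * b⁻¹) ^ (r ^ j) := by rw [conj_pow]
      _ = a ^ (r * r ^ j) := by rw [h.hb, ← pow_mul]

theorem conj_pow_pow (i j : ℕ) : b ^ j * a ^ i * (b ^ j)⁻¹ = a ^ (i * r ^ j) := by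
  rw [← conj_pow, h.conj_pow_a, ← pow_mul, mul_comm]

/-- normal-form multiplication. -/
theorem mul_nf (i j u v : ℕ) : (a ^ i * b ^ j) * (a ^ u * b ^ v) = a ^ (i + u * r ^ j) * b ^ (j + v) := by
  have h1 := h.conj_pow_pow u j
  calc (a ^ i * b ^ j) * (a ^ u * b ^ v) = a ^ i * (b ^ j * a ^ u * (b ^ j)⁻¹) * (b ^ j * b ^ v) := by group
    _ = a ^ i * a ^ (u * r ^ j) * (b ^ j * b ^ v) := by rw [h1]
    _ = _ := by rw [pow_add, pow_add]

theorem one_le_pow (j : ℕ) : 1 ≤ r ^ j := Nat.one_le_pow _ _ (by have := h.hr; omega)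

theorem pow_eq_iff_mod (x y : ℕ) : a ^ x = a ^ y ↔ x ≡ y [MOD p ^ n] := by
  rw [pow_eq_pow_iff_modEq, h.ha]

/-- `a ^ u` commutes with `b ^ v`. -/
theorem comm_a_b (u v : ℕ) : a ^ u * b ^ v = b ^ v * a ^ u ↔ p ^ c ∣ u * v := by
  rw [← h.hK]
  have h1 := h.conj_pow_pow u v
  constructor
  · intro he
    have h2 : b ^ v * a ^ u * (b ^ v)⁻¹ = a ^ u := by
      rw [← he]; group
    rw [h1, h.pow_eq_iff_mod] at h2
    have h3 : u * r ^ v = u * (r ^ v - 1) + u := by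
      have := h.one_le_pow v
      have e : r ^ v = (r ^ v - 1) + 1 := by omega
      nth_rw 1 [e]
      ring
    rw [h3] at h2
    have h4 : u * (r ^ v - 1) + u ≡ 0 + u [MOD p ^ n] := by simpa using h2
    have h5 := Nat.ModEq.add_right_cancel' u h4
    exact (Nat.modEq_zero_iff_dvd).1 h5
  · intro hd
    have h2 : a ^ (u * r ^ v) = a ^ u := by
      rw [h.pow_eq_iff_mod]
      have h3 : u * r ^ v = u * (r ^ v - 1) + u := by
        have := h.one_le_pow v
        have e : r ^ v = (r ^ v - 1) + 1 := by omega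
        nth_rw 1 [e]
        ring
      rw [h3]
      have h4 : u * (r ^ v - 1) ≡ 0 [MOD p ^ n] := (Nat.modEq_zero_iff_dvd).2 hd
      simpa using h4.add_right u
    rw [← h1] at h2
    have h3 : b ^ v * a ^ u = a ^ u * b ^ v := by
      calc b ^ v * a ^ u = (b ^ v * a ^ u * (b ^ v)⁻¹) * b ^ v := by group
        _ = a ^ u * b ^ v := by rw [h2]
    exact h3.symm


theorem c_le_n : c ≤ n := by
  have hpp := h.hp
  have h1 := (h.hK (p ^ n) 1).1 (Dvd.intro _ (by rw [pow_one]))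
  rw [mul_one] at h1
  exact (Nat.pow_dvd_pow_iff_le_right hpp.one_lt).1 h1

theorem b_mem : b ^ (p ^ t) ∈ zpowers a := (h.hbt _).2 dvd_rfl

theorem comm_of_mem (x : G) (hx : x ∈ zpowers a) (u : ℕ) : a ^ u * x = x * a ^ u := by
  obtain ⟨k, rfl⟩ := Subgroup.mem_zpowers_iff.1 hx
  exact ((Commute.refl a).pow_left u |>.zpow_right k).eq

theorem c_le_t : c ≤ t := by
  have hpp := h.hp
  have h1 := h.comm_of_mem _ h.b_mem 1
  have h2 := (h.comm_a_b 1 (p ^ t)).1 h1
  rw [one_mul] at h2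
  exact (Nat.pow_dvd_pow_iff_le_right hpp.one_lt).1 h2

/-- `a ^ x` central-with-`b` criterion. -/
theorem comm_b (u : ℕ) : a ^ u * b = b * a ^ u ↔ p ^ c ∣ u := by
  have := h.comm_a_b u 1
  simpa using this

theorem comm_a (v : ℕ) : a * b ^ v = b ^ v * a ↔ p ^ c ∣ v := by
  have := h.comm_a_b 1 v
  simpa using this

/-- Well-definedness of coordinates modulo `p ^ c`, one-sided version. -/
theorem wd_aux {i j u v : ℕ} (hvj : v ≤ j) (he : a ^ i * b ^ j = a ^ u * b ^ v) :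
    p ^ c ∣ j - v ∧ i ≡ u [MOD p ^ c] := by
  have hpp := h.hp
  have hcomm : (a ^ i)⁻¹ * a ^ u = b ^ (j - v) := by
    have e : b ^ j = b ^ (j - v) * b ^ v := by rw [← pow_add]; congr 1; omega
    rw [e, ← mul_assoc] at he
    have h1 := mul_right_cancel he
    rw [← h1]
    group
  have h1 : b ^ (j - v) ∈ zpowers a := by
    rw [← hcomm]
    exact Subgroup.mul_mem _ (Subgroup.inv_mem _ (Subgroup.pow_mem _ (mem_zpowers a) i)) (Subgroup.pow_mem _ (mem_zpowers a) u)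
  have h2 : p ^ t ∣ j - v := (h.hbt _).1 h1
  refine ⟨(pow_dvd_pow p h.c_le_t).trans h2, ?_⟩
  -- the element commutes with `b`
  rcases le_total i u with hiu | hui
  · have e : (a ^ i)⁻¹ * a ^ u = a ^ (u - i) := by
      have : a ^ u = a ^ i * a ^ (u - i) := by rw [← pow_add]; congr 1; omega
      rw [this]
      group
    rw [e] at hcomm
    have h3 : a ^ (u - i) * b = b * a ^ (u - i) := by
      rw [hcomm, ← pow_succ, ← pow_succ']
    have h4 := (h.comm_b _).1 h3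
    exact ((Nat.modEq_iff_dvd' hiu).2 h4)
  · have e : (a ^ i)⁻¹ * a ^ u = (a ^ (i - u))⁻¹ := by
      have : a ^ i = a ^ u * a ^ (i - u) := by rw [← pow_add]; congr 1; omega
      rw [this, mul_inv_rev, mul_assoc]
      group
    rw [e] at hcomm
    have h3 : a ^ (i - u) * b = b * a ^ (i - u) := by
      have h5 : a ^ (i - u) = (b ^ (j - v))⁻¹ := by rw [← hcomm, inv_inv]
      rw [h5]
      have : Commute (b ^ (j - v)) b := (Commute.refl b).pow_left _
      exact (this.inv_left).eq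
    have h4 := (h.comm_b _).1 h3
    exact ((Nat.modEq_iff_dvd' hui).2 h4).symm

theorem wd {i j u v : ℕ} (he : a ^ i * b ^ j = a ^ u * b ^ v) : i ≡ u [MOD p ^ c] ∧ j ≡ v [MOD p ^ c] := by
  rcases le_total v j with hvj | hjv
  · obtain ⟨h1, h2⟩ := h.wd_aux hvj he
    exact ⟨h2, ((Nat.modEq_iff_dvd' hvj).2 h1).symm⟩
  · obtain ⟨h1, h2⟩ := h.wd_aux hjv he.symm
    exact ⟨h2.symm, (Nat.modEq_iff_dvd' hjv).2 h1⟩

/-- `a ^ x = a ^ y` congruence consequence of membership. -/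
theorem mem_zpowers_pow_iff (e x : ℕ) (he : e ≤ n) : a ^ x ∈ zpowers (a ^ (p ^ e)) ↔ p ^ e ∣ x := by
  have hpp := h.hp
  constructor
  · intro h1
    obtain ⟨y, hy⟩ := (mem_powers_iff_mem_zpowers).2 h1
    have hy' : a ^ (p ^ e * y) = a ^ x := by rw [pow_mul]; exact hy
    rw [h.pow_eq_iff_mod] at hy'
    have h2 : p ^ e ∣ p ^ n := pow_dvd_pow p he
    exact (hy'.dvd_iff h2).1 (Nat.dvd_mul_right _ _)
  · rintro ⟨y, rfl⟩
    rw [pow_mul]
    exact Subgroup.pow_mem _ (mem_zpowers _) y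

end MC

end CfsgLib.FGS.Meta
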