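import Cfsg.Agent.Lib.FGS.Meta1
import Cfsg.Agent.Lib.Solv.Hall

set_option autoImplicit false
set_option linter.unusedSectionVars false
set_option linter.style.haveILetI false
set_option linter.unusedVariables false

open Subgroup Cfsg
open scoped commutatorElement

namespace CfsgLib.FGS.Meta

universe u

/-- geometric sums. -/
def phi (R m : ℕ) : ℕ := ∑ k ∈ Finset.range m, R ^ k

theorem phi_succ (R m : ℕ) : phi R (m + 1) = phi R m + R ^ m := Finset.sum_range_succ _ _

theorem phi_zero (R : ℕ) : phi R 0 = 0 := rfl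

theorem phi_mul (R m : ℕ) (hR : 1 ≤ R) : (R - 1) * phi R m + 1 = R ^ m := by
  obtain ⟨S, rfl⟩ : ∃ S, R = S + 1 := ⟨R - 1, by omega⟩
  simp only [Nat.add_sub_cancel]
  induction m with
  | zero => simp [phi_zero]
  | succ m ih =>
    rw [phi_succ, mul_add, add_right_comm, ih, pow_succ]
    ring

theorem phi_one (m : ℕ) : phi 1 m = m := by
  simp [phi]

theorem sub_one_dvd_pow (r j : ℕ) (hr : 1 ≤ r) : r - 1 ∣ r ^ j - 1 :=
  ⟨phi r j, by have := phi_mul r j hr; omega⟩

/-- The valuation of a geometric sum. -/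
theorem phi_dvd_iff {p : ℕ} (hp : p.Prime) (hodd : p ≠ 2) {R : ℕ} (hR : 1 ≤ R) (hR1 : p ∣ R - 1) (e m : ℕ) :
    p ^ e ∣ phi R m ↔ p ^ e ∣ m := by
  haveI : Fact p.Prime := ⟨hp⟩
  have hoddp : Odd p := hp.odd_of_ne_two hodd
  rcases eq_or_lt_of_le hR with rfl | hR2
  · rw [phi_one]
  by_cases hm : m = 0
  · subst hm
    simp [phi_zero]
  have hnp : ¬ p ∣ R := by
    intro h
    have h1 : p ∣ R - (R - 1) := Nat.dvd_sub h hR1
    have h2 : R - (R - 1) = 1 := by omega
    rw [h2] at h1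
    exact hp.one_lt.ne' (Nat.dvd_one.1 h1)
  have h1 : padicValNat p (R ^ m - 1 ^ m) = padicValNat p (R - 1) + padicValNat p m :=
    padicValNat.pow_sub_pow hoddp hR2 hR1 hnp hm
  rw [one_pow] at h1
  have h2 := phi_mul R m hR
  have h3 : R ^ m - 1 = (R - 1) * phi R m := by omega
  have hR10 : R - 1 ≠ 0 := by omega
  have hphi : phi R m ≠ 0 := by
    intro h0
    rw [h0, mul_zero, zero_add] at h2
    have : 1 < R ^ m := Nat.one_lt_pow hm hR2
    omega
  rw [h3, padicValNat.mul hR10 hphi] at h1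
  have h4 : padicValNat p (phi R m) = padicValNat p m := by omega
  rw [padicValNat_dvd_iff_le hphi, padicValNat_dvd_iff_le hm, h4]

variable {G : Type u} [Group G] [Finite G]

/-- The subgroups `G_e`. -/
def Ge (a b : G) (p e : ℕ) : Subgroup G := zpowers (a ^ (p ^ e)) ⊔ zpowers (b ^ (p ^ e))

namespace MC

variable {p n t c r : ℕ} {a b : G} (h : MC G p n t c r a b)
include h

/-- normality of the subgroups of `⟨a⟩`. -/
theorem normal_zpowers (e : ℕ) : (zpowers (a ^ e)).Normal := by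
  constructor
  intro x hx g
  obtain ⟨i, j, rfl⟩ := h.hgen g
  obtain ⟨k, rfl⟩ := Subgroup.mem_zpowers_iff.1 hx
  have h1 : (a ^ i * b ^ j) * (a ^ e) ^ k * (a ^ i * b ^ j)⁻¹ = a ^ i * (b ^ j * (a ^ e) ^ k * (b ^ j)⁻¹) * (a ^ i)⁻¹ := by
    group
  rw [h1]
  have h2 : b ^ j * (a ^ e) * (b ^ j)⁻¹ = (a ^ e) ^ (r ^ j) := by
    rw [h.conj_pow_pow, pow_mul]
  have h3 : b ^ j * (a ^ e) ^ k * (b ^ j)⁻¹ = ((a ^ e) ^ (r ^ j)) ^ k := by
    rw [← conj_zpow, h2]
  rw [h3]
  have hc : Commute (a ^ i) (((a ^ e) ^ (r ^ j)) ^ k) :=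
    ((((Commute.refl a).pow_pow i e).pow_right _).zpow_right k)
  rw [hc.eq, mul_inv_cancel_right]
  exact Subgroup.zpow_mem _ (Subgroup.pow_mem _ (mem_zpowers _) _) k

theorem mem_Ge_iff (e : ℕ) (g : G) : g ∈ Ge a b p e ↔ ∃ i j : ℕ, g = a ^ (p ^ e * i) * b ^ (p ^ e * j) := by
  haveI := h.normal_zpowers (p ^ e)
  unfold Ge
  constructor
  · intro hg
    obtain ⟨y, hy, z, hz, rfl⟩ := Subgroup.mem_sup_of_normal_left.1 hg
    obtain ⟨i, rfl⟩ := (mem_powers_iff_mem_zpowers).2 hy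
    obtain ⟨j, rfl⟩ := (mem_powers_iff_mem_zpowers).2 hz
    exact ⟨i, j, by simp [pow_mul]⟩
  · rintro ⟨i, j, rfl⟩
    rw [pow_mul, pow_mul]
    exact Subgroup.mul_mem _ ((le_sup_left : zpowers (a ^ (p ^ e)) ≤ _) (Subgroup.pow_mem _ (mem_zpowers _) _))
      ((le_sup_right : zpowers (b ^ (p ^ e)) ≤ _) (Subgroup.pow_mem _ (mem_zpowers _) _))

theorem mem_Ge_coord {e : ℕ} (he : e ≤ c) (i j : ℕ) : a ^ i * b ^ j ∈ Ge a b p e ↔ p ^ e ∣ i ∧ p ^ e ∣ j := by
  rw [h.mem_Ge_iff]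
  constructor
  · rintro ⟨x, y, hxy⟩
    obtain ⟨h1, h2⟩ := h.wd hxy
    have hd : p ^ e ∣ p ^ c := pow_dvd_pow p he
    exact ⟨(h1.dvd_iff hd).2 (Nat.dvd_mul_right _ _), (h2.dvd_iff hd).2 (Nat.dvd_mul_right _ _)⟩
  · rintro ⟨⟨x, rfl⟩, ⟨y, rfl⟩⟩
    exact ⟨x, y, rfl⟩

theorem Ge_zero : Ge a b p 0 = ⊤ := by
  rw [eq_top_iff]
  intro g _
  obtain ⟨i, j, rfl⟩ := h.hgen g
  rw [h.mem_Ge_iff]
  exact ⟨i, j, by simp⟩

theorem Ge_succ_le (e : ℕ) : Ge a b p (e + 1) ≤ Ge a b p e := by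
  apply sup_le
  · rw [Subgroup.zpowers_le, pow_succ, pow_mul]
    exact (le_sup_left : zpowers (a ^ (p ^ e)) ≤ _) (Subgroup.pow_mem _ (mem_zpowers _) _)
  · rw [Subgroup.zpowers_le, pow_succ, pow_mul]
    exact (le_sup_right : zpowers (b ^ (p ^ e)) ≤ _) (Subgroup.pow_mem _ (mem_zpowers _) _)

theorem card_Ge {e : ℕ} (he : e ≤ c) : Nat.card (Ge a b p e) = p ^ (n + t - 2 * e) := by
  have hpp := h.hp
  have hcn := h.c_le_n
  have hct := h.c_le_t
  haveI hAn : (zpowers a).Normal := by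
    have := h.normal_zpowers 1
    simpa using this
  haveI hNn := h.normal_zpowers (p ^ e)
  -- the whole group
  have htop : zpowers b ⊔ zpowers a = ⊤ := by
    rw [eq_top_iff]
    intro g _
    obtain ⟨i, j, rfl⟩ := h.hgen g
    rw [sup_comm]
    exact Subgroup.mul_mem _ ((le_sup_left : zpowers a ≤ _) (Subgroup.pow_mem _ (mem_zpowers _) _))
      ((le_sup_right : zpowers b ≤ _) (Subgroup.pow_mem _ (mem_zpowers _) _))
  have h1 := CfsgLib.Solv.card_sup_mul_card_inf (zpowers b) (zpowers a)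
  rw [htop, Subgroup.card_top, h.hcard, Nat.card_zpowers, Nat.card_zpowers, h.ha] at h1
  set M := zpowers b ⊓ zpowers a with hM
  have hMpos : 0 < Nat.card M := Nat.card_pos
  have hbo : orderOf b = p ^ t * Nat.card M := by
    have h2 : p ^ n * (p ^ t * Nat.card M) = p ^ n * orderOf b := by
      rw [← mul_assoc, ← pow_add, h1, mul_comm]
    exact (Nat.eq_of_mul_eq_mul_left (pow_pos hpp.pos _) h2).symm
  -- the intersection
  have hinf : zpowers (b ^ (p ^ e)) ⊓ zpowers (a ^ (p ^ e)) = M := by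
    apply le_antisymm
    · rintro x ⟨h2, h3⟩
      have h4 : zpowers (b ^ (p ^ e)) ≤ zpowers b := by
        rw [Subgroup.zpowers_le]; exact Subgroup.pow_mem _ (mem_zpowers _) _
      have h5 : zpowers (a ^ (p ^ e)) ≤ zpowers a := by
        rw [Subgroup.zpowers_le]; exact Subgroup.pow_mem _ (mem_zpowers _) _
      exact ⟨h4 h2, h5 h3⟩
    · rintro x ⟨h2, h3⟩
      obtain ⟨y, rfl⟩ := (mem_powers_iff_mem_zpowers).2 h2
      obtain ⟨w, hw⟩ := (mem_powers_iff_mem_zpowers).2 h3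
      have hw' : a ^ w = b ^ y := hw
      have h4 : p ^ t ∣ y := (h.hbt y).1 h3
      have h5 : p ^ e ∣ y := (pow_dvd_pow p (he.trans hct)).trans h4
      obtain ⟨y', rfl⟩ := h5
      refine ⟨by
        show b ^ (p ^ e * y') ∈ _
        rw [pow_mul]
        exact Subgroup.pow_mem _ (mem_zpowers _) _, ?_⟩
      have h6 : a ^ w * b = b * a ^ w := by
        rw [hw', ← pow_succ, ← pow_succ']
      have h7 := (h.comm_b w).1 h6
      have h8 : p ^ e ∣ w := (pow_dvd_pow p he).trans h7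
      show b ^ (p ^ e * y') ∈ _
      rw [← hw']
      exact (h.mem_zpowers_pow_iff e w (he.trans hcn)).2 h8
  have h2 := CfsgLib.Solv.card_sup_mul_card_inf (zpowers (b ^ (p ^ e))) (zpowers (a ^ (p ^ e)))
  rw [hinf, Nat.card_zpowers, Nat.card_zpowers] at h2
  have hoa : orderOf (a ^ (p ^ e)) = p ^ (n - e) := by
    rw [orderOf_pow' _ (pow_ne_zero _ hpp.ne_zero), h.ha, Nat.gcd_eq_right (pow_dvd_pow p (he.trans hcn)),
      Nat.pow_div (he.trans hcn) hpp.pos]
  have hob : orderOf (b ^ (p ^ e)) = p ^ (t - e) * Nat.card M := by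
    have hdvd : p ^ e ∣ orderOf b := by
      rw [hbo]
      exact (pow_dvd_pow p (he.trans hct)).trans (Nat.dvd_mul_right _ _)
    rw [orderOf_pow' _ (pow_ne_zero _ hpp.ne_zero), Nat.gcd_eq_right hdvd, hbo]
    have e1 : p ^ t = p ^ e * p ^ (t - e) := by
      rw [← pow_add]
      congr 1
      have := he.trans hct
      omega
    rw [e1, mul_assoc, Nat.mul_div_cancel_left _ (pow_pos hpp.pos _)]
  rw [hoa, hob] at h2
  have hsup : zpowers (b ^ (p ^ e)) ⊔ zpowers (a ^ (p ^ e)) = Ge a b p e := by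
    unfold Ge
    exact sup_comm _ _
  rw [hsup] at h2
  have h3 : Nat.card (Ge a b p e) * Nat.card M = (p ^ (t - e) * p ^ (n - e)) * Nat.card M := by
    rw [h2]; ring
  have h4 := Nat.eq_of_mul_eq_mul_right hMpos h3
  rw [h4, ← pow_add]
  congr 1
  have := he.trans hct
  have := he.trans hcn
  omega

/-- central elements. -/
theorem mem_center_coord (i j : ℕ) : a ^ i * b ^ j ∈ center G ↔ p ^ c ∣ i ∧ p ^ c ∣ j := by
  constructor
  · intro hz
    have h1 := Subgroup.mem_center_iff.1 hz a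
    have h2 := Subgroup.mem_center_iff.1 hz b
    refine ⟨?_, ?_⟩
    · apply (h.comm_b i).1
      have h3 : b * (a ^ i * b ^ j) = (a ^ i * b ^ j) * b := h2
      have h4 : b ^ j * b = b * b ^ j := ((Commute.refl b).pow_left j).eq
      have h5 : (b * a ^ i) * b ^ j = (a ^ i * b) * b ^ j := by
        calc (b * a ^ i) * b ^ j = b * (a ^ i * b ^ j) := by group
          _ = (a ^ i * b ^ j) * b := h3
          _ = a ^ i * (b ^ j * b) := by group
          _ = a ^ i * (b * b ^ j) := by rw [h4]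
          _ = _ := by group
      exact (mul_right_cancel h5).symm
    · apply (h.comm_a j).1
      have h3 : a * (a ^ i * b ^ j) = (a ^ i * b ^ j) * a := h1
      have h4 : a ^ i * a = a * a ^ i := ((Commute.refl a).pow_left i).eq
      have h5 : (a ^ i) * (a * b ^ j) = a ^ i * (b ^ j * a) := by
        calc (a ^ i) * (a * b ^ j) = (a ^ i * a) * b ^ j := by group
          _ = (a * a ^ i) * b ^ j := by rw [h4]
          _ = a * (a ^ i * b ^ j) := by group
          _ = (a ^ i * b ^ j) * a := h3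
          _ = _ := by group
      exact mul_left_cancel h5
  · rintro ⟨h1, h2⟩
    rw [Subgroup.mem_center_iff]
    intro g
    obtain ⟨u, v, rfl⟩ := h.hgen g
    have hc1 : Commute (a ^ i) (b ^ v) := by
      obtain ⟨i', rfl⟩ := h1
      exact (h.comm_a_b _ _).2 (Dvd.dvd.mul_right (Dvd.intro _ rfl) _)
    have hc2 : Commute (a ^ u) (b ^ j) := by
      obtain ⟨j', rfl⟩ := h2
      refine (h.comm_a_b _ _).2 ?_
      exact ⟨u * j', by ring⟩
    have hc3 : Commute (a ^ u) (a ^ i) := (Commute.refl a).pow_pow u i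
    have hc4 : Commute (b ^ v) (b ^ j) := (Commute.refl b).pow_pow v j
    have hc : Commute (a ^ u * b ^ v) (a ^ i * b ^ j) :=
      Commute.mul_left (Commute.mul_right hc3 hc2) (Commute.mul_right hc1.symm hc4)
    exact hc.eq

theorem Ge_c : Ge a b p c = center G := by
  ext g
  obtain ⟨i, j, rfl⟩ := h.hgen g
  rw [h.mem_Ge_coord le_rfl, h.mem_center_coord]

theorem card_center : Nat.card (center G) = p ^ (n + t - 2 * c) := by
  rw [← h.Ge_c, h.card_Ge le_rfl]

/-- the commutator subgroup -/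
theorem commutator_eq : commutator G = zpowers (a ^ (r - 1)) := by
  have hr1 := h.hr
  apply le_antisymm
  · haveI hDn := h.normal_zpowers (r - 1)
    have hab : ((a : G) : G ⧸ zpowers (a ^ (r - 1))) * (b : G ⧸ zpowers (a ^ (r - 1))) =
        (b : G ⧸ zpowers (a ^ (r - 1))) * (a : G ⧸ zpowers (a ^ (r - 1))) := by
      rw [← QuotientGroup.mk_mul, ← QuotientGroup.mk_mul, eq_comm, QuotientGroup.eq]
      have e1 : (b * a)⁻¹ * (a * b) = (b * a)⁻¹ * ((b * a * b⁻¹ * a⁻¹)⁻¹ * (b * a)) := by group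
      rw [e1]
      have hmem : b * a * b⁻¹ * a⁻¹ ∈ zpowers (a ^ (r - 1)) := by
        rw [h.hb]
        have e2 : a ^ r * a⁻¹ = a ^ (r - 1) := by
          have : a ^ r = a ^ (r - 1) * a := by rw [← pow_succ]; congr 1; omega
          rw [this]
          group
        rw [e2]
        exact mem_zpowers _
      have h9 := hDn.conj_mem _ (Subgroup.inv_mem _ hmem) (b * a)⁻¹
      have e3 : (b * a)⁻¹ * (b * a * b⁻¹ * a⁻¹)⁻¹ * (b * a)⁻¹⁻¹ = (b * a)⁻¹ * ((b * a * b⁻¹ * a⁻¹)⁻¹ * (b * a)) := by group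
      rwa [e3] at h9
    have hcomm : ∀ x y : G ⧸ zpowers (a ^ (r - 1)), x * y = y * x := by
      intro x y
      obtain ⟨g1, rfl⟩ := QuotientGroup.mk_surjective x
      obtain ⟨g2, rfl⟩ := QuotientGroup.mk_surjective y
      obtain ⟨i, j, rfl⟩ := h.hgen g1
      obtain ⟨u, v, rfl⟩ := h.hgen g2
      have hc : Commute ((a : G) : G ⧸ zpowers (a ^ (r - 1))) (b : G ⧸ zpowers (a ^ (r - 1))) := hab
      simp only [QuotientGroup.mk_mul, QuotientGroup.mk_pow]
      have hc1 := hc.pow_pow i v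
      have hc2 := hc.pow_pow u j
      have hc3 := (Commute.refl ((a : G) : G ⧸ zpowers (a ^ (r - 1)))).pow_pow i u
      have hc4 := (Commute.refl ((b : G) : G ⧸ zpowers (a ^ (r - 1)))).pow_pow j v
      exact (Commute.mul_left (Commute.mul_right hc3 hc1) (Commute.mul_right hc2.symm hc4)).eq
    rw [_root_.commutator_def, Subgroup.commutator_le]
    intro x _ y _
    rw [← QuotientGroup.eq_one_iff]
    simp only [commutatorElement_def, QuotientGroup.mk_mul, QuotientGroup.mk_inv]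
    rw [hcomm x y]
    group
  · rw [Subgroup.zpowers_le]
    have e2 : a ^ (r - 1) = ⁅b, a⁆ := by
      rw [commutatorElement_def, h.hb]
      have : a ^ r = a ^ (r - 1) * a := by rw [← pow_succ]; congr 1; omega
      rw [this]
      group
    rw [e2, _root_.commutator_def]
    exact Subgroup.commutator_mem_commutator (Subgroup.mem_top _) (Subgroup.mem_top _)

theorem card_commutator : Nat.card (commutator G) = p ^ c := by
  rw [h.commutator_eq, Nat.card_zpowers]
  apply Nat.dvd_antisymm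
  · apply orderOf_dvd_of_pow_eq_one
    rw [← pow_mul]
    apply orderOf_dvd_iff_pow_eq_one.1
    rw [h.ha]
    have := (h.hK (p ^ c) 1).2 (by simp)
    rwa [pow_one, mul_comm] at this
  · have h1 : p ^ n ∣ orderOf (a ^ (r - 1)) * (r ^ 1 - 1) := by
      rw [pow_one, mul_comm, ← h.ha, orderOf_dvd_iff_pow_eq_one, pow_mul]
      exact pow_orderOf_eq_one _
    have := (h.hK _ 1).1 h1
    rwa [mul_one] at this

end MC

end CfsgLib.FGS.Meta
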