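import Cfsg.Agent.Lib.FGS.Meta2

set_option autoImplicit false
set_option linter.unusedSectionVars false
set_option linter.style.haveILetI false
set_option linter.unusedVariables false

open Subgroup Cfsg
open scoped commutatorElement

namespace CfsgLib.FGS.Meta

universe u

variable {G : Type u} [Group G] [Finite G]

/-- Lower bound for an index. -/
theorem index_ge (C : Subgroup G) (x : G) (m : ℕ) (hne : ∀ k, 0 < k → k < m → x ^ k ∉ C) : m ≤ C.index := by
  classical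
  let f : Fin m → G ⧸ C := fun k => ((x ^ (k : ℕ) : G) : G ⧸ C)
  have hf : Function.Injective f := by
    have key : ∀ k l : Fin m, (k : ℕ) < l → f k ≠ f l := by
      intro k l hkl he
      have h1 : (x ^ (k : ℕ))⁻¹ * x ^ (l : ℕ) ∈ C := QuotientGroup.eq.1 he
      have e : (x ^ (k : ℕ))⁻¹ * x ^ (l : ℕ) = x ^ ((l : ℕ) - k) := by
        have : x ^ (l : ℕ) = x ^ (k : ℕ) * x ^ ((l : ℕ) - k) := by
          rw [← pow_add]; congr 1; omega
        rw [this]
        group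
      rw [e] at h1
      exact hne _ (by omega) (by have := l.2; omega) h1
    intro k l he
    rcases lt_trichotomy (k : ℕ) l with h1 | h1 | h1
    · exact absurd he (key k l h1)
    · exact Fin.ext h1
    · exact absurd he.symm (key l k h1)
  have h1 := Nat.card_le_card_of_injective f hf
  rw [Nat.card_fin, ← Subgroup.index_eq_card] at h1
  exact h1

/-- arithmetic. -/
theorem not_dvd_mul_aux {p e c j k : ℕ} (hp : p.Prime) (he : e ≤ c) (hj : p ^ e ∣ j) (hj' : ¬ p ^ (e + 1) ∣ j) (hk0 : 0 < k)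
    (hk : k < p ^ (c - e)) : ¬ p ^ c ∣ k * j := by
  intro hd
  obtain ⟨j1, rfl⟩ := hj
  have hj1 : ¬ p ∣ j1 := by
    intro h1
    apply hj'
    rw [pow_succ]
    exact Nat.mul_dvd_mul_left _ h1
  have e1 : p ^ c = p ^ e * p ^ (c - e) := by
    rw [← pow_add]; congr 1; omega
  have e2 : k * (p ^ e * j1) = p ^ e * (k * j1) := by ring
  rw [e1, e2] at hd
  have h2 := Nat.dvd_of_mul_dvd_mul_left (pow_pos hp.pos _) hd
  have hco : Nat.Coprime (p ^ (c - e)) j1 := Nat.Coprime.pow_left _ ((Nat.Prime.coprime_iff_not_dvd hp).2 hj1)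
  have h3 := hco.dvd_of_dvd_mul_right h2
  have := Nat.le_of_dvd hk0 h3
  omega

namespace MC

variable {p n t c r : ℕ} {a b : G} (h : MC G p n t c r a b)
include h

theorem hK' {e : ℕ} (he : e ≤ c) (x j : ℕ) : p ^ (n - c + e) ∣ x * (r ^ j - 1) ↔ p ^ e ∣ x * j := by
  have hpp := h.hp
  have hcn := h.c_le_n
  have h1 := h.hK (p ^ (c - e) * x) j
  have e1 : p ^ n = p ^ (c - e) * p ^ (n - c + e) := by
    rw [← pow_add]; congr 1; omega
  have e2 : p ^ c = p ^ (c - e) * p ^ e := by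
    rw [← pow_add]; congr 1; omega
  rw [e1, e2, mul_assoc, mul_assoc, Nat.mul_dvd_mul_iff_left (pow_pos hpp.pos _),
    Nat.mul_dvd_mul_iff_left (pow_pos hpp.pos _)] at h1
  exact h1

/-- Upper bound for the class size. -/
theorem index_le {e : ℕ} (he : e ≤ c) {g : G} (hg : g ∈ Ge a b p e) :
    (centralizer ({g} : Set G)).index ≤ p ^ (c - e) := by
  classical
  have hpp := h.hp
  have hcn := h.c_le_n
  set D := zpowers (a ^ (p ^ (n - c + e))) with hD
  haveI hDn : D.Normal := h.normal_zpowers _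
  obtain ⟨x, y, rfl⟩ := (h.mem_Ge_iff e g).1 hg
  set i := p ^ e * x with hi
  set j := p ^ e * y with hj
  have hDcard : Nat.card D = p ^ (c - e) := by
    rw [hD, Nat.card_zpowers, orderOf_pow' _ (pow_ne_zero _ hpp.ne_zero), h.ha,
      Nat.gcd_eq_right (pow_dvd_pow p (by omega)), Nat.pow_div (by omega) hpp.pos]
    congr 1
    omega
  have hmemD : ∀ m : ℕ, p ^ (n - c + e) ∣ m → a ^ m ∈ D := by
    rintro m ⟨m', rfl⟩
    rw [pow_mul]
    exact Subgroup.pow_mem _ (mem_zpowers _) _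
  -- commutators with generators
  have hA : a * (a ^ i * b ^ j) * a⁻¹ * (a ^ i * b ^ j)⁻¹ ∈ D := by
    have h1 := h.conj_pow_a j
    have hr1 := h.one_le_pow j
    have h2 : a ^ (r ^ j) = a ^ (r ^ j - 1) * a := by
      rw [← pow_succ]; congr 1; omega
    have h3 : b ^ j * a⁻¹ * (b ^ j)⁻¹ = (a ^ (r ^ j - 1) * a)⁻¹ := by
      rw [← h2, ← h1]
      group
    have e1 : a * (a ^ i * b ^ j) * a⁻¹ * (a ^ i * b ^ j)⁻¹ = a * a ^ i * (b ^ j * a⁻¹ * (b ^ j)⁻¹) * (a ^ i)⁻¹ := by group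
    rw [e1, h3]
    have e2 : a * a ^ i * (a ^ (r ^ j - 1) * a)⁻¹ * (a ^ i)⁻¹ = (a ^ (r ^ j - 1))⁻¹ := by group
    rw [e2]
    apply Subgroup.inv_mem
    apply hmemD
    have := (h.hK' he 1 j).2 (by rw [one_mul, hj]; exact Nat.dvd_mul_right _ _)
    rwa [one_mul] at this
  have hB : b * (a ^ i * b ^ j) * b⁻¹ * (a ^ i * b ^ j)⁻¹ ∈ D := by
    have h1 := h.conj_pow_pow i 1
    rw [pow_one, pow_one] at h1
    have hr1 := h.hr
    have h2 : a ^ (i * r) = a ^ (i * (r - 1)) * a ^ i := by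
      rw [← pow_add]; congr 1
      have e : r = (r - 1) + 1 := by omega
      nth_rw 1 [e]
      ring
    have e1 : b * (a ^ i * b ^ j) * b⁻¹ * (a ^ i * b ^ j)⁻¹ = (b * a ^ i * b⁻¹) * (b * b ^ j * b⁻¹ * (b ^ j)⁻¹) * (a ^ i)⁻¹ := by group
    have e2 : b * b ^ j * b⁻¹ * (b ^ j)⁻¹ = 1 := by
      have : Commute b (b ^ j) := (Commute.refl b).pow_right j
      rw [this.eq]
      group
    rw [e1, e2, h1, h2]
    have e3 : a ^ (i * (r - 1)) * a ^ i * 1 * (a ^ i)⁻¹ = a ^ (i * (r - 1)) := by group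
    rw [e3]
    apply hmemD
    have := (h.hK' he i 1).2 (by rw [mul_one, hi]; exact Nat.dvd_mul_right _ _)
    rwa [pow_one] at this
  set g := a ^ i * b ^ j with hg'
  -- all commutators
  have hall : ∀ w : G, w * g * w⁻¹ * g⁻¹ ∈ D := by
    have hq : ∀ w : G, ((w * g * w⁻¹ * g⁻¹ : G) : G ⧸ D) = 1 ↔ (w : G ⧸ D) * (g : G ⧸ D) = (g : G ⧸ D) * (w : G ⧸ D) := by
      intro w
      simp only [QuotientGroup.mk_mul, QuotientGroup.mk_inv]
      constructor
      · intro h1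
        have h2 : (w : G ⧸ D) * (g : G ⧸ D) * (w : G ⧸ D)⁻¹ = (g : G ⧸ D) := by
          rw [mul_inv_eq_one] at h1
          exact h1
        rw [mul_inv_eq_iff_eq_mul] at h2
        exact h2
      · intro h1
        rw [h1]
        group
    have hgenA : (a : G ⧸ D) * (g : G ⧸ D) = (g : G ⧸ D) * (a : G ⧸ D) := (hq a).1 ((QuotientGroup.eq_one_iff _).2 hA)
    have hgenB : (b : G ⧸ D) * (g : G ⧸ D) = (g : G ⧸ D) * (b : G ⧸ D) := (hq b).1 ((QuotientGroup.eq_one_iff _).2 hB)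
    intro w
    obtain ⟨u, v, rfl⟩ := h.hgen w
    rw [← QuotientGroup.eq_one_iff, hq]
    have c1 : Commute (a : G ⧸ D) (g : G ⧸ D) := hgenA
    have c2 : Commute (b : G ⧸ D) (g : G ⧸ D) := hgenB
    simp only [QuotientGroup.mk_mul, QuotientGroup.mk_pow]
    exact (Commute.mul_left (c1.pow_left u) (c2.pow_left v)).eq
  -- the count
  rw [← CfsgLib.CS.card_class_eq_index g, ← hDcard]
  let f : {u : G // IsConj g u} → D := fun u => ⟨u.1 * g⁻¹, by
    obtain ⟨w, hw⟩ := isConj_iff.1 u.2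
    rw [← hw]
    exact hall w⟩
  have hf : Function.Injective f := by
    intro u v huv
    have h1 : u.1 * g⁻¹ = v.1 * g⁻¹ := congrArg Subtype.val huv
    exact Subtype.ext (mul_right_cancel h1)
  exact Nat.card_le_card_of_injective f hf

/-- Lower bound for the class size. -/
theorem le_index {e : ℕ} (he : e < c) {g : G} (hg : g ∈ Ge a b p e) (hg' : g ∉ Ge a b p (e + 1)) :
    p ^ (c - e) ≤ (centralizer ({g} : Set G)).index := by
  have hpp := h.hp
  obtain ⟨i, j, rfl⟩ := h.hgen g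
  obtain ⟨hi, hj⟩ := (h.mem_Ge_coord he.le i j).1 hg
  have hne : ¬ (p ^ (e + 1) ∣ i ∧ p ^ (e + 1) ∣ j) := fun h1 => hg' ((h.mem_Ge_coord he i j).2 h1)
  by_cases hj' : p ^ (e + 1) ∣ j
  · have hi' : ¬ p ^ (e + 1) ∣ i := fun h1 => hne ⟨h1, hj'⟩
    apply index_ge _ b
    intro k hk0 hk hmem
    rw [Subgroup.mem_centralizer_singleton_iff] at hmem
    apply not_dvd_mul_aux hpp he.le hi hi' hk0 hk
    rw [mul_comm, ← h.comm_a_b]
    have hc : b ^ k * b ^ j = b ^ j * b ^ k := ((Commute.refl b).pow_pow k j).eq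
    have h1 : (b ^ k * a ^ i) * b ^ j = (a ^ i * b ^ k) * b ^ j := by
      calc (b ^ k * a ^ i) * b ^ j = b ^ k * (a ^ i * b ^ j) := by group
        _ = (a ^ i * b ^ j) * b ^ k := by exact hmem
        _ = a ^ i * (b ^ j * b ^ k) := by group
        _ = a ^ i * (b ^ k * b ^ j) := by rw [hc]
        _ = _ := by group
    exact (mul_right_cancel h1).symm
  · apply index_ge _ a
    intro k hk0 hk hmem
    rw [Subgroup.mem_centralizer_singleton_iff] at hmem
    apply not_dvd_mul_aux hpp he.le hj hj' hk0 hk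
    rw [← h.comm_a_b]
    have hc : a ^ k * a ^ i = a ^ i * a ^ k := ((Commute.refl a).pow_pow k i).eq
    have h1 : a ^ i * (a ^ k * b ^ j) = a ^ i * (b ^ j * a ^ k) := by
      calc a ^ i * (a ^ k * b ^ j) = (a ^ i * a ^ k) * b ^ j := by group
        _ = (a ^ k * a ^ i) * b ^ j := by rw [hc]
        _ = a ^ k * (a ^ i * b ^ j) := by group
        _ = (a ^ i * b ^ j) * a ^ k := hmem
        _ = _ := by group
    exact mul_left_cancel h1

theorem exists_step {s : ℕ} {g : G} (hg : g ∉ Ge a b p s) : ∃ e, e < s ∧ g ∈ Ge a b p e ∧ g ∉ Ge a b p (e + 1) := by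
  induction s with
  | zero =>
    rw [h.Ge_zero] at hg
    exact absurd (Subgroup.mem_top g) hg
  | succ s ih =>
    by_cases h1 : g ∈ Ge a b p s
    · exact ⟨s, by omega, h1, hg⟩
    · obtain ⟨e, he, h2, h3⟩ := ih h1
      exact ⟨e, by omega, h2, h3⟩

/-- The criterion for `G_s`. -/
theorem mem_Ge_iff_index {s : ℕ} (hs : s ≤ c) (g : G) :
    g ∈ Ge a b p s ↔ (centralizer ({g} : Set G)).index ≤ p ^ (c - s) := by
  have hpp := h.hp
  refine ⟨h.index_le hs, ?_⟩
  intro hle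
  by_contra hg
  obtain ⟨e, hes, h2, h3⟩ := h.exists_step hg
  have h4 := h.le_index (by omega) h2 h3
  have h5 := h4.trans hle
  have h6 := (Nat.pow_le_pow_iff_right hpp.one_lt).1 h5
  omega

/-- Powers. -/
theorem pow_nf (i j m : ℕ) : (a ^ i * b ^ j) ^ m = a ^ (i * phi (r ^ j) m) * b ^ (j * m) := by
  induction m with
  | zero => simp [phi_zero]
  | succ m ih =>
    rw [pow_succ, ih, h.mul_nf, phi_succ, mul_add, ← pow_mul, Nat.mul_succ]

theorem closure_pow {s : ℕ} (hs : s ≤ c) : closure {x : G | ∃ y : G, y ^ p ^ s = x} = Ge a b p s := by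
  have hpp := h.hp
  apply le_antisymm
  · rw [Subgroup.closure_le]
    rintro _ ⟨y, rfl⟩
    obtain ⟨i, j, rfl⟩ := h.hgen y
    rw [h.pow_nf]
    show _ ∈ Ge a b p s
    rw [h.mem_Ge_iff]
    have hR : 1 ≤ r ^ j := h.one_le_pow j
    have hR1 : p ∣ r ^ j - 1 := h.hr1.trans (sub_one_dvd_pow r j h.hr.le)
    obtain ⟨N, hN⟩ := (phi_dvd_iff hpp h.hodd hR hR1 s (p ^ s)).2 dvd_rfl
    refine ⟨i * N, j, ?_⟩
    rw [hN]
    congr 2 <;> ring
  · apply sup_le
    · rw [Subgroup.zpowers_le]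
      exact Subgroup.subset_closure ⟨a, rfl⟩
    · rw [Subgroup.zpowers_le]
      exact Subgroup.subset_closure ⟨b, rfl⟩

end MC

end CfsgLib.FGS.Meta
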