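import Cfsg.Agent.Lib.FGS.Meta3
import Cfsg.Agent.Lib.FGS.ElemAb
import Cfsg.Agent.Lib.Solv.PGroup

set_option autoImplicit false
set_option linter.unusedSectionVars false
set_option linter.style.haveILetI false
set_option linter.unusedVariables false

open Subgroup Cfsg
open scoped commutatorElement

namespace CfsgLib.FGS.Meta

universe u

theorem phi_add (R x y : ℕ) : phi R (x + y) = phi R x + R ^ x * phi R y := by
  induction y with
  | zero => simp [phi_zero]
  | succ y ih2 =>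
    rw [← add_assoc, phi_succ, ih2, phi_succ, mul_add, pow_add]
    ring

/-- multiplicativity of geometric sums. -/
theorem phi_mul_mul (R m k : ℕ) : phi R (m * k) = phi R m * phi (R ^ m) k := by
  induction k with
  | zero => simp [phi_zero]
  | succ k ih =>
    rw [Nat.mul_succ, phi_succ, mul_add, ← ih, ← pow_mul, phi_add]
    ring

theorem one_add_pow_expand (D k : ℕ) : ∃ E : ℕ, (1 + D) ^ k = 1 + k * D + D * D * E := by
  induction k with
  | zero => exact ⟨0, by simp⟩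
  | succ k ih =>
    obtain ⟨E, hE⟩ := ih
    refine ⟨k + E + D * E, ?_⟩
    rw [pow_succ, hE]
    ring

theorem phi_prime_aux {p : ℕ} (hp : p.Prime) (hodd : p ≠ 2) {D : ℕ} (hD : p ∣ D) : ∃ e : ℕ, phi (1 + D) p = p + D * p * e := by
  choose E hE using one_add_pow_expand D
  obtain ⟨D1, rfl⟩ := hD
  obtain ⟨q, hq⟩ := hp.odd_of_ne_two hodd
  have h1 : ∑ k ∈ Finset.range p, k = p * q := by
    have := Finset.sum_range_id_mul_two p
    have e2 : p - 1 = 2 * q := by omega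
    rw [e2] at this
    have e3 : (∑ k ∈ Finset.range p, k) * 2 = (p * q) * 2 := by rw [this]; ring
    exact Nat.eq_of_mul_eq_mul_right (by norm_num) e3
  refine ⟨q + D1 * ∑ k ∈ Finset.range p, E k, ?_⟩
  unfold phi
  rw [Finset.sum_congr rfl (fun k _ => hE k)]
  rw [Finset.sum_add_distrib, Finset.sum_add_distrib, ← Finset.mul_sum, ← Finset.sum_mul, h1]
  simp only [Finset.sum_const, Finset.card_range, smul_eq_mul, mul_one]
  ring

theorem phi_pow_aux {p : ℕ} (hp : p.Prime) (hodd : p ≠ 2) {R : ℕ} (hR : 1 ≤ R) (hR1 : p ∣ R - 1) (x : ℕ) :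
    ∃ e : ℕ, phi R (p ^ x) = p ^ x + (R - 1) * p ^ x * e := by
  induction x with
  | zero =>
    refine ⟨0, ?_⟩
    simp [phi]
  | succ x ih =>
    obtain ⟨e1, he1⟩ := ih
    set f := phi R (p ^ x) with hf
    have hS : 1 ≤ R ^ (p ^ x) := Nat.one_le_pow _ _ hR
    have hS1 : R ^ (p ^ x) - 1 = (R - 1) * f := by
      have := phi_mul R (p ^ x) hR
      rw [← hf] at this
      omega
    have hD : p ∣ R ^ (p ^ x) - 1 := by
      rw [hS1]
      exact Dvd.dvd.mul_right hR1 _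
    have hS2 : R ^ (p ^ x) = 1 + (R ^ (p ^ x) - 1) := by omega
    obtain ⟨e2, he2⟩ := phi_prime_aux hp hodd hD
    rw [← hS2] at he2
    refine ⟨e1 + f * e2 + (R - 1) * e1 * (f * e2), ?_⟩
    rw [pow_succ, phi_mul_mul, ← hf, he2, hS1, he1]
    ring

theorem exists_solve {u m : ℕ} (hm : 0 < m) (hco : Nat.Coprime u m) (w : ℕ) : ∃ k : ℕ, m ∣ k * u + w := by
  haveI : NeZero m := ⟨hm.ne'⟩
  refine ⟨((-(w : ZMod m)) * (u : ZMod m)⁻¹).val, ?_⟩
  rw [← ZMod.natCast_eq_zero_iff]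
  push_cast
  rw [ZMod.natCast_zmod_val]
  have h1 := ZMod.coe_mul_inv_eq_one u hco
  calc -(w : ZMod m) * (u : ZMod m)⁻¹ * u + w = -(w : ZMod m) * ((u : ZMod m) * (u : ZMod m)⁻¹) + w := by ring
    _ = 0 := by rw [h1]; ring

/-- Coprimality in `ℤ`. -/
theorem int_dvd_of_mul {p : ℕ} {x y : ℤ} {m : ℕ} (hp : p.Prime) (hx : ¬ (p : ℤ) ∣ x) (hd : ((p ^ m : ℕ) : ℤ) ∣ x * y) :
    ((p ^ m : ℕ) : ℤ) ∣ y := by
  have hco : IsCoprime ((p ^ m : ℕ) : ℤ) x := by
    push_cast
    apply IsCoprime.pow_left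
    rw [Int.isCoprime_iff_gcd_eq_one]
    have := (Nat.Prime.coprime_iff_not_dvd hp).2 (fun h2 => hx (Int.natCast_dvd.2 h2))
    rw [Int.gcd_eq_natAbs]
    simpa using this
  exact hco.dvd_of_dvd_mul_left hd

/-- arithmetic step. -/
theorem exists_step_mul {p c j : ℕ} (hp : p.Prime) (hj : ¬ p ^ c ∣ j) : ∃ u : ℕ, ¬ p ^ c ∣ u * j ∧ p ^ c ∣ u * (p * j) := by
  have hj0 : j ≠ 0 := by
    rintro rfl
    exact hj (dvd_zero _)
  obtain ⟨e, j1, hj1, rfl⟩ := Nat.exists_eq_pow_mul_and_not_dvd hj0 p hp.ne_one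
  have hec : e < c := by
    by_contra hge
    exact hj ((pow_dvd_pow p (by omega)).trans (Nat.dvd_mul_right _ _))
  refine ⟨p ^ (c - 1 - e), ?_, ?_⟩
  · intro hd
    have e1 : p ^ (c - 1 - e) * (p ^ e * j1) = p ^ (c - 1) * j1 := by
      rw [← mul_assoc, ← pow_add]
      congr 2
      omega
    have e2 : p ^ c = p ^ (c - 1) * p := by
      rw [← pow_succ]
      congr 1
      omega
    rw [e1, e2] at hd
    have h3 := Nat.dvd_of_mul_dvd_mul_left (pow_pos hp.pos _) hd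
    exact hj1 h3
  · refine ⟨j1, ?_⟩
    have e2 : p ^ c = p ^ (c - 1 - e) * p ^ e * p := by
      rw [← pow_add, ← pow_succ]
      congr 1
      omega
    rw [e2]
    ring

variable {G : Type u} [Group G] [Finite G]

namespace MC

variable {p n t c r : ℕ} {a b : G} (h : MC G p n t c r a b)
include h

theorem a_pow_eq_one_iff (x : ℕ) : a ^ x = 1 ↔ p ^ n ∣ x := by
  rw [← h.ha, orderOf_dvd_iff_pow_eq_one]

/-- The power map is additive above `c`. -/
theorem pow_hom {x : ℕ} (hx : c ≤ x) (i j : ℕ) : (a ^ i * b ^ j) ^ (p ^ x) = a ^ (i * p ^ x) * b ^ (j * p ^ x) := by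
  have hpp := h.hp
  rw [h.pow_nf]
  have hR : 1 ≤ r ^ j := h.one_le_pow j
  have hR1 : p ∣ r ^ j - 1 := h.hr1.trans (sub_one_dvd_pow r j h.hr.le)
  obtain ⟨e, he⟩ := phi_pow_aux hpp h.hodd hR hR1 x
  rw [he]
  congr 1
  have h1 : p ^ n ∣ (i * p ^ x * e) * (r ^ j - 1) := by
    rw [h.hK]
    exact (pow_dvd_pow p hx).trans ⟨i * e * j, by ring⟩
  have e2 : i * (p ^ x + (r ^ j - 1) * p ^ x * e) = i * p ^ x + (i * p ^ x * e) * (r ^ j - 1) := by ring
  rw [e2, pow_add, (h.a_pow_eq_one_iff _).2 h1, mul_one]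

/-- Commutation of normal forms. -/
theorem comm_iff (i j u v : ℕ) :
    (a ^ i * b ^ j) * (a ^ u * b ^ v) = (a ^ u * b ^ v) * (a ^ i * b ^ j) ↔
      ((p ^ c : ℕ) : ℤ) ∣ (u : ℤ) * phi r j - i * phi r v := by
  have hr := h.hr
  rw [h.mul_nf, h.mul_nf, add_comm j v]
  have h1 : a ^ (i + u * r ^ j) * b ^ (v + j) = a ^ (u + i * r ^ v) * b ^ (v + j) ↔ a ^ (i + u * r ^ j) = a ^ (u + i * r ^ v) :=
    ⟨fun h2 => mul_right_cancel h2, fun h2 => by rw [h2]⟩
  rw [h1, h.pow_eq_iff_mod, Nat.modEq_iff_dvd]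
  have hp1 := phi_mul r j hr.le
  have hp2 := phi_mul r v hr.le
  have e1 : ((r ^ j : ℕ) : ℤ) = ((r : ℤ) - 1) * phi r j + 1 := by
    rw [← hp1]
    push_cast
    rw [Nat.cast_sub hr.le]
    push_cast
    ring
  have e2 : ((r ^ v : ℕ) : ℤ) = ((r : ℤ) - 1) * phi r v + 1 := by
    rw [← hp2]
    push_cast
    rw [Nat.cast_sub hr.le]
    push_cast
    ring
  have e3 : (((u + i * r ^ v : ℕ) : ℤ) - ((i + u * r ^ j : ℕ) : ℤ)) = (((r - 1 : ℕ)) : ℤ) * (-((u : ℤ) * phi r j - i * phi r v)) := by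
    rw [Nat.cast_sub hr.le]
    push_cast
    push_cast at e1 e2
    rw [e1, e2]
    ring
  rw [e3]
  set X := (u : ℤ) * phi r j - i * phi r v with hX
  have h2 := h.hK X.natAbs 1
  rw [pow_one, mul_one] at h2
  rw [Int.natCast_dvd, Int.natCast_dvd, Int.natAbs_mul, Int.natAbs_neg, Int.natAbs_natCast, mul_comm]
  exact h2

theorem phi_not_dvd {j : ℕ} (hj : ¬ p ∣ j) : ¬ p ∣ phi r j := by
  have h1 := phi_dvd_iff h.hp h.hodd h.hr.le h.hr1 1 j
  rw [pow_one] at h1
  rwa [h1]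

/-- Centralizers of elements outside `G_1` are abelian. -/
theorem cent_comm (hc : 1 ≤ c) {g : G} (hg : g ∉ Ge a b p 1) {x y : G} (hx : x * g = g * x) (hy : y * g = g * y) :
    x * y = y * x := by
  have hpp := h.hp
  obtain ⟨i, j, rfl⟩ := h.hgen g
  obtain ⟨u1, v1, rfl⟩ := h.hgen x
  obtain ⟨u2, v2, rfl⟩ := h.hgen y
  rw [h.mem_Ge_coord hc, pow_one] at hg
  have h1 := (h.comm_iff _ _ _ _).1 hx.symm
  have h2 := (h.comm_iff _ _ _ _).1 hy.symm
  rw [h.comm_iff]
  set f : ℤ := ((phi r j : ℕ) : ℤ) with hf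
  set f1 : ℤ := ((phi r v1 : ℕ) : ℤ) with hf1
  set f2 : ℤ := ((phi r v2 : ℕ) : ℤ) with hf2
  by_cases hi : p ∣ i
  · have hj : ¬ p ∣ j := fun hj => hg ⟨hi, hj⟩
    have hnf : ¬ (p : ℤ) ∣ f := by
      intro h3
      exact h.phi_not_dvd hj (Int.natCast_dvd_natCast.1 h3)
    apply int_dvd_of_mul hpp hnf
    have e : f * ((u2 : ℤ) * f1 - u1 * f2) = f1 * ((u2 : ℤ) * f - i * f2) - f2 * ((u1 : ℤ) * f - i * f1) := by ring
    rw [e]
    exact dvd_sub (Dvd.dvd.mul_left h2 _) (Dvd.dvd.mul_left h1 _)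
  · have hni : ¬ (p : ℤ) ∣ (i : ℤ) := fun h3 => hi (Int.natCast_dvd_natCast.1 h3)
    apply int_dvd_of_mul hpp hni
    have e : (i : ℤ) * ((u2 : ℤ) * f1 - u1 * f2) = (u1 : ℤ) * ((u2 : ℤ) * f - i * f2) - (u2 : ℤ) * ((u1 : ℤ) * f - i * f1) := by ring
    rw [e]
    exact dvd_sub (Dvd.dvd.mul_left h2 _) (Dvd.dvd.mul_left h1 _)

/-- Elements of `G_1` have non-abelian centralizers. -/
theorem cent_noncomm (hc : 1 ≤ c) {g : G} (hg : g ∈ Ge a b p 1) :
    ∃ x y : G, x * g = g * x ∧ y * g = g * y ∧ x * y ≠ y * x := by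
  have hpp := h.hp
  obtain ⟨i0, j0, rfl⟩ := (h.mem_Ge_iff 1 g).1 hg
  rw [pow_one]
  -- a `p`-th root
  have hR : 1 ≤ r ^ j0 := h.one_le_pow j0
  have hR1 : p ∣ r ^ j0 - 1 := h.hr1.trans (sub_one_dvd_pow r j0 h.hr.le)
  have hd1 := (phi_dvd_iff hpp h.hodd hR hR1 1 p).2 (by rw [pow_one])
  have hd2 := (phi_dvd_iff hpp h.hodd hR hR1 2 p).not.2 (by
    intro h3
    have := Nat.le_of_dvd hpp.pos h3
    have := hpp.two_le
    nlinarith)
  rw [pow_one] at hd1
  obtain ⟨N1, hN1⟩ := hd1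
  have hN1p : ¬ p ∣ N1 := by
    intro h3
    apply hd2
    rw [hN1, pow_two]
    exact Nat.mul_dvd_mul_left _ h3
  have hco : Nat.Coprime N1 (p ^ n) := Nat.Coprime.pow_right _ ((Nat.Prime.coprime_iff_not_dvd hpp).2 hN1p).symm
  obtain ⟨k, hk⟩ := exists_solve (pow_pos hpp.pos n) hco ((p ^ n - 1) * i0)
  have hpos := pow_pos hpp.pos n
  have hroot : (a ^ k * b ^ j0) ^ p = a ^ (p * i0) * b ^ (p * j0) := by
    rw [h.pow_nf, hN1, mul_comm j0 p]
    congr 1
    rw [h.pow_eq_iff_mod]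
    have e1 : k * (p * N1) + (p ^ n - 1) * (p * i0) = p * (k * N1 + (p ^ n - 1) * i0) := by ring
    have h3 : p ^ n ∣ k * (p * N1) + (p ^ n - 1) * (p * i0) := by
      rw [e1]
      exact Dvd.dvd.mul_left hk _
    have h4 : k * (p * N1) + (p ^ n - 1) * (p * i0) + p * i0 = k * (p * N1) + p ^ n * (p * i0) := by
      have e4 : p ^ n = (p ^ n - 1) + 1 := by omega
      nth_rw 2 [e4]
      ring
    have h5 : k * (p * N1) ≡ k * (p * N1) + p ^ n * (p * i0) [MOD p ^ n] := by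
      simp [Nat.ModEq]
    have h6 : k * (p * N1) + (p ^ n - 1) * (p * i0) + p * i0 ≡ 0 + p * i0 [MOD p ^ n] :=
      ((Nat.modEq_zero_iff_dvd).2 h3).add_right _
    rw [h4, zero_add] at h6
    exact h5.trans h6
  set h0 := a ^ k * b ^ j0 with hh0
  set g := a ^ (p * i0) * b ^ (p * j0) with hg0
  have hcomm0 : h0 * g = g * h0 := by
    rw [← hroot]
    exact ((Commute.refl h0).pow_right p).eq
  have hab : a * b ≠ b * a := by
    intro he
    have h3 := (h.comm_a_b 1 1).1 (by simpa using he)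
    rw [mul_one] at h3
    have := Nat.le_of_dvd (by norm_num) h3
    have h5 : p ^ 1 ≤ p ^ c := Nat.pow_le_pow_right hpp.pos hc
    rw [pow_one] at h5
    have := hpp.two_le
    omega
  -- the other form of `g`
  have hg' : g = a ^ (k * (p * N1)) * b ^ (p * j0) := by
    rw [← hroot, hh0, h.pow_nf, hN1, mul_comm j0 p]
  have comm_a : ∀ u : ℕ, a ^ u * h0 = h0 * a ^ u → a ^ u * b ^ j0 = b ^ j0 * a ^ u := by
    intro u hu
    have hc : a ^ u * a ^ k = a ^ k * a ^ u := ((Commute.refl a).pow_pow u k).eq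
    have h3 : a ^ k * (a ^ u * b ^ j0) = a ^ k * (b ^ j0 * a ^ u) := by
      calc a ^ k * (a ^ u * b ^ j0) = (a ^ k * a ^ u) * b ^ j0 := by group
        _ = (a ^ u * a ^ k) * b ^ j0 := by rw [hc]
        _ = a ^ u * h0 := by rw [hh0]; group
        _ = h0 * a ^ u := hu
        _ = _ := by rw [hh0]; group
    exact mul_left_cancel h3
  have comm_b : ∀ v : ℕ, b ^ v * h0 = h0 * b ^ v → a ^ k * b ^ v = b ^ v * a ^ k := by
    intro v hv
    have hc : b ^ v * b ^ j0 = b ^ j0 * b ^ v := ((Commute.refl b).pow_pow v j0).eq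
    have h3 : (a ^ k * b ^ v) * b ^ j0 = (b ^ v * a ^ k) * b ^ j0 := by
      calc (a ^ k * b ^ v) * b ^ j0 = a ^ k * (b ^ v * b ^ j0) := by group
        _ = a ^ k * (b ^ j0 * b ^ v) := by rw [hc]
        _ = h0 * b ^ v := by rw [hh0]; group
        _ = b ^ v * h0 := hv.symm
        _ = _ := by rw [hh0]; group
    exact mul_right_cancel h3
  -- central root?
  by_cases hj : p ^ c ∣ j0
  · by_cases hi : p ^ c ∣ k
    · -- `g` central
      have hz : g ∈ center G := by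
        rw [← hroot]
        exact Subgroup.pow_mem _ ((h.mem_center_coord k j0).2 ⟨hi, hj⟩) p
      exact ⟨a, b, Subgroup.mem_center_iff.1 hz a, Subgroup.mem_center_iff.1 hz b, hab⟩
    · obtain ⟨v0, hv1, hv2⟩ := exists_step_mul hpp hi
      refine ⟨h0, b ^ v0, hcomm0, ?_, ?_⟩
      · -- `b ^ v0` commutes with `g`
        have hc1 : Commute (a ^ (k * (p * N1))) (b ^ v0) := by
          refine (h.comm_a_b _ _).2 ?_
          have e : k * (p * N1) * v0 = (v0 * (p * k)) * N1 := by ring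
          rw [e]
          exact Dvd.dvd.mul_right hv2 _
        have hc2 : Commute (b ^ (p * j0)) (b ^ v0) := (Commute.refl b).pow_pow _ _
        rw [hg']
        exact (Commute.mul_left hc1 hc2).eq.symm
      · intro he
        apply hv1
        have := (h.comm_a_b k v0).1 (comm_b v0 he.symm)
        rwa [mul_comm] at this
  · obtain ⟨u0, hu1, hu2⟩ := exists_step_mul hpp hj
    refine ⟨h0, a ^ u0, hcomm0, ?_, ?_⟩
    · have hc1 : Commute (a ^ (k * (p * N1))) (a ^ u0) := (Commute.refl a).pow_pow _ _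
      have hc2 : Commute (a ^ u0) (b ^ (p * j0)) := (h.comm_a_b _ _).2 hu2
      rw [hg']
      exact (Commute.mul_left hc1 hc2.symm).eq.symm
    · intro he
      apply hu1
      exact (h.comm_a_b u0 j0).1 (comm_a u0 he.symm)

/-- The Frattini subgroup. -/
theorem frattini_eq (hc : 1 ≤ c) (hG : IsPGroup p G) : frattini G = Ge a b p 1 := by
  have hpp := h.hp
  haveI : Fact p.Prime := ⟨hpp⟩
  obtain ⟨h1, h2⟩ := CfsgLib.Solv.pgroup_commutator_pow_le_frattini hG
  apply le_antisymm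
  · have hcomm : commutator G ≤ Ge a b p 1 := by
      rw [h.commutator_eq, Subgroup.zpowers_le]
      obtain ⟨q, hq⟩ := h.hr1
      rw [hq, pow_mul]
      refine (le_sup_left : zpowers (a ^ (p ^ 1)) ≤ Ge a b p 1) ?_
      rw [pow_one]
      exact Subgroup.pow_mem _ (mem_zpowers _) q
    haveI hN : (Ge a b p 1).Normal := by
      constructor
      intro x hx g
      have h3 : g * x * g⁻¹ * x⁻¹ ∈ Ge a b p 1 := by
        apply hcomm
        have := Subgroup.commutator_mem_commutator (Subgroup.mem_top g) (Subgroup.mem_top x)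
        rw [← _root_.commutator_def] at this
        exact this
      have h4 := Subgroup.mul_mem _ h3 hx
      simpa using h4
    apply CfsgLib.FGS.ElemAb.frattini_le_of_quotient p
    · intro x y
      apply hcomm
      have := Subgroup.commutator_mem_commutator (Subgroup.mem_top x) (Subgroup.mem_top y)
      rw [← _root_.commutator_def] at this
      exact this
    · intro x
      rw [← h.closure_pow hc, pow_one]
      exact Subgroup.subset_closure ⟨x, rfl⟩
  · rw [← h.closure_pow hc, Subgroup.closure_le]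
    rintro _ ⟨y, rfl⟩
    rw [pow_one]
    exact h2 y

/-- `c ≥ 1` for non-abelian groups. -/
theorem one_le_c (hna : ¬ IsMulCommutative G) : 1 ≤ c := by
  by_contra hc
  have hc0 : c = 0 := by omega
  subst hc0
  apply hna
  refine ⟨⟨fun x y => ?_⟩⟩
  obtain ⟨i, j, rfl⟩ := h.hgen x
  have : a ^ i * b ^ j ∈ center G := (h.mem_center_coord i j).2 ⟨by simp, by simp⟩
  exact (Subgroup.mem_center_iff.1 this y).symm

end MC

end CfsgLib.FGS.Meta
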