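import Cfsg.Agent.Lib.FGS.Meta4
import Cfsg.Agent.Lib.Solv.SZ

set_option autoImplicit false
set_option linter.unusedSectionVars false
set_option linter.style.haveILetI false
set_option linter.unusedVariables false

open Subgroup Cfsg
open scoped commutatorElement

namespace CfsgLib.FGS.Meta

universe u

/-- Subgroups of a cyclic `p`-group, in terms of exponents. -/
theorem exists_exp_sub {X : Type*} [Group X] {p m : ℕ} (hp : p.Prime) (x : X) (hx : orderOf x = p ^ m) (H : Subgroup X) :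
    ∃ α, α ≤ m ∧ ∀ y : ℕ, x ^ y ∈ H ↔ p ^ α ∣ y := by
  classical
  have hex : ∃ k : ℕ, 0 < k ∧ x ^ k ∈ H := ⟨p ^ m, pow_pos hp.pos _, by
    rw [← hx, pow_orderOf_eq_one]; exact H.one_mem⟩
  set d := Nat.find hex with hd
  obtain ⟨hd0, hdH⟩ := Nat.find_spec hex
  rw [← hd] at hd0 hdH
  have hmin : ∀ k, x ^ k ∈ H → d ∣ k := by
    intro k hk
    have h1 : x ^ k = x ^ (k % d) * (x ^ d) ^ (k / d) := by
      rw [← pow_mul, ← pow_add, Nat.mod_add_div]
    have h2 : x ^ (k % d) ∈ H := by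
      have h3 : x ^ (k % d) = x ^ k * ((x ^ d) ^ (k / d))⁻¹ := by
        rw [h1]; group
      rw [h3]
      exact H.mul_mem hk (H.inv_mem (H.pow_mem hdH _))
    by_contra hnd
    have hpos : 0 < k % d := Nat.pos_of_ne_zero (fun h0 => hnd (Nat.dvd_of_mod_eq_zero h0))
    exact Nat.find_min hex (Nat.mod_lt _ hd0) ⟨hpos, h2⟩
  have hdp : d ∣ p ^ m := hmin _ (by rw [← hx, pow_orderOf_eq_one]; exact H.one_mem)
  obtain ⟨α, hα, hdα⟩ := (Nat.dvd_prime_pow hp).1 hdp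
  refine ⟨α, hα, fun y => ?_⟩
  rw [← hdα]
  constructor
  · exact hmin y
  · rintro ⟨w, rfl⟩
    rw [pow_mul]
    exact H.pow_mem hdH _

variable {G : Type u} [Group G] [Finite G]

theorem card_eq_inf_mul_map (N : Subgroup G) [N.Normal] (R : Subgroup G) :
    Nat.card R = Nat.card ↥(R ⊓ N) * Nat.card (R.map (QuotientGroup.mk' N)) := by
  let f : R →* G ⧸ N := (QuotientGroup.mk' N).comp R.subtype
  have h1 := Subgroup.card_eq_card_quotient_mul_card_subgroup f.ker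
  have h2 : Nat.card (R ⧸ f.ker) = Nat.card f.range := Nat.card_congr (QuotientGroup.quotientKerEquivRange f).toEquiv
  have h3 : f.range = R.map (QuotientGroup.mk' N) := by
    rw [MonoidHom.range_comp, Subgroup.range_subtype]
  have h4 : f.ker = N.subgroupOf R := by
    ext x
    simp [f, MonoidHom.mem_ker, Subgroup.mem_subgroupOf, QuotientGroup.eq_one_iff]
  have h5 : Nat.card (N.subgroupOf R) = Nat.card ↥(R ⊓ N) := by
    rw [inf_comm]
    exact CfsgLib.Solv.card_subgroupOf_eq_inf _ _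
  rw [h1, h2, h3, h4, h5, mul_comm]

/-- Abelian joins. -/
theorem comm_sup_of {A B : Subgroup G} (hA : ∀ x ∈ A, ∀ y ∈ A, x * y = y * x) (hB : ∀ x ∈ B, ∀ y ∈ B, x * y = y * x)
    (hAB : ∀ x ∈ A, ∀ y ∈ B, x * y = y * x) : ∀ x ∈ A ⊔ B, ∀ y ∈ A ⊔ B, x * y = y * x := by
  have h1 : A ⊔ B ≤ centralizer ((A : Set G) ∪ B) := by
    apply sup_le
    · intro x hx
      rw [Subgroup.mem_centralizer_iff]
      rintro w (hw | hw)
      · exact hA w hw x hx
      · exact (hAB x hx w hw).symm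
    · intro x hx
      rw [Subgroup.mem_centralizer_iff]
      rintro w (hw | hw)
      · exact hAB w hw x hx
      · exact hB w hw x hx
  have h2 : A ⊔ B ≤ centralizer ((A ⊔ B : Subgroup G) : Set G) := by
    apply sup_le
    · intro x hx
      rw [Subgroup.mem_centralizer_iff]
      intro w hw
      exact (Subgroup.mem_centralizer_iff.1 (h1 hw) x (Or.inl hx)).symm
    · intro x hx
      rw [Subgroup.mem_centralizer_iff]
      intro w hw
      exact (Subgroup.mem_centralizer_iff.1 (h1 hw) x (Or.inr hx)).symm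
  intro x hx y hy
  exact (Subgroup.mem_centralizer_iff.1 (h2 hx) y hy).symm

namespace MC

variable {p n t c r : ℕ} {a b : G} (h : MC G p n t c r a b)
include h

/-- The invariants of a subgroup. -/
structure Coords (R : Subgroup G) (α β k : ℕ) : Prop where
  hαn : α ≤ n
  hβt : β ≤ t
  hA : ∀ x : ℕ, a ^ x ∈ R ↔ p ^ α ∣ x
  hB : ∀ y : ℕ, (∃ x : ℕ, a ^ x * b ^ y ∈ R) ↔ p ^ β ∣ y
  hg : a ^ k * b ^ (p ^ β) ∈ R
  hcard : Nat.card R = p ^ (n + t - α - β)

theorem exists_coords (R : Subgroup G) : ∃ α β k, Coords (a := a) (b := b) (n := n) (t := t) (p := p) R α β k := by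
  classical
  have hpp := h.hp
  haveI hAn : (zpowers a).Normal := by
    have := h.normal_zpowers 1
    simpa using this
  obtain ⟨α, hαn, hA⟩ := exists_exp_sub hpp a h.ha R
  have hbo : orderOf ((b : G) : G ⧸ zpowers a) = p ^ t := by
    apply Nat.dvd_antisymm
    · apply orderOf_dvd_of_pow_eq_one
      rw [← QuotientGroup.mk_pow, QuotientGroup.eq_one_iff]
      exact h.b_mem
    · apply (h.hbt _).1
      rw [← QuotientGroup.eq_one_iff, QuotientGroup.mk_pow]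
      exact pow_orderOf_eq_one _
  obtain ⟨β, hβt, hB0⟩ := exists_exp_sub hpp _ hbo (R.map (QuotientGroup.mk' (zpowers a)))
  have hB : ∀ y : ℕ, (∃ x : ℕ, a ^ x * b ^ y ∈ R) ↔ p ^ β ∣ y := by
    intro y
    rw [← hB0]
    constructor
    · rintro ⟨x, hx⟩
      refine ⟨_, hx, ?_⟩
      show ((a ^ x * b ^ y : G) : G ⧸ zpowers a) = _
      rw [QuotientGroup.mk_mul, QuotientGroup.mk_pow, QuotientGroup.mk_pow]
      have : ((a : G) : G ⧸ zpowers a) = 1 := (QuotientGroup.eq_one_iff a).2 (mem_zpowers a)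
      rw [this, one_pow, one_mul]
    · rintro ⟨w, hw, he⟩
      have he' : (w : G ⧸ zpowers a) = ((b ^ y : G) : G ⧸ zpowers a) := by
        rw [QuotientGroup.mk_pow]
        exact he
      have h1 : w * (b ^ y)⁻¹ ∈ zpowers a := by
        have h2 : ((w * (b ^ y)⁻¹ : G) : G ⧸ zpowers a) = 1 := by
          rw [QuotientGroup.mk_mul, QuotientGroup.mk_inv, he']
          group
        exact (QuotientGroup.eq_one_iff _).1 h2
      obtain ⟨x, hx⟩ := (mem_powers_iff_mem_zpowers).2 h1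
      have hx' : a ^ x = w * (b ^ y)⁻¹ := hx
      refine ⟨x, ?_⟩
      rw [hx']
      simpa using hw
  obtain ⟨k, hk⟩ := (hB (p ^ β)).2 dvd_rfl
  refine ⟨α, β, k, hαn, hβt, hA, hB, hk, ?_⟩
  -- the cardinality
  have h1 := card_eq_inf_mul_map (zpowers a) R
  have h2 : R ⊓ zpowers a = zpowers (a ^ (p ^ α)) := by
    apply le_antisymm
    · rintro x ⟨hx1, hx2⟩
      obtain ⟨m, rfl⟩ := (mem_powers_iff_mem_zpowers).2 hx2
      obtain ⟨m', rfl⟩ := (hA m).1 hx1
      show a ^ (p ^ α * m') ∈ _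
      rw [pow_mul]
      exact Subgroup.pow_mem _ (mem_zpowers _) _
    · rw [Subgroup.zpowers_le]
      exact ⟨(hA _).2 dvd_rfl, Subgroup.pow_mem _ (mem_zpowers _) _⟩
  have h3 : R.map (QuotientGroup.mk' (zpowers a)) = zpowers (((b : G) : G ⧸ zpowers a) ^ (p ^ β)) := by
    apply le_antisymm
    · intro x hx
      obtain ⟨w, hw, rfl⟩ := hx
      obtain ⟨i, j, rfl⟩ := h.hgen w
      have h4 : p ^ β ∣ j := (hB j).1 ⟨i, hw⟩
      obtain ⟨j', rfl⟩ := h4
      refine ⟨(j' : ℤ), ?_⟩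
      show _ = ((a ^ i * b ^ (p ^ β * j') : G) : G ⧸ zpowers a)
      rw [QuotientGroup.mk_mul, QuotientGroup.mk_pow, QuotientGroup.mk_pow]
      have : ((a : G) : G ⧸ zpowers a) = 1 := (QuotientGroup.eq_one_iff a).2 (mem_zpowers a)
      rw [this, one_pow, one_mul, pow_mul]
      simp
    · rw [Subgroup.zpowers_le]
      exact (hB0 _).2 dvd_rfl
  rw [h2, h3, Nat.card_zpowers, Nat.card_zpowers, orderOf_pow' _ (pow_ne_zero _ hpp.ne_zero),
    orderOf_pow' _ (pow_ne_zero _ hpp.ne_zero), h.ha, hbo, Nat.gcd_eq_right (pow_dvd_pow p hαn),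
    Nat.gcd_eq_right (pow_dvd_pow p hβt), Nat.pow_div hαn hpp.pos, Nat.pow_div hβt hpp.pos, ← pow_add] at h1
  rw [h1]
  congr 1
  omega

variable {R : Subgroup G} {α β k : ℕ} (hC : Coords (a := a) (b := b) (n := n) (t := t) (p := p) R α β k)
include hC

theorem mem_form {y : G} (hy : y ∈ R) : ∃ m l : ℕ, y = a ^ (p ^ α * m) * (a ^ k * b ^ (p ^ β)) ^ l := by
  have hpp := h.hp
  obtain ⟨x, z, rfl⟩ := h.hgen y
  obtain ⟨l, rfl⟩ := (hC.hB z).1 ⟨x, hy⟩
  have hgl := Subgroup.pow_mem _ hC.hg l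
  rw [h.pow_nf] at hgl
  set x2 := k * phi (r ^ p ^ β) l with hx2
  have h1 := Subgroup.mul_mem _ hy (Subgroup.inv_mem _ hgl)
  have hinv : (a ^ x2)⁻¹ = a ^ ((p ^ n - 1) * x2) := by
    rw [inv_eq_iff_mul_eq_one, ← pow_add]
    apply (h.a_pow_eq_one_iff _).2
    refine ⟨x2, ?_⟩
    have hpos := pow_pos hpp.pos n
    have e4 : p ^ n = (p ^ n - 1) + 1 := by omega
    nth_rw 2 [e4]
    ring
  have e : a ^ x * b ^ (p ^ β * l) * (a ^ x2 * b ^ (p ^ β * l))⁻¹ = a ^ (x + (p ^ n - 1) * x2) := by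
    rw [pow_add, ← hinv]
    group
  rw [e] at h1
  obtain ⟨m, hm⟩ := (hC.hA _).1 h1
  refine ⟨m, l, ?_⟩
  rw [h.pow_nf, ← hm, ← hx2, pow_add, ← hinv]
  group

theorem comm_of_generators {w : G} (h1 : a ^ (p ^ α) * w = w * a ^ (p ^ α)) (h2 : (a ^ k * b ^ (p ^ β)) * w = w * (a ^ k * b ^ (p ^ β)))
    {y : G} (hy : y ∈ R) : y * w = w * y := by
  obtain ⟨m, l, rfl⟩ := h.mem_form hC hy
  have c1 : Commute (a ^ (p ^ α)) w := h1
  have c2 : Commute (a ^ k * b ^ (p ^ β)) w := h2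
  rw [pow_mul]
  exact (Commute.mul_left (c1.pow_left m) (c2.pow_left l)).eq

theorem comm_of_le (hle : c ≤ α + β) : ∀ x ∈ R, ∀ y ∈ R, x * y = y * x := by
  have hpp := h.hp
  have hc1 : Commute (a ^ (p ^ α)) (a ^ k * b ^ (p ^ β)) := by
    refine Commute.mul_right ((Commute.refl a).pow_pow _ _) ?_
    refine (h.comm_a_b _ _).2 ?_
    rw [← pow_add]
    exact pow_dvd_pow p hle
  intro x hx y hy
  obtain ⟨m, l, rfl⟩ := h.mem_form hC hx
  obtain ⟨m2, l2, rfl⟩ := h.mem_form hC hy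
  rw [pow_mul, pow_mul]
  have c1 : Commute ((a ^ p ^ α) ^ m) ((a ^ p ^ α) ^ m2) := (Commute.refl _).pow_pow _ _
  have c2 : Commute ((a ^ p ^ α) ^ m) ((a ^ k * b ^ p ^ β) ^ l2) := hc1.pow_pow _ _
  have c3 : Commute ((a ^ k * b ^ p ^ β) ^ l) ((a ^ p ^ α) ^ m2) := (hc1.pow_pow _ _).symm
  have c4 : Commute ((a ^ k * b ^ p ^ β) ^ l) ((a ^ k * b ^ p ^ β) ^ l2) := (Commute.refl _).pow_pow _ _
  exact (Commute.mul_left (Commute.mul_right c1 c2) (Commute.mul_right c3 c4)).eq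

theorem comm_a_elim {u x v : ℕ} (h1 : a ^ u * (a ^ x * b ^ v) = (a ^ x * b ^ v) * a ^ u) : a ^ u * b ^ v = b ^ v * a ^ u := by
  have hc : a ^ u * a ^ x = a ^ x * a ^ u := ((Commute.refl a).pow_pow u x).eq
  have h3 : a ^ x * (a ^ u * b ^ v) = a ^ x * (b ^ v * a ^ u) := by
    calc a ^ x * (a ^ u * b ^ v) = (a ^ x * a ^ u) * b ^ v := by group
      _ = (a ^ u * a ^ x) * b ^ v := by rw [hc]
      _ = a ^ u * (a ^ x * b ^ v) := by group
      _ = (a ^ x * b ^ v) * a ^ u := h1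
      _ = _ := by group
  exact mul_left_cancel h3

theorem le_of_comm (hcomm : ∀ x ∈ R, ∀ y ∈ R, x * y = y * x) : c ≤ α + β := by
  have hpp := h.hp
  have h1 := hcomm _ ((hC.hA (p ^ α)).2 dvd_rfl) _ hC.hg
  have h2 := h.comm_a_elim hC h1
  have h3 := (h.comm_a_b _ _).1 h2
  rw [← pow_add] at h3
  exact (Nat.pow_dvd_pow_iff_le_right hpp.one_lt).1 h3

end MC

end CfsgLib.FGS.Meta
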