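import Cfsg.Agent.Lib.FGS.Meta5

set_option autoImplicit false
set_option linter.unusedSectionVars false
set_option linter.style.haveILetI false
set_option linter.unusedVariables false

open Subgroup Cfsg
open scoped commutatorElement

namespace CfsgLib.FGS.Meta

universe u

theorem exp_unique {p x z : ℕ} (hp : p.Prime) (H : ∀ y : ℕ, p ^ x ∣ y ↔ p ^ z ∣ y) : x = z := by
  have h1 := (H (p ^ x)).1 dvd_rfl
  have h2 := (H (p ^ z)).2 dvd_rfl
  exact le_antisymm ((Nat.pow_dvd_pow_iff_le_right hp.one_lt).1 h2) ((Nat.pow_dvd_pow_iff_le_right hp.one_lt).1 h1)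

theorem isMC_iff {G : Type*} [Group G] (L : Subgroup G) : IsMulCommutative ↥L ↔ ∀ x ∈ L, ∀ y ∈ L, x * y = y * x := by
  constructor
  · intro h x hx y hy
    have := h.is_comm.comm ⟨x, hx⟩ ⟨y, hy⟩
    exact congrArg Subtype.val this
  · intro h
    exact ⟨⟨fun x y => Subtype.ext (h x x.2 y y.2)⟩⟩

variable {G : Type u} [Group G] [Finite G]

namespace MC

variable {p n t c r : ℕ} {a b : G} (h : MC G p n t c r a b)
include h

theorem index_commutator : (commutator G).index = p ^ (n + t - c) := by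
  have hpp := h.hp
  have h1 := Subgroup.card_mul_index (commutator G)
  rw [h.card_commutator, h.hcard] at h1
  have hcn := h.c_le_n
  have e : p ^ (n + t) = p ^ c * p ^ (n + t - c) := by
    rw [← pow_add]; congr 1; omega
  rw [e] at h1
  exact Nat.eq_of_mul_eq_mul_left (pow_pos hpp.pos _) h1

variable {R : Subgroup G} {α β k : ℕ} (hC : Coords (a := a) (b := b) (n := n) (t := t) (p := p) R α β k)
include hC

/-- The centraliser product of subgroups containing the centre. -/
theorem card_mul_cent (hZ : center G ≤ R) :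
    Nat.card R * Nat.card (centralizer (R : Set G)) = (p ^ (n + t - c)) ^ 2 := by
  have hpp := h.hp
  have hcn := h.c_le_n
  have hct := h.c_le_t
  have hαc : α ≤ c := by
    have h1 : a ^ (p ^ c) ∈ center G := by
      have := (h.mem_center_coord (p ^ c) 0).2 ⟨dvd_rfl, dvd_zero _⟩
      simpa using this
    have h2 := (hC.hA _).1 (hZ h1)
    exact (Nat.pow_dvd_pow_iff_le_right hpp.one_lt).1 h2
  have hβc : β ≤ c := by
    have h1 : a ^ 0 * b ^ (p ^ c) ∈ center G := (h.mem_center_coord 0 (p ^ c)).2 ⟨dvd_zero _, dvd_rfl⟩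
    have h2 := (hC.hB _).1 ⟨0, hZ h1⟩
    exact (Nat.pow_dvd_pow_iff_le_right hpp.one_lt).1 h2
  obtain ⟨α', β', k', hC'⟩ := h.exists_coords (centralizer (R : Set G))
  have hgR := hC.hg
  have haR : a ^ (p ^ α) ∈ R := (hC.hA _).2 dvd_rfl
  have e1 : p ^ c = p ^ (c - β) * p ^ β := by rw [← pow_add]; congr 1; omega
  have e2 : p ^ c = p ^ α * p ^ (c - α) := by rw [← pow_add]; congr 1; omega
  have key1 : ∀ x : ℕ, a ^ x ∈ centralizer (R : Set G) ↔ p ^ (c - β) ∣ x := by
    intro x
    rw [Subgroup.mem_centralizer_iff]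
    constructor
    · intro hx
      have h1 : (a ^ k * b ^ (p ^ β)) * a ^ x = a ^ x * (a ^ k * b ^ (p ^ β)) := hx _ hgR
      have h2 := h.comm_a_elim hC h1.symm
      have h3 := (h.comm_a_b _ _).1 h2
      rw [e1] at h3
      exact Nat.dvd_of_mul_dvd_mul_right (pow_pos hpp.pos _) h3
    · intro hx y hy
      have h1 : a ^ x * b ^ (p ^ β) = b ^ (p ^ β) * a ^ x := by
        apply (h.comm_a_b _ _).2
        rw [e1]
        exact mul_dvd_mul hx dvd_rfl
      have c1 : Commute (a ^ x) (a ^ k) := (Commute.refl a).pow_pow _ _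
      have c2 : Commute (a ^ x) (b ^ p ^ β) := h1
      have c3 : Commute (a ^ x) (a ^ k * b ^ p ^ β) := c1.mul_right c2
      exact h.comm_of_generators hC ((Commute.refl a).pow_pow _ _).eq c3.symm.eq hy
  have hex : ∃ x0 : ℕ, a ^ x0 * b ^ p ^ (c - α) ∈ centralizer (R : Set G) := by
    have hr0 : 1 ≤ r ^ p ^ β := h.one_le_pow _
    have hr1' : p ∣ r ^ p ^ β - 1 := h.hr1.trans (sub_one_dvd_pow r _ h.hr.le)
    obtain ⟨e3, he3⟩ := phi_pow_aux hpp h.hodd hr0 hr1' (c - β)
    have hgp := Subgroup.pow_mem _ hgR (p ^ (c - β))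
    rw [h.pow_nf] at hgp
    have hbR : b ^ (p ^ β * p ^ (c - β)) ∈ R := by
      have e : p ^ β * p ^ (c - β) = p ^ c := by rw [e1, mul_comm]
      rw [e]
      have h1 := (h.mem_center_coord 0 (p ^ c)).2 ⟨dvd_zero _, dvd_rfl⟩
      simpa using hZ h1
    have haN : a ^ (k * phi (r ^ p ^ β) (p ^ (c - β))) ∈ R := by
      have := R.mul_mem hgp (R.inv_mem hbR)
      simpa using this
    have h1 := (hC.hA _).1 haN
    rw [he3] at h1
    have h2 : p ^ α ∣ k * p ^ (c - β) := by
      have co : Nat.Coprime (p ^ α) (1 + (r ^ p ^ β - 1) * e3) := by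
        apply Nat.Coprime.pow_left
        rw [hpp.coprime_iff_not_dvd]
        intro hd
        have : p ∣ 1 := (Nat.dvd_add_left (hr1'.trans (dvd_mul_right _ _))).1 hd
        exact hpp.one_lt.ne' (Nat.dvd_one.1 this)
      have e : k * (p ^ (c - β) + (r ^ p ^ β - 1) * p ^ (c - β) * e3) = (k * p ^ (c - β)) * (1 + (r ^ p ^ β - 1) * e3) := by ring
      rw [e] at h1
      exact co.dvd_of_dvd_mul_right h1
    have h3 : p ^ β ∣ k * p ^ (c - α) := by
      have : p ^ α * p ^ β ∣ p ^ α * (k * p ^ (c - α)) := by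
        have e4 : p ^ α * (k * p ^ (c - α)) = (k * p ^ (c - β)) * p ^ β := by
          calc p ^ α * (k * p ^ (c - α)) = k * (p ^ α * p ^ (c - α)) := by ring
            _ = k * (p ^ (c - β) * p ^ β) := by rw [← e1, ← e2]
            _ = _ := by ring
        rw [e4]
        exact mul_dvd_mul h2 dvd_rfl
      exact Nat.dvd_of_mul_dvd_mul_left (pow_pos hpp.pos _) this
    obtain ⟨f1, hf1⟩ := phi_pow_aux hpp h.hodd h.hr.le h.hr1 β
    obtain ⟨f3, hf3⟩ := phi_pow_aux hpp h.hodd h.hr.le h.hr1 (c - α)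
    obtain ⟨N1, hN1⟩ : ∃ N1, N1 = 1 + (r - 1) * f1 := ⟨_, rfl⟩
    have hN1' : phi r (p ^ β) = p ^ β * N1 := by rw [hf1, hN1]; ring
    have hF : phi r (p ^ (c - α)) = p ^ (c - α) * (1 + (r - 1) * f3) := by rw [hf3]; ring
    obtain ⟨Y, hY⟩ : ∃ Y, k * phi r (p ^ (c - α)) = p ^ β * Y := by
      obtain ⟨Y0, hY0⟩ := h3
      exact ⟨Y0 * (1 + (r - 1) * f3), by rw [hF, ← mul_assoc, hY0]; ring⟩
    have hco : Nat.Coprime N1 (p ^ (c - β)) := by
      apply Nat.Coprime.pow_right
      rw [Nat.coprime_comm, hpp.coprime_iff_not_dvd, hN1]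
      intro hd
      have : p ∣ 1 := (Nat.dvd_add_left (h.hr1.trans (dvd_mul_right _ _))).1 hd
      exact hpp.one_lt.ne' (Nat.dvd_one.1 this)
    obtain ⟨x0, hx0⟩ := exists_solve (pow_pos hpp.pos (c - β)) hco ((p ^ (c - β) - 1) * Y)
    refine ⟨x0, ?_⟩
    rw [Subgroup.mem_centralizer_iff]
    intro w hw
    refine h.comm_of_generators hC ?_ ?_ hw
    · have c1 : Commute (a ^ p ^ α) (a ^ x0) := (Commute.refl a).pow_pow _ _
      have c2 : Commute (a ^ p ^ α) (b ^ p ^ (c - α)) := (h.comm_a_b _ _).2 (by rw [e2])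
      exact (c1.mul_right c2).eq
    · apply (h.comm_iff _ _ _ _).2
      rw [hN1']
      have hYz : (k : ℤ) * (phi r (p ^ (c - α)) : ℤ) = (p : ℤ) ^ β * Y := by exact_mod_cast hY
      have e5 : ((p ^ c : ℕ) : ℤ) = ((p ^ β : ℕ) : ℤ) * ((p ^ (c - β) : ℕ) : ℤ) := by
        rw [e1]; push_cast; ring
      rw [e5]
      have hdz : ((p ^ (c - β) : ℕ) : ℤ) ∣ (x0 : ℤ) * N1 - Y := by
        have h4 : ((p ^ (c - β) : ℕ) : ℤ) ∣ ((x0 * N1 + (p ^ (c - β) - 1) * Y : ℕ) : ℤ) := Int.natCast_dvd_natCast.2 hx0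
        have hpos : 1 ≤ p ^ (c - β) := pow_pos hpp.pos _
        have e6 : ((x0 * N1 + (p ^ (c - β) - 1) * Y : ℕ) : ℤ) = (x0 : ℤ) * N1 - Y + ((p ^ (c - β) : ℕ) : ℤ) * Y := by
          push_cast [Nat.cast_sub hpos]
          ring
        rw [e6] at h4
        exact (Int.dvd_add_left (dvd_mul_right _ _)).1 h4
      obtain ⟨W, hW⟩ := hdz
      refine ⟨W, ?_⟩
      push_cast at hW ⊢
      rw [hYz]
      linear_combination ((p : ℤ) ^ β) * hW
  have key2 : ∀ y : ℕ, (∃ x : ℕ, a ^ x * b ^ y ∈ centralizer (R : Set G)) ↔ p ^ (c - α) ∣ y := by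
    intro y
    constructor
    · rintro ⟨x, hx⟩
      have h1 : a ^ (p ^ α) * (a ^ x * b ^ y) = (a ^ x * b ^ y) * a ^ (p ^ α) := (Subgroup.mem_centralizer_iff.1 hx) _ haR
      have h2 := h.comm_a_elim hC h1
      have h3 := (h.comm_a_b _ _).1 h2
      rw [e2] at h3
      exact Nat.dvd_of_mul_dvd_mul_left (pow_pos hpp.pos _) h3
    · rintro ⟨l, rfl⟩
      obtain ⟨x0, hx0⟩ := hex
      have := Subgroup.pow_mem _ hx0 l
      rw [h.pow_nf] at this
      exact ⟨_, this⟩
  have hαe : α' = c - β := exp_unique hpp (fun y => by rw [← hC'.hA y, key1 y])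
  have hβe : β' = c - α := exp_unique hpp (fun y => by rw [← hC'.hB y, key2 y])
  rw [hC.hcard, hC'.hcard, hαe, hβe, ← pow_add, ← pow_mul]
  congr 1
  omega

/-- Abelian iff small. -/
theorem comm_iff_card_le : IsMulCommutative ↥R ↔ Nat.card R ≤ p ^ (n + t - c) := by
  have hpp := h.hp
  have hcn := h.c_le_n
  have hct := h.c_le_t
  have hαn := hC.hαn
  have hβt := hC.hβt
  rw [isMC_iff, hC.hcard]
  constructor
  · intro hcomm
    have := h.le_of_comm hC hcomm
    exact Nat.pow_le_pow_right hpp.pos (by omega)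
  · intro hle
    have := (Nat.pow_le_pow_iff_right hpp.one_lt).1 hle
    exact h.comm_of_le hC (by omega)

end MC

namespace MC

variable {p n t c r : ℕ} {a b : G} (h : MC G p n t c r a b)
include h

theorem comm_iff_card_le' (R : Subgroup G) : IsMulCommutative ↥R ↔ Nat.card R ≤ (commutator G).index := by
  obtain ⟨α, β, k, hC⟩ := h.exists_coords R
  rw [h.index_commutator]
  exact h.comm_iff_card_le hC

theorem card_mul_cent' {R : Subgroup G} (hZ : center G ≤ R) :
    Nat.card R * Nat.card (centralizer (R : Set G)) = (commutator G).index ^ 2 := by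
  obtain ⟨α, β, k, hC⟩ := h.exists_coords R
  rw [h.index_commutator]
  exact h.card_mul_cent hC hZ

/-- Maximal abelian subgroups. -/
theorem maximal_iff_card (L : Subgroup G) :
    Maximal (fun K : Subgroup G => IsMulCommutative ↥K) L ↔ Nat.card L = (commutator G).index := by
  have hpp := h.hp
  constructor
  · intro hL
    have hLc := (isMC_iff L).1 hL.1
    have hmax : ∀ K : Subgroup G, (∀ x ∈ K, ∀ y ∈ K, x * y = y * x) → L ≤ K → K ≤ L := fun K hK hLK =>
      hL.2 ((isMC_iff K).2 hK) hLK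
    have hZ : center G ≤ L := by
      have h1 := hmax (L ⊔ center G) (comm_sup_of hLc
        (fun x hx y hy => (Subgroup.mem_center_iff.1 hx y).symm)
        (fun x hx y hy => (Subgroup.mem_center_iff.1 hy x))) le_sup_left
      exact le_sup_right.trans h1
    have hCL : centralizer (L : Set G) = L := by
      apply le_antisymm
      · intro x hx
        have h1 := hmax (L ⊔ zpowers x) (comm_sup_of hLc (by
          intro u hu v hv
          obtain ⟨m, rfl⟩ := Subgroup.mem_zpowers_iff.1 hu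
          obtain ⟨m', rfl⟩ := Subgroup.mem_zpowers_iff.1 hv
          exact ((Commute.refl x).zpow_zpow _ _).eq) (by
          intro u hu v hv
          obtain ⟨m, rfl⟩ := Subgroup.mem_zpowers_iff.1 hv
          have : Commute u x := Subgroup.mem_centralizer_iff.1 hx u hu
          exact (this.zpow_right m).eq)) le_sup_left
        exact h1 (Subgroup.mem_sup_right (mem_zpowers x))
      · intro x hx
        rw [Subgroup.mem_centralizer_iff]
        intro y hy
        exact hLc y hy x hx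
    have h1 := h.card_mul_cent' hZ
    rw [hCL, ← pow_two] at h1
    exact (Nat.pow_left_inj (by norm_num)).1 h1
  · intro hL
    have h1 : IsMulCommutative ↥L := (h.comm_iff_card_le' L).2 hL.le
    refine ⟨h1, fun K hK hLK => ?_⟩
    have h2 := (h.comm_iff_card_le' K).1 hK
    have h3 : L = K := Subgroup.eq_of_le_of_card_ge hLK (by omega)
    exact h3.ge

end MC

end CfsgLib.FGS.Meta
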