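import Cfsg.Agent.Lib.FGS.Meta6

set_option autoImplicit false
set_option linter.unusedSectionVars false
set_option linter.style.haveILetI false
set_option linter.unusedVariables false

open Subgroup Cfsg
open scoped commutatorElement

namespace CfsgLib.FGS.Meta

universe u

variable {G : Type u} [Group G] [Finite G]

namespace MC

variable {p n t c r : ℕ} {a b : G} (h : MC G p n t c r a b)
variable {R : Subgroup G} {α β k : ℕ} (hC : Coords (a := a) (b := b) (n := n) (t := t) (p := p) R α β k)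
include h hC

/-- A non-abelian subgroup inherits coordinates. -/
theorem sub_MC (hlt : α + β < c) :
    MC (↥R) p (n - α) (t - β) (c - α - β) (r ^ p ^ β) ⟨a ^ p ^ α, (hC.hA _).2 dvd_rfl⟩ ⟨a ^ k * b ^ p ^ β, hC.hg⟩ := by
  have hpp := h.hp
  have hcn := h.c_le_n
  have hct := h.c_le_t
  have hαn := hC.hαn
  have hβt := hC.hβt
  refine ⟨hpp, h.hodd, ?_, ?_, ?_, ?_, ?_, ?_, ?_, ?_⟩
  · rw [Subgroup.orderOf_mk, orderOf_pow' _ (pow_ne_zero _ hpp.ne_zero), h.ha, Nat.gcd_eq_right (pow_dvd_pow p hαn),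
      Nat.pow_div hαn hpp.pos]
  · rw [hC.hcard]
    congr 1
    omega
  · intro y
    have hgy : ((⟨a ^ k * b ^ p ^ β, hC.hg⟩ : R) ^ y : R).1 = a ^ (k * phi (r ^ p ^ β) y) * b ^ (p ^ β * y) := by
      show (a ^ k * b ^ p ^ β) ^ y = _
      rw [h.pow_nf]
    have e1 : p ^ t = p ^ β * p ^ (t - β) := by rw [← pow_add]; congr 1; omega
    constructor
    · intro hy
      obtain ⟨m, hm⟩ := Subgroup.mem_zpowers_iff.1 hy
      have h1 : a ^ (k * phi (r ^ p ^ β) y) * b ^ (p ^ β * y) ∈ zpowers a := by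
        rw [← hgy, ← hm]
        show ((a ^ p ^ α) ^ m : G) ∈ _
        exact Subgroup.zpow_mem _ (Subgroup.pow_mem _ (mem_zpowers _) _) _
      have h2 : b ^ (p ^ β * y) ∈ zpowers a := by
        have h3 : b ^ (p ^ β * y) = (a ^ (k * phi (r ^ p ^ β) y))⁻¹ * (a ^ (k * phi (r ^ p ^ β) y) * b ^ (p ^ β * y)) := by group
        rw [h3]
        exact Subgroup.mul_mem _ (Subgroup.inv_mem _ (Subgroup.pow_mem _ (mem_zpowers _) _)) h1
      have h4 := (h.hbt _).1 h2
      rw [e1] at h4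
      exact Nat.dvd_of_mul_dvd_mul_left (pow_pos hpp.pos _) h4
    · intro hy
      have h2 : b ^ (p ^ β * y) ∈ zpowers a := by
        apply (h.hbt _).2
        rw [e1]
        exact mul_dvd_mul dvd_rfl hy
      obtain ⟨x, hx⟩ := (mem_powers_iff_mem_zpowers).2 h2
      have hx' : a ^ x = b ^ (p ^ β * y) := hx
      have h3 : ((⟨a ^ k * b ^ p ^ β, hC.hg⟩ : R) ^ y : R).1 = a ^ (k * phi (r ^ p ^ β) y + x) := by
        rw [hgy, pow_add, hx']
      have h4 : a ^ (k * phi (r ^ p ^ β) y + x) ∈ R := by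
        rw [← h3]
        exact Subtype.property _
      obtain ⟨w, hw⟩ := (hC.hA _).1 h4
      rw [Subgroup.mem_zpowers_iff]
      refine ⟨(w : ℤ), ?_⟩
      apply Subtype.ext
      rw [h3, hw]
      simp [pow_mul]
  · apply Subtype.ext
    show (a ^ k * b ^ p ^ β) * a ^ p ^ α * (a ^ k * b ^ p ^ β)⁻¹ = (a ^ p ^ α) ^ (r ^ p ^ β)
    have h1 := h.conj_pow_pow (p ^ α) (p ^ β)
    have c1 : Commute (a ^ k) (a ^ (p ^ α * r ^ p ^ β)) := (Commute.refl a).pow_pow _ _
    rw [← pow_mul]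
    calc (a ^ k * b ^ p ^ β) * a ^ p ^ α * (a ^ k * b ^ p ^ β)⁻¹
        = a ^ k * (b ^ p ^ β * a ^ p ^ α * (b ^ p ^ β)⁻¹) * (a ^ k)⁻¹ := by group
      _ = a ^ k * a ^ (p ^ α * r ^ p ^ β) * (a ^ k)⁻¹ := by rw [h1]
      _ = a ^ (p ^ α * r ^ p ^ β) := by rw [c1.eq]; group
  · rintro ⟨w, hw⟩
    obtain ⟨m, l, rfl⟩ := h.mem_form hC hw
    refine ⟨m, l, ?_⟩
    apply Subtype.ext
    show a ^ (p ^ α * m) * (a ^ k * b ^ p ^ β) ^ l = (a ^ p ^ α) ^ m * (a ^ k * b ^ p ^ β) ^ l
    rw [pow_mul]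
  · have hp0 : p ^ β ≠ 0 := pow_ne_zero _ hpp.ne_zero
    exact Nat.one_lt_pow hp0 h.hr
  · exact h.hr1.trans (sub_one_dvd_pow r _ h.hr.le)
  · intro x j
    have h1 := h.hK (p ^ α * x) (p ^ β * j)
    have e1 : p ^ n = p ^ α * p ^ (n - α) := by rw [← pow_add]; congr 1; omega
    have e2 : p ^ c = (p ^ α * p ^ β) * p ^ (c - α - β) := by
      rw [← pow_add, ← pow_add]; congr 1; omega
    have e3 : p ^ α * x * (r ^ (p ^ β * j) - 1) = p ^ α * (x * ((r ^ p ^ β) ^ j - 1)) := by
      rw [pow_mul]; ring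
    have e4 : p ^ α * x * (p ^ β * j) = (p ^ α * p ^ β) * (x * j) := by ring
    rw [e3, e4, e1, e2, Nat.mul_dvd_mul_iff_left (pow_pos hpp.pos _),
      Nat.mul_dvd_mul_iff_left (mul_pos (pow_pos hpp.pos _) (pow_pos hpp.pos _))] at h1
    exact h1

theorem card_mul_center_noncomm (hna : ¬ IsMulCommutative ↥R) :
    Nat.card R * Nat.card (center ↥R) = (p ^ (n + t - c)) ^ 2 := by
  have hpp := h.hp
  have hcn := h.c_le_n
  have hct := h.c_le_t
  have hαn := hC.hαn
  have hβt := hC.hβt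
  have hlt : α + β < c := by
    by_contra hge
    exact hna ((isMC_iff R).2 (h.comm_of_le hC (by omega)))
  have hM := h.sub_MC hC hlt
  rw [hM.card_center, hC.hcard, ← pow_add, ← pow_mul]
  congr 1
  omega

end MC

namespace MC

variable {p n t c r : ℕ} {a b : G} (h : MC G p n t c r a b)
include h

theorem card_center_of_comm (R : Subgroup G) (hR : IsMulCommutative ↥R) : Nat.card (center ↥R) = Nat.card R := by
  have : center ↥R = ⊤ := by
    rw [Subgroup.eq_top_iff']
    intro x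
    rw [Subgroup.mem_center_iff]
    intro y
    have := hR.is_comm.comm x y
    exact this.symm ▸ rfl
  rw [this]
  exact Nat.card_congr Subgroup.topEquiv.toEquiv

theorem central_bound (R : Subgroup G) : Nat.card R * Nat.card (center ↥R) ≤ (commutator G).index ^ 2 := by
  by_cases hR : IsMulCommutative ↥R
  · rw [h.card_center_of_comm R hR, pow_two]
    have := (h.comm_iff_card_le' R).1 hR
    exact Nat.mul_le_mul this this
  · obtain ⟨α, β, k, hC⟩ := h.exists_coords R
    rw [h.card_mul_center_noncomm hC hR, h.index_commutator]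

theorem central_eq_iff (R : Subgroup G) : Nat.card R * Nat.card (center ↥R) = (commutator G).index ^ 2 ↔
    (¬ IsMulCommutative ↥R ∨ Maximal (fun K : Subgroup G => IsMulCommutative ↥K) R) := by
  by_cases hR : IsMulCommutative ↥R
  · rw [h.card_center_of_comm R hR, h.maximal_iff_card]
    constructor
    · intro h1
      right
      rw [← pow_two] at h1
      exact (Nat.pow_left_inj (by norm_num)).1 h1
    · rintro (h1 | h1)
      · exact absurd hR h1
      · rw [h1, pow_two]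
  · obtain ⟨α, β, k, hC⟩ := h.exists_coords R
    rw [h.card_mul_center_noncomm hC hR, h.index_commutator]
    exact ⟨fun _ => Or.inl hR, fun _ => rfl⟩

end MC

end CfsgLib.FGS.Meta
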