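import Cfsg.Agent.Lib.Solv.Misc

/-!
# Minimal supplements of normal subgroups.
-/

set_option autoImplicit false
set_option linter.unusedSectionVars false
set_option linter.style.haveILetI false

namespace CfsgLib.FGS

open Cfsg

variable {G : Type*} [Group G] [Finite G]

/-- Every normal subgroup has a supplement all of whose prime divisors divide the index. -/
theorem exists_supplement_primes (N : Subgroup G) [hNn : N.Normal] :
    ∃ H : Subgroup G, H ⊔ N = ⊤ ∧ ∀ p : ℕ, p.Prime → p ∣ Nat.card H → p ∣ N.index := by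
  classical
  obtain ⟨H, -, hH⟩ := Finite.exists_le_minimal (α := Subgroup G)
    (p := fun H : Subgroup G => H ⊔ N = ⊤) (a := ⊤) (by simp)
  have hsup : H ⊔ N = ⊤ := hH.prop
  refine ⟨H, hsup, fun p hp hdvd => ?_⟩
  have hN' : N.subgroupOf H ≤ frattini H := by
    show N.subgroupOf H ≤ ⨅ a, ⨅ (_ : IsCoatom a), a
    refine le_iInf₂ (fun J hJ => ?_)
    by_contra hnle
    have hJtop : J ⊔ N.subgroupOf H = ⊤ := by
      apply hJ.2
      exact lt_of_le_of_ne le_sup_left (fun h => hnle (by rw [h]; exact le_sup_right))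
    have hJ' : J.map H.subtype ⊔ N = ⊤ := by
      rw [eq_top_iff, ← hsup]
      apply sup_le _ le_sup_right
      intro h hh
      have h1 : (⟨h, hh⟩ : H) ∈ J ⊔ N.subgroupOf H := by rw [hJtop]; exact Subgroup.mem_top _
      haveI hNH : (N.subgroupOf H).Normal := Subgroup.normal_subgroupOf
      obtain ⟨a, ha, b, hb, hab⟩ := Subgroup.mem_sup_of_normal_right.mp h1
      have h2 : (a : G) * (b : G) = h := congrArg Subtype.val hab
      rw [← h2]
      apply Subgroup.mul_mem
      · exact Subgroup.mem_sup_left ⟨a, ha, rfl⟩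
      · exact Subgroup.mem_sup_right hb
    have hle : H ≤ J.map H.subtype := hH.le_of_le hJ' (by
      rintro _ ⟨a, _, rfl⟩
      exact a.2)
    apply hJ.1
    rw [eq_top_iff]
    intro a _
    obtain ⟨b, hb, hba⟩ := hle a.2
    have : b = a := Subtype.ext hba
    rwa [← this]
  have h1 := CfsgLib.Solv.prime_dvd_index_frattini p hp hdvd
  have h2 := Subgroup.index_dvd_of_le hN'
  have h3 : (N.subgroupOf H).index = N.index := by
    have h4 : N.relIndex (H ⊔ N) = N.relIndex H := Subgroup.relIndex_sup_right H N
    rw [hsup, Subgroup.relIndex_top_right] at h4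
    exact h4.symm
  rw [h3] at h2
  exact h1.trans h2

end CfsgLib.FGS
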