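import Mathlib

/-! Moebius-style weights on a finite poset and Weisner's lemma (helper8). -/

set_option autoImplicit false

namespace CfsgLib.FGS.Mob

open scoped Classical

theorem exists_mob {α : Type*} [PartialOrder α] (s : Finset α) :
    ∃ c : α → ℤ, ∀ L ∈ s, ∑ x ∈ s with x ≤ L, c x = 1 := by
  induction s using Finset.strongInduction with
  | H s ih =>
    by_cases hs : s.Nonempty
    · obtain ⟨M, hM⟩ := s.exists_maximal hs
      have hMs : M ∈ s := hM.1
      have hmax : ∀ y ∈ s, M ≤ y → y = M := fun y hy hle => le_antisymm (hM.2 hy hle) hle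
      obtain ⟨c', hc'⟩ := ih (s.erase M) (Finset.erase_ssubset hMs)
      refine ⟨Function.update c' M (1 - ∑ x ∈ s.erase M with x ≤ M, c' x), fun L hL => ?_⟩
      have hcongr : ∀ T : Finset α, (∀ x ∈ T, x ≠ M) → ∑ x ∈ T, Function.update c' M (1 - ∑ x ∈ s.erase M with x ≤ M, c' x) x = ∑ x ∈ T, c' x :=
        fun T hT => Finset.sum_congr rfl fun x hx => Function.update_of_ne (hT x hx) _ _
      by_cases hLM : L = M
      · subst hLM
        have h1 : (s.filter (· ≤ L)) = insert L ((s.erase L).filter (· ≤ L)) := by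
          ext x
          simp only [Finset.mem_filter, Finset.mem_insert, Finset.mem_erase]
          constructor
          · rintro ⟨h1, h2⟩
            by_cases hx : x = L
            · exact Or.inl hx
            · exact Or.inr ⟨⟨hx, h1⟩, h2⟩
          · rintro (rfl | ⟨⟨_, h1⟩, h2⟩)
            · exact ⟨hMs, le_rfl⟩
            · exact ⟨h1, h2⟩
        rw [h1, Finset.sum_insert (by simp), hcongr _ (by
          intro x hx
          simp only [Finset.mem_filter, Finset.mem_erase] at hx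
          exact hx.1.1), Function.update_self]
        ring
      · have hLs : L ∈ s.erase M := Finset.mem_erase.2 ⟨hLM, hL⟩
        have h1 : (s.filter (· ≤ L)) = (s.erase M).filter (· ≤ L) := by
          ext x
          simp only [Finset.mem_filter, Finset.mem_erase]
          constructor
          · rintro ⟨h1, h2⟩
            refine ⟨⟨?_, h1⟩, h2⟩
            rintro rfl
            exact hLM (hmax L hL h2)
          · rintro ⟨⟨_, h1⟩, h2⟩
            exact ⟨h1, h2⟩
        rw [h1, hcongr _ (by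
          intro x hx
          simp only [Finset.mem_filter, Finset.mem_erase] at hx
          exact hx.1.1)]
        exact hc' L hLs
    · refine ⟨fun _ => 0, fun L hL => absurd ⟨L, hL⟩ hs⟩

theorem weisner {α : Type*} [Lattice α] [WellFoundedLT α] (s F : Finset α) (c : α → ℤ)
    (hc : ∀ L ∈ s, ∑ x ∈ s with x ≤ L, c x = 1) (hFs : F ⊆ s)
    (hdown : ∀ L ∈ s, ∀ B ∈ F, L ≤ B → L ∈ F) (t : α) (ht : t ∈ F) (habs : ∀ L ∈ F, L ⊔ t ∈ F) :
    ∑ x ∈ F, c x = 1 := by
  set h : α → ℤ := fun B => ∑ L ∈ F with L ⊔ t = B, c L with hh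
  set 𝓑 := F.filter (t ≤ ·) with h𝓑
  have hmaps : ∀ L ∈ F, L ⊔ t ∈ 𝓑 := fun L hL => Finset.mem_filter.2 ⟨habs L hL, le_sup_right⟩
  have htotal : ∑ x ∈ F, c x = ∑ B ∈ 𝓑, h B := (Finset.sum_fiberwise_of_maps_to hmaps c).symm
  have hsum : ∀ B ∈ 𝓑, ∑ B' ∈ 𝓑 with B' ≤ B, h B' = 1 := by
    intro B hB
    have hB1 : B ∈ F := (Finset.mem_filter.1 hB).1
    have hB2 : t ≤ B := (Finset.mem_filter.1 hB).2
    set F' := F.filter (fun L => L ⊔ t ≤ B) with hF'
    have hmaps' : ∀ L ∈ F', L ⊔ t ∈ 𝓑.filter (· ≤ B) := by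
      intro L hL
      have h1 := Finset.mem_filter.1 hL
      exact Finset.mem_filter.2 ⟨hmaps L h1.1, h1.2⟩
    have h2 := Finset.sum_fiberwise_of_maps_to hmaps' c
    have h3 : ∑ B' ∈ 𝓑 with B' ≤ B, h B' = ∑ B' ∈ 𝓑 with B' ≤ B, ∑ L ∈ F' with L ⊔ t = B', c L := by
      refine Finset.sum_congr rfl fun B' hB' => ?_
      have hB'le := (Finset.mem_filter.1 hB').2
      simp only [hh]
      refine Finset.sum_congr ?_ fun _ _ => rfl
      ext L
      simp only [Finset.mem_filter, hF']
      constructor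
      · rintro ⟨h4, h5⟩
        exact ⟨⟨h4, h5 ▸ hB'le⟩, h5⟩
      · rintro ⟨⟨h4, _⟩, h5⟩
        exact ⟨h4, h5⟩
    rw [h3, h2]
    have h4 : F' = s.filter (· ≤ B) := by
      ext L
      simp only [Finset.mem_filter, hF']
      constructor
      · rintro ⟨h5, h6⟩
        exact ⟨hFs h5, le_sup_left.trans h6⟩
      · rintro ⟨h5, h6⟩
        exact ⟨hdown L h5 B hB1 h6, sup_le h6 hB2⟩
    rw [h4]
    exact hc B (hFs hB1)
  have htB : t ∈ 𝓑 := Finset.mem_filter.2 ⟨ht, le_rfl⟩
  have hht : h t = 1 := by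
    have h1 := hsum t htB
    have h2 : 𝓑.filter (· ≤ t) = {t} := by
      ext x
      simp only [Finset.mem_filter, Finset.mem_singleton, h𝓑]
      constructor
      · rintro ⟨⟨_, h3⟩, h4⟩
        exact le_antisymm h4 h3
      · rintro rfl
        exact ⟨⟨ht, le_rfl⟩, le_rfl⟩
    rw [h2, Finset.sum_singleton] at h1
    exact h1
  have hzero : ∀ B, B ∈ 𝓑 → B ≠ t → h B = 0 := by
    intro B
    induction B using WellFoundedLT.induction with
    | ind B ih =>
      intro hB hBt
      have h1 := hsum B hB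
      have hB2 : t ≤ B := (Finset.mem_filter.1 hB).2
      have h2 : ∑ B' ∈ 𝓑 with B' ≤ B, h B' = h B + ∑ B' ∈ (𝓑.filter (· ≤ B)).erase B, h B' :=
        (Finset.add_sum_erase (𝓑.filter (· ≤ B)) h (Finset.mem_filter.2 ⟨hB, le_rfl⟩)).symm
      have h3 : ∑ B' ∈ (𝓑.filter (· ≤ B)).erase B, h B' = h t := by
        refine Finset.sum_eq_single t ?_ ?_
        · intro B' hB' hB't
          have h4 := Finset.mem_erase.1 hB'
          have h5 := Finset.mem_filter.1 h4.2
          exact ih B' (lt_of_le_of_ne h5.2 h4.1) h5.1 hB't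
        · intro hcon
          exact absurd (Finset.mem_erase.2 ⟨fun h => hBt h.symm, Finset.mem_filter.2 ⟨htB, hB2⟩⟩) hcon
      rw [h2, h3, hht] at h1
      omega
  rw [htotal]
  rw [Finset.sum_eq_single t (fun B hB hBt => hzero B hB hBt) (fun hcon => absurd htB hcon), hht]

theorem double_count {ι β : Type*} [Fintype ι] (s : Finset β) (c : β → ℤ) (A : β → ι → Prop) :
    ∑ L ∈ s, c L * ((Finset.univ.filter (A L)).card : ℤ) = ∑ x : ι, ∑ L ∈ s with A L x, c L := by
  simp only [Finset.sum_filter]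
  rw [Finset.sum_comm]
  refine Finset.sum_congr rfl fun L _ => ?_
  rw [Finset.card_filter]
  push_cast
  rw [Finset.mul_sum]
  refine Finset.sum_congr rfl fun x _ => ?_
  by_cases h : A L x <;> simp [h]

end CfsgLib.FGS.Mob
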