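import Cfsg.Agent.Lib.Char.Burnside
import Cfsg.Agent.Lib.FGS.Elem
import Cfsg.Agent.Lib.FGS.Lift
import Cfsg.Agent.Lib.SS.Sub2
import Cfsg.Agent.Lib.Solv.Hall
import Cfsg.Agent.Lib.Solv.Fit
import Cfsg.Agent.Lib.OOL.CNTri

/-!
# Groups whose `p`-regular classes have `p`-power sizes.
-/

set_option autoImplicit false
set_option linter.unusedSectionVars false
set_option linter.style.haveILetI false

namespace CfsgLib.FGS.PReg

open scoped Pointwise

universe u

/-- Solvability of a class closed under normal subgroups and quotients. -/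
theorem solvable_of_closed (C : ∀ (G : Type u) [Group G], Prop)
    (hnorm : ∀ (G : Type u) [Group G] [Finite G] (M : Subgroup G) [M.Normal], C G → C M)
    (hquot : ∀ (G : Type u) [Group G] [Finite G] (M : Subgroup G) [M.Normal], C G → C (G ⧸ M))
    (hsimple : ∀ (G : Type u) [Group G] [Finite G] [IsSimpleGroup G], C G → Group.IsSolvable G) :
    ∀ (n : ℕ) (G : Type u) [Group G] [Finite G], Nat.card G = n → C G → Group.IsSolvable G := by
  intro n
  induction n using Nat.strong_induction_on with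
  | _ n ih =>
    intro G _ _ hn hG
    by_cases hnt : Nontrivial G
    swap
    · rw [not_nontrivial_iff_subsingleton] at hnt
      infer_instance
    by_cases hex : ∃ M : Subgroup G, M.Normal ∧ M ≠ ⊥ ∧ M ≠ ⊤
    · obtain ⟨M, hM, hbot, htop⟩ := hex
      have hcm := Subgroup.card_mul_index M
      have h1 : Nat.card M < n := by
        rw [← hn, ← hcm]
        have h2 : M.index ≠ 1 := fun h => htop (Subgroup.index_eq_one.1 h)
        have h3 : M.index ≠ 0 := Subgroup.index_ne_zero_of_finite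
        have h4 : 0 < Nat.card M := Nat.card_pos
        have h5 : 2 ≤ M.index := by omega
        nlinarith
      have h2 : Nat.card (G ⧸ M) < n := by
        show M.index < n
        rw [← hn, ← hcm]
        have h4 : 1 < Nat.card M := (Subgroup.one_lt_card_iff_ne_bot M).2 hbot
        have h3 : M.index ≠ 0 := Subgroup.index_ne_zero_of_finite
        have h5 : 1 ≤ M.index := by omega
        nlinarith
      haveI := ih _ h1 M rfl (hnorm G M hG)
      haveI := ih _ h2 (G ⧸ M) rfl (hquot G M hG)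
      refine Group.isSolvable_of_ker_le_range M.subtype (QuotientGroup.mk' M) ?_
      rw [QuotientGroup.ker_mk', Subgroup.range_subtype]
    · push Not at hex
      haveI : IsSimpleGroup G := ⟨fun H hH => by
        by_cases h : H = ⊥
        · exact Or.inl h
        · exact Or.inr (hex H hH h)⟩
      exact hsimple G hG

/-- all `p`-regular classes have `p`-power size -/
def Q (p : ℕ) (G : Type u) [Group G] : Prop :=
  ∀ x : G, (orderOf x).Coprime p → ∃ k : ℕ, (Subgroup.centralizer ({x} : Set G)).index = p ^ k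

/-- an abelian `p`-complement exists -/
def R (p : ℕ) (G : Type u) [Group G] : Prop :=
  ∃ H : Subgroup G, IsMulCommutative H ∧ ¬ p ∣ Nat.card H ∧ ∃ k : ℕ, H.index = p ^ k

theorem isSolvable_of_card_prime {G : Type u} [Group G] (h : (Nat.card G).Prime) : Group.IsSolvable G := by
  haveI : Fact (Nat.card G).Prime := ⟨h⟩
  haveI := isCyclic_of_prime_card (α := G) rfl
  exact Group.isSolvable_of_comm (IsCyclic.commGroup (α := G)).mul_comm

variable {p : ℕ} (hp : p.Prime)
include hp

theorem Q_normal {G : Type u} [Group G] [Finite G] (M : Subgroup G) [M.Normal] (h : Q p G) : Q p M := by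
  intro x hx
  obtain ⟨k, hk⟩ := h (x : G) (by rwa [Subgroup.orderOf_coe])
  have h1 : (Subgroup.centralizer ({x} : Set M)) =
      (Subgroup.centralizer ({(x : G)} : Set G)).subgroupOf M := by
    ext y
    rw [Subgroup.mem_subgroupOf, Subgroup.mem_centralizer_singleton_iff, Subgroup.mem_centralizer_singleton_iff]
    exact ⟨fun h => congrArg Subtype.val h, fun h => Subtype.ext h⟩
  have h2 : (Subgroup.centralizer ({x} : Set M)).index ∣ p ^ k := by
    rw [h1, ← hk]
    exact CfsgLib.SS.relIndex_normal_dvd_index _ M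
  obtain ⟨j, -, hj⟩ := (Nat.dvd_prime_pow hp).1 h2
  exact ⟨j, hj⟩

theorem Q_quot {G : Type u} [Group G] [Finite G] (M : Subgroup G) [M.Normal] (h : Q p G) : Q p (G ⧸ M) := by
  intro y hy
  obtain ⟨x₀, hx₀⟩ := QuotientGroup.mk'_surjective M y
  obtain ⟨x, hx, hreg⟩ := CfsgLib.FGS.exists_pi_lift {r | r ≠ p} M y (fun r hr hrd => by
    intro hrp
    subst hrp
    exact hr.one_lt.ne' (Nat.Coprime.eq_one_of_dvd hy.symm hrd)) _ x₀ rfl hx₀
  have hxc : (orderOf x).Coprime p := by
    rw [Nat.coprime_comm, Nat.Prime.coprime_iff_not_dvd hp]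
    intro hd
    exact hreg p hp hd rfl
  obtain ⟨k, hk⟩ := h x hxc
  have h1 : (Subgroup.centralizer ({x} : Set G)).map (QuotientGroup.mk' M) ≤
      Subgroup.centralizer ({y} : Set (G ⧸ M)) := by
    rintro _ ⟨z, hz, rfl⟩
    have hz' : z * x = x * z := Subgroup.mem_centralizer_singleton_iff.1 hz
    rw [Subgroup.mem_centralizer_singleton_iff, ← hx]
    show QuotientGroup.mk' M z * QuotientGroup.mk' M x = QuotientGroup.mk' M x * QuotientGroup.mk' M z
    rw [← map_mul, hz', map_mul]
  have h2 : (Subgroup.centralizer ({y} : Set (G ⧸ M))).index ∣ p ^ k := by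
    rw [← hk]
    exact (Subgroup.index_dvd_of_le h1).trans
      (Subgroup.index_map_dvd _ (QuotientGroup.mk'_surjective M))
  obtain ⟨j, -, hj⟩ := (Nat.dvd_prime_pow hp).1 h2
  exact ⟨j, hj⟩

theorem Q_simple {G : Type u} [Group G] [Finite G] [IsSimpleGroup G] (h : Q p G) : Group.IsSolvable G := by
  haveI : Fact p.Prime := ⟨hp⟩
  by_cases hpg : IsPGroup p G
  · haveI := hpg.isNilpotent
    infer_instance
  · have h1 : ∃ q : ℕ, q.Prime ∧ q ∣ Nat.card G ∧ q ≠ p := by
      by_contra hcon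
      push Not at hcon
      apply hpg
      exact IsPGroup.of_card (Nat.eq_prime_pow_of_unique_prime_dvd Nat.card_pos.ne'
        (fun {d} hd hdd => hcon d hd hdd))
    obtain ⟨q, hq, hqd, hqp⟩ := h1
    haveI : Fact q.Prime := ⟨hq⟩
    obtain ⟨g, hg⟩ := exists_prime_orderOf_dvd_card' q hqd
    have hg1 : g ≠ 1 := by
      rintro rfl
      rw [orderOf_one] at hg
      exact hq.one_lt.ne hg
    obtain ⟨k, hk⟩ := h g (by rw [hg]; exact (Nat.coprime_primes hq hp).2 hqp)
    exact isSolvable_of_card_prime (CfsgLib.Char.prime_card_of_class_prime_power hp hg1 hk)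

theorem solvable_of_Q {G : Type u} [Group G] [Finite G] (h : Q p G) : Group.IsSolvable G :=
  solvable_of_closed (fun G _ => Q p G)
    (fun G _ _ M _ h => Q_normal hp M h) (fun G _ _ M _ h => Q_quot hp M h)
    (fun G _ _ _ h => Q_simple hp h) _ G rfl h

theorem R_normal {G : Type u} [Group G] [Finite G] (M : Subgroup G) [M.Normal] (h : R p G) : R p M := by
  obtain ⟨H, hab, hp', k, hk⟩ := h
  refine ⟨H.subgroupOf M, ⟨⟨fun a b => ?_⟩⟩, ?_, ?_⟩
  · have h1 := hab.is_comm.comm ⟨((a : M) : G), a.2⟩ ⟨((b : M) : G), b.2⟩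
    have h2 : ((a : M) : G) * ((b : M) : G) = ((b : M) : G) * ((a : M) : G) := congrArg Subtype.val h1
    apply Subtype.ext
    apply Subtype.ext
    exact h2
  · intro hd
    apply hp'
    refine hd.trans ?_
    have h1 : Nat.card (H.subgroupOf M) = Nat.card ↥(H ⊓ M) := by
      rw [← Subgroup.card_map_of_injective M.subtype_injective, Subgroup.subgroupOf_map_subtype]
    rw [h1]
    exact Subgroup.card_dvd_of_le inf_le_left
  · have h2 : (H.subgroupOf M).index ∣ p ^ k := by
      rw [← hk]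
      exact CfsgLib.SS.relIndex_normal_dvd_index _ M
    obtain ⟨j, -, hj⟩ := (Nat.dvd_prime_pow hp).1 h2
    exact ⟨j, hj⟩

theorem R_quot {G : Type u} [Group G] [Finite G] (M : Subgroup G) [M.Normal] (h : R p G) : R p (G ⧸ M) := by
  obtain ⟨H, hab, hp', k, hk⟩ := h
  refine ⟨H.map (QuotientGroup.mk' M), ⟨⟨fun a b => ?_⟩⟩, ?_, ?_⟩
  · obtain ⟨a, ⟨x, hx, hxa⟩⟩ := a
    obtain ⟨b, ⟨y, hy, hyb⟩⟩ := b
    apply Subtype.ext
    show a * b = b * a
    rw [← hxa, ← hyb, ← map_mul, ← map_mul]
    have h1 := hab.is_comm.comm ⟨x, hx⟩ ⟨y, hy⟩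
    have h2 : x * y = y * x := congrArg Subtype.val h1
    rw [h2]
  · intro hd
    exact hp' (hd.trans (Subgroup.card_map_dvd _ _))
  · have h2 : (H.map (QuotientGroup.mk' M)).index ∣ p ^ k := by
      rw [← hk]
      exact Subgroup.index_map_dvd _ (QuotientGroup.mk'_surjective M)
    obtain ⟨j, -, hj⟩ := (Nat.dvd_prime_pow hp).1 h2
    exact ⟨j, hj⟩

theorem R_simple {G : Type u} [Group G] [Finite G] [IsSimpleGroup G] (h : R p G) : Group.IsSolvable G := by
  haveI : Fact p.Prime := ⟨hp⟩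
  obtain ⟨H, hab, hp', k, hk⟩ := h
  by_cases hH : H = ⊥
  · rw [hH, Subgroup.index_bot] at hk
    haveI := (IsPGroup.of_card hk).isNilpotent
    infer_instance
  · obtain ⟨g, hg, hg1⟩ := (Subgroup.bot_or_exists_ne_one H).resolve_left hH
    have hle : H ≤ Subgroup.centralizer ({g} : Set G) := by
      intro a ha
      rw [Subgroup.mem_centralizer_singleton_iff]
      have h1 := hab.is_comm.comm ⟨a, ha⟩ ⟨g, hg⟩
      exact congrArg Subtype.val h1
    have h2 : (Subgroup.centralizer ({g} : Set G)).index ∣ p ^ k := by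
      rw [← hk]
      exact Subgroup.index_dvd_of_le hle
    obtain ⟨j, -, hj⟩ := (Nat.dvd_prime_pow hp).1 h2
    exact isSolvable_of_card_prime (CfsgLib.Char.prime_card_of_class_prime_power hp hg1 hj)

theorem solvable_of_R {G : Type u} [Group G] [Finite G] (h : R p G) : Group.IsSolvable G :=
  solvable_of_closed (fun G _ => R p G)
    (fun G _ _ M _ h => R_normal hp M h) (fun G _ _ M _ h => R_quot hp M h)
    (fun G _ _ _ h => R_simple hp h) _ G rfl h

theorem Q_of_R {G : Type u} [Group G] [Finite G] (h : R p G) : Q p G := by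
  classical
  haveI := solvable_of_R hp h
  obtain ⟨H, hab, hp', k, hk⟩ := h
  intro x hx
  have hG : Nat.card G = Nat.card H * p ^ k := by
    rw [← hk]; exact (Subgroup.card_mul_index H).symm
  have hcop : (Nat.card H).Coprime (p ^ k) :=
    Nat.Coprime.pow_right k ((Nat.coprime_comm.1 ((Nat.Prime.coprime_iff_not_dvd hp).2 hp')))
  obtain ⟨H₁, hH₁, hxH₁⟩ := CfsgLib.Solv.hall_containing _ G rfl _ _ hG hcop (Subgroup.zpowers x)
    (by rw [Nat.card_zpowers]; exact Nat.Coprime.pow_right k hx)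
  obtain ⟨g, hg⟩ := CfsgLib.Solv.hall_conj _ G rfl _ _ hG hcop H H₁ rfl hH₁
  have hcomm : ∀ a ∈ H₁, a * x = x * a := by
    intro a ha
    have hxm : x ∈ H₁ := hxH₁ (Subgroup.mem_zpowers x)
    rw [← hg, CfsgLib.Solv.mem_conj_smul] at ha hxm
    have h1 := hab.is_comm.comm ⟨_, ha⟩ ⟨_, hxm⟩
    have h2 := congrArg Subtype.val h1
    simp only [Subgroup.coe_mul] at h2
    have h3 : g⁻¹ * (a * x) * g = g⁻¹ * (x * a) * g := by
      calc g⁻¹ * (a * x) * g = (g⁻¹ * a * g) * (g⁻¹ * x * g) := by group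
        _ = (g⁻¹ * x * g) * (g⁻¹ * a * g) := h2
        _ = g⁻¹ * (x * a) * g := by group
    have h4 : a * x = x * a := by
      have h5 := congrArg (fun t => g * t * g⁻¹) h3
      simpa [mul_assoc] using h5
    exact h4
  have hle : H₁ ≤ Subgroup.centralizer ({x} : Set G) := by
    intro a ha
    rw [Subgroup.mem_centralizer_singleton_iff]
    exact hcomm a ha
  have hi : H₁.index = p ^ k := by
    have h1 := Subgroup.card_mul_index H₁
    rw [hH₁, hG] at h1
    exact Nat.eq_of_mul_eq_mul_left Nat.card_pos h1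
  have h2 : (Subgroup.centralizer ({x} : Set G)).index ∣ p ^ k := by
    rw [← hi]
    exact Subgroup.index_dvd_of_le hle
  obtain ⟨j, -, hj⟩ := (Nat.dvd_prime_pow hp).1 h2
  exact ⟨j, hj⟩

/-- In the core-free case all `p`-regular elements commute. -/
theorem comm_of_core {G : Type u} [Group G] [Finite G] [Group.IsSolvable G] [Fact p.Prime]
    (hO : Cfsg.pCore p G = ⊥) (h : Q p G) (x y : G) (hx : (orderOf x).Coprime p)
    (hy : (orderOf y).Coprime p) : x * y = y * x := by
  have hF : Cfsg.fittingSubgroup G ≤ Cfsg.pPrimeCore p G := by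
    rw [CfsgLib.Solv.fitting_eq_iSup_pCore]
    refine iSup_le fun q => ?_
    by_cases hq : (q : ℕ) = p
    · rw [hq, hO]
      exact bot_le
    · haveI : (Cfsg.pCore (q : ℕ) G).Normal := CfsgLib.Solv.pCore_normal' _
      haveI : Fact (q : ℕ).Prime := ⟨q.2⟩
      refine CfsgLib.Solv.le_pPrimeCore' _ ?_
      obtain ⟨n, hn⟩ := IsPGroup.iff_card.1 (CfsgLib.Solv.pCore_isPGroup (G := G) (q : ℕ))
      rw [hn]
      exact Nat.Coprime.pow_left n ((Nat.coprime_primes q.2 hp).2 hq)
  haveI hKn : (Cfsg.pPrimeCore p G).Normal := CfsgLib.Solv.pPrimeCore_normal' p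
  have hKC : ∀ z : G, (orderOf z).Coprime p → ∀ k ∈ Cfsg.pPrimeCore p G, k * z = z * k := by
    intro z hz k hk
    obtain ⟨e, he⟩ := h z hz
    have h1 : (Subgroup.centralizer ({z} : Set G)).relIndex (Cfsg.pPrimeCore p G) ∣ p ^ e := by
      rw [← he]
      exact CfsgLib.SS.relIndex_normal_dvd_index _ _
    have h2 : (Subgroup.centralizer ({z} : Set G)).relIndex (Cfsg.pPrimeCore p G) ∣
        Nat.card (Cfsg.pPrimeCore p G) := Subgroup.index_dvd_card _
    have h3 : Nat.Coprime (p ^ e) (Nat.card (Cfsg.pPrimeCore p G)) :=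
      Nat.Coprime.pow_left e (CfsgLib.Solv.pPrimeCore_coprime (G := G) p).symm
    have h4 := Nat.eq_one_of_dvd_coprimes h3 h1 h2
    have h5 := Subgroup.relIndex_eq_one.1 h4
    exact Subgroup.mem_centralizer_singleton_iff.1 (h5 hk)
  have hmem : ∀ z : G, (orderOf z).Coprime p → z ∈ Cfsg.pPrimeCore p G := by
    intro z hz
    apply hF
    apply CfsgLib.Solv.centralizer_fitting_le
    rw [Subgroup.mem_centralizer_iff]
    intro k hk
    exact hKC z hz k (hF hk)
  exact (hKC x hx y (hmem y hy)).symm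

theorem R_of_Q {G : Type u} [Group G] [Finite G] (h : Q p G) : R p G := by
  classical
  haveI : Fact p.Prime := ⟨hp⟩
  haveI := solvable_of_Q hp h
  obtain ⟨e, m, hm, hG⟩ := Nat.exists_eq_pow_mul_and_not_dvd (n := Nat.card G) Nat.card_pos.ne' p hp.ne_one
  have hG' : Nat.card G = m * p ^ e := by rw [hG]; ring
  have hcop : m.Coprime (p ^ e) :=
    Nat.Coprime.pow_right e ((Nat.coprime_comm.1 ((Nat.Prime.coprime_iff_not_dvd hp).2 hm)))
  obtain ⟨H, hH, -⟩ := CfsgLib.Solv.hall_containing _ G rfl _ _ hG' hcop ⊥ (by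
    rw [Subgroup.card_bot]; exact Nat.coprime_one_left _)
  haveI hLn : (Cfsg.pCore p G).Normal := CfsgLib.Solv.pCore_normal' p
  have hQ' := Q_quot hp (Cfsg.pCore p G) h
  have hO := CfsgLib.OOL.pCore_quotient_pCore_eq_bot (G := G) p
  have hreg : ∀ a ∈ H, (orderOf a).Coprime p := by
    intro a ha
    have h1 : orderOf a ∣ Nat.card H := by
      rw [← Subgroup.orderOf_mk a ha]
      exact orderOf_dvd_natCard _
    rw [hH] at h1
    exact Nat.Coprime.coprime_dvd_left h1 ((Nat.coprime_comm.1 ((Nat.Prime.coprime_iff_not_dvd hp).2 hm)))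
  refine ⟨H, ⟨⟨fun a b => ?_⟩⟩, by rwa [hH], e, ?_⟩
  · have h1 := comm_of_core hp hO hQ' (QuotientGroup.mk' _ (a : G)) (QuotientGroup.mk' _ (b : G))
      (Nat.Coprime.coprime_dvd_left (orderOf_map_dvd _ _) (hreg _ a.2))
      (Nat.Coprime.coprime_dvd_left (orderOf_map_dvd _ _) (hreg _ b.2))
    have h2 : ((a : G) * (b : G))⁻¹ * ((b : G) * (a : G)) ∈ Cfsg.pCore p G := by
      rw [← QuotientGroup.ker_mk' (Cfsg.pCore p G), MonoidHom.mem_ker]
      rw [map_mul, map_inv, map_mul, map_mul, h1]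
      group
    have h3 : ((a : G) * (b : G))⁻¹ * ((b : G) * (a : G)) ∈ H :=
      H.mul_mem (H.inv_mem (H.mul_mem a.2 b.2)) (H.mul_mem b.2 a.2)
    have h4 : ((a : G) * (b : G))⁻¹ * ((b : G) * (a : G)) = 1 := by
      obtain ⟨t, ht⟩ := (IsPGroup.iff_orderOf.1 (CfsgLib.Solv.pCore_isPGroup (G := G) p)) ⟨_, h2⟩
      have ht' : orderOf (((a : G) * (b : G))⁻¹ * ((b : G) * (a : G))) = p ^ t := by
        rw [← Subgroup.orderOf_mk _ h2]; exact ht
      have h5 := hreg _ h3
      rw [ht'] at h5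
      have h6 : orderOf (((a : G) * (b : G))⁻¹ * ((b : G) * (a : G))) = 1 := by
        rw [ht']
        by_contra hne
        have ht0 : t ≠ 0 := by
          rintro rfl
          exact hne (pow_zero p)
        exact hp.one_lt.ne' (Nat.Coprime.eq_one_of_dvd h5.symm (dvd_pow_self p ht0))
      exact orderOf_eq_one_iff.1 h6
    apply Subtype.ext
    have h7 := inv_mul_eq_one.1 h4
    exact h7
  · have h1 := Subgroup.card_mul_index H
    rw [hH, hG'] at h1
    exact Nat.eq_of_mul_eq_mul_left (by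
      rcases Nat.eq_zero_or_pos m with h0 | h0
      · subst h0; simp at hG'; exact absurd hG' Nat.card_pos.ne'
      · exact h0) h1

end CfsgLib.FGS.PReg
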