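import Cfsg.Agent.Lib.FGS.PiClasses
import Cfsg.Agent.Lib.FGS.Lift
import Cfsg.Agent.Lib.Solv.CoprimeSylow
import Cfsg.Agent.Lib.SS.Misc
import Cfsg.Agent.Lib.FGS.Basic
import Mathlib

/-!
Subgroups of `π`-elements.
-/

set_option autoImplicit false
set_option linter.unusedSectionVars false

namespace CfsgLib.FGS

open Subgroup CfsgLib.Solv
open scoped Pointwise

universe u

/-- `π`-elements. -/
abbrev IsPiElt {G : Type*} [Group G] (π : Set ℕ) (x : G) : Prop :=
  ∀ p : ℕ, p.Prime → p ∣ orderOf x → p ∈ π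

/-- `π'`-elements. -/
abbrev IsPiPrimeElt {G : Type*} [Group G] (π : Set ℕ) (x : G) : Prop :=
  ∀ p : ℕ, p.Prime → p ∣ orderOf x → p ∉ π

variable {G : Type*} [Group G] [Finite G] {π : Set ℕ}

theorem pi_decomp (π : Set ℕ) (x : G) :
    ∃ s t : G, s ∈ zpowers x ∧ t ∈ zpowers x ∧ x = s * t ∧ IsPiElt π s ∧ IsPiPrimeElt π t := by
  obtain ⟨m, hm, h1, h2⟩ := exists_pi_part (orderOf x) (orderOf_pos x).ne' π
  obtain ⟨n, hn⟩ := hm
  have hm0 : m ≠ 0 := by
    rintro rfl
    have := orderOf_pos x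
    omega
  have hdiv : orderOf x / m = n := by
    rw [hn]
    exact Nat.mul_div_cancel_left _ (Nat.pos_of_ne_zero hm0)
  rw [hdiv] at h2
  have hcop : Nat.Coprime m n := by
    apply Nat.coprime_of_dvd
    intro q hq hqm hqn
    exact h2 q (h1 q hq hqm) hq hqn
  have hxmn : x ^ (m * n) = 1 := by rw [← hn]; exact pow_orderOf_eq_one x
  have hb := Nat.gcd_eq_gcd_ab m n
  rw [hcop] at hb
  have hs1 : ((x ^ n) ^ (Nat.gcdB m n)) ^ m = 1 := by
    rw [← zpow_natCast, ← zpow_mul, ← zpow_natCast, ← zpow_mul]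
    have : (n : ℤ) * (Nat.gcdB m n * m) = (m * n : ℕ) * Nat.gcdB m n := by push_cast; ring
    rw [this, zpow_mul, zpow_natCast, hxmn, one_zpow]
  have ht1 : ((x ^ m) ^ (Nat.gcdA m n)) ^ n = 1 := by
    rw [← zpow_natCast, ← zpow_mul, ← zpow_natCast, ← zpow_mul]
    have : (m : ℤ) * (Nat.gcdA m n * n) = (m * n : ℕ) * Nat.gcdA m n := by push_cast; ring
    rw [this, zpow_mul, zpow_natCast, hxmn, one_zpow]
  refine ⟨(x ^ n) ^ (Nat.gcdB m n), (x ^ m) ^ (Nat.gcdA m n), ?_, ?_, ?_, ?_, ?_⟩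
  · exact Subgroup.zpow_mem _ (Subgroup.pow_mem _ (mem_zpowers x) _) _
  · exact Subgroup.zpow_mem _ (Subgroup.pow_mem _ (mem_zpowers x) _) _
  · rw [← zpow_natCast, ← zpow_natCast, ← zpow_mul, ← zpow_mul, ← zpow_add]
    have : (n : ℤ) * Nat.gcdB m n + m * Nat.gcdA m n = 1 := by
      push_cast at hb
      linarith
    rw [this, zpow_one]
  · intro p hp hd
    exact h1 p hp (hd.trans (orderOf_dvd_of_pow_eq_one hs1))
  · intro p hp hd hpπ
    exact h2 p hpπ hp (hd.trans (orderOf_dvd_of_pow_eq_one ht1))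

theorem eq_one_of_pi_of_piPrime {x : G} (h1 : IsPiElt π x) (h2 : IsPiPrimeElt π x) : x = 1 := by
  by_contra hne
  obtain ⟨p, hp, hd⟩ := Nat.exists_prime_and_dvd (n := orderOf x) (fun h => hne (orderOf_eq_one_iff.1 h))
  exact h2 p hp hd (h1 p hp hd)

theorem IsPiElt.of_mem_zpowers {x y : G} (h : IsPiElt π x) (hy : y ∈ zpowers x) : IsPiElt π y :=
  fun p hp hd => h p hp (hd.trans (orderOf_dvd_of_mem_zpowers hy))

theorem IsPiElt.map {H : Type*} [Group H] (f : G →* H) {x : G} (h : IsPiElt π x) : IsPiElt π (f x) :=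
  fun p hp hd => h p hp (hd.trans (orderOf_map_dvd f x))

theorem IsPiPrimeElt.map {H : Type*} [Group H] (f : G →* H) {x : G} (h : IsPiPrimeElt π x) :
    IsPiPrimeElt π (f x) :=
  fun p hp hd => h p hp (hd.trans (orderOf_map_dvd f x))

/-- Elementwise form of the homogeneity condition. -/
theorem mem_centralizer_of_pi (H : Subgroup G)
    (hh : ∀ p : ℕ, p.Prime →
      p ∣ (centralizer (H : Set G)).relIndex (normalizer (H : Set G)) → p ∉ π)
    (s : G) (hs : s ∈ normalizer (H : Set G)) (hsπ : IsPiElt π s) : s ∈ centralizer (H : Set G) := by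
  classical
  let f := H.normalizerMonoidHom
  by_contra hne
  have hf1 : f ⟨s, hs⟩ ≠ 1 := by
    intro h1
    apply hne
    have h2 : (⟨s, hs⟩ : normalizer (H : Set G)) ∈ f.ker := h1
    rw [Subgroup.normalizerMonoidHom_ker] at h2
    exact h2
  obtain ⟨p, hp, hd⟩ := Nat.exists_prime_and_dvd (n := orderOf (f ⟨s, hs⟩))
    (fun h => hf1 (orderOf_eq_one_iff.1 h))
  have h1 : orderOf (f ⟨s, hs⟩) ∣ orderOf s := by
    have := orderOf_map_dvd f (⟨s, hs⟩ : normalizer (H : Set G))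
    rwa [Subgroup.orderOf_mk] at this
  have h2 : orderOf (f ⟨s, hs⟩) ∣ (centralizer (H : Set G)).relIndex (normalizer (H : Set G)) := by
    have e : (centralizer (H : Set G)).relIndex (normalizer (H : Set G)) = f.ker.index := by
      rw [Subgroup.normalizerMonoidHom_ker]
      rfl
    rw [e, Subgroup.index_ker]
    let a : f.range := ⟨f ⟨s, hs⟩, ⟨_, rfl⟩⟩
    rw [show orderOf (f ⟨s, hs⟩) = orderOf a from Subgroup.orderOf_coe a]
    exact orderOf_dvd_natCard a
  exact hh p hp (hd.trans h2) (hsπ p hp (hd.trans h1))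

/-- Converse of `mem_centralizer_of_pi`. -/
theorem relIndex_primes_of_pi (H : Subgroup G)
    (hh : ∀ s ∈ normalizer (H : Set G), IsPiElt π s → s ∈ centralizer (H : Set G))
    (p : ℕ) (hp : p.Prime)
    (hd : p ∣ (centralizer (H : Set G)).relIndex (normalizer (H : Set G))) : p ∉ π := by
  classical
  intro hpπ
  haveI := Fact.mk hp
  let f := H.normalizerMonoidHom
  have e : (centralizer (H : Set G)).relIndex (normalizer (H : Set G)) = f.ker.index := by
    rw [Subgroup.normalizerMonoidHom_ker]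
    rfl
  rw [e] at hd
  haveI : f.ker.Normal := inferInstance
  have hd2 : p ∣ Nat.card ((normalizer (H : Set G)) ⧸ f.ker) := hd
  obtain ⟨y, hy⟩ := exists_prime_orderOf_dvd_card' (G := (normalizer (H : Set G)) ⧸ f.ker) p hd2
  obtain ⟨x₀, hx₀⟩ := QuotientGroup.mk_surjective y
  obtain ⟨x, hx, hxπ⟩ := exists_pi_lift π f.ker y (by
    intro r hr hrd
    rw [hy] at hrd
    rw [(Nat.prime_dvd_prime_iff_eq hr hp).1 hrd]
    exact hpπ) _ x₀ rfl hx₀
  have h1 := hh x x.2 (by
    intro r hr hrd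
    rw [Subgroup.orderOf_coe] at hrd
    exact hxπ r hr hrd)
  have h2 : x ∈ f.ker := by
    rw [Subgroup.normalizerMonoidHom_ker]
    exact h1
  have h3 : y = 1 := by
    rw [← hx]
    exact (QuotientGroup.eq_one_iff x).2 h2
  rw [h3, orderOf_one] at hy
  exact hp.one_lt.ne hy

/-- A central `π'`-subgroup with `π`-quotient. -/
theorem exists_pi_sub_of_central {C : Type*} [Group C] [Finite C] (Z : Subgroup C)
    (hZc : Z ≤ center C) (hZ : ∀ z ∈ Z, IsPiPrimeElt π z)
    (hQ : ∀ c : C, ∃ n : ℕ, (∀ p : ℕ, p.Prime → p ∣ n → p ∈ π) ∧ c ^ n ∈ Z) :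
    ∃ H : Subgroup C, ∀ x : C, x ∈ H ↔ IsPiElt π x := by
  classical
  haveI hZn : Z.Normal := ⟨fun n hn g => by
    have := (Subgroup.mem_center_iff.1 (hZc hn)) g
    rw [this]
    simpa using hn⟩
  have hcardZ : ∀ p : ℕ, p.Prime → p ∣ Nat.card Z → p ∉ π := by
    intro p hp hd
    haveI := Fact.mk hp
    obtain ⟨z, hz⟩ := exists_prime_orderOf_dvd_card' (G := Z) p hd
    apply hZ z z.2 p hp
    rw [Subgroup.orderOf_coe, hz]
  have hidx : ∀ p : ℕ, p.Prime → p ∣ Z.index → p ∈ π := by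
    intro p hp hd
    haveI := Fact.mk hp
    have hd2 : p ∣ Nat.card (C ⧸ Z) := hd
    obtain ⟨y, hy⟩ := exists_prime_orderOf_dvd_card' (G := C ⧸ Z) p hd2
    obtain ⟨c, rfl⟩ := QuotientGroup.mk_surjective y
    obtain ⟨n, hn1, hn2⟩ := hQ c
    apply hn1 p hp
    rw [← hy]
    apply orderOf_dvd_of_pow_eq_one
    rw [← QuotientGroup.mk_pow]
    exact (QuotientGroup.eq_one_iff _).2 hn2
  have hcop : Nat.Coprime (Nat.card Z) Z.index := by
    apply Nat.coprime_of_dvd
    intro p hp h1 h2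
    exact hcardZ p hp h1 (hidx p hp h2)
  obtain ⟨H, hH⟩ := Subgroup.exists_right_complement'_of_coprime hcop
  have hHcard : Nat.card H = Z.index := hH.symm.index_eq_card.symm
  refine ⟨H, fun x => ⟨fun hx p hp hd => ?_, fun hx => ?_⟩⟩
  · apply hidx p hp
    rw [← hHcard]
    exact hd.trans (Subgroup.orderOf_dvd_natCard H hx)
  · obtain ⟨z, hz, h, hh, rfl⟩ := CfsgLib.SS.exists_mul_of_sup_eq_top hH.sup_eq_top x
    have hcomm : Commute z h := (Subgroup.mem_center_iff.1 (hZc hz)) h |>.symm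
    have hm : (z * h) ^ (orderOf (z * h) * Nat.card H) = 1 := by
      rw [pow_mul, pow_orderOf_eq_one, one_pow]
    rw [hcomm.mul_pow] at hm
    have hh1 : h ^ (orderOf (z * h) * Nat.card H) = 1 := by
      rw [mul_comm, pow_mul]
      have : h ^ Nat.card H = 1 := by
        have := pow_card_eq_one' (x := (⟨h, hh⟩ : H))
        exact congrArg Subtype.val this
      rw [this, one_pow]
    rw [hh1, mul_one] at hm
    have hz1 : z = 1 := by
      by_contra hne
      obtain ⟨p, hp, hd⟩ := Nat.exists_prime_and_dvd (n := orderOf z)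
        (fun h => hne (orderOf_eq_one_iff.1 h))
      have hd2 := hd.trans (orderOf_dvd_of_pow_eq_one hm)
      rcases (Nat.Prime.dvd_mul hp).1 hd2 with h3 | h3
      · exact hZ z hz p hp hd (hx p hp h3)
      · rw [hHcard] at h3
        exact hZ z hz p hp hd (hidx p hp h3)
    rw [hz1, one_mul]
    exact hh

/-- Lifting the subgroup of `π`-elements from a quotient by a `π`-subgroup. -/
theorem exists_pi_sub_of_quotient (L : Subgroup G) [L.Normal] (hL : ∀ l ∈ L, IsPiElt π l)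
    (h : ∃ H : Subgroup (G ⧸ L), ∀ x : G ⧸ L, x ∈ H ↔ IsPiElt π x) :
    ∃ H : Subgroup G, ∀ x : G, x ∈ H ↔ IsPiElt π x := by
  obtain ⟨H, hH⟩ := h
  refine ⟨H.comap (QuotientGroup.mk' L), fun x => ?_⟩
  rw [Subgroup.mem_comap, hH]
  constructor
  · intro hx
    obtain ⟨s, t, hs, ht, hst, hsπ, htπ⟩ := pi_decomp π x
    have h1 : QuotientGroup.mk' L t = 1 := by
      apply eq_one_of_pi_of_piPrime (π := π)
      · apply IsPiElt.of_mem_zpowers hx
        obtain ⟨j, rfl⟩ := ht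
        exact ⟨j, by simp⟩
      · exact htπ.map _
    have h2 : t ∈ L := (QuotientGroup.eq_one_iff t).1 h1
    have h3 : t = 1 := eq_one_of_pi_of_piPrime (hL t h2) htπ
    rw [hst, h3, mul_one]
    exact hsπ
  · intro hx
    exact hx.map _

/-- The key: `π`-elements centralize `K/L`. -/
theorem pi_centralizes
    (hhom : ∀ H : Subgroup G, H ≠ ⊥ → (∀ p : ℕ, p.Prime → p ∣ Nat.card H → p ∉ π) →
      ∀ s ∈ normalizer (H : Set G), IsPiElt π s → s ∈ centralizer (H : Set G))
    (K L : Subgroup G) [K.Normal] [L.Normal] (hLK : L ≤ K) (hL : ∀ k ∈ K, k ∈ L ↔ IsPiElt π k)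
    (x : G) (hx : IsPiElt π x) (k : G) (hk : k ∈ K) : x * k * x⁻¹ * k⁻¹ ∈ L := by
  classical
  let φ := QuotientGroup.mk' L
  have hφL : ∀ l ∈ L, φ l = 1 := fun l hl => (QuotientGroup.eq_one_iff l).2 hl
  obtain ⟨V, hV⟩ : ∃ V, V = K.map φ := ⟨_, rfl⟩
  haveI hVn : V.Normal := hV ▸ Subgroup.Normal.map inferInstance φ (QuotientGroup.mk'_surjective L)
  have hVelt : ∀ v ∈ V, IsPiPrimeElt π v := by
    intro v hv p hp hpv hpπ
    rw [hV] at hv
    obtain ⟨k', hk', rfl⟩ := Subgroup.mem_map.1 hv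
    obtain ⟨s, t, hs, ht, hst, hsπ, htπ⟩ := pi_decomp π k'
    have hsK : s ∈ K := (Subgroup.zpowers_le.2 hk') hs
    have hsL : s ∈ L := (hL s hsK).2 hsπ
    have e : φ k' = φ t := by rw [hst, map_mul, hφL s hsL, one_mul]
    rw [e] at hpv
    exact htπ p hp (hpv.trans (orderOf_map_dvd φ t)) hpπ
  have hcardV : ∀ p : ℕ, p.Prime → p ∣ Nat.card V → p ∉ π := by
    intro p hp hd
    haveI := Fact.mk hp
    obtain ⟨v, hv⟩ := exists_prime_orderOf_dvd_card' (G := V) p hd
    apply hVelt v v.2 p hp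
    rw [Subgroup.orderOf_coe, hv]
  obtain ⟨xb, hxb⟩ : ∃ xb, xb = φ x := ⟨_, rfl⟩
  have hxbπ : IsPiElt π xb := hxb ▸ hx.map φ
  have hcop : (Nat.card (zpowers xb)).Coprime (Nat.card V) := by
    rw [Nat.card_zpowers]
    apply Nat.coprime_of_dvd
    intro p hp h1 h2
    exact hcardV p hp h2 (hxbπ p hp h1)
  have hAN : zpowers xb ≤ normalizer (V : Set (G ⧸ L)) := by
    rw [Subgroup.normalizer_eq_top]
    exact le_top
  have hAsolv : Group.IsSolvable (zpowers xb) := inferInstance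
  have key : ∀ r : ℕ, r.Prime → ¬ r ∣ (V ⊓ centralizer {xb}).relIndex V := by
    intro r hr
    by_cases hrπ : r ∈ π
    · intro hd
      exact hcardV r hr (hd.trans (Subgroup.relIndex_dvd_card _ _)) hrπ
    haveI := Fact.mk hr
    obtain ⟨Rb, hRb, hRbA⟩ := exists_invariant_sylow (p := r) (zpowers xb) V hAN hcop (Or.inl hAsolv)
    have hxbN : xb ∈ normalizer (Rb : Set (G ⧸ L)) := hRbA (mem_zpowers xb)
    suffices hsub : Rb ≤ centralizer {xb} by
      intro hd
      apply hRb.2.2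
      exact hd.trans (Subgroup.relIndex_dvd_of_le_left V (le_inf hRb.1 hsub))
    obtain ⟨Y, hY⟩ : ∃ Y, Y = Rb.comap φ := ⟨_, rfl⟩
    have hmemY : ∀ y, y ∈ Y ↔ φ y ∈ Rb := by
      intro y
      rw [hY]
      rfl
    have hYK : Y ≤ K := by
      intro y hy
      have h1 : φ y ∈ V := hRb.1 ((hmemY y).1 hy)
      rw [hV] at h1
      obtain ⟨k', hk', h2⟩ := Subgroup.mem_map.1 h1
      have h3 : k'⁻¹ * y ∈ L := QuotientGroup.eq.1 h2
      have e : y = k' * (k'⁻¹ * y) := by group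
      rw [e]
      exact K.mul_mem hk' (hLK h3)
    have hxY : x ∈ normalizer (Y : Set G) := by
      rw [Subgroup.mem_normalizer_iff]
      intro y
      rw [hmemY, hmemY, Subgroup.mem_normalizer_iff.1 hxbN, hxb]
      simp only [map_mul, map_inv]
    let R : Sylow r Y := default
    obtain ⟨R', hR'⟩ : ∃ R', R' = (R : Subgroup Y).map Y.subtype := ⟨_, rfl⟩
    have hR's : IsSylowIn r R' Y := hR' ▸ isSylowIn_of_sylow R
    have hsurj : ∀ y ∈ Y, ∃ ρ ∈ R', φ y = φ ρ := by
      let f : Y →* Rb := (φ.comp Y.subtype).codRestrict Rb (fun y => (hmemY _).1 y.2)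
      have hf : Function.Surjective f := by
        rintro ⟨b, hb⟩
        obtain ⟨g, rfl⟩ := QuotientGroup.mk'_surjective L b
        exact ⟨⟨g, (hmemY g).2 hb⟩, rfl⟩
      let S : Sylow r Rb := R.mapSurjective hf
      have hS : (⊤ : Subgroup Rb) = S := S.3 (hRb.2.1.to_subgroup ⊤) le_top
      intro y hy
      have h1 : f ⟨y, hy⟩ ∈ (S : Subgroup Rb) := by
        rw [← hS]
        trivial
      obtain ⟨ρ, hρ, h2⟩ := Subgroup.mem_map.1 h1
      refine ⟨ρ, ?_, ?_⟩
      · rw [hR']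
        exact Subgroup.mem_map_of_mem _ hρ
      · have := congrArg Subtype.val h2
        exact this.symm
    -- the conjugating element
    obtain ⟨y, hy, hyc⟩ := hR's.exists_conj_eq (hR's.conj_of_mem_normalizer hxY)
    obtain ⟨ρ, hρ, hφy⟩ := hsurj y hy
    obtain ⟨l, hl⟩ : ∃ l, l = y * ρ⁻¹ := ⟨_, rfl⟩
    have hlL : l ∈ L := by
      apply (QuotientGroup.eq_one_iff l).1
      show φ l = 1
      rw [hl, map_mul, hφy, map_inv, mul_inv_cancel]
    have hyeq : y = l * ρ := by rw [hl]; group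
    have hlc : MulAut.conj l • R' = MulAut.conj x • R' := by
      rw [← hyc, hyeq, conj_mul_smul, Subgroup.conj_smul_eq_self_of_mem hρ]
    obtain ⟨z, hz⟩ : ∃ z, z = l⁻¹ * x := ⟨_, rfl⟩
    have hzN : z ∈ normalizer (R' : Set G) := by
      rw [mem_normalizer_iff_conj_smul, hz, conj_mul_smul, ← hlc, ← conj_mul_smul, inv_mul_cancel,
        map_one, one_smul]
    have hφz : φ z = xb := by
      rw [hz, map_mul, map_inv, hφL l hlL, inv_one, one_mul, hxb]
    have hcommR : ∀ ρ' ∈ R', φ ρ' * xb = xb * φ ρ' := by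
      intro ρ' hρ'
      by_cases hR0 : R' = ⊥
      · rw [hR0, Subgroup.mem_bot] at hρ'
        rw [hρ', map_one, one_mul, mul_one]
      obtain ⟨s, t, hs, ht, hst, hsπ, htπ⟩ := pi_decomp π z
      have hprimes : ∀ p : ℕ, p.Prime → p ∣ Nat.card R' → p ∉ π := by
        intro p hp hd
        obtain ⟨n, hn⟩ := IsPGroup.iff_card.1 hR's.2.1
        rw [hn] at hd
        rw [(Nat.prime_dvd_prime_iff_eq hp hr).1 (hp.dvd_of_dvd_pow hd)]
        exact hrπ
      have hsc := hhom R' hR0 hprimes s ((Subgroup.zpowers_le.2 hzN) hs) hsπ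
      have hc := Subgroup.mem_centralizer_iff.1 hsc ρ' hρ'
      have htb : φ t = 1 := by
        apply eq_one_of_pi_of_piPrime (π := π)
        · apply IsPiElt.of_mem_zpowers hxbπ
          rw [← hφz]
          obtain ⟨j, rfl⟩ := ht
          exact ⟨j, by simp⟩
        · exact htπ.map _
      have hsb : φ s = xb := by
        rw [← hφz, hst, map_mul, htb, mul_one]
      rw [← hsb, ← map_mul, hc, map_mul]
    intro b hb
    rw [Subgroup.mem_centralizer_singleton_iff]
    obtain ⟨g, rfl⟩ := QuotientGroup.mk'_surjective L b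
    obtain ⟨ρ', hρ', h1⟩ := hsurj g ((hmemY g).2 hb)
    show φ g * xb = xb * φ g
    rw [h1]
    exact hcommR ρ' hρ'
  have hrel : (V ⊓ centralizer {xb}).relIndex V = 1 := by
    by_contra hne
    obtain ⟨p, hp, hd⟩ := Nat.exists_prime_and_dvd hne
    exact key p hp hd
  have hle := Subgroup.relIndex_eq_one.1 hrel
  have hkb : φ k ∈ V := hV ▸ Subgroup.mem_map_of_mem φ hk
  have hc : φ k * xb = xb * φ k := Subgroup.mem_centralizer_singleton_iff.1 (hle hkb).2
  apply (QuotientGroup.eq_one_iff _).1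
  show φ (x * k * x⁻¹ * k⁻¹) = 1
  simp only [map_mul, map_inv]
  rw [← hxb, ← hc]
  group

theorem isPiElt_conj {x : G} (g : G) (h : IsPiElt π x) : IsPiElt π (g * x * g⁻¹) := by
  intro p hp hd
  rw [orderOf_conj_eq] at hd
  exact h p hp hd

/-- The main step. -/
theorem exists_pi_sub_of_normal
    (hhom : ∀ H : Subgroup G, H ≠ ⊥ → (∀ p : ℕ, p.Prime → p ∣ Nat.card H → p ∉ π) →
      ∀ s ∈ normalizer (H : Set G), IsPiElt π s → s ∈ centralizer (H : Set G))
    (K : Subgroup G) [hKn : K.Normal]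
    (hK : ∃ L : Subgroup ↥K, ∀ x : ↥K, x ∈ L ↔ IsPiElt π x)
    (hQ : ∃ L : Subgroup (G ⧸ K), ∀ x : G ⧸ K, x ∈ L ↔ IsPiElt π x) :
    ∃ H : Subgroup G, ∀ x : G, x ∈ H ↔ IsPiElt π x := by
  classical
  obtain ⟨L₀, hL₀⟩ := hK
  obtain ⟨L₁, hL₁⟩ := hQ
  obtain ⟨L, hLdef⟩ : ∃ L, L = L₀.map K.subtype := ⟨_, rfl⟩
  have hLK : L ≤ K := hLdef ▸ Subgroup.map_subtype_le L₀
  have hL : ∀ k ∈ K, k ∈ L ↔ IsPiElt π k := by
    intro k hk
    rw [hLdef]
    constructor
    · intro h
      obtain ⟨y, hy, rfl⟩ := Subgroup.mem_map.1 h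
      have := (hL₀ y).1 hy
      intro p hp hd
      apply this p hp
      rwa [← Subgroup.orderOf_coe]
    · intro h
      refine Subgroup.mem_map.2 ⟨⟨k, hk⟩, (hL₀ _).2 ?_, rfl⟩
      intro p hp hd
      apply h p hp
      rwa [Subgroup.orderOf_mk] at hd
  haveI hLn : L.Normal := by
    constructor
    intro l hl g
    have hlK := hLK hl
    exact (hL _ (hKn.conj_mem l hlK g)).2 (isPiElt_conj g ((hL l hlK).1 hl))
  let φ := QuotientGroup.mk' L
  obtain ⟨C, hCdef⟩ : ∃ C : Subgroup G, C = L₁.comap (QuotientGroup.mk' K) ⊓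
      (centralizer ((K.map φ : Subgroup (G ⧸ L)) : Set (G ⧸ L))).comap φ := ⟨_, rfl⟩
  have hC1 : ∀ c ∈ C, IsPiElt π (QuotientGroup.mk' K c) := by
    intro c hc
    rw [hCdef] at hc
    exact (hL₁ _).1 hc.1
  have hC2 : ∀ c ∈ C, ∀ k ∈ K, φ k * φ c = φ c * φ k := by
    intro c hc k hk
    rw [hCdef] at hc
    exact Subgroup.mem_centralizer_iff.1 hc.2 (φ k) (Subgroup.mem_map_of_mem φ hk)
  have hCelt : ∀ x : G, IsPiElt π x → x ∈ C := by
    intro x hx
    rw [hCdef]
    refine ⟨(hL₁ _).2 (hx.map _), ?_⟩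
    show φ x ∈ centralizer _
    rw [Subgroup.mem_centralizer_iff]
    intro h hh
    obtain ⟨k, hk, rfl⟩ := Subgroup.mem_map.1 hh
    have h1 := pi_centralizes hhom K L hLK hL x hx k hk
    have h2 : φ (x * k * x⁻¹ * k⁻¹) = 1 := (QuotientGroup.eq_one_iff _).2 h1
    simp only [map_mul, map_inv] at h2
    have h3 : φ x * φ k * (φ x)⁻¹ = φ k := by
      rw [mul_inv_eq_one] at h2
      exact h2
    rw [mul_inv_eq_iff_eq_mul] at h3
    exact h3.symm
  have hLC : ∀ l ∈ L, l ∈ C := fun l hl => hCelt l ((hL l (hLK hl)).1 hl)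
  -- work in `C`
  obtain ⟨L', hL'⟩ : ∃ L' : Subgroup C, L' = L.subgroupOf C := ⟨_, rfl⟩
  haveI hL'n : L'.Normal := by rw [hL']; infer_instance
  have hmemL' : ∀ c : C, c ∈ L' ↔ (c : G) ∈ L := by
    intro c
    rw [hL']
    rfl
  obtain ⟨H, hH⟩ : ∃ H : Subgroup C, ∀ x : C, x ∈ H ↔ IsPiElt π x := by
    apply exists_pi_sub_of_quotient L'
    · intro l hl p hp hd
      rw [← Subgroup.orderOf_coe] at hd
      have h1 := (hmemL' l).1 hl
      exact (hL _ (hLK h1)).1 h1 p hp hd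
    · apply exists_pi_sub_of_central ((K.subgroupOf C).map (QuotientGroup.mk' L'))
      · intro z hz
        obtain ⟨k, hk, rfl⟩ := Subgroup.mem_map.1 hz
        rw [Subgroup.mem_center_iff]
        intro g
        obtain ⟨c, rfl⟩ := QuotientGroup.mk_surjective g
        show ((c * k : C) : C ⧸ L') = ((k * c : C) : C ⧸ L')
        apply QuotientGroup.eq.2
        rw [hmemL']
        have h1 := hC2 c c.2 k hk
        have h2 : φ ((k : G) * c) = φ ((c : G) * k) := by
          rw [map_mul, map_mul]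
          exact h1
        have h3 : ((c : G) * k)⁻¹ * ((k : G) * c) ∈ L := QuotientGroup.eq.1 h2.symm
        exact h3
      · intro z hz p hp hd hpπ
        obtain ⟨k, hk, rfl⟩ := Subgroup.mem_map.1 hz
        obtain ⟨s, t, hs, ht, hst, hsπ, htπ⟩ := pi_decomp π k
        have hsG : (s : G) ∈ K := by
          obtain ⟨j, rfl⟩ := hs
          exact Subgroup.zpow_mem _ hk j
        have hsL : s ∈ L' := by
          rw [hmemL']
          refine (hL _ hsG).2 ?_
          intro q hq hqd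
          rw [Subgroup.orderOf_coe] at hqd
          exact hsπ q hq hqd
        have hs1 : QuotientGroup.mk' L' s = 1 := (QuotientGroup.eq_one_iff s).2 hsL
        have e : QuotientGroup.mk' L' k = QuotientGroup.mk' L' t := by
          rw [hst, map_mul, hs1, one_mul]
        rw [e] at hd
        exact htπ.map _ p hp hd hpπ
      · intro cb
        obtain ⟨c, rfl⟩ := QuotientGroup.mk_surjective cb
        refine ⟨orderOf (QuotientGroup.mk' K (c : G)), hC1 c c.2, ?_⟩
        refine Subgroup.mem_map.2 ⟨c ^ orderOf (QuotientGroup.mk' K (c : G)), ?_, ?_⟩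
        · show ((c ^ orderOf (QuotientGroup.mk' K (c : G)) : C) : G) ∈ K
          rw [Subgroup.coe_pow]
          apply (QuotientGroup.eq_one_iff _).1
          show QuotientGroup.mk' K ((c : G) ^ orderOf (QuotientGroup.mk' K (c : G))) = 1
          rw [map_pow, pow_orderOf_eq_one]
        · rfl
  refine ⟨H.map C.subtype, fun x => ⟨fun hx => ?_, fun hx => ?_⟩⟩
  · obtain ⟨y, hy, rfl⟩ := Subgroup.mem_map.1 hx
    intro p hp hd
    exact (hH y).1 hy p hp (by rwa [← Subgroup.orderOf_coe])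
  · refine Subgroup.mem_map.2 ⟨⟨x, hCelt x hx⟩, (hH _).2 ?_, rfl⟩
    intro p hp hd
    apply hx p hp
    rwa [Subgroup.orderOf_mk] at hd

end CfsgLib.FGS
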