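import Cfsg.Agent.Lib.Trans.Crit
import Cfsg.Agent.Lib.FGS.Basic

/-!
In a special 2-group with a fixed-point-free odd automorphism trivial on the centre,
every element is conjugate to its inverse.
-/

set_option autoImplicit false
set_option linter.unusedSectionVars false

open scoped commutatorElement

namespace CfsgLib.FGS

open Subgroup

universe u

variable {T : Type u} [Group T] [Finite T]

/-- the partial products `x · a x ⋯ a^(k-1) x` -/
def partialNorm (a : MulAut T) (x : T) : ℕ → T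
  | 0 => 1
  | k + 1 => partialNorm a x k * (a ^ k) x

theorem special_two_real (hS : Cfsg.IsSpecial 2 T) (a : MulAut T) (m : ℕ) (hm : Odd m) (ham : a ^ m = 1)
    (hfix : ∀ z ∈ center T, a z = z)
    (hGA : closure {y : T | ∃ t : T, ∃ b ∈ Subgroup.zpowers a, y = t⁻¹ * b t} = ⊤)
    (x : T) : ∃ c : T, c * x * c⁻¹ = x⁻¹ := by
  classical
  haveI : Fact (Nat.Prime 2) := ⟨Nat.prime_two⟩
  have hcc : ∀ u v : T, ⁅u, v⁆ ∈ center T := by
    intro u v
    rw [← hS.2.2]
    exact Subgroup.commutator_mem_commutator (Subgroup.mem_top u) (Subgroup.mem_top v)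
  have hcentral : ∀ z ∈ center T, ∀ g : T, g * z = z * g := fun z hz g => Subgroup.mem_center_iff.1 hz g
  have hfixk : ∀ k : ℕ, ∀ z ∈ center T, (a ^ k) z = z := by
    intro k
    induction k with
    | zero => intro z _; simp
    | succ k ih =>
      intro z hz
      rw [pow_succ, MulAut.mul_apply, hfix z hz, ih z hz]
  have hsq : ∀ y : T, y ^ 2 ∈ center T := fun y => CfsgLib.Trans.special_pow_central hS y
  have hz2 : ∀ z ∈ center T, z ^ 2 = 1 := fun z hz => CfsgLib.Trans.special_central_pow hS hz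
  -- the subgroup `[x, T]`
  let W : Subgroup T :=
    { carrier := {y | ∃ u : T, y = ⁅x, u⁆}
      mul_mem' := by
        rintro _ _ ⟨u, rfl⟩ ⟨v, rfl⟩
        refine ⟨u * v, ?_⟩
        rw [commutatorElement_mul_right_eq_mul_conj]
        have := hcentral _ (hcc x v) u
        calc ⁅x, u⁆ * ⁅x, v⁆ = ⁅x, u⁆ * (u * ⁅x, v⁆ * u⁻¹) := by
              rw [this]; group
          _ = _ := by group
      one_mem' := ⟨1, by simp⟩
      inv_mem' := by
        rintro _ ⟨u, rfl⟩
        refine ⟨u⁻¹, ?_⟩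
        rw [commutatorElement_inv_right, commutatorElement_inv x u]
        have := hcentral _ (hcc u x) u⁻¹
        rw [this]
        group }
  have hWZ : W ≤ center T := by
    rintro _ ⟨u, rfl⟩
    exact hcc x u
  haveI hWn : W.Normal := by
    constructor
    intro y hy g
    have := hcentral y (hWZ hy) g
    rw [this]
    simpa using hy
  have hinvk : ∀ k : ℕ, ∀ y : T, ∃ y' : T, (a ^ k) y' = y := fun k y => ⟨(a ^ k)⁻¹ y, by simp⟩
  -- the conjugates of `x` are central modulo `W`
  have hcomm : ∀ (k : ℕ) (y : T), ⁅(a ^ k) x, y⁆ ∈ W := by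
    intro k y
    obtain ⟨y', rfl⟩ := hinvk k y
    have h1 : ⁅(a ^ k) x, (a ^ k) y'⁆ = (a ^ k) ⁅x, y'⁆ := (map_commutatorElement (a ^ k) x y').symm
    rw [h1, hfixk k _ (hcc x y')]
    exact ⟨y', rfl⟩
  have hcentralmod : ∀ (k : ℕ) (y : T), Commute (((a ^ k) x : T) : T ⧸ W) (y : T ⧸ W) := by
    intro k y
    have h1 : ⁅(a ^ k) x, y⁆ ∈ W := hcomm k y
    have h2 : ((⁅(a ^ k) x, y⁆ : T) : T ⧸ W) = 1 := (QuotientGroup.eq_one_iff _).2 h1
    have h3 : ⁅(((a ^ k) x : T) : T ⧸ W), (y : T ⧸ W)⁆ = 1 := h2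
    exact commutatorElement_eq_one_iff_commute.1 h3
  -- squares of the partial norms
  have hsqk : ∀ k : ℕ, (((partialNorm a x k) ^ 2 : T) : T ⧸ W) = ((x ^ 2 : T) : T ⧸ W) ^ k := by
    intro k
    induction k with
    | zero => simp [partialNorm]
    | succ k ih =>
      have e : (((partialNorm a x (k + 1)) ^ 2 : T) : T ⧸ W) =
          (((partialNorm a x k : T) : T ⧸ W) * (((a ^ k) x : T) : T ⧸ W)) ^ 2 := rfl
      rw [e, Commute.mul_pow (hcentralmod k _).symm, pow_succ ((x ^ 2 : T) : T ⧸ W), ← ih]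
      have e2 : (((a ^ k) x : T) : T ⧸ W) ^ 2 = ((((a ^ k) x ^ 2 : T)) : T ⧸ W) := rfl
      rw [e2, ← map_pow, hfixk k _ (hsq x)]
      rfl
  -- the full norm is in the centre
  have hc2 : commutator T ≤ center T := by rw [hS.2.2]
  letI cq : CommGroup (T ⧸ center T) := CfsgLib.Tr.commQuot (center T) hc2
  have hshift : ∀ k : ℕ, ((a (partialNorm a x k) : T) : T ⧸ center T) * ((x : T) : T ⧸ center T) =
      ((partialNorm a x k : T) : T ⧸ center T) * (((a ^ k) x : T) : T ⧸ center T) := by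
    intro k
    induction k with
    | zero => simp [partialNorm]
    | succ k ih =>
      have e1 : ((a (partialNorm a x (k + 1)) : T) : T ⧸ center T) =
          ((a (partialNorm a x k) : T) : T ⧸ center T) * ((a ((a ^ k) x) : T) : T ⧸ center T) := by
        show ((a (partialNorm a x k * (a ^ k) x) : T) : T ⧸ center T) = _
        rw [map_mul]
        rfl
      have e2 : ((partialNorm a x (k + 1) : T) : T ⧸ center T) =
          ((partialNorm a x k : T) : T ⧸ center T) * (((a ^ k) x : T) : T ⧸ center T) := rfl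
      have e3 : (a ^ (k + 1)) x = a ((a ^ k) x) := by
        rw [pow_succ', MulAut.mul_apply]
      rw [e1, e2, e3]
      calc ((a (partialNorm a x k) : T) : T ⧸ center T) * ((a ((a ^ k) x) : T) : T ⧸ center T) * ((x : T) : T ⧸ center T)
          = (((a (partialNorm a x k) : T) : T ⧸ center T) * ((x : T) : T ⧸ center T)) * ((a ((a ^ k) x) : T) : T ⧸ center T) := by
            exact mul_right_comm _ _ _
        _ = _ := by rw [ih]
  have hNfix : ((a (partialNorm a x m) : T) : T ⧸ center T) = ((partialNorm a x m : T) : T ⧸ center T) := by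
    have h1 := hshift m
    rw [ham] at h1
    simpa using h1
  have hNz : (partialNorm a x m)⁻¹ * a (partialNorm a x m) ∈ center T := by
    have := QuotientGroup.eq.1 hNfix.symm
    exact this
  have hNk : ∀ k : ℕ, (partialNorm a x m)⁻¹ * (a ^ k) (partialNorm a x m) ∈ center T := by
    intro k
    induction k with
    | zero => simp [Subgroup.one_mem]
    | succ k ih =>
      have h2 := hfix _ ih
      have e : (partialNorm a x m)⁻¹ * (a ^ (k + 1)) (partialNorm a x m) =
          ((partialNorm a x m)⁻¹ * a (partialNorm a x m)) * ((partialNorm a x m)⁻¹ * (a ^ k) (partialNorm a x m)) := by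
        rw [pow_succ', MulAut.mul_apply]
        nth_rw 1 [← h2]
        rw [map_mul, map_inv]
        group
      rw [e]
      exact Subgroup.mul_mem _ hNz ih
  have hAc : Nat.Coprime (Nat.card (Subgroup.zpowers a)) 2 := by
    rw [Nat.card_zpowers]
    have h1 : orderOf a ∣ m := orderOf_dvd_of_pow_eq_one ham
    exact Nat.Coprime.coprime_dvd_left h1 (Nat.coprime_two_right.2 hm)
  have hNcenter : partialNorm a x m ∈ center T := by
    apply CfsgLib.Trans.mem_of_fixed_mod hS.1 (Subgroup.zpowers a) hAc hGA (center T) hc2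
    intro b hb
    obtain ⟨k, rfl⟩ := (mem_powers_iff_mem_zpowers).2 hb
    exact hNk k
  have hfinal : ((x ^ 2 : T) : T ⧸ W) = 1 := by
    have h1 := hsqk m
    rw [hz2 _ hNcenter] at h1
    obtain ⟨n, rfl⟩ := hm
    rw [pow_succ, pow_mul] at h1
    have h2 : ((x ^ 2 : T) : T ⧸ W) ^ 2 = ((((x ^ 2) ^ 2 : T)) : T ⧸ W) := rfl
    rw [h2, hz2 _ (hsq x)] at h1
    have h3 : ((1 : T) : T ⧸ W) = 1 := rfl
    rw [h3, one_pow, one_mul] at h1
    exact h1.symm
  obtain ⟨u, hu⟩ : x ^ 2 ∈ W := (QuotientGroup.eq_one_iff _).1 hfinal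
  refine ⟨u⁻¹, ?_⟩
  rw [commutatorElement_def] at hu
  -- `x * x = x * u * x⁻¹ * u⁻¹`
  have h1 : x = u * x⁻¹ * u⁻¹ := by
    apply mul_left_cancel (a := x)
    calc x * x = x ^ 2 := (pow_two x).symm
      _ = x * u * x⁻¹ * u⁻¹ := hu
      _ = _ := by group
  calc u⁻¹ * x * u⁻¹⁻¹ = u⁻¹ * (u * x⁻¹ * u⁻¹) * u⁻¹⁻¹ := by rw [← h1]
    _ = x⁻¹ := by group

end CfsgLib.FGS
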