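import Cfsg.Agent.Lib.FGS.Mob
import Cfsg.Agent.Lib.FGS.Syl
import Cfsg.Agent.Lib.FGS.Subnormal
import Cfsg.Agent.Lib.FGS.Fit
import Cfsg.Agent.Lib.PLocal.Core
import Cfsg.Agent.Lib.OOL.FPFThm

/-! The subnormalizer of a `p`-subgroup (helper8). -/

set_option autoImplicit false

namespace CfsgLib.FGS.Sbn

open Subgroup Cfsg
open scoped Classical

universe u

/-- Elements normalizing some `p`-subgroup above `H`. -/
def Sb {G : Type*} [Group G] (p : ℕ) (H : Subgroup G) : Set G :=
  {g | ∃ L : Subgroup G, IsPGroup p L ∧ H ≤ L ∧ g ∈ normalizer (L : Set G)}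

section
variable {G : Type u} [Group G] {p : ℕ}

theorem Sb_anti {H L : Subgroup G} (h : H ≤ L) : Sb p L ⊆ Sb p H := by
  rintro g ⟨M, h1, h2, h3⟩
  exact ⟨M, h1, h.trans h2, h3⟩

theorem normalizer_subset_Sb {H : Subgroup G} (hH : IsPGroup p H) : (normalizer (H : Set G) : Set G) ⊆ Sb p H :=
  fun g hg => ⟨H, hH, le_rfl, hg⟩

theorem isPGroup_subgroupOf {M : Subgroup G} (hM : IsPGroup p M) (N : Subgroup G) : IsPGroup p (M.subgroupOf N) := by
  rintro ⟨⟨x, hxN⟩, hx⟩
  obtain ⟨k, hk⟩ := hM ⟨x, hx⟩
  refine ⟨k, ?_⟩
  apply Subtype.ext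
  apply Subtype.ext
  have := congrArg Subtype.val hk
  simpa using this

theorem mem_normalizer_of_conj_le' [Finite G] {A : Subgroup G} {u : G} (h : ∀ x ∈ A, u * x * u⁻¹ ∈ A) :
    u ∈ normalizer (A : Set G) :=
  CfsgLib.FGS.mem_normalizer_of_conj_le h

theorem mem_Sb_subgroupOf [Finite G] (N L : Subgroup G) (hLN : L ≤ N) (x : N) :
    (x : G) ∈ Sb p L ↔ x ∈ Sb p (L.subgroupOf N) := by
  constructor
  · rintro ⟨M, h1, h2, h3⟩
    refine ⟨M.subgroupOf N, isPGroup_subgroupOf h1 N, fun y hy => h2 hy, ?_⟩
    rw [mem_normalizer_iff]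
    intro y
    have h4 := (mem_normalizer_iff.1 h3) (y : G)
    rw [mem_subgroupOf, mem_subgroupOf]
    simpa using h4
  · rintro ⟨M, h1, h2, h3⟩
    refine ⟨M.map N.subtype, h1.map _, ?_, ?_⟩
    · intro y hy
      refine ⟨⟨y, hLN hy⟩, h2 ?_, rfl⟩
      exact hy
    · apply mem_normalizer_of_conj_le'
      rintro _ ⟨z, hz, rfl⟩
      have h4 := (mem_normalizer_iff.1 h3 z).1 hz
      exact ⟨_, h4, by simp⟩

/-- Subnormal `p`-subgroups lie in `O_p`. -/
theorem le_pCore_of_subnormal [Fact p.Prime] : ∀ (n : ℕ) (Γ : Type u) [Group Γ] [Finite Γ], Nat.card Γ ≤ n →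
    ∀ X : Subgroup Γ, X.IsSubnormal → IsPGroup p X → X ≤ pCore p Γ := by
  intro n
  induction n with
  | zero =>
    intro Γ _ _ hn
    exact absurd hn (by have := Nat.card_pos (α := Γ); omega)
  | succ n ih =>
    intro Γ _ _ hn X hX hp
    rcases hX.lt_normal with rfl | ⟨K, hK, hXK, hKlt⟩
    · exact CfsgLib.FGS.le_pCore _ hp
    · have h1 : Nat.card K ≤ n := by
        have := CfsgLib.FGS.card_lt_of_ne_top hKlt.ne
        omega
      have h2 := ih K h1 (X.subgroupOf K) hX.subgroupOf (isPGroup_subgroupOf hp K)
      haveI := hK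
      haveI : (pCore p K).Characteristic := CfsgLib.OOL.pCore_char p
      haveI : ((pCore p K).map K.subtype).Normal := inferInstance
      have h3 : (pCore p K).map K.subtype ≤ pCore p Γ :=
        CfsgLib.FGS.le_pCore _ ((CfsgLib.PLocal.pCore_isPGroup (p := p) (G := K)).map _)
      intro x hx
      exact h3 ⟨⟨x, hXK hx⟩, h2 hx, rfl⟩

theorem subnormal_iff_Sb [Finite G] [Fact p.Prime] (H : Subgroup G) (hH : IsPGroup p H) (g : G) :
    (H.subgroupOf (H ⊔ Subgroup.zpowers g)).IsSubnormal ↔ g ∈ Sb p H := by
  set Y := H ⊔ Subgroup.zpowers g with hY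
  constructor
  · intro hs
    have h1 := le_pCore_of_subnormal (p := p) (Nat.card Y) Y le_rfl _ hs (isPGroup_subgroupOf hH Y)
    have hgY : g ∈ Y := Subgroup.mem_sup_right (Subgroup.mem_zpowers g)
    refine ⟨(pCore p Y).map Y.subtype, (CfsgLib.PLocal.pCore_isPGroup (p := p) (G := Y)).map _, ?_, ?_⟩
    · intro h hh
      refine ⟨⟨h, Subgroup.mem_sup_left hh⟩, h1 ?_, rfl⟩
      exact hh
    · apply mem_normalizer_of_conj_le'
      rintro _ ⟨z, hz, rfl⟩
      have h4 : (⟨g, hgY⟩ : Y) * z * (⟨g, hgY⟩ : Y)⁻¹ ∈ pCore p Y := (inferInstance : (pCore p Y).Normal).conj_mem z hz _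
      exact ⟨_, h4, by simp⟩
  · rintro ⟨L, hL1, hL2, hL3⟩
    -- `X = L ⊔ ⟨g⟩`, `L` normal in `X`
    set X := L ⊔ Subgroup.zpowers g with hX
    have hLX : L ≤ X := le_sup_left
    have hgX : g ∈ X := Subgroup.mem_sup_right (Subgroup.mem_zpowers g)
    have hXn : X ≤ normalizer (L : Set G) := sup_le le_normalizer ((Subgroup.zpowers_le).2 hL3)
    have hLn : (L.subgroupOf X).IsSubnormal := by
      apply Subgroup.Normal.isSubnormal
      exact (Subgroup.normal_subgroupOf_iff_le_normalizer hLX).2 hXn
    haveI : Group.IsNilpotent (L.subgroupOf X) := (isPGroup_subgroupOf hL1 X).isNilpotent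
    have hHX : (H.subgroupOf X).IsSubnormal := by
      have hle : H.subgroupOf X ≤ L.subgroupOf X := fun y hy => hL2 hy
      exact IsSubnormal.trans hle (CfsgLib.FGS.isSubnormal_of_normalizerCondition
        (Group.normalizerCondition_of_isNilpotent) _ _ rfl) hLn
    have hYX : Y ≤ X := sup_le (hL2.trans hLX) le_sup_right
    have h5 := hHX.comap (Subgroup.inclusion hYX)
    have h6 : (H.subgroupOf X).comap (Subgroup.inclusion hYX) = H.subgroupOf Y := by
      ext y
      simp [Subgroup.mem_subgroupOf]
    rwa [h6] at h5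


theorem card_subtype_eq_filter {ι : Type*} [Fintype ι] (P : ι → Prop) :
    Nat.card {x // P x} = (Finset.univ.filter P).card := by
  rw [Nat.card_eq_fintype_card, Fintype.card_subtype]

end

/-- Counting formula for the elements normalizing a `p`-subgroup above `H`. -/
theorem core_count (p : ℕ) [hpf : Fact p.Prime] : ∀ (n : ℕ) (G : Type u) [Group G] [Finite G], Nat.card G ≤ n →
    ∀ (k : ℕ) (H : Subgroup G), IsPGroup p H → H.index ≤ k →
      Nat.card (Sb p H) * Nat.card (Sylow p G) = Nat.card {Q : Sylow p G // H ≤ (Q : Subgroup G)} * Nat.card G := by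
  have hpp : p.Prime := hpf.out
  intro n
  induction n with
  | zero =>
    intro G _ _ hn
    exact absurd hn (by have := Nat.card_pos (α := G); omega)
  | succ n ihn =>
    intro G _ _ hn k
    induction k with
    | zero =>
      intro H _ hk
      exact absurd hk (by have : H.index ≠ 0 := Subgroup.index_ne_zero_of_finite; omega)
    | succ k ihk =>
      intro H hH hk
      haveI := Fintype.ofFinite G
      haveI := Fintype.ofFinite (Sylow p G)
      haveI := Fintype.ofFinite (Subgroup G)
      set N := normalizer (H : Set G) with hN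
      -- the case of a normal subgroup
      by_cases hNt : N = ⊤
      · have hnorm : H.Normal := normalizer_eq_top_iff.1 hNt
        have h1 : Sb p H = Set.univ := by
          ext g
          simp only [Set.mem_univ, iff_true]
          exact normalizer_subset_Sb hH (by rw [← hN, hNt]; trivial)
        have h2 : ∀ Q : Sylow p G, H ≤ (Q : Subgroup G) := fun Q =>
          CfsgLib.FGS.le_of_pgroup_normalized Q hH (by rw [← hN, hNt]; exact le_top)
        rw [h1, Nat.card_congr (Equiv.Set.univ G), mul_comm]
        congr 1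
        exact (Nat.card_congr (Equiv.subtypeUnivEquiv h2)).symm
      -- the case where `H` is a maximal `p`-subgroup
      by_cases hmax : ∀ L : Subgroup G, IsPGroup p L → H ≤ L → L = H
      · have hSb : Sb p H = (N : Set G) := by
          ext g
          constructor
          · rintro ⟨L, h1, h2, h3⟩
            rw [hmax L h1 h2] at h3
            exact h3
          · exact fun h => normalizer_subset_Sb hH h
        obtain ⟨S, hS⟩ := hH.exists_le_sylow
        have hSH : (S : Subgroup G) = H := hmax _ S.isPGroup' hS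
        have hunique : ∀ Q : Sylow p G, H ≤ (Q : Subgroup G) → Q = S := by
          intro Q hQ
          apply Sylow.ext
          rw [hSH]
          exact hmax _ Q.isPGroup' hQ
        have h1 : Nat.card {Q : Sylow p G // H ≤ (Q : Subgroup G)} = 1 := by
          rw [Nat.card_eq_one_iff_unique]
          refine ⟨⟨fun a b => Subtype.ext ((hunique _ a.2).trans (hunique _ b.2).symm)⟩, ⟨⟨S, hS⟩⟩⟩
        rw [h1, one_mul, hSb]
        have h2 : Nat.card (Sylow p G) = N.index := by
          rw [Sylow.card_eq_index_normalizer S]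
          show (normalizer ((S : Subgroup G) : Set G)).index = N.index
          rw [hSH]
        rw [h2]
        exact N.card_mul_index
      -- the main case
      push Not at hmax
      obtain ⟨L1, hL1p, hL1H, hL1ne⟩ := hmax
      have hgrow : ∀ L : Subgroup G, IsPGroup p L → H < L → H < L ⊓ N := by
        intro L hL hlt
        obtain ⟨x, hxL, hxH, hxN⟩ := CfsgLib.FGS.exists_mem_normalizer_of_lt hL hlt
        refine lt_of_le_of_ne (le_inf hlt.le le_normalizer) ?_
        intro he
        apply hxH
        rw [he]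
        exact ⟨hxL, hxN⟩
      set 𝓛 : Finset (Subgroup G) := Finset.univ.filter (fun L => IsPGroup p L ∧ H < L ∧ L ≤ N) with h𝓛
      have hmem𝓛 : ∀ L, L ∈ 𝓛 ↔ IsPGroup p L ∧ H < L ∧ L ≤ N := by
        intro L
        simp [h𝓛]
      obtain ⟨c, hc⟩ := CfsgLib.FGS.Mob.exists_mob 𝓛
      -- the Sylow count
      have hsyl : ∑ L ∈ 𝓛, c L * ((Nat.card {Q : Sylow p G // L ≤ (Q : Subgroup G)} : ℕ) : ℤ) =
          (Nat.card {Q : Sylow p G // H ≤ (Q : Subgroup G)} : ℕ) := by
        have h1 := CfsgLib.FGS.Mob.double_count (ι := Sylow p G) 𝓛 c (fun L Q => L ≤ (Q : Subgroup G))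
        simp only [card_subtype_eq_filter]
        rw [h1]
        have h2 : ∀ Q : Sylow p G, ∑ L ∈ 𝓛 with L ≤ (Q : Subgroup G), c L = if H ≤ (Q : Subgroup G) then 1 else 0 := by
          intro Q
          by_cases hQ : H ≤ (Q : Subgroup G)
          · rw [if_pos hQ]
            have hHQ : H < (Q : Subgroup G) := by
              refine lt_of_le_of_ne hQ ?_
              intro he
              apply hL1ne
              have := Q.3 hL1p (he ▸ hL1H)
              rw [← he] at this
              exact this
            have hM : (Q : Subgroup G) ⊓ N ∈ 𝓛 :=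
              (hmem𝓛 _).2 ⟨Q.isPGroup'.to_le inf_le_left, hgrow _ Q.isPGroup' hHQ, inf_le_right⟩
            have h3 := hc _ hM
            rw [← h3]
            refine Finset.sum_congr ?_ fun _ _ => rfl
            ext L
            simp only [Finset.mem_filter]
            constructor
            · rintro ⟨h4, h5⟩
              exact ⟨h4, le_inf h5 ((hmem𝓛 L).1 h4).2.2⟩
            · rintro ⟨h4, h5⟩
              exact ⟨h4, h5.trans inf_le_left⟩
          · rw [if_neg hQ]
            refine Finset.sum_eq_zero fun L hL => ?_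
            have h4 := Finset.mem_filter.1 hL
            exact absurd (((hmem𝓛 L).1 h4.1).2.1.le.trans h4.2) hQ
        simp only [h2]
        rw [Finset.sum_boole]
      -- induction on `L`
      have hIH : ∀ L ∈ 𝓛, Nat.card (Sb p L) * Nat.card (Sylow p G) =
          Nat.card {Q : Sylow p G // L ≤ (Q : Subgroup G)} * Nat.card G := by
        intro L hL
        have hL' := (hmem𝓛 L).1 hL
        refine ihk L hL'.1 ?_
        have h1 := Subgroup.relIndex_mul_index hL'.2.1.le
        have h2 : H.relIndex L ≠ 1 := by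
          intro h
          rw [Subgroup.relIndex_eq_one] at h
          exact absurd h (not_le_of_gt hL'.2.1)
        have h3 : H.relIndex L ≠ 0 := by
          intro h
          rw [h, zero_mul] at h1
          exact Subgroup.index_ne_zero_of_finite h1.symm
        have h4 : 0 < L.index := Nat.pos_of_ne_zero Subgroup.index_ne_zero_of_finite
        have h5 : 2 ≤ H.relIndex L := by omega
        nlinarith
      -- the count in `N`
      have hcardN : Nat.card N ≤ n := by
        have := CfsgLib.FGS.card_lt_of_ne_top hNt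
        omega
      haveI : Fintype N := Fintype.ofFinite N
      haveI : Fintype (Sylow p N) := Fintype.ofFinite _
      have hNpart : ∑ x : N, ∑ L ∈ 𝓛 with (x : G) ∈ Sb p L, c L = (Nat.card N : ℕ) := by
        have h1 := CfsgLib.FGS.Mob.double_count (ι := N) 𝓛 c (fun L x => x ∈ Sb p (L.subgroupOf N))
        have h2 := CfsgLib.FGS.Mob.double_count (ι := Sylow p N) 𝓛 c (fun L Q => L.subgroupOf N ≤ (Q : Subgroup N))
        have h3 : ∀ x : N, ∑ L ∈ 𝓛 with (x : G) ∈ Sb p L, c L = ∑ L ∈ 𝓛 with x ∈ Sb p (L.subgroupOf N), c L := by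
          intro x
          refine Finset.sum_congr ?_ fun _ _ => rfl
          ext L
          simp only [Finset.mem_filter]
          constructor
          · rintro ⟨h4, h5⟩
            exact ⟨h4, (mem_Sb_subgroupOf N L ((hmem𝓛 L).1 h4).2.2 x).1 h5⟩
          · rintro ⟨h4, h5⟩
            exact ⟨h4, (mem_Sb_subgroupOf N L ((hmem𝓛 L).1 h4).2.2 x).2 h5⟩
        simp only [h3]
        rw [← h1]
        have h4 : ∀ Q : Sylow p N, ∑ L ∈ 𝓛 with L.subgroupOf N ≤ (Q : Subgroup N), c L = 1 := by
          intro Q
          set M := (Q : Subgroup N).map N.subtype with hM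
          have hMp : IsPGroup p M := Q.isPGroup'.map _
          have hMN : M ≤ N := Subgroup.map_subtype_le _
          haveI hH'n : (H.subgroupOf N).Normal := Subgroup.normal_in_normalizer
          have hH'Q : H.subgroupOf N ≤ (Q : Subgroup N) :=
            CfsgLib.FGS.le_of_pgroup_normalized Q (isPGroup_subgroupOf hH N)
              (by rw [normalizer_eq_top_iff.2 hH'n]; exact le_top)
          have hHM : H ≤ M := by
            intro y hy
            exact ⟨⟨y, le_normalizer hy⟩, hH'Q hy, rfl⟩
          have hL0 : H < L1 ⊓ N := hgrow L1 hL1p (lt_of_le_of_ne hL1H hL1ne.symm)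
          have hHMlt : H < M := by
            refine lt_of_le_of_ne hHM ?_
            intro he
            have hR : IsPGroup p ((L1 ⊓ N).subgroupOf N) := isPGroup_subgroupOf (hL1p.to_le inf_le_left) N
            have hle : (Q : Subgroup N) ≤ (L1 ⊓ N).subgroupOf N := by
              intro y hy
              have : (y : G) ∈ M := ⟨y, hy, rfl⟩
              rw [← he] at this
              exact hL0.le this
            have h5 := Q.3 hR hle
            apply not_le_of_gt hL0
            intro y hy
            have hyN : y ∈ N := hy.2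
            have h6 : (⟨y, hyN⟩ : N) ∈ (L1 ⊓ N).subgroupOf N := hy
            rw [h5] at h6
            have : y ∈ M := ⟨_, h6, rfl⟩
            rw [← he] at this
            exact this
          have hMmem : M ∈ 𝓛 := (hmem𝓛 _).2 ⟨hMp, hHMlt, hMN⟩
          rw [← hc M hMmem]
          refine Finset.sum_congr ?_ fun _ _ => rfl
          ext L
          simp only [Finset.mem_filter]
          constructor
          · rintro ⟨h5, h6⟩
            refine ⟨h5, fun y hy => ?_⟩
            exact ⟨⟨y, ((hmem𝓛 L).1 h5).2.2 hy⟩, h6 hy, rfl⟩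
          · rintro ⟨h5, h6⟩
            refine ⟨h5, fun y hy => ?_⟩
            obtain ⟨z, hz, hze⟩ := h6 hy
            have : z = y := Subtype.ext hze
            rw [← this]
            exact hz
        simp only [h4] at h2
        have h5 : ∀ L ∈ 𝓛, (Nat.card (Sb p (L.subgroupOf N)) : ℤ) * (Nat.card (Sylow p N) : ℤ) =
            (Nat.card {Q : Sylow p N // L.subgroupOf N ≤ (Q : Subgroup N)} : ℤ) * (Nat.card N : ℤ) := by
          intro L hL
          have h6 := ihn N hcardN _ (L.subgroupOf N) (isPGroup_subgroupOf ((hmem𝓛 L).1 hL).1 N) le_rfl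
          exact_mod_cast h6
        have hsN : (Nat.card (Sylow p N) : ℤ) ≠ 0 := by
          have := Nat.card_pos (α := Sylow p N)
          exact_mod_cast this.ne'
        apply mul_left_cancel₀ hsN
        have h7 : (Nat.card (Sylow p N) : ℤ) = ∑ L ∈ 𝓛, c L * (({Q : Sylow p N | L.subgroupOf N ≤ (Q : Subgroup N)} : Finset _).card : ℤ) := by
          rw [h2, Finset.sum_const, Finset.card_univ, nsmul_eq_mul, mul_one, Nat.card_eq_fintype_card]
        calc (Nat.card (Sylow p N) : ℤ) * ∑ L ∈ 𝓛, c L * (({x : N | x ∈ Sb p (L.subgroupOf N)} : Finset _).card : ℤ)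
            = ∑ L ∈ 𝓛, c L * ((Nat.card (Sb p (L.subgroupOf N)) : ℤ) * (Nat.card (Sylow p N) : ℤ)) := by
              rw [Finset.mul_sum]
              refine Finset.sum_congr rfl fun L _ => ?_
              have : Nat.card (Sb p (L.subgroupOf N)) = ({x : N | x ∈ Sb p (L.subgroupOf N)} : Finset _).card :=
                card_subtype_eq_filter (fun x : N => x ∈ Sb p (L.subgroupOf N))
              rw [this]
              ring
          _ = ∑ L ∈ 𝓛, c L * ((Nat.card {Q : Sylow p N // L.subgroupOf N ≤ (Q : Subgroup N)} : ℤ) * (Nat.card N : ℤ)) :=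
              Finset.sum_congr rfl fun L hL => by rw [h5 L hL]
          _ = (Nat.card (Sylow p N) : ℤ) * (Nat.card N : ℤ) := by
              rw [h7, Finset.sum_mul]
              refine Finset.sum_congr rfl fun L _ => ?_
              rw [card_subtype_eq_filter, mul_assoc]
      -- the count outside `N`
      have hoff : ∀ x : G, x ∉ N → ∑ L ∈ 𝓛 with x ∈ Sb p L, c L = if x ∈ Sb p H then 1 else 0 := by
        intro x hxN
        by_cases hxS : x ∈ Sb p H
        · rw [if_pos hxS]
          obtain ⟨M1, hM1p, hM1H, hM1x⟩ := hxS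
          set Sset : Set (Subgroup G) := {M | H ≤ M ∧ x ∈ normalizer (M : Set G)} with hSset
          set M0 := sInf Sset with hM0
          have hM0M1 : M0 ≤ M1 := sInf_le ⟨hM1H, hM1x⟩
          have hM0p : IsPGroup p M0 := hM1p.to_le hM0M1
          have hHM0 : H ≤ M0 := le_sInf fun M hM => hM.1
          have hxM0 : x ∈ normalizer (M0 : Set G) := by
            apply mem_normalizer_of_conj_le'
            intro y hy
            rw [Subgroup.mem_sInf] at hy ⊢
            intro M hM
            exact (mem_normalizer_iff.1 hM.2 y).1 (hy M hM)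
          have hHlt : H < M0 := by
            refine lt_of_le_of_ne hHM0 ?_
            intro he
            rw [← he] at hxM0
            exact hxN hxM0
          set t := M0 ⊓ N with ht
          have htmem : t ∈ 𝓛 := (hmem𝓛 _).2 ⟨hM0p.to_le inf_le_left, hgrow M0 hM0p hHlt, inf_le_right⟩
          refine CfsgLib.FGS.Mob.weisner 𝓛 _ c hc (Finset.filter_subset _ _) ?_ t ?_ ?_
          · intro L hL B hB hLB
            have hB' := Finset.mem_filter.1 hB
            exact Finset.mem_filter.2 ⟨hL, Sb_anti hLB hB'.2⟩
          · exact Finset.mem_filter.2 ⟨htmem, M0, hM0p, inf_le_left, hxM0⟩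
          · intro L hL
            have hL' := Finset.mem_filter.1 hL
            obtain ⟨M, hMp, hLM, hMx⟩ := hL'.2
            have hL2 := (hmem𝓛 L).1 hL'.1
            have hM0M : M0 ≤ M := sInf_le ⟨hL2.2.1.le.trans hLM, hMx⟩
            have hsupM : L ⊔ t ≤ M := sup_le hLM (inf_le_left.trans hM0M)
            refine Finset.mem_filter.2 ⟨(hmem𝓛 _).2 ⟨hMp.to_le hsupM, lt_of_lt_of_le hL2.2.1 le_sup_left,
              sup_le hL2.2.2 inf_le_right⟩, M, hMp, hsupM, hMx⟩
        · rw [if_neg hxS]
          refine Finset.sum_eq_zero fun L hL => ?_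
          have h4 := Finset.mem_filter.1 hL
          exact absurd (Sb_anti ((hmem𝓛 L).1 h4.1).2.1.le h4.2) hxS
      -- assemble
      have hmainsum : ∑ L ∈ 𝓛, c L * ((Nat.card (Sb p L) : ℕ) : ℤ) = (Nat.card (Sb p H) : ℕ) := by
        have h1 := CfsgLib.FGS.Mob.double_count (ι := G) 𝓛 c (fun L x => x ∈ Sb p L)
        have h2 : ∀ L, Nat.card (Sb p L) = ({x : G | x ∈ Sb p L} : Finset _).card := fun L =>
          card_subtype_eq_filter (fun x : G => x ∈ Sb p L)
        simp only [h2]
        rw [h1]
        set f : G → ℤ := fun x => ∑ L ∈ 𝓛 with x ∈ Sb p L, c L with hf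
        have h3 := Finset.sum_filter_add_sum_filter_not (Finset.univ : Finset G) (fun g => g ∈ N) f
        rw [← h3]
        have h4 : ∑ x ∈ (Finset.univ.filter fun g => g ∈ N), f x = (Nat.card N : ℕ) := by
          rw [← hNpart]
          exact Finset.sum_subtype _ (by simp) f
        rw [h4]
        have h5 : ∑ x ∈ (Finset.univ.filter fun g => ¬ g ∈ N), f x =
            ∑ x ∈ (Finset.univ.filter fun g => ¬ g ∈ N), if x ∈ Sb p H then (1 : ℤ) else 0 :=
          Finset.sum_congr rfl fun x hx => hoff x (Finset.mem_filter.1 hx).2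
        rw [h5, Finset.sum_boole]
        -- the set `Sb p H` splits along `N`
        have h7 : ({x : G | x ∈ Sb p H} : Finset _) = (Finset.univ.filter fun g => g ∈ N) ∪
            ((Finset.univ.filter fun g => ¬ g ∈ N).filter fun x => x ∈ Sb p H) := by
          ext x
          simp only [Finset.mem_filter, Finset.mem_univ, true_and, Finset.mem_union]
          constructor
          · intro h
            by_cases hx : x ∈ N
            · exact Or.inl hx
            · exact Or.inr ⟨hx, h⟩
          · rintro (h | h)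
            · exact normalizer_subset_Sb hH h
            · exact h.2
        have h8 : Disjoint (Finset.univ.filter fun g => g ∈ N) ((Finset.univ.filter fun g => ¬ g ∈ N).filter fun x => x ∈ Sb p H) := by
          rw [Finset.disjoint_left]
          intro x h1 h2
          exact (Finset.mem_filter.1 (Finset.mem_filter.1 h2).1).2 (Finset.mem_filter.1 h1).2
        rw [h7, Finset.card_union_of_disjoint h8]
        have h9 : (Finset.univ.filter fun g => g ∈ N).card = Nat.card N :=
          (card_subtype_eq_filter (fun g : G => g ∈ N)).symm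
        rw [h9]
        push_cast
        rfl
      -- final arithmetic
      have hfin : ((Nat.card (Sb p H) : ℕ) : ℤ) * (Nat.card (Sylow p G) : ℕ) =
          (Nat.card {Q : Sylow p G // H ≤ (Q : Subgroup G)} : ℕ) * (Nat.card G : ℕ) := by
        rw [← hmainsum, ← hsyl, Finset.sum_mul, Finset.sum_mul]
        refine Finset.sum_congr rfl fun L hL => ?_
        have h1 := hIH L hL
        have h2 : ((Nat.card (Sb p L) : ℕ) : ℤ) * (Nat.card (Sylow p G) : ℕ) =
            (Nat.card {Q : Sylow p G // L ≤ (Q : Subgroup G)} : ℕ) * (Nat.card G : ℕ) := by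
          exact_mod_cast h1
        rw [mul_assoc, mul_assoc, h2]
      exact_mod_cast hfin

end CfsgLib.FGS.Sbn
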