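import Cfsg.Agent.Lib.FGS.ABLemma
import Cfsg.Agent.Lib.H3.CritRel

/-!
Normal `p`-subgroups all of whose elements have classes of `p`-power size are hypercentral.
-/

set_option autoImplicit false
set_option linter.unusedSectionVars false

open Pointwise

namespace CfsgLib.FGS

open Subgroup

universe u

variable {G : Type u} [Group G] [Finite G] {p : ℕ} [hp : Fact p.Prime]

/-- Elements of a normal `p`-subgroup with `p`-power classes are hypercentral. -/
theorem hypercentral_of_class_pow {E : Subgroup G} (hEn : E.Normal) (hEp : IsPGroup p E)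
    (hE : ∀ y ∈ E, ∃ a : ℕ, (centralizer ({y} : Set G)).index = p ^ a) (P : Sylow p G) (hEP : E ≤ (P : Subgroup G)) :
    ∀ (i : ℕ) (y : (P : Subgroup G)), (y : G) ∈ E → y ∈ Subgroup.upperCentralSeries (P : Subgroup G) i →
      (y : G) ∈ Subgroup.upperCentralSeries G i := by
  intro i
  induction i with
  | zero =>
    intro y _ hy
    simp only [Subgroup.upperCentralSeries_zero, mem_bot] at hy ⊢
    rw [hy]; rfl
  | succ i ih =>
    intro y hyE hy
    rw [Subgroup.mem_upperCentralSeries_succ_iff] at hy ⊢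
    intro g
    obtain ⟨a, ha⟩ := hE y hyE
    obtain ⟨u, hu, c, hc, rfl⟩ := eq_mul_of_index_pow (centralizer ({(y : G)} : Set G)) ha P g
    rw [mem_centralizer_singleton_iff] at hc
    have h1 := hy ⟨u, hu⟩
    have h2 := ih (⟨_, _⟩ : (P : Subgroup G)) ?_ h1
    · -- rewrite
      have h3 : (y : G) * (u * c) * (y : G)⁻¹ * (u * c)⁻¹ = (y : G) * u * (y : G)⁻¹ * u⁻¹ := by
        have h4 : (y : G) * u * c * (y : G)⁻¹ * c⁻¹ * u⁻¹ = (y : G) * u * (y : G)⁻¹ * u⁻¹ := by
          have h5 : c * (y : G)⁻¹ * c⁻¹ = (y : G)⁻¹ := by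
            have hcm : Commute c (y : G) := hc
            have := hcm.inv_right.eq
            rw [this, mul_inv_cancel_right]
          calc (y : G) * u * c * (y : G)⁻¹ * c⁻¹ * u⁻¹
              = (y : G) * u * (c * (y : G)⁻¹ * c⁻¹) * u⁻¹ := by group
            _ = _ := by rw [h5]
        rw [← h4]; group
      rw [commutatorElement_def, h3]
      simpa [commutatorElement_def] using h2
    · -- in E
      show (y : G) * u * (y : G)⁻¹ * u⁻¹ ∈ E
      have h4 := hEn.conj_mem (y : G)⁻¹ (E.inv_mem hyE) u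
      have h6 := E.mul_mem hyE h4
      simpa [mul_assoc] using h6

/-- `p'`-elements centralize normal `p`-subgroups whose elements have `p`-power classes. -/
theorem fix_of_class_pow {E : Subgroup G} (hEn : E.Normal) (hEp : IsPGroup p E)
    (hE : ∀ y ∈ E, ∃ a : ℕ, (centralizer ({y} : Set G)).index = p ^ a) {g : G}
    (hg : (orderOf g).Coprime p) : ∀ y ∈ E, g * y * g⁻¹ = y := by
  intro y hy
  obtain ⟨P, hEP⟩ := hEp.exists_le_sylow
  haveI : Group.IsNilpotent (P : Subgroup G) := P.isPGroup'.isNilpotent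
  obtain ⟨n, hn⟩ := Group.IsNilpotent.nilpotent (P : Subgroup G)
  have h1 : (⟨y, hEP hy⟩ : (P : Subgroup G)) ∈ Subgroup.upperCentralSeries (P : Subgroup G) n := by
    rw [hn]; trivial
  have h2 := hypercentral_of_class_pow hEn hEp hE P hEP n ⟨y, hEP hy⟩ hy h1
  obtain ⟨k, hk⟩ := hEp ⟨y, hy⟩
  exact CfsgLib.Omega2.hypercentral_fixed n y h2 ⟨k, by simpa [Subtype.ext_iff] using hk⟩ g hg

end CfsgLib.FGS
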