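import Cfsg.Agent.Lib.FGS.FrobSchur
import Cfsg.Agent.Lib.FGS.Elem
import Cfsg.Agent.Lib.Char.Linear

/-!
# Number of square roots of the identity in a 2-group.
-/

set_option autoImplicit false
set_option linter.style.haveILetI false

namespace CfsgLib.FGS

open CfsgLib.Char Cfsg
open scoped ComplexConjugate

universe u

section

variable {G : Type u} [Group G]

/-- The complex function of a sign homomorphism. -/
noncomputable def sgnC (l : G →* ℤˣ) : G → ℂ := fun g => (((l g : ℤˣ) : ℤ) : ℂ)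

theorem sgnC_mul (l : G →* ℤˣ) (g h : G) : sgnC l (g * h) = sgnC l g * sgnC l h := by
  simp [sgnC]

theorem sgnC_one (l : G →* ℤˣ) : sgnC l 1 = 1 := by
  simp [sgnC]

theorem sgnC_self_mul (l : G →* ℤˣ) (g : G) : sgnC l g * sgnC l g = 1 := by
  have h : ((l g : ℤˣ) : ℤ) * ((l g : ℤˣ) : ℤ) = 1 := by
    have := congrArg Units.val (Int.units_mul_self (l g))
    simp at this
    simp
  simp only [sgnC]
  exact_mod_cast h

theorem sgnC_conj (l : G →* ℤˣ) (g : G) : conj (sgnC l g) = sgnC l g := by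
  simp [sgnC]

theorem sgnC_sq (l : G →* ℤˣ) (g : G) : sgnC l (g * g) = 1 := by
  rw [sgnC_mul, sgnC_self_mul]

theorem sgnC_hmul (l l' : G →* ℤˣ) (g : G) : sgnC (l * l') g = sgnC l g * sgnC l' g := by
  simp [sgnC]

theorem isIrr_sgnC [Finite G] (l : G →* ℤˣ) : IsIrrCharacter G (sgnC l) := by
  have h := isIrr_of_hom ((Units.map (Int.castRingHom ℂ : ℤ →* ℂ)).comp l)
  convert h using 1
  funext g
  simp [sgnC]

theorem sgnC_injective : Function.Injective (sgnC : (G →* ℤˣ) → G → ℂ) := by
  intro l l' h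
  ext g
  have := congrFun h g
  simp only [sgnC] at this
  exact_mod_cast this

variable [Fintype G]

theorem classInner_sgnC_mul (l : G →* ℤˣ) (χ ψ : G → ℂ) :
    classInner (fun g => sgnC l g * χ g) (fun g => sgnC l g * ψ g) = classInner χ ψ := by
  simp only [classInner_def]
  congr 1
  refine Finset.sum_congr rfl fun g _ => ?_
  rw [map_mul, sgnC_conj]
  have := sgnC_self_mul l g
  linear_combination (χ g * conj (ψ g)) * this

theorem isIrr_sgnC_mul (l : G →* ℤˣ) {χ : G → ℂ} (hχ : IsIrrCharacter G χ) :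
    IsIrrCharacter G (fun g => sgnC l g * χ g) := by
  have h1 : IsCharacter G (fun g => sgnC l g * χ g) :=
    (isIrr_sgnC l).isCharacter.mul hχ.isCharacter
  refine h1.isIrr_of_norm ?_
  rw [classInner_sgnC_mul, classInner_irr_self hχ]

/-- The action of the sign homomorphisms on the irreducible characters. -/
@[reducible] noncomputable def sgnAction : MulAction (G →* ℤˣ) (IrrCharacter G) where
  smul l χ := ⟨fun g => sgnC l g * χ.1 g, isIrr_sgnC_mul l χ.2⟩
  one_smul χ := by
    apply Subtype.ext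
    funext g
    change sgnC 1 g * χ.1 g = χ.1 g
    simp [sgnC]
  mul_smul l l' χ := by
    apply Subtype.ext
    funext g
    change sgnC (l * l') g * χ.1 g = sgnC l g * (sgnC l' g * χ.1 g)
    rw [sgnC_hmul, mul_assoc]

theorem sgnAction_apply (l : G →* ℤˣ) (χ : IrrCharacter G) (g : G) :
    (@HSMul.hSMul _ _ _ (@instHSMul _ _ sgnAction.toSMul) l χ).1 g = sgnC l g * χ.1 g := rfl

/-- The stabilizer of an irreducible character under the sign homomorphisms is at most the
square of its degree. -/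
theorem card_stabilizer_le (ψ : IrrCharacter G) (d : ℕ) (hd : ψ.1 1 = d) :
    letI := sgnAction (G := G)
    Nat.card (MulAction.stabilizer (G →* ℤˣ) ψ) ≤ d ^ 2 := by
  classical
  letI := sgnAction (G := G)
  set θ : G → ℂ := fun g => ψ.1 g * conj (ψ.1 g) with hθdef
  have hθ : IsCharacter G θ := ψ.2.isCharacter.mul ψ.2.isCharacter.conj
  have hsum := congrFun hθ.eq_sum_classInner 1
  -- coefficients
  choose a ha using fun φ : IrrCharacter G => hθ.classInner_nat φ.2
  choose b hb using fun φ : IrrCharacter G => φ.2.isCharacter.map_one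
  have hsum2 : d ^ 2 = ∑ φ : IrrCharacter G, a φ * b φ := by
    have h1 : θ 1 = (d : ℂ) ^ 2 := by
      simp only [hθdef, hd, Complex.conj_natCast]
      ring
    rw [h1] at hsum
    rw [Finset.sum_apply] at hsum
    have h2 : ((d ^ 2 : ℕ) : ℂ) = ((∑ φ : IrrCharacter G, a φ * b φ : ℕ) : ℂ) := by
      push_cast
      rw [hsum]
      refine Finset.sum_congr rfl fun φ _ => ?_
      rw [Pi.smul_apply, smul_eq_mul, ha, hb]
    exact_mod_cast h2
  -- the injection
  let F : MulAction.stabilizer (G →* ℤˣ) ψ → IrrCharacter G := fun l => ⟨sgnC l.1, isIrr_sgnC l.1⟩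
  have hF : Function.Injective F := by
    intro l l' h
    apply Subtype.ext
    exact sgnC_injective (congrArg Subtype.val h)
  have hval : ∀ l, 1 ≤ a (F l) * b (F l) := by
    intro l
    have hb1 : b (F l) = 1 := by
      have := hb (F l)
      have h1 : (F l).1 1 = 1 := sgnC_one _
      rw [h1] at this
      exact_mod_cast this.symm
    have ha1 : a (F l) = 1 := by
      have h := ha (F l)
      have h3 : classInner θ (F l).1 = 1 := by
        have hfix : l.1 • ψ = ψ := l.2
        have h5 : ∀ g, sgnC l.1 g * ψ.1 g = ψ.1 g := fun g => by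
          have := congrArg (fun χ : IrrCharacter G => χ.1 g) hfix
          exact this
        have h4 : classInner θ (F l).1 = classInner ψ.1 ψ.1 := by
          simp only [classInner_def]
          congr 1
          refine Finset.sum_congr rfl fun g _ => ?_
          have h6 := h5 g
          have h7 : conj (ψ.1 g) = sgnC l.1 g * conj (ψ.1 g) := by
            conv_lhs => rw [← h6]
            rw [map_mul, sgnC_conj]
          change ψ.1 g * conj (ψ.1 g) * conj (sgnC l.1 g) = ψ.1 g * conj (ψ.1 g)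
          rw [sgnC_conj]
          rw [mul_assoc, mul_comm (conj (ψ.1 g)), ← h7]
        rw [h4, classInner_irr_self ψ.2]
      rw [h3] at h
      exact_mod_cast h.symm
    rw [ha1, hb1]
  classical
  haveI : Fintype (MulAction.stabilizer (G →* ℤˣ) ψ) := Fintype.ofFinite _
  rw [Nat.card_eq_fintype_card, hsum2]
  calc Fintype.card (MulAction.stabilizer (G →* ℤˣ) ψ)
      = (Finset.univ.image F).card := by
        rw [Finset.card_image_of_injective _ hF, Finset.card_univ]
    _ = ∑ φ ∈ Finset.univ.image F, 1 := by simp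
    _ ≤ ∑ φ ∈ Finset.univ.image F, a φ * b φ := by
        refine Finset.sum_le_sum fun φ hφ => ?_
        obtain ⟨l, -, rfl⟩ := Finset.mem_image.mp hφ
        exact hval l
    _ ≤ ∑ φ : IrrCharacter G, a φ * b φ :=
        Finset.sum_le_sum_of_subset (Finset.subset_univ _)

end

section Count

variable {G : Type u} [Group G] [Finite G]

omit [Finite G] in
theorem isPGroup_sgnHom : IsPGroup 2 (G →* ℤˣ) := by
  intro l
  refine ⟨1, ?_⟩
  ext g
  simp only [pow_one, MonoidHom.mul_apply, MonoidHom.one_apply, pow_two]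
  rw [Int.units_mul_self]

/-- A subgroup of index two yields a sign homomorphism. -/
theorem exists_sgnHom_of_index_two (M : Subgroup G) (hM : M.index = 2) :
    ∃ l : G →* ℤˣ, ∀ g, l g = 1 → g ∈ M := by
  classical
  refine ⟨MonoidHom.mk' (fun g => if g ∈ M then 1 else -1) ?_, ?_⟩
  · intro a b
    have h := Subgroup.mul_mem_iff_of_index_two hM (a := a) (b := b)
    by_cases ha : a ∈ M <;> by_cases hb : b ∈ M <;> simp [ha, hb, h]
  · intro g hg
    by_contra hgM
    simp [hgM] at hg

theorem index_frattini_le (hG : IsPGroup 2 G) :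
    (frattini G).index ≤ Nat.card (G →* ℤˣ) := by
  classical
  let e : G →* ((G →* ℤˣ) →* ℤˣ) := MonoidHom.eval
  have h1 : e.ker ≤ frattini G := by
    refine le_iInf₂ fun M hM => ?_
    intro g hg
    have h2 := index_eq_of_isCoatom_of_isPGroup (p := 2) (hp := ⟨Nat.prime_two⟩) hG hM
    obtain ⟨l, hl⟩ := exists_sgnHom_of_index_two M h2
    apply hl
    have h3 := DFunLike.congr_fun (MonoidHom.mem_ker.mp hg) l
    simpa [e] using h3
  have h2 : (frattini G).index ≤ e.ker.index := Subgroup.index_antitone h1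
  refine h2.trans ?_
  rw [Subgroup.index_ker]
  have h3 : Nat.card e.range ≤ Nat.card ((G →* ℤˣ) →* ℤˣ) := Nat.card_le_card_of_injective
    (Subtype.val) Subtype.val_injective
  refine h3.trans ?_
  have h4 : Nat.card ((G →* ℤˣ) →* ℤˣ) ≤ Nat.card ((G →* ℤˣ) →* ℂˣ) := by
    refine Nat.card_le_card_of_injective
      (fun f => (Units.map (Int.castRingHom ℂ : ℤ →* ℂ)).comp f) ?_
    intro f f' h
    ext l
    have := DFunLike.congr_fun h l
    simp only [MonoidHom.comp_apply] at this
    have h5 := congrArg (fun u : ℂˣ => (u : ℂ)) this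
    simp at h5
    exact_mod_cast h5
  refine h4.trans (le_of_eq ?_)
  haveI : HasEnoughRootsOfUnity ℂ (Monoid.exponent (G →* ℤˣ)) := inferInstance
  exact CommGroup.card_monoidHom_of_hasEnoughRootsOfUnity _ _

end Count

/-- The number of elements of square one in a 2-group `G` with `|G/Φ(G)| ≥ 2^(2k+1)`
is divisible by `2^(k+1)`. -/
theorem two_pow_dvd_card_sq_eq_one {G : Type u} [Group G] [Finite G] (hG : IsPGroup 2 G) (k : ℕ)
    (hgen : 2 ^ (2 * k + 1) ≤ Nat.card (G ⧸ frattini G)) :
    2 ^ (k + 1) ∣ Nat.card {x : G // x ^ 2 = 1} := by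
  classical
  cases nonempty_fintype G
  letI := sgnAction (G := G)
  haveI : Fintype (IrrCharacter G) := Fintype.ofFinite _
  -- the sizes
  obtain ⟨n, hn⟩ := IsPGroup.iff_card.mp hG
  haveI : Fact (Nat.Prime 2) := ⟨Nat.prime_two⟩
  obtain ⟨D, hD⟩ := IsPGroup.iff_card.mp (isPGroup_sgnHom (G := G))
  have hDk : 2 * k + 1 ≤ D := by
    have h1 : 2 ^ (2 * k + 1) ≤ 2 ^ D := by
      rw [← hD]
      exact hgen.trans (index_frattini_le hG)
    exact (Nat.pow_le_pow_iff_right (by norm_num)).mp h1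
  -- the sum
  have hexp := card_sqrt_expand (1 : G)
  set ν : IrrCharacter G → ℂ := fun ψ => (Nat.card G : ℂ)⁻¹ * ∑ s, (ψ : G → ℂ) (s * s) with hν
  set f : IrrCharacter G → ℂ := fun ψ => ν ψ * (ψ : G → ℂ) 1 with hf
  have hsumf : ((Finset.univ.filter (fun s : G => s * s = 1)).card : ℂ) = ∑ ψ, f ψ := by
    rw [hexp]
    refine Finset.sum_congr (by ext; simp) fun ψ _ => ?_
    simp only [hf, hν]
    rw [conj_irr_one ψ.2]
  have hfinv : ∀ (l : G →* ℤˣ) ψ, f (l • ψ) = f ψ := by
    intro l ψ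
    simp only [hf, hν]
    congr 1
    · congr 1
      refine Finset.sum_congr rfl fun s _ => ?_
      change sgnC l (s * s) * ψ.1 (s * s) = _
      rw [sgnC_sq, one_mul]
    · change sgnC l 1 * ψ.1 1 = _
      rw [sgnC_one, one_mul]
  -- orbits
  let Ω := MulAction.orbitRel.Quotient (G →* ℤˣ) (IrrCharacter G)
  haveI : Fintype Ω := Fintype.ofFinite _
  let mk : IrrCharacter G → Ω := fun ψ => Quotient.mk'' ψ
  have hfib : ∀ ω : Ω, (∑ ψ ∈ Finset.univ.filter (fun ψ => mk ψ = ω), f ψ) =
      ((Nat.card (MulAction.orbit (G →* ℤˣ) ω.out) : ℕ) : ℂ) * f ω.out := by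
    intro ω
    have h1 : ∀ ψ ∈ Finset.univ.filter (fun ψ => mk ψ = ω), f ψ = f ω.out := by
      intro ψ hψ
      have h2 : mk ψ = ω := (Finset.mem_filter.mp hψ).2
      have h3 : ψ ∈ MulAction.orbit (G →* ℤˣ) ω.out := by
        rw [← MulAction.orbitRel.Quotient.orbit_eq_orbit_out ω Quotient.out_eq']
        exact (MulAction.orbitRel.Quotient.mem_orbit).mpr h2
      obtain ⟨l, rfl⟩ := h3
      exact hfinv l _
    rw [Finset.sum_congr rfl h1, Finset.sum_const, nsmul_eq_mul]
    congr 2
    rw [← Nat.card_eq_finsetCard]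
    refine Nat.card_congr (Equiv.subtypeEquivRight fun ψ => ?_)
    rw [← MulAction.orbitRel.Quotient.orbit_eq_orbit_out ω Quotient.out_eq']
    rw [MulAction.orbitRel.Quotient.mem_orbit]
    simp only [Finset.mem_filter, Finset.mem_univ, true_and]
    exact Iff.rfl
  have hsum2 : ∑ ψ, f ψ = ∑ ω : Ω,
      ((Nat.card (MulAction.orbit (G →* ℤˣ) ω.out) : ℕ) : ℂ) * f ω.out := by
    rw [← Finset.sum_fiberwise Finset.univ mk f]
    exact Finset.sum_congr rfl fun ω _ => hfib ω
  -- divisibility on an orbit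
  have hdiv : ∀ ψ : IrrCharacter G, ∃ (c : ℕ) (z : ℤ),
      ((Nat.card (MulAction.orbit (G →* ℤˣ) ψ) : ℕ) : ℂ) * f ψ = ((2 ^ (k + 1) * c * z : ℤ) : ℂ) := by
    intro ψ
    obtain ⟨z, hz⟩ := exists_int_indicator_irr ψ.2
    obtain ⟨d, hd⟩ := ψ.2.isCharacter.map_one
    have hdvd : d ∣ Nat.card G := by
      exact degree_dvd_card ψ.2 hd
    rw [hn] at hdvd
    obtain ⟨e, -, rfl⟩ := (Nat.dvd_prime_pow Nat.prime_two).mp hdvd
    have hstab := card_stabilizer_le ψ (2 ^ e) hd
    have horb : Nat.card (MulAction.orbit (G →* ℤˣ) ψ) * Nat.card (MulAction.stabilizer (G →* ℤˣ) ψ)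
        = 2 ^ D := by
      rw [← hD, ← Nat.card_prod]
      exact Nat.card_congr (MulAction.orbitProdStabilizerEquivGroup _ ψ)
    have h1 : Nat.card (MulAction.orbit (G →* ℤˣ) ψ) ∣ 2 ^ D := ⟨_, horb.symm⟩
    have h2 : Nat.card (MulAction.stabilizer (G →* ℤˣ) ψ) ∣ 2 ^ D := ⟨_, by rw [mul_comm]; exact horb.symm⟩
    obtain ⟨u, hu, hu'⟩ := (Nat.dvd_prime_pow Nat.prime_two).mp h1
    obtain ⟨j, hj, hj'⟩ := (Nat.dvd_prime_pow Nat.prime_two).mp h2
    rw [hu', hj', ← pow_add] at horb
    have huj : u + j = D := Nat.pow_right_injective (le_refl 2) horb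
    rw [hj'] at hstab
    have hje : j ≤ 2 * e := by
      rw [← pow_mul] at hstab
      rw [mul_comm e 2] at hstab
      exact (Nat.pow_le_pow_iff_right (by norm_num : 1 < 2)).mp hstab
    have hk : k + 1 ≤ u + e := by omega
    refine ⟨2 ^ (u + e - (k + 1)), z, ?_⟩
    rw [hu']
    simp only [hf]
    change _ * (ν ψ * ψ.1 1) = _
    have hz' : ν ψ = z := hz
    rw [hz', hd]
    have h3 : (2 : ℂ) ^ (k + 1) * (2 : ℂ) ^ (u + e - (k + 1)) = (2 : ℂ) ^ (u + e) := by
      rw [← pow_add]
      congr 1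
      omega
    push_cast
    rw [h3, pow_add]
    ring
  choose c z hcz using hdiv
  have hfinal : (((Finset.univ.filter (fun s : G => s * s = 1)).card : ℕ) : ℤ) =
      2 ^ (k + 1) * ∑ ω : Ω, (c ω.out * z ω.out : ℤ) := by
    have h1 : (((Finset.univ.filter (fun s : G => s * s = 1)).card : ℕ) : ℂ) =
        ((2 ^ (k + 1) * ∑ ω : Ω, (c ω.out * z ω.out : ℤ) : ℤ) : ℂ) := by
      rw [hsumf, hsum2]
      push_cast
      rw [Finset.mul_sum]
      refine Finset.sum_congr rfl fun ω _ => ?_
      rw [hcz]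
      push_cast
      ring
    exact_mod_cast h1
  have hcard : Nat.card {x : G // x ^ 2 = 1} = (Finset.univ.filter (fun s : G => s * s = 1)).card := by
    rw [Nat.card_eq_fintype_card, Fintype.card_subtype]
    congr 1
    ext x
    simp [pow_two]
  rw [hcard]
  have : ((2 ^ (k + 1) : ℕ) : ℤ) ∣ (((Finset.univ.filter (fun s : G => s * s = 1)).card : ℕ) : ℤ) := by
    rw [hfinal]
    push_cast
    exact dvd_mul_right _ _
  exact Int.natCast_dvd_natCast.mp this

end CfsgLib.FGS
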