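import Cfsg.Agent.S4341
import Cfsg.Agent.Lib.Solv.CoprimeSylow

/-!
Counting Sylow subgroups: factors coming from normal prime-power subgroups and from complements.
-/

set_option autoImplicit false
set_option linter.unusedSectionVars false

namespace CfsgLib.FGS

open Subgroup

universe u

variable {G : Type u} [Group G] [Finite G] {p : ℕ} [hp : Fact p.Prime]

/-- Number of Sylow subgroups in a nilpotent group. -/
theorem card_sylow_of_nilpotent [Group.IsNilpotent G] (p : ℕ) [Fact p.Prime] :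
    Nat.card (Sylow p G) = 1 := by
  obtain ⟨P⟩ := (inferInstance : Nonempty (Sylow p G))
  have h : (P : Subgroup G).Normal := inferInstance
  haveI := Sylow.unique_of_normal P h
  exact Nat.card_unique

omit hp in
/-- `|Q| ≡ |C_Q(P)|` for a `p`-group `P` normalizing `Q`. -/
theorem card_mod_centralizer [Fact p.Prime] {P Q : Subgroup G} (hP : IsPGroup p P)
    (hPQ : P ≤ normalizer (Q : Set G)) :
    Nat.card Q ≡ Nat.card ↥(Q ⊓ centralizer (P : Set G)) [MOD p] := by
  classical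
  let φ : ↥P →* MulAut ↥Q := Q.normalizerMonoidHom.comp (Subgroup.inclusion hPQ)
  letI act : MulAction ↥P ↥Q := MulAction.compHom _ φ
  have h1 := hP.card_modEq_card_fixedPoints ↥Q
  have h2 : Nat.card (MulAction.fixedPoints ↥P ↥Q) = Nat.card ↥(Q ⊓ centralizer (P : Set G)) := by
    apply Nat.card_congr
    refine ⟨fun x => ⟨x.1.1, x.1.2, ?_⟩, fun y => ⟨⟨y.1, y.2.1⟩, ?_⟩, ?_, ?_⟩
    · show (x.1 : G) ∈ centralizer (P : Set G)
      rw [Subgroup.mem_centralizer_iff]
      intro g hg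
      have h3 := x.2 ⟨g, hg⟩
      have h4 : g * (x.1 : G) * g⁻¹ = x.1 := congrArg Subtype.val h3
      calc g * (x.1 : G) = g * (x.1 : G) * g⁻¹ * g := by group
        _ = (x.1 : G) * g := by rw [h4]
    · intro g
      have h3 : (g : G) * y.1 = y.1 * (g : G) := (Subgroup.mem_centralizer_iff.1 y.2.2) g g.2
      apply Subtype.ext
      show (g : G) * y.1 * (g : G)⁻¹ = y.1
      rw [h3]; group
    · intro x; rfl
    · intro x; rfl
  rwa [h2] at h1

/-- Factor of the Sylow number contributed by a normal prime-power subgroup. -/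
theorem sylow_count_factor (p : ℕ) [Fact p.Prime] (K : Subgroup G) [K.Normal] {q : ℕ} (hq : q.Prime)
    (hK : IsPGroup q K) :
    ∃ a : ℕ, Nat.card (Sylow p G) = Nat.card (Sylow p (G ⧸ K)) * q ^ a ∧ q ^ a ≡ 1 [MOD p] := by
  classical
  haveI : Fact q.Prime := ⟨hq⟩
  obtain ⟨P⟩ := (inferInstance : Nonempty (Sylow p G))
  obtain ⟨N, hN⟩ : ∃ N : Subgroup G, N = ((P : Subgroup G) ⊔ K) ⊓
      Subgroup.normalizer (((P : Subgroup G) ⊓ K : Subgroup G) : Set G) := ⟨_, rfl⟩
  haveI hn : (((P : Subgroup G) ⊓ K).subgroupOf N).Normal :=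
    Subgroup.normal_subgroupOf_of_le_normalizer (by rw [hN]; exact inf_le_right)
  have h := Cfsg.Agent.S4341.result p K P N hN
  haveI : Group.IsNilpotent K := hK.isNilpotent
  rw [card_sylow_of_nilpotent p (G := K), mul_one] at h
  have hm := card_sylow_modEq_one p (N ⧸ ((P : Subgroup G) ⊓ K).subgroupOf N)
  obtain ⟨T⟩ := (inferInstance : Nonempty (Sylow p (N ⧸ ((P : Subgroup G) ⊓ K).subgroupOf N)))
  have hd1 : Nat.card (Sylow p (N ⧸ ((P : Subgroup G) ⊓ K).subgroupOf N)) ∣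
      Nat.card (N ⧸ ((P : Subgroup G) ⊓ K).subgroupOf N) := by
    rw [Sylow.card_eq_index_normalizer T]
    exact Subgroup.index_dvd_card _
  have hd2 : Nat.card (N ⧸ ((P : Subgroup G) ⊓ K).subgroupOf N) ∣ Nat.card N :=
    Subgroup.card_quotient_dvd_card _
  have hd3 : Nat.card N ∣ Nat.card ↥((P : Subgroup G) ⊔ K) := by
    apply Subgroup.card_dvd_of_le
    rw [hN]; exact inf_le_left
  have hd4 : Nat.card ↥((P : Subgroup G) ⊔ K) ∣ Nat.card (P : Subgroup G) * Nat.card K := by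
    have := CfsgLib.PLocal.card_sup_mul_card_inf (P : Subgroup G) K (fun x _ => by
      rw [Subgroup.normalizer_eq_top K]; trivial)
    exact ⟨_, this.symm⟩
  have hd := (hd1.trans hd2).trans (hd3.trans hd4)
  obtain ⟨r, hr⟩ := (IsPGroup.iff_card).1 P.isPGroup'
  obtain ⟨s, hs⟩ := (IsPGroup.iff_card).1 hK
  rw [hr, hs] at hd
  have hcop : (Nat.card (Sylow p (N ⧸ ((P : Subgroup G) ⊓ K).subgroupOf N))).Coprime (p ^ r) := by
    apply Nat.Coprime.pow_right
    have h1 : (Nat.card (Sylow p (N ⧸ ((P : Subgroup G) ⊓ K).subgroupOf N))).gcd p ∣ 1 := by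
      have h2 : (Nat.card (Sylow p (N ⧸ ((P : Subgroup G) ⊓ K).subgroupOf N))).gcd p =
          (1).gcd p := hm.gcd_eq
      simp [h2]
    exact Nat.dvd_one.1 h1
  have hd' := hcop.dvd_of_dvd_mul_left hd
  obtain ⟨a, _, ha⟩ := (Nat.dvd_prime_pow hq).1 hd'
  refine ⟨a, ?_, ?_⟩
  · rw [h, ha]
  · rw [← ha]; exact hm

/-- The `ℓ`-part of the Sylow number, given one factorization step. -/
theorem factorization_part_mul {n m q ℓ p : ℕ} (hn : n ≠ 0) (hq : q.Prime) (hℓ : ℓ.Prime) (a : ℕ)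
    (h1 : ℓ ^ n.factorization ℓ ≡ 1 [MOD p]) (h2 : q ^ a ≡ 1 [MOD p]) (hm : m = n * q ^ a) :
    ℓ ^ m.factorization ℓ ≡ 1 [MOD p] := by
  subst hm
  rw [Nat.factorization_mul hn (pow_ne_zero _ hq.ne_zero)]
  simp only [Finsupp.coe_add, Pi.add_apply, pow_add]
  have h3 : ℓ ^ (q ^ a).factorization ℓ ≡ 1 [MOD p] := by
    by_cases hl : ℓ = q
    · subst hl
      rw [Nat.Prime.factorization_pow hℓ]
      simpa using h2
    · rw [Nat.factorization_eq_zero_of_not_dvd]
      · simp [Nat.ModEq]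
      · intro hd
        exact hl ((Nat.prime_dvd_prime_iff_eq hℓ hq).1 (hℓ.dvd_of_dvd_pow hd))
  simpa using h1.mul h3

end CfsgLib.FGS
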