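import Cfsg.Agent.Lib.FGS.SylQuot
import Cfsg.Agent.Lib.FGS.SylCount
import Cfsg.Agent.Lib.FGS.Syl
import Cfsg.Agent.Lib.H9.SimpleTools
import Cfsg.Agent.Lib.Invol.BrauerFowler
import Cfsg.Agent.Lib.Solv.SZ

/-!
# No finite group has exactly fifteen Sylow `7`-subgroups.
-/

set_option autoImplicit false
set_option linter.unusedSectionVars false
set_option linter.style.haveILetI false

namespace CfsgLib.FGS.Syl15

open scoped Pointwise

universe u

instance instFact7 : Fact (Nat.Prime 7) := ⟨by norm_num⟩
instance instFact5 : Fact (Nat.Prime 5) := ⟨by norm_num⟩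
instance instFact3 : Fact (Nat.Prime 3) := ⟨by norm_num⟩

section
variable {G : Type u} [Group G] [Finite G]

theorem le_of_normalizes {p : ℕ} (b : Sylow p G) {D : Subgroup G} (hD : IsPGroup p D)
    (h : D ≤ Subgroup.normalizer ((b : Subgroup G) : Set G)) : D ≤ b := by
  have h1 : IsPGroup p ((b : Subgroup G) ⊔ D : Subgroup G) :=
    b.isPGroup'.to_sup_of_normal_left' hD h
  have h2 := b.3 h1 le_sup_left
  rw [← h2]
  exact le_sup_right

theorem card_contain_modEq {p : ℕ} [Fact p.Prime] (D : Subgroup G) (hD : IsPGroup p D) :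
    Nat.card (Sylow p G) ≡ Nat.card {b : Sylow p G // D ≤ b} [MOD p] := by
  have h1 := hD.card_modEq_card_fixedPoints (Sylow p G)
  have h2 : Nat.card (MulAction.fixedPoints D (Sylow p G)) = Nat.card {b : Sylow p G // D ≤ b} := by
    apply Nat.card_congr
    refine ⟨fun x => ⟨x.1, ?_⟩, fun y => ⟨y.1, ?_⟩, fun _ => rfl, fun _ => rfl⟩
    · apply le_of_normalizes _ hD
      intro d hd
      have := x.2 ⟨d, hd⟩
      exact Sylow.smul_eq_iff_mem_normalizer.1 this
    · intro d
      show (d : G) • y.1 = y.1
      rw [Sylow.smul_eq_iff_mem_normalizer]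
      exact Subgroup.le_normalizer (y.2 d.2)
  rwa [h2] at h1


/-- A `q`-group normalizing `A` centralizes it when the numbers force it. -/
theorem centralizes_of_num {q : ℕ} [Fact q.Prime] {A B : Subgroup G} (hB : IsPGroup q B)
    (hBA : B ≤ Subgroup.normalizer (A : Set G))
    (hnum : ∀ d, d ∣ Nat.card A → d ≡ Nat.card A [MOD q] → d = Nat.card A) :
    A ≤ Subgroup.centralizer (B : Set G) := by
  have h1 := CfsgLib.FGS.card_mod_centralizer hB hBA
  have h2 : Nat.card ↥(A ⊓ Subgroup.centralizer (B : Set G)) ∣ Nat.card A :=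
    Subgroup.card_dvd_of_le inf_le_left
  have h3 := hnum _ h2 h1.symm
  have h4 : A ⊓ Subgroup.centralizer (B : Set G) = A :=
    Subgroup.eq_of_le_of_card_ge inf_le_left (ge_of_eq h3)
  exact inf_eq_left.1 h4

theorem card_sylow_of_eq {p k m : ℕ} [Fact p.Prime] (hG : Nat.card G = p ^ k * m) (hm : ¬ p ∣ m)
    (S : Sylow p G) : Nat.card S = p ^ k := by
  have hpp : p.Prime := Fact.out
  obtain ⟨j, hj⟩ := IsPGroup.iff_card.1 S.isPGroup'
  have h1 := Subgroup.card_mul_index (S : Subgroup G)
  have h2 := S.not_dvd_index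
  rw [hj, hG] at h1
  have hc1 : Nat.Coprime (p ^ k) (S : Subgroup G).index :=
    Nat.Coprime.pow_left k ((Nat.Prime.coprime_iff_not_dvd hpp).2 h2)
  have hc2 : Nat.Coprime (p ^ j) m := Nat.Coprime.pow_left j ((Nat.Prime.coprime_iff_not_dvd hpp).2 hm)
  have h3 : p ^ k ∣ p ^ j := hc1.dvd_of_dvd_mul_right ⟨m, h1⟩
  have h4 : p ^ j ∣ p ^ k := hc2.dvd_of_dvd_mul_right ⟨(S : Subgroup G).index, h1.symm⟩
  rw [hj]
  exact Nat.dvd_antisymm h4 h3

theorem final_false (t : ℕ) (ht : t = 3 ∨ t = 9) (hG : Nat.card G = 35 * t) (P : Sylow 7 G)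
    (hP7 : Nat.card P = 7) (hCP : Subgroup.centralizer ((P : Subgroup G) : Set G) = P) : False := by
  classical
  have hT : ∀ T : Sylow 3 G, Nat.card T = t := by
    intro T
    rcases ht with rfl | rfl
    · simpa using card_sylow_of_eq (p := 3) (k := 1) (m := 35) (by rw [hG]; ring) (by norm_num) T
    · simpa using card_sylow_of_eq (p := 3) (k := 2) (m := 35) (by rw [hG]; ring) (by norm_num) T
  have hR : ∀ R : Sylow 5 G, Nat.card R = 5 := by
    intro R
    have h1 : Nat.card G = 5 ^ 1 * (7 * t) := by rw [hG]; ring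
    simpa using card_sylow_of_eq (p := 5) h1 (by rcases ht with rfl | rfl <;> norm_num) R
  have hnoP : ∀ A : Subgroup G, (Nat.card A = 3 ∨ Nat.card A = 9 ∨ Nat.card A = 5) →
      (P : Subgroup G) ≤ Subgroup.normalizer (A : Set G) → False := by
    intro A hA hPA
    have hcent := centralizes_of_num P.isPGroup' hPA (by
      intro d hd hmod
      have hle := Nat.le_of_dvd Nat.card_pos hd
      unfold Nat.ModEq at hmod
      rcases hA with h | h | h <;> rw [h] at hd hmod hle ⊢ <;> interval_cases d <;> omega)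
    rw [hCP] at hcent
    have h1 := Subgroup.card_dvd_of_le hcent
    rw [hP7] at h1
    rcases hA with h | h | h <;> rw [h] at h1 <;> omega
  obtain ⟨T⟩ : Nonempty (Sylow 3 G) := inferInstance
  have htn : Nat.card (T : Subgroup G) = 3 ∨ Nat.card (T : Subgroup G) = 9 ∨ Nat.card (T : Subgroup G) = 5 := by
    rw [hT T]
    rcases ht with rfl | rfl <;> simp
  have hn3 : Nat.card (Sylow 3 G) = 1 ∨ Nat.card (Sylow 3 G) = 7 := by
    have h1 := Sylow.card_dvd_index T
    have h2 : (T : Subgroup G).index = 35 := by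
      have h3 := Subgroup.card_mul_index (T : Subgroup G)
      rw [hT T, hG] at h3
      have ht0 : 0 < t := by rcases ht with rfl | rfl <;> norm_num
      have h4 : t * (T : Subgroup G).index = t * 35 := by rw [h3]; ring
      exact Nat.eq_of_mul_eq_mul_left ht0 h4
    rw [h2] at h1
    have h3 := card_sylow_modEq_one 3 G
    have hle := Nat.le_of_dvd (by norm_num) h1
    unfold Nat.ModEq at h3
    obtain ⟨m, hm⟩ : ∃ m, m = Nat.card (Sylow 3 G) := ⟨_, rfl⟩
    rw [← hm] at h1 h3 hle ⊢
    interval_cases m <;> omega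
  rcases hn3 with h1 | h7
  · haveI : Subsingleton (Sylow 3 G) := by
      haveI : Nonempty (Sylow 3 G) := inferInstance
      exact (Nat.card_eq_one_iff_unique.1 h1).1
    haveI := Sylow.normal_of_subsingleton T
    refine hnoP T htn ?_
    rw [Subgroup.normalizer_eq_top_iff.2 inferInstance]
    exact le_top
  · obtain ⟨R⟩ : Nonempty (Sylow 5 G) := inferInstance
    have hfix : ∃ T₁ : Sylow 3 G, ∀ r ∈ (R : Subgroup G), r • T₁ = T₁ := by
      have h1 := R.isPGroup'.card_modEq_card_fixedPoints (Sylow 3 G)
      rw [h7] at h1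
      have h2 : Nat.card (MulAction.fixedPoints (R : Subgroup G) (Sylow 3 G)) ≠ 0 := by
        intro h0
        rw [h0] at h1
        unfold Nat.ModEq at h1
        omega
      obtain ⟨⟨T₁, hT₁⟩⟩ := (Nat.card_ne_zero.1 h2).1
      exact ⟨T₁, fun r hr => hT₁ ⟨r, hr⟩⟩
    obtain ⟨T₁, hT₁⟩ := hfix
    have hRT₁ : (R : Subgroup G) ≤ Subgroup.normalizer ((T₁ : Subgroup G) : Set G) :=
      fun r hr => Sylow.smul_eq_iff_mem_normalizer.1 (hT₁ r hr)
    have hcent := centralizes_of_num R.isPGroup' hRT₁ (by
      intro d hd hmod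
      rw [hT T₁] at hd hmod ⊢
      have hle := Nat.le_of_dvd (by rcases ht with rfl | rfl <;> norm_num) hd
      unfold Nat.ModEq at hmod
      rcases ht with rfl | rfl <;> interval_cases d <;> omega)
    have hCN : Subgroup.centralizer ((R : Subgroup G) : Set G) ≤
        Subgroup.normalizer ((R : Subgroup G) : Set G) := by
      intro z hz
      refine Subgroup.mem_normalizer_iff.2 ?_
      intro g
      have hcomm := Subgroup.mem_centralizer_iff.1 hz
      constructor
      · intro hg
        rw [← hcomm g hg, mul_inv_cancel_right]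
        exact hg
      · intro hg
        have h3 := hcomm _ hg
        have h5 : z * g = z * (z * g * z⁻¹) := by
          rw [← h3]; group
        rw [mul_left_cancel h5]
        exact hg
    have hd1 : t ∣ Nat.card (Subgroup.normalizer ((R : Subgroup G) : Set G)) := by
      rw [← hT T₁]
      exact Subgroup.card_dvd_of_le (hcent.trans hCN)
    have hd2 : 5 ∣ Nat.card (Subgroup.normalizer ((R : Subgroup G) : Set G)) := by
      have h := Subgroup.card_dvd_of_le
        (Subgroup.le_normalizer : (R : Subgroup G) ≤ Subgroup.normalizer ((R : Subgroup G) : Set G))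
      rwa [hR R] at h
    have hcop : Nat.Coprime 5 t := by rcases ht with rfl | rfl <;> norm_num
    obtain ⟨c, hc⟩ := Nat.Coprime.mul_dvd_of_dvd_of_dvd hcop hd2 hd1
    have h1 := Subgroup.card_mul_index (Subgroup.normalizer ((R : Subgroup G) : Set G))
    have h1' : Nat.card (Sylow 5 G) = (Subgroup.normalizer ((R : Subgroup G) : Set G)).index :=
      Sylow.card_eq_index_normalizer R
    rw [← h1', hc, hG] at h1
    have ht0 : 0 < t := by rcases ht with rfl | rfl <;> norm_num
    have h2 : c * Nat.card (Sylow 5 G) = 7 := by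
      have h3 : (5 * t) * (c * Nat.card (Sylow 5 G)) = (5 * t) * 7 := by
        rw [← mul_assoc, h1]; ring
      exact Nat.eq_of_mul_eq_mul_left (by positivity) h3
    have h3 : Nat.card (Sylow 5 G) ∣ 7 := ⟨c, by rw [← h2]; ring⟩
    have h4 := card_sylow_modEq_one 5 G
    have hle := Nat.le_of_dvd (by norm_num) h3
    unfold Nat.ModEq at h4
    have h5 : Nat.card (Sylow 5 G) = 1 := by
      obtain ⟨m, hm⟩ : ∃ m, m = Nat.card (Sylow 5 G) := ⟨_, rfl⟩
      rw [← hm] at h3 h4 hle ⊢
      interval_cases m <;> omega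
    haveI : Subsingleton (Sylow 5 G) := by
      haveI : Nonempty (Sylow 5 G) := inferInstance
      exact (Nat.card_eq_one_iff_unique.1 h5).1
    haveI := Sylow.normal_of_subsingleton R
    refine hnoP R (by rw [hR R]; simp) ?_
    rw [Subgroup.normalizer_eq_top_iff.2 inferInstance]
    exact le_top

variable (h15 : Nat.card (Sylow 7 G) = 15)
include h15

theorem relIndex_eq_seven (P a : Sylow 7 G) (hne : P ≠ a) :
    (a : Subgroup G).relIndex P = 7 := by
  classical
  have hstab : MulAction.stabilizer (P : Subgroup G) a = (a : Subgroup G).subgroupOf P := by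
    ext g
    constructor
    · intro hg
      have hg' : (g : G) • a = a := hg
      rw [Sylow.smul_eq_iff_mem_normalizer] at hg'
      have hz : IsPGroup 7 (Subgroup.zpowers (g : G)) :=
        P.isPGroup'.to_le ((Subgroup.zpowers_le).2 g.2)
      have := le_of_normalizes a hz ((Subgroup.zpowers_le).2 hg')
      exact this (Subgroup.mem_zpowers _)
    · intro hg
      show (g : G) • a = a
      rw [Sylow.smul_eq_iff_mem_normalizer]
      exact Subgroup.le_normalizer hg
  have h1 := MulAction.index_stabilizer (P : Subgroup G) a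
  obtain ⟨n, hn⟩ := P.isPGroup'.index (MulAction.stabilizer (P : Subgroup G) a)
  have h2 : (MulAction.orbit (P : Subgroup G) a).ncard ≤ 14 := by
    have hsub : MulAction.orbit (P : Subgroup G) a ⊆ {P}ᶜ := by
      rintro _ ⟨g, rfl⟩ hPP
      have h3 : (g : G) • a = P := hPP
      apply hne
      have h4 : (g : G) • P = P := by
        rw [Sylow.smul_eq_iff_mem_normalizer]
        exact Subgroup.le_normalizer g.2
      have h5 : (g : G) • a = (g : G) • P := h3.trans h4.symm
      exact (MulAction.injective (g : G) h5).symm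
    have h3 := Set.ncard_le_ncard hsub (Set.toFinite _)
    have h4 := Set.ncard_add_ncard_compl ({P} : Set (Sylow 7 G))
    rw [Set.ncard_singleton, h15] at h4
    omega
  rw [← h1, hn] at h2
  have hn1 : n = 1 := by
    rcases n with _ | _ | n
    · exfalso
      rw [pow_zero] at hn
      rw [Subgroup.index_eq_one, hstab, Subgroup.subgroupOf_eq_top] at hn
      have h3 := P.3 a.isPGroup' hn
      exact hne (Sylow.ext h3.symm)
    · rfl
    · exfalso
      have : 7 ^ 2 ≤ 7 ^ (n + 1 + 1) := Nat.pow_le_pow_right (by norm_num) (by omega)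
      omega
  subst hn1
  rw [hstab] at hn
  exact hn

theorem card_inf_mul_seven (x y : Sylow 7 G) (hne : x ≠ y) :
    Nat.card ↥((x : Subgroup G) ⊓ y) * 7 = Nat.card x := by
  have h1 := Subgroup.card_mul_index (((x : Subgroup G) ⊓ y).subgroupOf x)
  have h2 : (((x : Subgroup G) ⊓ y).subgroupOf x).index = 7 := by
    show ((x : Subgroup G) ⊓ y).relIndex x = 7
    rw [Subgroup.inf_relIndex_left]
    exact relIndex_eq_seven h15 x y hne
  rw [h2, CfsgLib.Solv.card_subgroupOf_of_le inf_le_left] at h1
  exact h1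

theorem inf_eq_of_le {x y z : Sylow 7 G} (hxy : x ≠ y) (hxz : x ≠ z)
    (h : (x : Subgroup G) ⊓ y ≤ z) : (x : Subgroup G) ⊓ y = (x : Subgroup G) ⊓ z := by
  apply Subgroup.eq_of_le_of_card_ge (le_inf inf_le_left h)
  have h1 := card_inf_mul_seven h15 x y hxy
  have h2 := card_inf_mul_seven h15 x z hxz
  omega

variable (hfaith : ∀ g : G, (∀ b : Sylow 7 G, g • b = b) → g = 1)
include hfaith

theorem card_filter_eq_eight [Fintype (Sylow 7 G)] [DecidableRel (fun (D : Subgroup G) (b : Sylow 7 G) => D ≤ (b : Subgroup G))]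
    {x y : Sylow 7 G} (hxy : x ≠ y)
    (hD : (x : Subgroup G) ⊓ y ≠ ⊥) :
    (Finset.univ.filter (fun b : Sylow 7 G => (x : Subgroup G) ⊓ y ≤ b)).card = 8 := by
  classical
  have hp : IsPGroup 7 ↥((x : Subgroup G) ⊓ y) := x.isPGroup'.to_le inf_le_left
  have h1 := card_contain_modEq _ hp
  rw [h15] at h1
  have h2 : Nat.card {b : Sylow 7 G // (x : Subgroup G) ⊓ y ≤ b} =
      (Finset.univ.filter (fun b : Sylow 7 G => (x : Subgroup G) ⊓ y ≤ b)).card := by
    rw [Nat.card_eq_fintype_card, Fintype.card_subtype]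
  rw [h2] at h1
  have h3 : (Finset.univ.filter (fun b : Sylow 7 G => (x : Subgroup G) ⊓ y ≤ b)).card ≤ 15 := by
    rw [← h15, Nat.card_eq_fintype_card]
    exact Finset.card_le_univ _
  have h4 : 1 < (Finset.univ.filter (fun b : Sylow 7 G => (x : Subgroup G) ⊓ y ≤ b)).card := by
    rw [Finset.one_lt_card]
    exact ⟨x, by simp, y, by simp, hxy⟩
  have h5 : (Finset.univ.filter (fun b : Sylow 7 G => (x : Subgroup G) ⊓ y ≤ b)).card ≠ 15 := by
    intro h6
    have h7 : Finset.univ.filter (fun b : Sylow 7 G => (x : Subgroup G) ⊓ y ≤ b) = Finset.univ := by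
      apply Finset.eq_univ_of_card
      rw [h6, ← Nat.card_eq_fintype_card, h15]
    apply hD
    rw [eq_bot_iff]
    intro d hd
    rw [Subgroup.mem_bot]
    apply hfaith
    intro b
    have h8 : b ∈ Finset.univ.filter (fun b : Sylow 7 G => (x : Subgroup G) ⊓ y ≤ b) := by
      rw [h7]; exact Finset.mem_univ b
    rw [Finset.mem_filter] at h8
    rw [Sylow.smul_eq_iff_mem_normalizer]
    exact Subgroup.le_normalizer (h8.2 hd)
  unfold Nat.ModEq at h1
  omega

theorem design_false (hnt : ∀ x y : Sylow 7 G, x ≠ y → (x : Subgroup G) ⊓ y ≠ ⊥) : False := by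
  classical
  haveI := Fintype.ofFinite (Sylow 7 G)
  have hcard : Fintype.card (Sylow 7 G) = 15 := by rw [← Nat.card_eq_fintype_card, h15]
  let F : Sylow 7 G → Sylow 7 G → Finset (Sylow 7 G) :=
    fun x y => Finset.univ.filter (fun b : Sylow 7 G => (x : Subgroup G) ⊓ y ≤ b)
  have hF : ∀ x y b, b ∈ F x y ↔ (x : Subgroup G) ⊓ y ≤ b := by
    intro x y b
    simp [F]
  have hF8 : ∀ x y, x ≠ y → (F x y).card = 8 := fun x y hxy =>
    card_filter_eq_eight h15 hfaith hxy (hnt x y hxy)
  obtain ⟨P, a, hPa⟩ : ∃ P a : Sylow 7 G, P ≠ a := by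
    haveI : Nontrivial (Sylow 7 G) := Fintype.one_lt_card_iff_nontrivial.1 (by omega)
    exact exists_pair_ne _
  obtain ⟨c, hc⟩ : ∃ c : Sylow 7 G, ¬ (P : Subgroup G) ⊓ a ≤ c := by
    by_contra h
    push Not at h
    have h1 : F P a = Finset.univ := Finset.eq_univ_iff_forall.2 fun b => (hF _ _ _).2 (h b)
    have h2 := hF8 P a hPa
    rw [h1, Finset.card_univ, hcard] at h2
    omega
  have hcP : P ≠ c := by
    rintro rfl
    exact hc inf_le_left
  have hca : a ≠ c := by
    rintro rfl
    exact hc inf_le_right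
  have hcov : ∀ z : Sylow 7 G, (P : Subgroup G) ⊓ a ≤ z ∨ (P : Subgroup G) ⊓ c ≤ z := by
    have hinter : F P a ∩ F P c ⊆ {P} := by
      intro z hz
      rw [Finset.mem_inter, hF, hF] at hz
      rw [Finset.mem_singleton]
      by_contra hzP
      have h1 := inf_eq_of_le h15 hPa (Ne.symm hzP) hz.1
      have h2 := inf_eq_of_le h15 hcP (Ne.symm hzP) hz.2
      apply hc
      rw [h1, ← h2]
      exact inf_le_right
    have h1 := Finset.card_union_add_card_inter (F P a) (F P c)
    have h2 : (F P a ∩ F P c).card ≤ 1 := (Finset.card_le_card hinter).trans (by simp)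
    rw [hF8 P a hPa, hF8 P c hcP] at h1
    have h3 : (F P a ∪ F P c).card ≤ 15 := by
      rw [← hcard]; exact Finset.card_le_univ _
    have h4 : F P a ∪ F P c = Finset.univ := by
      apply Finset.eq_univ_of_card
      omega
    intro z
    have h5 := Finset.mem_univ z
    rw [← h4, Finset.mem_union, hF, hF] at h5
    exact h5
  obtain ⟨z, hz, hza, hzc⟩ : ∃ z : Sylow 7 G, (a : Subgroup G) ⊓ c ≤ z ∧ a ≠ z ∧ c ≠ z := by
    by_contra h
    push Not at h
    have h1 : F a c ⊆ {a, c} := by
      intro z hz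
      rw [hF] at hz
      simp only [Finset.mem_insert, Finset.mem_singleton]
      by_contra h2
      push Not at h2
      exact h2.2.symm (h z hz (Ne.symm h2.1))
    have h2 := Finset.card_le_card h1
    rw [hF8 a c hca] at h2
    have h3 : ({a, c} : Finset (Sylow 7 G)).card ≤ 2 := Finset.card_le_two
    omega
  rcases hcov z with hz1 | hz2
  · have e1 := inf_eq_of_le h15 hca hza hz
    have e2 := inf_eq_of_le h15 (Ne.symm hPa) hza (by rwa [inf_comm] : (a : Subgroup G) ⊓ P ≤ z)
    apply hc
    rw [inf_comm, e2, ← e1]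
    exact inf_le_right
  · have hz' : (c : Subgroup G) ⊓ a ≤ z := by rwa [inf_comm]
    have e1 := inf_eq_of_le h15 (Ne.symm hca) hzc hz'
    have e2 := inf_eq_of_le h15 (Ne.symm hcP) hzc (by rwa [inf_comm] : (c : Subgroup G) ⊓ P ≤ z)
    have e3 : (P : Subgroup G) ⊓ c ≤ a := by
      rw [inf_comm, e2, ← e1]
      exact inf_le_right
    have e4 := inf_eq_of_le h15 hcP hPa e3
    apply hc
    rw [← e4]
    exact inf_le_right

theorem centralizer_elt (hno2 : ∀ L : Subgroup G, L.index ≠ 2) (P : Sylow 7 G) {z : G}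
    (hz : z ∈ Subgroup.centralizer ((P : Subgroup G) : Set G)) {q : ℕ} (hq : q.Prime)
    (hord : orderOf z = q) : q = 7 := by
  classical
  by_contra hq7
  haveI := Fintype.ofFinite (Sylow 7 G)
  haveI : Fact q.Prime := ⟨hq⟩
  have hcard : Fintype.card (Sylow 7 G) = 15 := by rw [← Nat.card_eq_fintype_card, h15]
  have hz1 : z ≠ 1 := by
    rintro rfl
    rw [orderOf_one] at hord
    exact hq.one_lt.ne hord
  have hcomm : ∀ g ∈ (P : Subgroup G), g * z = z * g := Subgroup.mem_centralizer_iff.1 hz
  have hzP : z • P = P := by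
    rw [Sylow.smul_eq_iff_mem_normalizer]
    refine Subgroup.mem_normalizer_iff.2 ?_
    intro g
    constructor
    · intro hg
      rw [← hcomm g hg, mul_inv_cancel_right]
      exact hg
    · intro hg
      have h3 := hcomm _ hg
      have h5 : z * g = z * (z * g * z⁻¹) := by
        rw [← h3]; group
      rw [mul_left_cancel h5]
      exact hg
  -- the fixed points of `z`
  have hq1 : Nat.card {b : Sylow 7 G // z • b = b} ≡ 15 [MOD q] := by
    have hpg : IsPGroup q (Subgroup.zpowers z) :=
      IsPGroup.of_card (n := 1) (by rw [Nat.card_zpowers, hord, pow_one])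
    have h1 := hpg.card_modEq_card_fixedPoints (Sylow 7 G)
    have h2 : Nat.card (MulAction.fixedPoints (Subgroup.zpowers z) (Sylow 7 G)) =
        Nat.card {b : Sylow 7 G // z • b = b} := by
      apply Nat.card_congr
      refine ⟨fun x => ⟨x.1, x.2 ⟨z, Subgroup.mem_zpowers z⟩⟩, fun y => ⟨y.1, ?_⟩,
        fun _ => rfl, fun _ => rfl⟩
      intro g
      have h3 : Subgroup.zpowers z ≤ MulAction.stabilizer G y.1 :=
        (Subgroup.zpowers_le).2 y.2
      exact h3 g.2
    rw [h2, h15] at h1
    exact h1.symm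
  have h71 : Nat.card {b : Sylow 7 G // z • b = b} ≡ 1 [MOD 7] := by
    letI act : MulAction (P : Subgroup G) {b : Sylow 7 G // z • b = b} :=
      { smul := fun g b => ⟨(g : G) • b.1, by
          rw [smul_smul, ← hcomm g g.2, mul_smul, b.2]⟩
        one_smul := fun b => Subtype.ext (one_smul G b.1)
        mul_smul := fun g h b => Subtype.ext (mul_smul (g : G) (h : G) b.1) }
    have h1 := P.isPGroup'.card_modEq_card_fixedPoints {b : Sylow 7 G // z • b = b}
    have h2 : Nat.card (MulAction.fixedPoints (P : Subgroup G) {b : Sylow 7 G // z • b = b}) = 1 := by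
      rw [Nat.card_eq_one_iff_unique]
      refine ⟨⟨?_⟩, ⟨⟨⟨P, hzP⟩, ?_⟩⟩⟩
      · rintro ⟨⟨x, hx⟩, hx2⟩ ⟨⟨y, hy⟩, hy2⟩
        have key : ∀ x : {b : Sylow 7 G // z • b = b}, x ∈ MulAction.fixedPoints (P : Subgroup G) _ →
            x.1 = P := by
          intro x hx
          have h3 : (P : Subgroup G) ≤ Subgroup.normalizer (((x.1 : Sylow 7 G) : Subgroup G) : Set G) := by
            intro g hg
            have h4 := congrArg Subtype.val (hx ⟨g, hg⟩)
            exact Sylow.smul_eq_iff_mem_normalizer.1 h4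
          have h5 := le_of_normalizes x.1 P.isPGroup' h3
          exact (Sylow.ext (P.3 (x.1).isPGroup' h5))
        apply Subtype.ext
        apply Subtype.ext
        have e1 := key ⟨x, hx⟩ hx2
        have e2 := key ⟨y, hy⟩ hy2
        exact e1.trans e2.symm
      · intro g
        apply Subtype.ext
        show (g : G) • P = P
        rw [Sylow.smul_eq_iff_mem_normalizer]
        exact Subgroup.le_normalizer g.2
    rw [h2] at h1
    exact h1
  have hfilter : Nat.card {b : Sylow 7 G // z • b = b} =
      (Finset.univ.filter (fun b : Sylow 7 G => z • b = b)).card := by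
    rw [Nat.card_eq_fintype_card, Fintype.card_subtype]
  have hle : (Finset.univ.filter (fun b : Sylow 7 G => z • b = b)).card ≤ 15 := by
    rw [← hcard]; exact Finset.card_le_univ _
  rw [hfilter] at hq1 h71
  obtain ⟨m, hm⟩ : ∃ m, m = (Finset.univ.filter (fun b : Sylow 7 G => z • b = b)).card := ⟨_, rfl⟩
  rw [← hm] at hq1 h71 hle
  have hm3 : m = 1 ∨ m = 8 ∨ m = 15 := by
    unfold Nat.ModEq at h71
    omega
  rcases hm3 with rfl | rfl | rfl
  · -- the sign
    have hq14 : q ∣ 14 := (Nat.modEq_iff_dvd' (by norm_num)).1 hq1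
    have hq2 : q = 2 := by
      have h1 : q ∣ 2 * 7 := by simpa using hq14
      rcases (Nat.Prime.dvd_mul hq).1 h1 with h | h
      · exact (Nat.prime_dvd_prime_iff_eq hq Nat.prime_two).1 h
      · exact absurd ((Nat.prime_dvd_prime_iff_eq hq (by norm_num)).1 h) hq7
    subst hq2
    let σ : Equiv.Perm (Sylow 7 G) := MulAction.toPerm z
    have hσ2 : σ ^ 2 = 1 := by
      have hz2 : z ^ 2 = 1 := by rw [← hord]; exact pow_orderOf_eq_one z
      ext1 b
      show z • z • b = b
      rw [smul_smul, ← pow_two, hz2, one_smul]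
    have hsupp : σ.support.card = 14 := by
      have h1 : σ.support = Finset.univ.filter (fun b : Sylow 7 G => ¬ z • b = b) := by
        ext b
        simp [σ, Equiv.Perm.mem_support]
      have h2 := Finset.card_filter_add_card_filter_not (s := (Finset.univ : Finset (Sylow 7 G)))
        (fun b : Sylow 7 G => z • b = b)
      rw [h1]
      rw [Finset.card_univ, hcard, ← hm] at h2
      omega
    have hsign : Equiv.Perm.sign σ = -1 := by
      rw [CfsgLib.H9.sign_of_involution σ hσ2, hsupp]
      decide
    let ψ : G →* ℤˣ := (Equiv.Perm.sign).comp (MulAction.toPermHom G (Sylow 7 G))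
    have hψz : ψ z = -1 := hsign
    have hsurj : Function.Surjective ψ := by
      intro u
      rcases Int.units_eq_one_or u with rfl | rfl
      · exact ⟨1, map_one _⟩
      · exact ⟨z, hψz⟩
    apply hno2 ψ.ker
    rw [Subgroup.index_ker, MonoidHom.range_eq_top.2 hsurj, Subgroup.card_top, Nat.card_eq_fintype_card,
      Fintype.card_units_int]
  · have hq7' : q ∣ 7 := (Nat.modEq_iff_dvd' (by norm_num)).1 hq1
    exact hq7 ((Nat.prime_dvd_prime_iff_eq hq (by norm_num)).1 hq7')
  · apply hz1
    apply hfaith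
    intro b
    have h1 : Finset.univ.filter (fun b : Sylow 7 G => z • b = b) = Finset.univ := by
      apply Finset.eq_univ_of_card
      rw [← hm, hcard]
    have h2 : b ∈ Finset.univ.filter (fun b : Sylow 7 G => z • b = b) := by
      rw [h1]; exact Finset.mem_univ b
    exact (Finset.mem_filter.1 h2).2

theorem core (hno2 : ∀ L : Subgroup G, L.index ≠ 2) : False := by
  classical
  haveI := Fintype.ofFinite (Sylow 7 G)
  have hcard : Fintype.card (Sylow 7 G) = 15 := by rw [← Nat.card_eq_fintype_card, h15]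
  obtain ⟨P, a, hPa⟩ : ∃ P a : Sylow 7 G, P ≠ a := by
    haveI : Nontrivial (Sylow 7 G) := Fintype.one_lt_card_iff_nontrivial.1 (by omega)
    exact exists_pair_ne _
  have hPcard : Nat.card P = 7 := by
    have h1 := card_inf_mul_seven h15 P a hPa
    by_cases hbot : (P : Subgroup G) ⊓ a = ⊥
    · rw [hbot, Subgroup.card_bot, one_mul] at h1
      exact h1.symm
    · exfalso
      apply design_false h15 hfaith
      intro x y hxy hb
      have h2 := card_inf_mul_seven h15 x y hxy
      rw [hb, Subgroup.card_bot, one_mul] at h2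
      have h3 : Nat.card x = Nat.card P := by
        rw [Sylow.card_eq_multiplicity x, Sylow.card_eq_multiplicity P]
      have h4 : Nat.card ↥((P : Subgroup G) ⊓ a) = 1 := by omega
      exact hbot (Subgroup.card_eq_one.1 h4)
  have hC : Subgroup.centralizer ((P : Subgroup G) : Set G) = P := by
    haveI hcyc : IsCyclic (P : Subgroup G) := isCyclic_of_prime_card hPcard
    have hle : (P : Subgroup G) ≤ Subgroup.centralizer ((P : Subgroup G) : Set G) := by
      intro x hx
      rw [Subgroup.mem_centralizer_iff]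
      intro y hy
      have h1 := (IsCyclic.commGroup (α := (P : Subgroup G))).mul_comm ⟨y, hy⟩ ⟨x, hx⟩
      exact congrArg Subtype.val h1
    have hpg : IsPGroup 7 (Subgroup.centralizer ((P : Subgroup G) : Set G)) := by
      refine IsPGroup.of_card (Nat.eq_prime_pow_of_unique_prime_dvd Nat.card_pos.ne' ?_)
      intro q hq hqd
      haveI := Fact.mk hq
      obtain ⟨k, hk⟩ := exists_prime_orderOf_dvd_card' q hqd
      exact centralizer_elt h15 hfaith hno2 P k.2 hq (by rw [Subgroup.orderOf_coe]; exact hk)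
    exact P.3 hpg hle
  have hCN : Subgroup.centralizer ((P : Subgroup G) : Set G) ≤
      Subgroup.normalizer ((P : Subgroup G) : Set G) := by
    rw [hC]
    exact Subgroup.le_normalizer
  obtain ⟨d, hd6, hNd⟩ : ∃ d, d ∣ 6 ∧
      Nat.card (Subgroup.normalizer ((P : Subgroup G) : Set G)) = 7 * d := by
    haveI hcyc : IsCyclic (P : Subgroup G) := isCyclic_of_prime_card hPcard
    let f := (P : Subgroup G).normalizerMonoidHom
    have h1 : Nat.card f.range ∣ 6 := by
      have h2 : Nat.card (MulAut (P : Subgroup G)) = 6 := by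
        rw [IsCyclic.card_mulAut, hPcard]
        decide
      rw [← h2]
      exact Subgroup.card_subgroup_dvd_card _
    have h3 : Nat.card f.ker = 7 := by
      rw [Subgroup.normalizerMonoidHom_ker, CfsgLib.Solv.card_subgroupOf_of_le hCN, hC, hPcard]
    refine ⟨Nat.card f.range, h1, ?_⟩
    have h4 := Subgroup.card_mul_index f.ker
    rw [Subgroup.index_ker, h3] at h4
    exact h4.symm
  have hG : Nat.card G = 105 * d := by
    have h1 := Subgroup.card_mul_index (Subgroup.normalizer ((P : Subgroup G) : Set G))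
    have h2 : Nat.card (Sylow 7 G) = (Subgroup.normalizer ((P : Subgroup G) : Set G)).index :=
      Sylow.card_eq_index_normalizer P
    rw [h15] at h2
    rw [← h2, hNd] at h1
    rw [← h1]
    ring
  have hdle : d ≤ 6 := Nat.le_of_dvd (by norm_num) hd6
  interval_cases d
  · omega
  · exact final_false 3 (Or.inl rfl) (by omega) P hPcard hC
  · obtain ⟨H, hH⟩ := CfsgLib.Invol.exists_index_two_of_two_mul_odd (G := G) (m := 105)
      (by omega) (by decide)
    exact hno2 H hH
  · exact final_false 9 (Or.inr rfl) (by omega) P hPcard hC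
  · omega
  · omega
  · obtain ⟨H, hH⟩ := CfsgLib.Invol.exists_index_two_of_two_mul_odd (G := G) (m := 315)
      (by omega) (by decide)
    exact hno2 H hH

end

/-- No finite group has exactly fifteen Sylow `7`-subgroups. -/
theorem no_fifteen : ∀ (n : ℕ) (G : Type u) [Group G] [Finite G], Nat.card G = n →
    Nat.card (Sylow 7 G) ≠ 15 := by
  intro n
  induction n using Nat.strong_induction_on with
  | _ n ih =>
    intro G _ _ hn h15
    have hfaith : ∀ g : G, (∀ b : Sylow 7 G, g • b = b) → g = 1 := by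
      intro g hg
      let φ := MulAction.toPermHom G (Sylow 7 G)
      by_contra hg1
      have hgK : g ∈ φ.ker := by
        rw [MonoidHom.mem_ker]
        ext1 b
        exact hg b
      have hKne : φ.ker ≠ ⊥ := by
        intro h
        rw [h, Subgroup.mem_bot] at hgK
        exact hg1 hgK
      obtain ⟨P⟩ : Nonempty (Sylow 7 G) := inferInstance
      have hKN : φ.ker ≤ Subgroup.normalizer ((P : Subgroup G) : Set G) := by
        intro x hx
        rw [MonoidHom.mem_ker] at hx
        have h1 : x • P = P := by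
          have := congrArg (fun σ : Equiv.Perm (Sylow 7 G) => σ P) hx
          exact this
        exact Sylow.smul_eq_iff_mem_normalizer.1 h1
      have h1 := CfsgLib.FGS.card_sylow_quotient_eq (p := 7) φ.ker P
      have h1' : Nat.card (Sylow 7 G) = (Subgroup.normalizer ((P : Subgroup G) : Set G)).index :=
        Sylow.card_eq_index_normalizer P
      rw [sup_eq_left.2 hKN, ← h1', h15] at h1
      have h2 : Nat.card (G ⧸ φ.ker) < n := by
        have h3 := Subgroup.card_mul_index φ.ker
        have h4 : 1 < Nat.card φ.ker := by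
          haveI : Nontrivial φ.ker := (Subgroup.nontrivial_iff_ne_bot _).2 hKne
          exact Finite.one_lt_card
        rw [← hn, ← h3, Subgroup.index]
        have h5 : 0 < Nat.card (G ⧸ φ.ker) := Nat.card_pos
        nlinarith
      exact ih _ h2 (G ⧸ φ.ker) rfl h1
    have hno2 : ∀ L : Subgroup G, L.index ≠ 2 := by
      intro L hL
      haveI hLn : L.Normal := Subgroup.normal_of_index_eq_two hL
      have h1 : ¬ 7 ∣ L.index := by rw [hL]; norm_num
      have h2 := CfsgLib.FGS.card_sylow_normal_of_not_dvd (p := 7) h1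
      rw [h15] at h2
      have h3 : Nat.card L < n := by
        have h4 := Subgroup.card_mul_index L
        rw [hL, hn] at h4
        have h5 : 0 < Nat.card L := Nat.card_pos
        omega
      exact ih _ h3 L rfl h2
    exact core h15 hfaith hno2

end CfsgLib.FGS.Syl15
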